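import Cfsg.Agent.Extra.ClassTwo
import Cfsg.Agent.Extra.More
import Cfsg.Agent.H75.Tools
import Cfsg.Agent.S0154

set_option autoImplicit false

/-! The number of automorphism orbits of a nonabelian group. -/

namespace Cfsg.Agent.H20.AutOrb

open Subgroup Cfsg.Agent.Extra
open scoped commutatorElement

section classes

open Cfsg.Agent.CharBase Cfsg.Agent.H75

variable {G : Type*} [Group G] [Finite G]

theorem class_bound {p : ℕ} (hmin : ∀ d, d ∣ Nat.card G → d ≠ 1 → p ≤ d) (hp : 0 < p) :
    p ^ 2 * Nat.card (ConjClasses G) ≤ Nat.card G + (p ^ 2 - 1) * (commutator G).index := by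
  classical
  have := Fintype.ofFinite G
  have := Fintype.ofFinite (IrrCharacter G)
  have h1 := sum_deg_sq (G := G)
  have h2 : (Finset.univ.filter (fun χ : IrrCharacter G => deg χ = 1)).card =
      (commutator G).index := by
    rw [← Cfsg.Agent.S0154.result (G := G), ← Fintype.card_subtype, ← Nat.card_eq_fintype_card]
    apply Nat.card_congr
    apply Equiv.subtypeEquivRight
    intro χ
    rw [deg_spec]
    exact_mod_cast Iff.rfl
  have h3 : ∀ χ : IrrCharacter G, p ^ 2 ≤ deg χ ^ 2 + (p ^ 2 - 1) * (if deg χ = 1 then 1 else 0) := by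
    intro χ
    by_cases h : deg χ = 1
    · rw [if_pos h, h, mul_one, one_pow]
      have : 1 ≤ p ^ 2 := Nat.one_le_pow _ _ hp
      omega
    · rw [if_neg h, mul_zero, add_zero]
      exact Nat.pow_le_pow_left (hmin _ (deg_dvd χ) h) 2
  have h4 := Finset.sum_le_sum (fun χ (_ : χ ∈ (Finset.univ : Finset (IrrCharacter G))) => h3 χ)
  rw [Finset.sum_add_distrib, h1, ← Finset.mul_sum, Finset.sum_boole, Finset.sum_const,
    Finset.card_univ, smul_eq_mul, ← Nat.card_eq_fintype_card, card_irr_eq_card_conjClasses] at h4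
  rw [Nat.cast_id, h2] at h4
  rw [mul_comm]
  exact h4

end classes

section burnside

variable {G : Type*} [Group G] [Finite G]

theorem burnside {p : ℕ} (hmin : ∀ d, d ∣ Nat.card G → d ≠ 1 → p ≤ d) (hp : 2 ≤ p)
    (T : Finset (MulAut G)) (hT : T.card = p)
    (hfix : ∀ α ∈ T, p ^ 2 * Nat.card {g : G // α g = g} ≤ Nat.card G) :
    p * Nat.card (MulAction.orbitRel.Quotient (MulAut G) G) ≤ Nat.card G := by
  classical
  haveI := Fintype.ofFinite G
  haveI := Fintype.ofFinite (MulAut G)
  haveI := Fintype.ofFinite (Quotient (MulAction.orbitRel (MulAut G) G))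
  have h1 := MulAction.sum_card_fixedBy_eq_card_orbits_mul_card_group (MulAut G) G
  have hcard : ∀ α : MulAut G, Fintype.card (MulAction.fixedBy G α) =
      Nat.card {g : G // α g = g} := by
    intro α
    rw [← Nat.card_eq_fintype_card]
    rfl
  have hsub : ∀ α : MulAut G, α ≠ 1 → p * Nat.card {g : G // α g = g} ≤ Nat.card G := by
    intro α hα
    let C : Subgroup G := MonoidHom.eqLocus α.toMonoidHom (MonoidHom.id G)
    have h2 : Nat.card C = Nat.card {g : G // α g = g} := rfl
    rw [← h2, ← C.card_mul_index, mul_comm]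
    apply Nat.mul_le_mul_left
    apply hmin _ C.index_dvd_card
    intro h3
    rw [index_eq_one] at h3
    apply hα
    apply MulEquiv.ext
    intro g
    have : g ∈ C := by rw [h3]; exact mem_top g
    exact this
  have h2 : ∀ α : MulAut G, p ^ 2 * Nat.card {g : G // α g = g} +
      (if α ∈ T then (p - 1) * Nat.card G else 0) ≤
      p * Nat.card G + (if α = 1 then (p ^ 2 - p) * Nat.card G else 0) := by
    intro α
    have hpp : p ≤ p ^ 2 := by nlinarith
    by_cases hT : α ∈ T
    · have h3 := hfix α hT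
      have h4 : (p - 1) * Nat.card G + Nat.card G = p * Nat.card G := by
        have : p = (p - 1) + 1 := by omega
        nth_rewrite 2 [this]
        ring
      rw [if_pos hT]
      have h5 : 0 ≤ (if α = 1 then (p ^ 2 - p) * Nat.card G else 0) := Nat.zero_le _
      omega
    · rw [if_neg hT, add_zero]
      by_cases hα : α = 1
      · rw [if_pos hα]
        have h3 : Nat.card {g : G // α g = g} ≤ Nat.card G :=
          Nat.card_le_card_of_injective _ Subtype.val_injective
        calc p ^ 2 * Nat.card {g : G // α g = g} ≤ p ^ 2 * Nat.card G := Nat.mul_le_mul_left _ h3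
          _ = p * Nat.card G + (p ^ 2 - p) * Nat.card G := by
            rw [← add_mul]; congr 1; omega
      · rw [if_neg hα, add_zero, pow_two, mul_assoc]
        exact Nat.mul_le_mul_left _ (hsub α hα)
  have h3 := Finset.sum_le_sum (fun α (_ : α ∈ (Finset.univ : Finset (MulAut G))) => h2 α)
  rw [Finset.sum_add_distrib, Finset.sum_add_distrib, ← Finset.mul_sum, Finset.sum_const,
    Finset.sum_ite_eq' Finset.univ (1 : MulAut G), if_pos (Finset.mem_univ _), Finset.card_univ,
    smul_eq_mul, ← Finset.sum_filter, Finset.filter_mem_eq_inter, Finset.univ_inter,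
    Finset.sum_const, hT, smul_eq_mul] at h3
  have h4 : ∑ α : MulAut G, Nat.card {g : G // α g = g} =
      Fintype.card (Quotient (MulAction.orbitRel (MulAut G) G)) * Fintype.card (MulAut G) := by
    rw [← h1]
    exact Finset.sum_congr rfl (fun α _ => (hcard α).symm)
  rw [h4] at h3
  have h5 : p * ((p - 1) * Nat.card G) = (p ^ 2 - p) * Nat.card G := by
    rw [← mul_assoc, pow_two, Nat.mul_sub_one]
  rw [h5] at h3
  have h6 := Nat.le_of_add_le_add_right h3
  have h7 : (p * Fintype.card (Quotient (MulAction.orbitRel (MulAut G) G))) *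
      (p * Fintype.card (MulAut G)) ≤ Nat.card G * (p * Fintype.card (MulAut G)) := by
    calc (p * Fintype.card (Quotient (MulAction.orbitRel (MulAut G) G))) *
      (p * Fintype.card (MulAut G)) = p ^ 2 * (Fintype.card (Quotient (MulAction.orbitRel
        (MulAut G) G)) * Fintype.card (MulAut G)) := by ring
      _ ≤ Fintype.card (MulAut G) * (p * Nat.card G) := h6
      _ = Nat.card G * (p * Fintype.card (MulAut G)) := by ring
  have h8 := Nat.le_of_mul_le_mul_right h7 (Nat.mul_pos (by omega) Fintype.card_pos)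
  have h9 : Nat.card (MulAction.orbitRel.Quotient (MulAut G) G) =
      Fintype.card (Quotient (MulAction.orbitRel (MulAut G) G)) := by
    rw [← Nat.card_eq_fintype_card]
  rw [h9]
  exact h8

theorem orbits_le_classes :
    Nat.card (MulAction.orbitRel.Quotient (MulAut G) G) ≤ Nat.card (ConjClasses G) := by
  let f : ConjClasses G → MulAction.orbitRel.Quotient (MulAut G) G :=
    Quotient.map' (s₁ := IsConj.setoid G) (s₂ := MulAction.orbitRel (MulAut G) G) id (by
      intro a b hab
      obtain ⟨c, hc⟩ := isConj_iff.mp hab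
      show a ∈ MulAction.orbit (MulAut G) b
      refine ⟨MulAut.conj c⁻¹, ?_⟩
      show c⁻¹ * b * c⁻¹⁻¹ = a
      rw [← hc]
      group)
  apply Nat.card_le_card_of_surjective f
  intro q
  obtain ⟨g, rfl⟩ := Quotient.exists_rep q
  exact ⟨ConjClasses.mk g, rfl⟩

end burnside

section small

variable {G : Type*} [Group G] [Finite G] {p : ℕ}

theorem le_center (hmin : ∀ d, d ∣ Nat.card G → d ≠ 1 → p ≤ d) (N : Subgroup G) [N.Normal]
    (hN : Nat.card N = p) : N ≤ center G := by
  intro t ht
  by_cases ht1 : t = 1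
  · rw [ht1]; exact one_mem _
  have h1 := index_centralizer_le_ncard t ((N : Set G) \ {t⁻¹}) (by
    intro g
    refine ⟨?_, ?_⟩
    · rw [commutatorElement_def]
      exact mul_mem (Normal.conj_mem inferInstance t ht g) (inv_mem ht)
    · intro h
      rw [Set.mem_singleton_iff, commutatorElement_def, mul_eq_right] at h
      exact ht1 (conj_eq_one_iff.mp h))
  rw [Set.ncard_diff_singleton_of_mem (inv_mem ht)] at h1
  have h2 : (N : Set G).ncard = p := hN
  rw [h2] at h1
  have hp : 0 < p := by rw [← hN]; exact Nat.card_pos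
  have h3 : (centralizer ({t} : Set G)).index = 1 := by
    by_contra h
    have := hmin _ (centralizer ({t} : Set G)).index_dvd_card h
    omega
  rw [index_eq_one] at h3
  rw [mem_center_iff]
  intro g
  have : g ∈ centralizer ({t} : Set G) := by rw [h3]; exact mem_top g
  exact mem_centralizer_singleton_iff.mp this

end small

section aut

variable {G : Type*} [Group G] [Finite G] {p : ℕ} [hp : Fact p.Prime]

theorem exists_auts (hmin : ∀ d, d ∣ Nat.card G → d ≠ 1 → p ≤ d) (hc : ClassTwo G) {x y z : G}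
    (hxy : ⁅x, y⁆ = z) (hz : orderOf z = p) (hall : ∀ a b : G, ⁅a, b⁆ ∈ zpowers z)
    (g : ℕ → G) (hg0 : g 0 = 1) (hgper : ∀ a b : ℕ, a ≡ b [MOD p] → g a = g b)
    (hgc : ∀ b, Commute (g b) y)
    (hgt : ∀ (a b : ℕ) (w : G), ⁅w, y⁆ = z ^ b → g a * w * g b = w * g (a + b))
    (hgz : ∀ b, g b ∈ zpowers z → p ∣ b) :
    ∃ T : Finset (MulAut G), T.card = p ∧
      ∀ α ∈ T, p ^ 2 * Nat.card {g : G // α g = g} ≤ Nat.card G := by
  classical
  have hzo : z ∈ center G := by rw [← hxy]; exact hc.mem x y
  have hex : ∀ w : G, ∃ b : ℕ, ⁅w, y⁆ = z ^ b := by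
    intro w
    obtain ⟨b, hb⟩ := (isOfFinOrder_of_finite z).mem_powers_iff_mem_zpowers.mpr (hall w y)
    exact ⟨b, hb.symm⟩
  choose β hβ using hex
  have hgd : ∀ b, p ∣ b → g b = 1 := by
    intro b hb
    rw [← hg0]
    exact hgper _ _ ((Nat.modEq_zero_iff_dvd).mpr hb)
  have hzpow : ∀ a b : ℕ, z ^ a = z ^ b → a ≡ b [MOD p] := by
    intro a b h
    rw [← hz]
    exact pow_eq_pow_iff_modEq.mp h
  let σ₀ : G →* G :=
    { toFun := fun w => w * g (β w)
      map_one' := by
        have h1 : p ∣ β 1 := by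
          have h2 := hβ 1
          rw [commutatorElement_one_left] at h2
          rw [← hz]
          exact orderOf_dvd_of_pow_eq_one h2.symm
        rw [hgd _ h1, mul_one]
      map_mul' := by
        intro a b
        have h1 : β (a * b) ≡ β a + β b [MOD p] := by
          apply hzpow
          rw [← hβ, hc.mul_left, hβ a, hβ b, pow_add]
        rw [hgper _ _ h1]
        calc a * b * g (β a + β b) = a * (b * g (β a + β b)) := by rw [mul_assoc]
          _ = a * (g (β a) * b * g (β b)) := by rw [hgt _ _ _ (hβ b)]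
          _ = a * g (β a) * (b * g (β b)) := by simp only [mul_assoc] }
  have hσ₀ : ∀ w, σ₀ w = w * g (β w) := fun w => rfl
  have hinj : Function.Injective σ₀ := by
    rw [injective_iff_map_eq_one]
    intro w hw
    rw [hσ₀] at hw
    have h1 : w = (g (β w))⁻¹ := eq_inv_of_mul_eq_one_left hw
    have h2 : ⁅w, y⁆ = 1 := by
      rw [commutatorElement_eq_one_iff_commute, h1]
      exact (hgc _).inv_left
    rw [hβ] at h2
    have h3 : p ∣ β w := by
      rw [← hz]
      exact orderOf_dvd_of_pow_eq_one h2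
    rw [hgd _ h3, mul_one] at hw
    exact hw
  let σ : MulAut G := MulEquiv.ofBijective σ₀ (Finite.injective_iff_bijective.mp hinj)
  have hσ : ∀ w, σ w = w * g (β w) := fun w => rfl
  let α : Fin p → MulAut G := fun k => MulAut.conj (x * y ^ (k : ℕ)) * σ
  have hα : Function.Injective α := by
    intro k l hkl
    have h1 : MulAut.conj (x * y ^ (k : ℕ)) = MulAut.conj (x * y ^ (l : ℕ)) :=
      mul_right_cancel hkl
    have h2 := congrArg (fun f : MulAut G => f x * x⁻¹) h1
    have h3 : ∀ j : ℕ, (MulAut.conj (x * y ^ j)) x * x⁻¹ = (z ^ j)⁻¹ := by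
      intro j
      have h4 : (MulAut.conj (x * y ^ j)) x * x⁻¹ = ⁅x * y ^ j, x⁆ := rfl
      rw [h4, hc.mul_left, commutatorElement_self, one_mul, hc.pow_left, ← commutatorElement_inv,
        hxy, inv_pow]
    simp only [h3, inv_inj] at h2
    have h5 := hzpow _ _ h2
    exact Fin.ext ((Nat.ModEq.eq_of_lt_of_lt h5 k.2 l.2))
  refine ⟨Finset.univ.image α, ?_, ?_⟩
  · rw [Finset.card_image_of_injective _ hα, Finset.card_univ, Fintype.card_fin]
  · intro a ha
    obtain ⟨k, -, rfl⟩ := Finset.mem_image.mp ha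
    set v := x * y ^ (k : ℕ) with hv
    have hvy : ⁅v, y⁆ = z := by
      rw [hv, hc.mul_left, hc.pow_left, commutatorElement_self, one_pow, mul_one, hxy]
    have hz1 : z ≠ 1 := by
      intro h
      rw [h, orderOf_one] at hz
      exact hp.out.one_lt.ne hz
    have hfix : ∀ w : G, α k w = w → w ∈ centralizer ({y} : Set G) ⊓ centralizer ({v} : Set G) := by
      intro w hw
      have h1 : v * (w * g (β w)) * v⁻¹ = w := hw
      have h2 : g (β w) = ⁅w⁻¹, v⁻¹⁆ := by
        rw [commutatorElement_def]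
        calc g (β w) = w⁻¹ * v⁻¹ * (v * (w * g (β w)) * v⁻¹) * v := by group
          _ = w⁻¹ * v⁻¹ * w⁻¹⁻¹ * v⁻¹⁻¹ := by rw [h1]; group
      have h3 : p ∣ β w := hgz _ (by rw [h2]; exact hall _ _)
      have h4 : ⁅w, y⁆ = 1 := by
        rw [hβ]
        obtain ⟨c, hc⟩ := h3
        rw [hc, pow_mul, ← hz, pow_orderOf_eq_one, one_pow]
      rw [hgd _ h3, mul_one] at h1
      rw [mem_inf, mem_centralizer_singleton_iff, mem_centralizer_singleton_iff]
      refine ⟨commutatorElement_eq_one_iff_mul_comm.mp h4, ?_⟩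
      exact (mul_inv_eq_iff_eq_mul.mp h1).symm
    let C := centralizer ({y} : Set G)
    let D := centralizer ({v} : Set G)
    have hC : p ≤ C.index := by
      apply hmin _ C.index_dvd_card
      intro h
      rw [index_eq_one] at h
      have h1 : x ∈ C := by rw [h]; exact mem_top x
      rw [mem_centralizer_singleton_iff] at h1
      apply hz1
      rw [← hxy, commutatorElement_eq_one_iff_mul_comm]
      exact h1
    have hD : p ≤ (C ⊓ D).relIndex C := by
      apply hmin
      · exact (relIndex_dvd_card _ _).trans (card_subgroup_dvd_card C)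
      · intro h
        rw [relIndex_eq_one] at h
        have h1 : y ∈ C ⊓ D := h (mem_centralizer_singleton_iff.mpr rfl)
        rw [mem_inf] at h1
        have h2 := mem_centralizer_singleton_iff.mp h1.2
        apply hz1
        rw [← hvy, commutatorElement_eq_one_iff_mul_comm]
        exact h2.symm
    have hle : Nat.card {w : G // α k w = w} ≤ Nat.card (C ⊓ D : Subgroup G) :=
      Nat.card_le_card_of_injective (fun w => (⟨w.1, hfix w.1 w.2⟩ : (C ⊓ D : Subgroup G)))
        (fun a b h => Subtype.ext (congrArg (fun t : (C ⊓ D : Subgroup G) => (t : G)) h))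
    calc p ^ 2 * Nat.card {w : G // α k w = w} ≤ p ^ 2 * Nat.card (C ⊓ D : Subgroup G) :=
          Nat.mul_le_mul_left _ hle
      _ = p * p * Nat.card (C ⊓ D : Subgroup G) := by rw [pow_two]
      _ ≤ (C ⊓ D).relIndex C * C.index * Nat.card (C ⊓ D : Subgroup G) :=
          Nat.mul_le_mul_right _ (Nat.mul_le_mul hD hC)
      _ = (C ⊓ D).index * Nat.card (C ⊓ D : Subgroup G) := by
          rw [relIndex_mul_index inf_le_left]
      _ = Nat.card G := index_mul_card _

end aut

section exy

variable {G : Type*} [Group G] [Finite G] {p : ℕ} [hp : Fact p.Prime]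
  (hc : ClassTwo G) (hcard : Nat.card (commutator G) = p)
  (hno : ∀ u ∈ center G, u ^ p = 1 → u ∈ commutator G)

include hcard in
theorem mem_zpowers_of_comm {c : G} (hcc : c ∈ commutator G) (hc1 : c ≠ 1) {d : G}
    (hd : d ∈ commutator G) : d ∈ zpowers c := by
  have h1 : zpowers c = commutator G := by
    apply eq_of_le_of_card_ge
    · rw [zpowers_le]; exact hcc
    · have h2 : Nat.card (zpowers c) ∣ Nat.card (commutator G) :=
        card_dvd_of_le (by rw [zpowers_le]; exact hcc)
      rw [hcard] at h2 ⊢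
      rcases (Nat.dvd_prime hp.out).mp h2 with h | h
      · exfalso
        apply hc1
        rw [Nat.card_zpowers, orderOf_eq_one_iff] at h
        exact h
      · rw [h]
  rw [h1]
  exact hd

include hcard hno in
theorem cyc (j : ℕ) : ∀ (i : ℕ) (a b : G), a ∈ center G → b ∈ center G → orderOf a = p ^ i →
    orderOf b = p ^ j → j ≤ i → b ∈ zpowers a := by
  induction j with
  | zero =>
    intro i a b _ _ _ hb _
    rw [pow_zero, orderOf_eq_one_iff] at hb
    rw [hb]
    exact one_mem _
  | succ j ih =>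
    intro i a b ha hb hao hbo hji
    obtain ⟨i', rfl⟩ : ∃ i', i = i' + 1 := ⟨i - 1, by omega⟩
    have hao' : orderOf (a ^ p) = p ^ i' := by
      rw [orderOf_pow_of_dvd hp.out.ne_zero (by rw [hao, pow_succ]; exact dvd_mul_left _ _), hao,
        pow_succ, Nat.mul_div_cancel _ hp.out.pos]
    have hbo' : orderOf (b ^ p) = p ^ j := by
      rw [orderOf_pow_of_dvd hp.out.ne_zero (by rw [hbo, pow_succ]; exact dvd_mul_left _ _), hbo,
        pow_succ, Nat.mul_div_cancel _ hp.out.pos]
    obtain ⟨s, hs⟩ := mem_zpowers_iff.mp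
      (ih i' (a ^ p) (b ^ p) (pow_mem ha p) (pow_mem hb p) hao' hbo' (by omega))
    have hba : Commute b a := mem_center_iff.mp ha b
    have hcomm : Commute b (a ^ (-s)) := hba.zpow_right _
    have h1 : (b * a ^ (-s)) ^ p = 1 := by
      rw [hcomm.mul_pow, ← hs, ← zpow_natCast, ← zpow_natCast, ← zpow_mul, ← zpow_mul, ← zpow_add]
      have : ((p : ℕ) : ℤ) * s + -s * (p : ℕ) = 0 := by ring
      rw [this, zpow_zero]
    have h2 := hno _ (mul_mem hb (zpow_mem ha _)) h1
    have h3 : a ^ (p ^ i') ∈ commutator G := by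
      apply hno _ (pow_mem ha _)
      rw [← pow_mul, ← pow_succ, ← hao, pow_orderOf_eq_one]
    have h4 : a ^ (p ^ i') ≠ 1 := by
      intro h
      have h5 := orderOf_dvd_of_pow_eq_one h
      rw [hao] at h5
      have h6 := Nat.le_of_dvd (pow_pos hp.out.pos _) h5
      have h7 : p ^ i' < p ^ (i' + 1) := Nat.pow_lt_pow_right hp.out.one_lt (by omega)
      omega
    have h5 := mem_zpowers_of_comm hcard h3 h4 h2
    have h6 : b * a ^ (-s) ∈ zpowers a := by
      obtain ⟨k, hk⟩ := mem_zpowers_iff.mp h5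
      rw [← hk]
      exact zpow_mem (pow_mem (mem_zpowers a) _) _
    have h7 : b = b * a ^ (-s) * a ^ s := by group
    rw [h7]
    exact mul_mem h6 (zpow_mem (mem_zpowers a) _)

include hc hcard in
theorem comm_pow (a b : G) : ⁅a, b⁆ ^ p = 1 := by
  have h1 : ⁅a, b⁆ ∈ commutator G :=
    commutator_mem_commutator (mem_top a) (mem_top b)
  have h2 := pow_card_eq_one' (x := (⟨_, h1⟩ : commutator G))
  rw [hcard] at h2
  exact congrArg Subtype.val h2

include hc hcard in
theorem pow_mem_center (a : G) : a ^ p ∈ center G := by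
  rw [mem_center_iff]
  intro b
  have h1 : ⁅b, a ^ p⁆ = 1 := by rw [hc.pow_right, comm_pow hc hcard]
  exact commutatorElement_eq_one_iff_mul_comm.mp h1

include hc hcard hno in
theorem step {x y : G} (hxy : ⁅x, y⁆ ≠ 1) (hab : y ^ p ∈ zpowers (x ^ p))
    (hxo : ∃ i, orderOf (x ^ p) = p ^ i) :
    ∃ w, w ∉ center G ∧ (p = 2 → w ^ 2 ≠ 1 ∧ w ^ 2 ∈ commutator G) ∧ (p ≠ 2 → w ^ p = 1) := by
  obtain ⟨t, ht⟩ := mem_zpowers_iff.mp hab
  have hcen : ∀ w : G, ⁅x, w⁆ ≠ 1 → w ∉ center G := by
    intro w hw h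
    apply hw
    rw [commutatorElement_eq_one_iff_mul_comm]
    exact mem_center_iff.mp h x
  have hxw : ⁅x, x ^ (-t) * y⁆ = ⁅x, y⁆ := by
    have h1 : ⁅x, x ^ (-t)⁆ = 1 := by rw [hc.zpow_right, commutatorElement_self, one_zpow]
    rw [hc.mul_right, h1, one_mul]
  have hwp : (x ^ (-t) * y) ^ p = (⁅y, x⁆ ^ (-t)) ^ (p.choose 2) := by
    rw [hc.mul_pow, hc.zpow_right, ← ht]
    have h1 : (x ^ (-t)) ^ p * (x ^ p) ^ t = 1 := by
      rw [← zpow_natCast, ← zpow_natCast, ← zpow_mul, ← zpow_mul, ← zpow_add]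
      have : -t * ((p : ℕ) : ℤ) + (p : ℕ) * t = 0 := by ring
      rw [this, zpow_zero]
    rw [h1, one_mul]
  have hyx : ⁅y, x⁆ ≠ 1 := by
    rw [← commutatorElement_inv]
    exact inv_ne_one.mpr hxy
  by_cases hp2 : p = 2
  · subst hp2
    have hsq : ⁅y, x⁆ ^ 2 = 1 := comm_pow hc hcard y x
    rw [show (2 : ℕ).choose 2 = 1 from rfl, pow_one] at hwp
    obtain ⟨s, hs⟩ | ⟨s, hs⟩ := Int.even_or_odd (-t)
    · have hw1 : (x ^ (-t) * y) ^ 2 = 1 := by
        rw [hwp, hs, ← two_mul, zpow_mul, zpow_two, ← pow_two, hsq, one_zpow]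
      set w := x ^ (-t) * y with hw
      obtain ⟨i, hi⟩ := hxo
      rcases i with _ | _ | i
      · rw [pow_zero, orderOf_eq_one_iff] at hi
        have hwx : ⁅w, x⁆ ≠ 1 := by
          rw [← commutatorElement_inv, hxw]
          exact inv_ne_one.mpr hxy
        have h2 : (x * w) ^ 2 = ⁅w, x⁆ := by
          rw [hc.mul_pow, hi, hw1, show (2 : ℕ).choose 2 = 1 from rfl, pow_one, one_mul, one_mul]
        refine ⟨x * w, hcen _ ?_, fun _ => ⟨?_, ?_⟩, fun h => absurd rfl h⟩
        · rw [hc.mul_right, commutatorElement_self, one_mul, hxw]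
          exact hxy
        · rw [h2]; exact hwx
        · rw [h2]; exact commutator_mem_commutator (mem_top _) (mem_top _)
      · refine ⟨x, ?_, fun _ => ⟨?_, ?_⟩, fun h => absurd rfl h⟩
        · intro h
          apply hyx
          rw [commutatorElement_eq_one_iff_mul_comm]
          exact mem_center_iff.mp h y
        · intro h
          rw [h, orderOf_one] at hi
          norm_num at hi
        · apply hno _ (pow_mem_center hc hcard x)
          have := pow_orderOf_eq_one (x ^ 2)
          rw [hi] at this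
          simpa using this
      · set a := x ^ 2 with ha
        have haC : a ∈ center G := pow_mem_center hc hcard x
        have hζC : a ^ (2 ^ i) ∈ center G := pow_mem haC _
        have hζ2 : (a ^ (2 ^ i)) ^ 2 = a ^ (2 ^ (i + 1)) := by rw [← pow_mul, pow_succ]
        have hne : a ^ (2 ^ (i + 1)) ≠ 1 := by
          intro h
          have h5 := orderOf_dvd_of_pow_eq_one h
          rw [hi] at h5
          have h6 := Nat.le_of_dvd (pow_pos (by norm_num) _) h5
          have h7 : 2 ^ (i + 1) < 2 ^ (i + 1 + 1) := Nat.pow_lt_pow_right (by norm_num) (by omega)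
          omega
        have hcomm : Commute w (a ^ (2 ^ i)) := mem_center_iff.mp hζC w
        have h2 : (w * a ^ (2 ^ i)) ^ 2 = a ^ (2 ^ (i + 1)) := by
          rw [hcomm.mul_pow, hw1, one_mul, hζ2]
        refine ⟨w * a ^ (2 ^ i), ?_, fun _ => ⟨?_, ?_⟩, fun h => absurd rfl h⟩
        · intro h
          have h3 : w ∈ center G := by
            have : w = w * a ^ (2 ^ i) * (a ^ (2 ^ i))⁻¹ := by group
            rw [this]
            exact mul_mem h (inv_mem hζC)
          exact hcen w (by rw [hxw]; exact hxy) h3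
        · rw [h2]; exact hne
        · rw [h2]
          apply hno _ (pow_mem haC _)
          rw [← pow_mul, ← pow_succ, ← hi, pow_orderOf_eq_one]
    · refine ⟨_, hcen _ (by rw [hxw]; exact hxy), fun _ => ?_, fun h => absurd rfl h⟩
      have h2 : (x ^ (-t) * y) ^ 2 = ⁅y, x⁆ := by
        rw [hwp, hs, zpow_add, zpow_mul, zpow_two, ← pow_two, hsq, one_zpow, one_mul, zpow_one]
      rw [h2]
      exact ⟨hyx, commutator_mem_commutator (mem_top _) (mem_top _)⟩
  · refine ⟨_, hcen _ (by rw [hxw]; exact hxy), fun h => absurd h hp2, fun _ => ?_⟩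
    rw [hwp]
    obtain ⟨c, hc2⟩ := hp.out.dvd_choose_self (k := 2) (by norm_num)
      (lt_of_le_of_ne hp.out.two_le (Ne.symm hp2))
    rw [hc2, pow_mul, ← hc.zpow_right, comm_pow hc hcard, one_pow]

include hc hcard hno in
theorem exists_y (hna : ∃ x y : G, ⁅x, y⁆ ≠ 1) :
    ∃ w, w ∉ center G ∧ (p = 2 → w ^ 2 ≠ 1 ∧ w ^ 2 ∈ commutator G) ∧ (p ≠ 2 → w ^ p = 1) := by
  obtain ⟨x, y, hxy⟩ := hna
  set n := Nat.card G / p ^ (Nat.card G).factorization p with hn
  have hnp : ¬ p ∣ n := Nat.not_dvd_ordCompl hp.out Nat.card_pos.ne'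
  have hmul : p ^ (Nat.card G).factorization p * n = Nat.card G := Nat.ordProj_mul_ordCompl_eq_self _ _
  have hord : ∀ g : G, ∃ i, orderOf ((g ^ n) ^ p) = p ^ i := by
    intro g
    have h1 : ((g ^ n) ^ p) ^ (p ^ (Nat.card G).factorization p) = 1 := by
      rw [← pow_mul, ← pow_mul]
      have : n * p * p ^ (Nat.card G).factorization p = Nat.card G * p := by
        calc n * p * p ^ (Nat.card G).factorization p =
            (p ^ (Nat.card G).factorization p * n) * p := by ring
          _ = Nat.card G * p := by rw [hmul]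
      rw [← mul_assoc, this, pow_mul, pow_card_eq_one', one_pow]
    obtain ⟨i, -, hi⟩ := (Nat.dvd_prime_pow hp.out).mp (orderOf_dvd_of_pow_eq_one h1)
    exact ⟨i, hi⟩
  have hne : ⁅x ^ n, y ^ n⁆ ≠ 1 := by
    rw [hc.pow_left, hc.pow_right, ← pow_mul]
    intro h
    have h1 : orderOf ⁅x, y⁆ = p := orderOf_eq_prime (comm_pow hc hcard x y) hxy
    have h2 := orderOf_dvd_of_pow_eq_one h
    rw [h1] at h2
    rcases (Nat.Prime.dvd_mul hp.out).mp h2 with h3 | h3 <;> exact hnp h3
  obtain ⟨i, hi⟩ := hord x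
  obtain ⟨j, hj⟩ := hord y
  rcases le_total j i with hji | hij
  · exact step hc hcard hno hne (cyc hcard hno j i _ _ (pow_mem_center hc hcard _)
      (pow_mem_center hc hcard _) hi hj hji) ⟨i, hi⟩
  · refine step hc hcard hno (x := y ^ n) (y := x ^ n) ?_ (cyc hcard hno i j _ _
      (pow_mem_center hc hcard _) (pow_mem_center hc hcard _) hj hi hij) ⟨j, hj⟩
    rw [← commutatorElement_inv]
    exact inv_ne_one.mpr hne

end exy

section main

variable {G : Type*} [Group G] [Finite G] {p : ℕ} [hp : Fact p.Prime]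

theorem exists_T (hmin : ∀ d, d ∣ Nat.card G → d ≠ 1 → p ≤ d)
    (hcard : Nat.card (commutator G) = p) :
    ∃ T : Finset (MulAut G), T.card = p ∧
      ∀ α ∈ T, p ^ 2 * Nat.card {g : G // α g = g} ≤ Nat.card G := by
  have hc : ClassTwo G := le_center hmin (commutator G) hcard
  have hna : ∃ x y : G, ⁅x, y⁆ ≠ 1 := by
    by_contra hcon
    push Not at hcon
    have h1 : commutator G = ⊥ := by
      rw [eq_bot_iff, commutator_eq_closure, closure_le]
      rintro _ ⟨a, b, rfl⟩
      rw [hcon a b]
      exact one_mem _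
    rw [h1, card_bot] at hcard
    exact hp.out.one_lt.ne hcard
  have hzz : ∀ {x y : G}, ⁅x, y⁆ ≠ 1 → orderOf ⁅x, y⁆ = p ∧ ∀ a ∈ commutator G, a ∈ zpowers ⁅x, y⁆ := by
    intro x y hxy
    exact ⟨orderOf_eq_prime (comm_pow hc hcard x y) hxy, fun a ha =>
      mem_zpowers_of_comm hcard (commutator_mem_commutator (mem_top _) (mem_top _)) hxy ha⟩
  by_cases hno : ∀ u ∈ center G, u ^ p = 1 → u ∈ commutator G
  · obtain ⟨y, hyc, hy2, hyo⟩ := exists_y hc hcard hno hna
    obtain ⟨x, hxy⟩ : ∃ x : G, ⁅x, y⁆ ≠ 1 := by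
      by_contra hcon
      push Not at hcon
      apply hyc
      rw [mem_center_iff]
      intro x
      exact commutatorElement_eq_one_iff_mul_comm.mp (hcon x)
    obtain ⟨hzo, hzall⟩ := hzz hxy
    obtain ⟨z, hz⟩ : ∃ z, z = ⁅x, y⁆ := ⟨_, rfl⟩
    rw [← hz] at hzo hzall hxy
    have hzC : z ∈ center G := by rw [hz]; exact hc.mem x y
    have hzc : ∀ w : G, Commute w z := fun w => mem_center_iff.mp hzC w
    have hzp : z ^ p = 1 := by rw [← hzo]; exact pow_orderOf_eq_one z
    have hyp : y ^ p = z ^ (p.choose 2) := by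
      by_cases hp2 : p = 2
      · obtain ⟨h1, h2⟩ := hy2 hp2
        subst hp2
        rw [show (2 : ℕ).choose 2 = 1 from rfl, pow_one]
        obtain ⟨k, hk⟩ := mem_zpowers_iff.mp (hzall _ h2)
        obtain ⟨s, hs⟩ | ⟨s, hs⟩ := Int.even_or_odd k
        · exfalso
          apply h1
          rw [← hk, hs, ← two_mul, zpow_mul, zpow_two, ← pow_two, hzp, one_zpow]
        · rw [← hk, hs, zpow_add, zpow_mul, zpow_two, ← pow_two, hzp, one_zpow, one_mul, zpow_one]
      · rw [hyo hp2]
        obtain ⟨c, hc2⟩ := hp.out.dvd_choose_self (k := 2) (by norm_num)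
          (lt_of_le_of_ne hp.out.two_le (Ne.symm hp2))
        rw [hc2, pow_mul, hzp, one_pow]
    have hzcz : ∀ (k : ℕ) (w : G), Commute w ((z ^ k)⁻¹) := fun k w => ((hzc w).pow_right k).inv_right
    refine exists_auts hmin hc hz.symm hzo
      (fun a b => hzall _ (commutator_mem_commutator (mem_top a) (mem_top b)))
      (fun b => y ^ b * (z ^ (b.choose 2))⁻¹) (by simp) ?_ ?_ ?_ ?_
    · -- periodicity
      have hstep : ∀ b : ℕ, y ^ (b + p) * (z ^ ((b + p).choose 2))⁻¹ =
          y ^ b * (z ^ (b.choose 2))⁻¹ := by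
        intro b
        have h1 : (b + p).choose 2 = b.choose 2 + (p * b + p.choose 2) := by
          have := Nat.add_choose_eq b p 2
          rw [Finset.Nat.antidiagonal_succ_succ'] at this
          simp [Finset.Nat.antidiagonal_succ] at this
          rw [this]; ring
        rw [h1, pow_add z, pow_add z, pow_mul z, hzp, one_pow, one_mul, pow_add y, hyp, mul_inv_rev]
        group
      have hk : ∀ k b : ℕ, y ^ (b + p * k) * (z ^ ((b + p * k).choose 2))⁻¹ =
          y ^ b * (z ^ (b.choose 2))⁻¹ := by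
        intro k
        induction k with
        | zero => intro b; simp
        | succ k ih => intro b; rw [mul_add, mul_one, ← add_assoc, hstep, ih]
      intro a b hab
      rcases le_total a b with h | h
      · obtain ⟨k, hk2⟩ := (Nat.modEq_iff_dvd' h).mp hab
        have : b = a + p * k := by omega
        rw [this]
        exact (hk k a).symm
      · obtain ⟨k, hk2⟩ := (Nat.modEq_iff_dvd' h).mp hab.symm
        have : a = b + p * k := by omega
        rw [this]
        exact hk k b
    · intro b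
      exact ((Commute.refl y).pow_left b).mul_left (hzcz _ y).symm
    · intro a b w hw
      have h1 : y ^ a * w = w * y ^ a * (z ^ (b * a))⁻¹ := by
        have h2 : ⁅w, y ^ a⁆ = z ^ (b * a) := by rw [hc.pow_right, hw, pow_mul]
        rw [← h2, commutatorElement_def]
        have h3 := hc.mem w (y ^ a)
        have h4 : w * y ^ a * ⁅w, y ^ a⁆⁻¹ = ⁅w, y ^ a⁆⁻¹ * (w * y ^ a) :=
          (mem_center_iff.mp (inv_mem h3)) (w * y ^ a)
        rw [commutatorElement_def] at h4
        rw [h4]
        group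
      have h2 : (a + b).choose 2 = a.choose 2 + (b * a + b.choose 2) := by
        have := Nat.add_choose_eq a b 2
        rw [Finset.Nat.antidiagonal_succ_succ'] at this
        simp [Finset.Nat.antidiagonal_succ] at this
        rw [this]; ring
      show y ^ a * (z ^ (a.choose 2))⁻¹ * w * (y ^ b * (z ^ (b.choose 2))⁻¹) =
        w * (y ^ (a + b) * (z ^ ((a + b).choose 2))⁻¹)
      have e1 := hzcz (a.choose 2)
      have e2 := hzcz (b.choose 2)
      have e3 := hzcz (b * a)
      calc y ^ a * (z ^ (a.choose 2))⁻¹ * w * (y ^ b * (z ^ (b.choose 2))⁻¹)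
          = y ^ a * ((z ^ (a.choose 2))⁻¹ * w) * (y ^ b * (z ^ (b.choose 2))⁻¹) := by
            simp only [mul_assoc]
        _ = y ^ a * (w * (z ^ (a.choose 2))⁻¹) * (y ^ b * (z ^ (b.choose 2))⁻¹) := by
            rw [← (e1 w).eq]
        _ = (y ^ a * w) * ((z ^ (a.choose 2))⁻¹ * y ^ b) * (z ^ (b.choose 2))⁻¹ := by
            simp only [mul_assoc]
        _ = (w * y ^ a * (z ^ (b * a))⁻¹) * (y ^ b * (z ^ (a.choose 2))⁻¹) *
              (z ^ (b.choose 2))⁻¹ := by rw [h1, ← (e1 (y ^ b)).eq]
        _ = w * y ^ a * ((z ^ (b * a))⁻¹ * y ^ b) * ((z ^ (a.choose 2))⁻¹ *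
              (z ^ (b.choose 2))⁻¹) := by simp only [mul_assoc]
        _ = w * y ^ a * (y ^ b * (z ^ (b * a))⁻¹) * ((z ^ (a.choose 2))⁻¹ *
              (z ^ (b.choose 2))⁻¹) := by rw [← (e3 (y ^ b)).eq]
        _ = w * (y ^ (a + b) * (z ^ ((a + b).choose 2))⁻¹) := by
            rw [h2, pow_add y, pow_add z, pow_add z, mul_inv_rev, mul_inv_rev]
            have e4 : (z ^ (b * a))⁻¹ * ((z ^ a.choose 2)⁻¹ * (z ^ b.choose 2)⁻¹) =
              (z ^ b.choose 2)⁻¹ * (z ^ (b * a))⁻¹ * (z ^ a.choose 2)⁻¹ := by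
              group
            calc w * y ^ a * (y ^ b * (z ^ (b * a))⁻¹) * ((z ^ a.choose 2)⁻¹ * (z ^ b.choose 2)⁻¹)
                = w * y ^ a * y ^ b * ((z ^ (b * a))⁻¹ * ((z ^ a.choose 2)⁻¹ *
                  (z ^ b.choose 2)⁻¹)) := by simp only [mul_assoc]
              _ = _ := by rw [e4]; simp only [mul_assoc]
    · intro b hb
      have h1 : y ^ b ∈ center G := by
        have h2 : y ^ b = y ^ b * (z ^ (b.choose 2))⁻¹ * z ^ (b.choose 2) := by group
        rw [h2]
        refine mul_mem ?_ (pow_mem hzC _)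
        obtain ⟨k, hk⟩ := mem_zpowers_iff.mp hb
        have hk' : z ^ k = y ^ b * (z ^ (b.choose 2))⁻¹ := hk
        rw [← hk']
        exact zpow_mem hzC k
      have h3 : z ^ b = 1 := by
        rw [hz, ← hc.pow_right, commutatorElement_eq_one_iff_mul_comm]
        exact mem_center_iff.mp h1 x
      rw [← hzo]
      exact orderOf_dvd_of_pow_eq_one h3
  · push Not at hno
    obtain ⟨u, huC, hup, hu⟩ := hno
    obtain ⟨x, y, hxy⟩ := hna
    obtain ⟨hzo, hzall⟩ := hzz hxy
    refine exists_auts hmin hc rfl hzo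
      (fun a b => hzall _ (commutator_mem_commutator (mem_top a) (mem_top b)))
      (fun b => u ^ b) (pow_zero u) ?_ ?_ ?_ ?_
    · intro a b hab
      have hu1 : u ≠ 1 := by
        rintro rfl
        exact hu (one_mem _)
      have huo : orderOf u = p := orderOf_eq_prime hup hu1
      rw [← huo] at hab
      exact pow_eq_pow_iff_modEq.mpr hab
    · intro b
      exact ((mem_center_iff.mp (pow_mem huC b)) y).symm
    · intro a b w _
      show u ^ a * w * u ^ b = w * u ^ (a + b)
      have := (mem_center_iff.mp (pow_mem huC a)) w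
      rw [← this, pow_add, mul_assoc]
    · intro b hb
      by_contra hpb
      apply hu
      have huo : orderOf u = p := orderOf_eq_prime hup (by
        rintro rfl
        exact hu (one_mem _))
      have h1 : b.Coprime (orderOf u) := by
        rw [huo]
        exact ((Nat.Prime.coprime_iff_not_dvd hp.out).mpr hpb).symm
      obtain ⟨m, hm⟩ := exists_pow_eq_self_of_coprime h1
      have h2 : u ^ b ∈ commutator G := by
        have h3 : zpowers ⁅x, y⁆ ≤ commutator G := by
          rw [zpowers_le]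
          exact commutator_mem_commutator (mem_top _) (mem_top _)
        exact h3 hb
      rw [← hm]
      exact pow_mem h2 m

end main

end Cfsg.Agent.H20.AutOrb
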