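import Cfsg.Agent.Extra.Basic
import Cfsg.Agent.Extra.More

set_option autoImplicit false

/-! Dimensions of faithful modules of extraspecial groups over prime fields. -/

namespace Cfsg.Agent.H20.ExtraRep

open Subgroup Cfsg.Agent.Extra
open scoped commutatorElement

section basic

variable {p r : ℕ} {E V : Type*} [Group E] [AddCommGroup V] [Module (ZMod r) V]
  (ρ : Representation (ZMod r) E V)

theorem inv_pow {W : Submodule (ZMod r) V} {u : E} (h : ∀ v ∈ W, ρ u v ∈ W) (k : ℕ) :
    ∀ v ∈ W, ρ (u ^ k) v ∈ W := by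
  induction k with
  | zero => intro v hv; simpa using hv
  | succ k ih =>
    intro v hv
    rw [pow_succ, map_mul, Module.End.mul_apply]
    exact ih _ (h v hv)

theorem fix_pow {u : E} {v : V} (h : ρ u v = v) (k : ℕ) : ρ (u ^ k) v = v := by
  induction k with
  | zero => simp
  | succ k ih => rw [pow_succ, map_mul, Module.End.mul_apply, h, ih]

/-- the norm endomorphism -/
noncomputable def nrm (p : ℕ) (u : E) : Module.End (ZMod r) V := ∑ j ∈ Finset.range p, ρ (u ^ j)

theorem nrm_apply (u : E) (v : V) : nrm ρ p u v = ∑ j ∈ Finset.range p, ρ (u ^ j) v := by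
  rw [nrm, LinearMap.sum_apply]

theorem fix_nrm {u : E} (hu : u ^ p = 1) (v : V) : ρ u (nrm ρ p u v) = nrm ρ p u v := by
  rw [nrm_apply, map_sum]
  have h1 : ∀ j, ρ u (ρ (u ^ j) v) = ρ (u ^ (j + 1)) v := by
    intro j
    rw [pow_succ', map_mul, Module.End.mul_apply]
  simp only [h1]
  have h2 := Finset.sum_range_succ (fun j => ρ (u ^ j) v) p
  have h3 := Finset.sum_range_succ' (fun j => ρ (u ^ j) v) p
  rw [h2, hu, pow_zero] at h3
  exact (add_right_cancel h3).symm

theorem nrm_mem {W : Submodule (ZMod r) V} {u : E} (h : ∀ v ∈ W, ρ u v ∈ W) {v : V} (hv : v ∈ W) :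
    nrm ρ p u v ∈ W := by
  rw [nrm_apply]
  exact Submodule.sum_mem _ (fun j _ => inv_pow ρ h j v hv)

theorem nrm_eq_zero {W : Submodule (ZMod r) V} {z : E} (hfpf : ∀ v ∈ W, ρ z v = v → v = 0) {u : E}
    (hu : u ^ p = 1) (h : ∀ v ∈ W, ρ u v ∈ W) (hz : ∃ m : ℕ, u ^ m = z) {v : V} (hv : v ∈ W) :
    nrm ρ p u v = 0 := by
  obtain ⟨m, rfl⟩ := hz
  exact hfpf _ (nrm_mem ρ h hv) (fix_pow ρ (fix_nrm ρ hu v) m)

theorem pow_apply_eq {u c : E} (huc : Commute u c) {b : V} (h : ρ u b = ρ c b) (j : ℕ) :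
    ρ (u ^ j) b = ρ (c ^ j) b := by
  induction j with
  | zero => simp
  | succ j ih =>
    rw [pow_succ, map_mul, Module.End.mul_apply, h, ← Module.End.mul_apply, ← map_mul,
      (huc.pow_left j).eq, map_mul, Module.End.mul_apply, ih, ← Module.End.mul_apply, ← map_mul,
      ← pow_succ']

theorem nrm_eq {u c : E} (huc : Commute u c) {b : V} (h : ρ u b = ρ c b) :
    nrm ρ p u b = nrm ρ p c b := by
  rw [nrm_apply, nrm_apply]
  exact Finset.sum_congr rfl (fun j _ => pow_apply_eq ρ huc h j)

theorem nrm_one (b : V) : nrm ρ p (1 : E) b = (p : ZMod r) • b := by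
  rw [nrm_apply]
  simp only [one_pow, map_one, Module.End.one_apply, Finset.sum_const, Finset.card_range]
  rw [Nat.cast_smul_eq_nsmul]

end basic

section step

variable {p r : ℕ} [hp : Fact p.Prime] [hr : Fact r.Prime] {E V : Type*} [Group E]
  [AddCommGroup V] [Module (ZMod r) V] (ρ : Representation (ZMod r) E V)

/-- the fixed vectors of `x` in `W` -/
def fixW (W : Submodule (ZMod r) V) (x : E) : Submodule (ZMod r) V :=
  W ⊓ LinearMap.ker (ρ x - 1)

theorem mem_fixW {W : Submodule (ZMod r) V} {x : E} {v : V} :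
    v ∈ fixW ρ W x ↔ v ∈ W ∧ ρ x v = v := by
  rw [fixW, Submodule.mem_inf, LinearMap.mem_ker, LinearMap.sub_apply, Module.End.one_apply,
    sub_eq_zero]

theorem exists_pow_of_not_dvd {z : E} (hz : orderOf z = p) {k : ℕ} (hk : ¬ p ∣ k) :
    ∃ m : ℕ, (z ^ k) ^ m = z := by
  have h1 : k.Coprime (orderOf z) := by
    rw [hz]
    exact ((Nat.Prime.coprime_iff_not_dvd hp.out).mpr hk).symm
  obtain ⟨m, hm⟩ := exists_pow_eq_self_of_coprime h1
  exact ⟨m, hm⟩

theorem comm_pow_rel {x y z : E} (hxy : x * y = z * y * x) (hyz : Commute y z) (k : ℕ) :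
    x * y ^ k = z ^ k * y ^ k * x := by
  induction k with
  | zero => simp
  | succ k ih =>
    calc x * y ^ (k + 1) = x * y ^ k * y := by rw [pow_succ]; simp only [mul_assoc]
      _ = z ^ k * y ^ k * (x * y) := by rw [ih]; simp only [mul_assoc]
      _ = z ^ k * (y ^ k * z) * y * x := by rw [hxy]; simp only [mul_assoc]
      _ = z ^ k * (z * y ^ k) * y * x := by rw [(hyz.pow_left k).eq]
      _ = z ^ (k + 1) * y ^ (k + 1) * x := by rw [pow_succ, pow_succ]; simp only [mul_assoc]

variable {W : Submodule (ZMod r) V} {x y z : E}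
  (hpr : p ≠ r) (hz : orderOf z = p) (hxz : Commute x z) (hyz : Commute y z)
  (hxy : x * y = z * y * x) (hxp : x ^ p = 1)
  (hx : ∀ v ∈ W, ρ x v ∈ W) (hy : ∀ v ∈ W, ρ y v ∈ W) (hzW : ∀ v ∈ W, ρ z v ∈ W)
  (hfpf : ∀ v ∈ W, ρ z v = v → v = 0)

include hpr in
theorem cast_ne_zero' : (p : ZMod r) ≠ 0 := by
  intro h
  rw [ZMod.natCast_eq_zero_iff] at h
  exact hpr ((Nat.prime_dvd_prime_iff_eq hr.out hp.out).mp h).symm

include hpr hz hxz hyz hxy hxp hx hy hzW hfpf

theorem fixW_ne_bot (hW : W ≠ ⊥) : fixW ρ W x ≠ ⊥ := by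
  intro hbot
  obtain ⟨v, hv, hv0⟩ := Submodule.exists_mem_ne_zero_of_ne_bot hW
  have hN : ∀ k : ℕ, nrm ρ p (x * z ^ k) v = 0 := by
    intro k
    have hmem : ρ (y ^ k) (nrm ρ p (x * z ^ k) v) ∈ fixW ρ W x := by
      rw [mem_fixW]
      refine ⟨inv_pow ρ hy k _ (nrm_mem ρ (fun v hv => ?_) hv), ?_⟩
      · rw [map_mul, Module.End.mul_apply]
        exact hx _ (inv_pow ρ hzW k v hv)
      · have h1 : (x * z ^ k) ^ p = 1 := by
          rw [(hxz.pow_right k).mul_pow, hxp, one_mul, ← pow_mul, mul_comm, pow_mul, ← hz,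
            pow_orderOf_eq_one, one_pow]
        rw [← Module.End.mul_apply, ← map_mul, comm_pow_rel hxy hyz k]
        have h2 : z ^ k * y ^ k * x = y ^ k * (x * z ^ k) := by
          rw [(hyz.pow_pow k k).symm.eq, mul_assoc, ((hxz.pow_right k)).symm.eq]
        rw [h2, map_mul, Module.End.mul_apply, fix_nrm ρ h1]
    rw [hbot, Submodule.mem_bot] at hmem
    have h3 := congrArg (ρ (y ^ k)⁻¹) hmem
    rw [map_zero, ← Module.End.mul_apply, ← map_mul, inv_mul_cancel, map_one,
      Module.End.one_apply] at h3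
    exact h3
  have hsum : ∑ k ∈ Finset.range p, nrm ρ p (x * z ^ k) v = (p : ZMod r) • v := by
    simp only [nrm_apply]
    rw [Finset.sum_comm]
    have h1 : ∀ j ∈ Finset.range p, ∑ k ∈ Finset.range p, ρ ((x * z ^ k) ^ j) v =
        ρ (x ^ j) (nrm ρ p (z ^ j) v) := by
      intro j _
      rw [nrm_apply, map_sum]
      refine Finset.sum_congr rfl (fun k _ => ?_)
      rw [(hxz.pow_right k).mul_pow, map_mul, Module.End.mul_apply, ← pow_mul, ← pow_mul,
        mul_comm k j]
    rw [Finset.sum_congr rfl h1, Finset.sum_eq_single_of_mem 0 (Finset.mem_range.mpr hp.out.pos)]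
    · rw [pow_zero, pow_zero, map_one, Module.End.one_apply, nrm_one]
    · intro j hj hj0
      rw [nrm_eq_zero ρ hfpf (u := z ^ j) (by
        rw [← pow_mul, mul_comm, pow_mul, ← hz, pow_orderOf_eq_one, one_pow])
        (inv_pow ρ hzW j) (exists_pow_of_not_dvd hz (by
          intro hdvd
          exact hj0 (Nat.eq_zero_of_dvd_of_lt hdvd (Finset.mem_range.mp hj)))) hv, map_zero]
  rw [Finset.sum_eq_zero (fun k _ => hN k)] at hsum
  rcases smul_eq_zero.mp hsum.symm with h | h
  · exact cast_ne_zero' hpr h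
  · exact hv0 h

theorem finrank_le [Finite V] : p * Module.finrank (ZMod r) (fixW ρ W x) ≤
    Module.finrank (ZMod r) W := by
  haveI : Module.Finite (ZMod r) V := Module.Finite.of_finite
  have hzp : z ^ p = 1 := by rw [← hz]; exact pow_orderOf_eq_one z
  let f : (Fin p → fixW ρ W x) →ₗ[ZMod r] W :=
    { toFun := fun a => ⟨∑ i : Fin p, ρ (y ^ (i : ℕ)) (a i : V), Submodule.sum_mem _ (fun i _ =>
        inv_pow ρ hy _ _ ((mem_fixW ρ).mp (a i).2).1)⟩
      map_add' := by
        intro a b
        apply Subtype.ext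
        show ∑ i : Fin p, ρ (y ^ (i : ℕ)) ((a i : V) + (b i : V)) = _ + _
        simp only [map_add, Finset.sum_add_distrib]
      map_smul' := by
        intro c a
        apply Subtype.ext
        show ∑ i : Fin p, ρ (y ^ (i : ℕ)) (c • (a i : V)) = c • ∑ i : Fin p, ρ (y ^ (i : ℕ)) (a i : V)
        simp only [map_smul, Finset.smul_sum] }
  have hf : Function.Injective f := by
    rw [injective_iff_map_eq_zero]
    intro a ha
    have ha' : ∑ i : Fin p, ρ (y ^ (i : ℕ)) (a i : V) = 0 := congrArg Subtype.val ha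
    funext i
    -- apply the norm of `x z ^ (p - i)`
    have hb : ∀ j : Fin p, nrm ρ p (x * z ^ (p - (i : ℕ))) (ρ (y ^ (j : ℕ)) (a j : V)) =
        nrm ρ p (z ^ ((p - (i : ℕ)) + j)) (ρ (y ^ (j : ℕ)) (a j : V)) := by
      intro j
      apply nrm_eq
      · exact ((hxz.pow_right _).mul_left ((Commute.refl z).pow_pow _ _))
      · rw [← Module.End.mul_apply, ← map_mul]
        have h1 : x * z ^ (p - (i : ℕ)) * y ^ (j : ℕ) =
            z ^ ((p - (i : ℕ)) + j) * y ^ (j : ℕ) * x := by
          calc x * z ^ (p - (i : ℕ)) * y ^ (j : ℕ) = z ^ (p - (i : ℕ)) * (x * y ^ (j : ℕ)) := by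
                rw [(hxz.pow_right _).eq, mul_assoc]
            _ = z ^ ((p - (i : ℕ)) + j) * y ^ (j : ℕ) * x := by
                rw [comm_pow_rel hxy hyz, pow_add]; simp only [mul_assoc]
        rw [h1, map_mul, Module.End.mul_apply, ((mem_fixW ρ).mp (a j).2).2, map_mul,
          Module.End.mul_apply]
    have h2 : nrm ρ p (x * z ^ (p - (i : ℕ))) (∑ j : Fin p, ρ (y ^ (j : ℕ)) (a j : V)) = 0 := by
      rw [ha', map_zero]
    rw [map_sum, Finset.sum_eq_single_of_mem i (Finset.mem_univ i)] at h2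
    · rw [hb i, Nat.sub_add_cancel i.2.le, hzp, nrm_one] at h2
      rcases smul_eq_zero.mp h2 with h | h
      · exact absurd h (cast_ne_zero' hpr)
      · have h3 := congrArg (ρ (y ^ (i : ℕ))⁻¹) h
        rw [map_zero, ← Module.End.mul_apply, ← map_mul, inv_mul_cancel, map_one,
          Module.End.one_apply] at h3
        exact Subtype.ext h3
    · intro j _ hji
      rw [hb j]
      refine nrm_eq_zero ρ hfpf ?_ (inv_pow ρ hzW _) (exists_pow_of_not_dvd hz ?_)
        (inv_pow ρ hy _ _ ((mem_fixW ρ).mp (a j).2).1)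
      · rw [← pow_mul, mul_comm, pow_mul, hzp, one_pow]
      · rintro ⟨c, hc⟩
        apply hji
        have hi := i.2
        have hj := j.2
        apply Fin.ext
        have hc1 : c = 1 := by
          rcases Nat.lt_trichotomy c 1 with h | h | h
          · exfalso
            have : c = 0 := by omega
            rw [this] at hc
            omega
          · exact h
          · exfalso
            have : p * 2 ≤ p * c := Nat.mul_le_mul_left _ h
            omega
        rw [hc1] at hc
        omega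
  have h := LinearMap.finrank_le_finrank_of_injective hf
  rw [Module.finrank_pi_fintype, Finset.sum_const, Finset.card_univ, Fintype.card_fin,
    smul_eq_mul] at h
  exact h

end step

section base

variable {p r : ℕ} [hp : Fact p.Prime] [hr : Fact r.Prime] {E V : Type*} [Group E]
  [AddCommGroup V] [Module (ZMod r) V] (ρ : Representation (ZMod r) E V)

theorem base_case [Finite V] {n : ℕ} (hmin : ∀ k : ℕ, 1 ≤ k → p ∣ r ^ k - 1 → n ≤ k)
    {W : Submodule (ZMod r) V} {z : E} (hz : z ^ p = 1) (hzW : ∀ v ∈ W, ρ z v ∈ W)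
    (hfpf : ∀ v ∈ W, ρ z v = v → v = 0) (hW : W ≠ ⊥) : n ≤ Module.finrank (ZMod r) W := by
  classical
  haveI : Module.Finite (ZMod r) V := Module.Finite.of_finite
  haveI := Fintype.ofFinite W
  have hk : 1 ≤ Module.finrank (ZMod r) W := by
    rw [Nat.one_le_iff_ne_zero]
    intro h
    exact hW (Submodule.finrank_eq_zero.mp h)
  apply hmin _ hk
  have hcard : Nat.card W = r ^ Module.finrank (ZMod r) W := by
    have h1 : Nat.card W = Nat.card (ZMod r) ^ Module.finrank (ZMod r) W :=
      Module.natCard_eq_pow_finrank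
    rw [h1, Nat.card_zmod]
  let f : Function.End W := fun v => ⟨ρ z v, hzW v v.2⟩
  have hf : ∀ k (v : W), ((f ^ k) v : V) = ρ (z ^ k) v := by
    intro k
    induction k with
    | zero => intro v; rw [pow_zero, pow_zero, map_one]; rfl
    | succ k ih =>
      intro v
      rw [pow_succ, pow_succ, map_mul, Module.End.mul_apply]
      exact ih (f v)
  have h1 := Equiv.Perm.card_fixedPoints_modEq (f := f) (p := p) (n := 1) (by
    rw [pow_one]
    funext v
    apply Subtype.ext
    rw [hf, hz, map_one]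
    rfl)
  have h2 : Fintype.card (Function.fixedPoints f) = 1 := by
    rw [Fintype.card_eq_one_iff]
    refine ⟨⟨0, ?_⟩, ?_⟩
    · apply Subtype.ext
      show ρ z 0 = 0
      rw [map_zero]
    · rintro ⟨v, hv⟩
      apply Subtype.ext
      apply Subtype.ext
      exact hfpf v v.2 (congrArg Subtype.val hv)
  rw [h2, ← Nat.card_eq_fintype_card, hcard] at h1
  exact (Nat.modEq_iff_dvd' (Nat.one_le_pow _ _ hr.out.pos)).mp h1.symm

theorem two_le [Finite V] {W : Submodule (ZMod r) V} {x y z : E} (hxy : x * y = z * y * x)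
    (hx : ∀ v ∈ W, ρ x v ∈ W) (hy : ∀ v ∈ W, ρ y v ∈ W)
    (hfpf : ∀ v ∈ W, ρ z v = v → v = 0) (hW : W ≠ ⊥) : 2 ≤ Module.finrank (ZMod r) W := by
  haveI : Module.Finite (ZMod r) V := Module.Finite.of_finite
  by_contra hcon
  have hk : 1 ≤ Module.finrank (ZMod r) W := by
    rw [Nat.one_le_iff_ne_zero]
    intro h
    exact hW (Submodule.finrank_eq_zero.mp h)
  have h1 : Module.finrank (ZMod r) W = 1 := by omega
  obtain ⟨v, hv0, hv⟩ := finrank_eq_one_iff'.mp h1
  obtain ⟨a, ha⟩ := hv ⟨ρ x v, hx v v.2⟩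
  obtain ⟨b, hb⟩ := hv ⟨ρ y v, hy v v.2⟩
  have ha' : ρ x v = a • (v : V) := (congrArg Subtype.val ha).symm
  have hb' : ρ y v = b • (v : V) := (congrArg Subtype.val hb).symm
  have h2 : ρ (x * y) v = ρ (y * x) v := by
    rw [map_mul, map_mul, Module.End.mul_apply, Module.End.mul_apply, ha', hb', map_smul,
      map_smul, ha', hb', smul_comm]
  have h3 : ρ z (ρ (y * x) v) = ρ (y * x) v := by
    rw [← Module.End.mul_apply, ← map_mul, ← mul_assoc, ← hxy, h2]
  have h4 : ρ (y * x) v = 0 := by
    apply hfpf _ _ h3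
    rw [map_mul, Module.End.mul_apply]
    exact hy _ (hx _ v.2)
  have h5 := congrArg (ρ (y * x)⁻¹) h4
  rw [map_zero, ← Module.End.mul_apply, ← map_mul, inv_mul_cancel, map_one,
    Module.End.one_apply] at h5
  exact hv0 (Subtype.ext h5)

end base

section quat

variable {p : ℕ} [hp : Fact p.Prime] {H : Type*} [Group H] [Finite H]

theorem quat_case (h : GES p H) {w : ℕ} (hcard : Nat.card H = p ^ (2 * (w + 1) + 1))
    (hall : ∀ x : H, x ^ p = 1 → x ∈ center H) : p = 2 ∧ w = 0 := by
  have hp2 : p = 2 := by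
    by_contra hp2
    have h1 := index_ker_powHom_le hp2 h
    have h2 : (powHom hp2 h).ker ≤ center H := fun x hx =>
      hall x ((mem_ker_powHom hp2 h x).mp hx)
    have h3 := card_le_of_le h2
    rw [h.card_center] at h3
    have h4 := (powHom hp2 h).ker.card_mul_index
    have h5 : Nat.card H ≤ p * p := by
      rw [← h4]
      exact Nat.mul_le_mul h3 h1
    rw [hcard] at h5
    have h6 : p ^ 2 < p ^ (2 * (w + 1) + 1) := Nat.pow_lt_pow_right hp.out.one_lt (by omega)
    rw [pow_two] at h6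
    omega
  refine ⟨hp2, ?_⟩
  subst hp2
  by_contra hw
  have h32 : 32 ≤ Nat.card H := by
    rw [hcard]
    calc 32 = 2 ^ 5 := by norm_num
      _ ≤ 2 ^ (2 * (w + 1) + 1) := Nat.pow_le_pow_right (by norm_num) (by omega)
  obtain ⟨x, hx⟩ : ∃ x : H, x ∉ center H := by
    by_contra hcon
    push Not at hcon
    have : center H = ⊤ := by rw [eq_top_iff]; exact fun x _ => hcon x
    have h1 := h.card_center
    rw [this, card_top] at h1
    omega
  have hsq : ∀ a : H, a ∉ center H → a ^ 2 = x ^ 2 := by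
    intro a ha
    have h1 : ∀ b : H, b ∉ center H → b ^ 2 ≠ 1 := fun b hb h => hb (hall b h)
    have h2 : ∀ b : H, b ^ 2 ∈ center H := fun b => h.pow_mem_center b
    obtain ⟨n, hn⟩ := h.exists_pow_eq (h2 x) (h1 x hx) (h2 a)
    have h3 : (x ^ 2) ^ 2 = 1 := h.center_pow (h2 x)
    rcases Nat.even_or_odd n with ⟨k, hk⟩ | ⟨k, hk⟩
    · exfalso
      rw [hk, ← two_mul, pow_mul, h3, one_pow] at hn
      exact h1 a ha hn.symm
    · rw [hk, pow_succ, pow_mul, h3, one_pow, one_mul] at hn
      exact hn.symm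
  have hcx : center H ≤ zpowers x := by
    intro c hc
    obtain ⟨n, hn⟩ := h.exists_pow_eq (h.pow_mem_center x) (fun h2 => hx (hall x h2)) hc
    rw [← hn]
    exact pow_mem (pow_mem (mem_zpowers x) 2) n
  have hx4 : Nat.card (zpowers x) ≤ 4 := by
    rw [Nat.card_zpowers]
    apply Nat.le_of_dvd (by norm_num)
    apply orderOf_dvd_of_pow_eq_one
    rw [show (4 : ℕ) = 2 * 2 from rfl, pow_mul]
    exact h.center_pow (h.pow_mem_center x)
  have hC : 16 ≤ Nat.card (centralizer ({x} : Set H)) := by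
    have h1 : (centralizer ({x} : Set H)).index ≤ 2 := by
      rw [← ker_commHom h.classTwo x, index_ker]
      exact (card_le_card_group _).trans h.card_center.le
    have h2 := (centralizer ({x} : Set H)).card_mul_index
    by_contra hcon
    push Not at hcon
    have : Nat.card (centralizer ({x} : Set H)) * (centralizer ({x} : Set H)).index ≤ 15 * 2 :=
      Nat.mul_le_mul (by omega) h1
    omega
  obtain ⟨y, hyC, hyx⟩ : ∃ y ∈ centralizer ({x} : Set H), y ∉ zpowers x := by
    by_contra hcon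
    push Not at hcon
    have := card_le_of_le (show centralizer ({x} : Set H) ≤ zpowers x from hcon)
    omega
  have hcomm : Commute y x := mem_centralizer_singleton_iff.mp hyC
  have hy2 := hsq y (fun h2 => hyx (hcx h2))
  have h1 : (y * x) ^ 2 = 1 := by
    rw [hcomm.mul_pow, hy2, ← pow_two]
    exact h.center_pow (h.pow_mem_center x)
  have h2 := hcx (hall _ h1)
  apply hyx
  have h3 : y = (y * x) * x⁻¹ := by group
  rw [h3]
  exact mul_mem h2 (inv_mem (mem_zpowers x))

end quat

section main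

variable {p r : ℕ} [hp : Fact p.Prime] [hr : Fact r.Prime] {E V : Type*} [Group E] [Finite E]
  [AddCommGroup V] [Module (ZMod r) V] [Finite V] (ρ : Representation (ZMod r) E V)

theorem main (hpr : p ≠ r) {n : ℕ} (hmin : ∀ k : ℕ, 1 ≤ k → p ∣ r ^ k - 1 → n ≤ k) (w : ℕ) :
    ∀ (H : Subgroup E) (W : Submodule (ZMod r) V) (z : E), GES p H →
      Nat.card H = p ^ (2 * w + 1) → orderOf z = p → z ∈ H → (∀ h ∈ H, Commute h z) →
      (∀ h ∈ H, ∀ v ∈ W, ρ h v ∈ W) → (∀ v ∈ W, ρ z v = v → v = 0) → W ≠ ⊥ →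
      n * p ^ w ≤ Module.finrank (ZMod r) W := by
  induction w with
  | zero =>
    intro H W z _ _ hz hzH _ hinv hfpf hW
    rw [pow_zero, mul_one]
    exact base_case ρ hmin (by rw [← hz]; exact pow_orderOf_eq_one z) (hinv z hzH) hfpf hW
  | succ w ih =>
    intro H W z hG hcard hz hzH hzc hinv hfpf hW
    have hzC : (⟨z, hzH⟩ : H) ∈ center H := by
      rw [mem_center_iff]
      intro g
      exact Subtype.ext (hzc g g.2).eq
    have hrel : ∀ x y : H, ⁅x, y⁆ = ⟨z, hzH⟩ → (x : E) * y = z * y * x := by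
      intro x y hxy
      have h1 := congrArg Subtype.val hxy
      have h2 : (x : E) * y * (x : E)⁻¹ * (y : E)⁻¹ = z := h1
      rw [← h2]; group
    by_cases hx : ∃ x : H, x ∉ center H ∧ x ^ p = 1
    · obtain ⟨x, hxc, hxp⟩ := hx
      obtain ⟨y, hxy⟩ := hG.exists_comm_eq hxc hzC
      have hne : ⁅x, y⁆ ≠ 1 := by
        rw [hxy]
        intro h
        have h1 : z = 1 := congrArg Subtype.val h
        rw [h1, orderOf_one] at hz
        exact hp.out.one_lt.ne hz
      have hr1 := hrel x y hxy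
      have hxp' : (x : E) ^ p = 1 := congrArg Subtype.val hxp
      have a1 := fixW_ne_bot ρ hpr hz (hzc x x.2) (hzc y y.2) hr1 hxp' (hinv x x.2) (hinv y y.2)
        (hinv z hzH) hfpf hW
      have a2 := finrank_le ρ hpr hz (hzc x x.2) (hzc y y.2) hr1 hxp' (hinv x x.2) (hinv y y.2)
        (hinv z hzH) hfpf
      let D : Subgroup H := centralizer ({x} : Set H) ⊓ centralizer ({y} : Set H)
      have hD : GES p D := hG.inf_ges hne
      have hDcard : Nat.card D = p ^ (2 * w + 1) := by
        have h1 := hG.card_eq hne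
        rw [hcard] at h1
        have h2 : p ^ (2 * (w + 1) + 1) = p ^ 2 * p ^ (2 * w + 1) := by
          rw [← pow_add]; congr 1; ring
        rw [h2] at h1
        exact (Nat.eq_of_mul_eq_mul_left (pow_pos hp.out.pos 2) h1).symm
      let H' : Subgroup E := D.map H.subtype
      let e : D ≃* H' := D.equivMapOfInjective H.subtype H.subtype_injective
      have hH'H : H' ≤ H := by
        rintro _ ⟨d, -, rfl⟩
        exact d.2
      have hzD : (⟨z, hzH⟩ : H) ∈ D :=
        ⟨center_le_centralizer _ hzC, center_le_centralizer _ hzC⟩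
      have a3 := ih H' (fixW ρ W x) z (hD.of_equiv e) (by
        rw [← Nat.card_congr e.toEquiv, hDcard]) hz ⟨_, hzD, rfl⟩
        (fun h hh => hzc h (hH'H hh)) (by
          rintro _ ⟨d, hd, rfl⟩ v hv
          rw [mem_fixW] at hv ⊢
          refine ⟨hinv _ d.2 v hv.1, ?_⟩
          have hc : (x : E) * d = d * x := by
            have := mem_centralizer_singleton_iff.mp hd.1
            exact (congrArg Subtype.val this).symm
          show ρ x (ρ (d : E) v) = ρ (d : E) v
          rw [← Module.End.mul_apply, ← map_mul, hc, map_mul, Module.End.mul_apply, hv.2])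
        (fun v hv h => hfpf v ((mem_fixW ρ).mp hv).1 h) a1
      calc n * p ^ (w + 1) = p * (n * p ^ w) := by rw [pow_succ]; ring
        _ ≤ p * Module.finrank (ZMod r) (fixW ρ W x) := Nat.mul_le_mul_left _ a3
        _ ≤ Module.finrank (ZMod r) W := a2
    · push Not at hx
      obtain ⟨hp2, hw⟩ := quat_case hG hcard (fun x hxp => by
        by_contra h
        exact hx x h hxp)
      subst hw
      subst hp2
      have hn1 : n ≤ 1 := by
        apply hmin 1 le_rfl
        rw [pow_one]
        have h1 : Odd r := hr.out.odd_of_ne_two hpr.symm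
        obtain ⟨k, hk⟩ := h1
        exact ⟨k, by omega⟩
      obtain ⟨x, hxc⟩ : ∃ x : H, x ∉ center H := by
        by_contra hcon
        push Not at hcon
        have : center H = ⊤ := by rw [eq_top_iff]; exact fun x _ => hcon x
        have h1 := hG.card_center
        rw [this, card_top, hcard] at h1
        norm_num at h1
      obtain ⟨y, hxy⟩ := hG.exists_comm_eq hxc hzC
      have h2 := two_le ρ (hrel x y hxy) (hinv x x.2) (hinv y y.2) hfpf hW
      calc n * 2 ^ (0 + 1) ≤ 1 * 2 := Nat.mul_le_mul hn1 (by norm_num)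
        _ ≤ _ := by rw [one_mul]; exact h2

theorem nrm_comm {h z : E} (hc : Commute h z) (v : V) :
    nrm ρ p z (ρ h v) = ρ h (nrm ρ p z v) := by
  rw [nrm_apply, nrm_apply, map_sum]
  refine Finset.sum_congr rfl (fun j _ => ?_)
  rw [← Module.End.mul_apply, ← Module.End.mul_apply, ← map_mul, ← map_mul, (hc.pow_right j).eq]

theorem bound (hpr : p ≠ r) {n : ℕ} (hmin : ∀ k : ℕ, 1 ≤ k → p ∣ r ^ k - 1 → n ≤ k) (w : ℕ)
    (hG : GES p E) (hcard : Nat.card E = p ^ (2 * w + 1))
    (hfaith : ∀ z ∈ center E, (∀ v, ρ z v = v) → z = 1) :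
    n * p ^ w ≤ Module.finrank (ZMod r) V := by
  haveI : Module.Finite (ZMod r) V := Module.Finite.of_finite
  obtain ⟨z, hz1, hz⟩ : ∃ z : E, z ≠ 1 ∧ z ∈ center E := by
    have : Nontrivial (center E) := by
      rw [← Finite.one_lt_card_iff_nontrivial, hG.card_center]
      exact hp.out.one_lt
    obtain ⟨z, hz⟩ := exists_ne (1 : center E)
    exact ⟨z.1, fun h => hz (Subtype.ext h), z.2⟩
  have hzp : z ^ p = 1 := hG.center_pow hz
  have hzc : ∀ h : E, Commute h z := fun h => (mem_center_iff.mp hz) h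
  let W : Submodule (ZMod r) V := LinearMap.ker (nrm ρ p z)
  have h1 : n * p ^ w ≤ Module.finrank (ZMod r) W := by
    refine main ρ hpr hmin w ⊤ W z (hG.of_equiv topEquiv.symm) (by rw [card_top, hcard])
      (orderOf_eq_prime hzp hz1) (mem_top z) (fun h _ => hzc h) ?_ ?_ ?_
    · intro h _ v hv
      rw [LinearMap.mem_ker] at hv ⊢
      rw [nrm_comm ρ (hzc h), hv, map_zero]
    · intro v hv hv1
      rw [LinearMap.mem_ker, nrm_eq ρ (Commute.one_right z) (b := v) (by rw [hv1, map_one]; rfl),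
        nrm_one] at hv
      rcases smul_eq_zero.mp hv with h | h
      · exact absurd h (cast_ne_zero' hpr)
      · exact h
    · intro hbot
      apply hz1
      apply hfaith z hz
      intro v
      have hmem : ρ z v - v ∈ W := by
        rw [LinearMap.mem_ker, map_sub, nrm_comm ρ (Commute.refl z), fix_nrm ρ hzp, sub_self]
      rw [hbot, Submodule.mem_bot, sub_eq_zero] at hmem
      exact hmem
  exact h1.trans (Submodule.finrank_le W)

end main

end Cfsg.Agent.H20.ExtraRep
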