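import Mathlib

/-!
Coprime automorphisms of prime order: basic facts for Flavell's lemma (S3816). Owner: helper20.
-/

set_option autoImplicit false

namespace Cfsg.Agent.H20.Flav

open scoped commutatorElement
open Subgroup

section basic

variable {H : Type*} [Group H]

/-- `[h, ⟨x⟩]` -/
def K (x : MulAut H) (h : H) : Subgroup H := closure {c : H | ∃ i : ℕ, c = h⁻¹ * (x ^ i) h}

/-- `[H, ⟨x⟩]` -/
def KK (x : MulAut H) : Subgroup H := closure {c : H | ∃ h : H, ∃ i : ℕ, c = h⁻¹ * (x ^ i) h}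

/-- `C_H(x)` -/
def Fx (x : MulAut H) : Subgroup H := (x : H →* H).eqLocus (MonoidHom.id H)

/-- the right hand side of Flavell's lemma -/
def D (x : MulAut H) : Subgroup H := ⨆ h : H, K x h ⊓ Fx x

theorem mem_Fx {x : MulAut H} {h : H} : h ∈ Fx x ↔ x h = h := Iff.rfl

theorem pow_fix {x : MulAut H} {h : H} (hh : x h = h) (i : ℕ) : (x ^ i) h = h := by
  induction i with
  | zero => rfl
  | succ i ih => rw [pow_succ, MulAut.mul_apply, hh, ih]

theorem K_le_KK (x : MulAut H) (h : H) : K x h ≤ KK x := by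
  apply Subgroup.closure_mono
  rintro c ⟨i, rfl⟩
  exact ⟨h, i, rfl⟩

theorem gen_mem_K (x : MulAut H) (h : H) (i : ℕ) : h⁻¹ * (x ^ i) h ∈ K x h := subset_closure ⟨i, rfl⟩

theorem gen_mem_KK (x : MulAut H) (h : H) (i : ℕ) : h⁻¹ * (x ^ i) h ∈ KK x := subset_closure ⟨h, i, rfl⟩

theorem D_le (x : MulAut H) : D x ≤ Fx x := iSup_le (fun _ => inf_le_right)

theorem le_D (x : MulAut H) (h : H) : K x h ⊓ Fx x ≤ D x := le_iSup (fun h => K x h ⊓ Fx x) h

theorem K_le {x : MulAut H} {L : Subgroup H} (hL : ∀ l ∈ L, x l ∈ L) {h : H} (hh : h⁻¹ * x h ∈ L) :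
    K x h ≤ L := by
  rw [K, closure_le]
  rintro c ⟨i, rfl⟩
  rw [SetLike.mem_coe]
  induction i with
  | zero => simp [one_mem]
  | succ i ih =>
    have h1 : h⁻¹ * (x ^ (i + 1)) h = (h⁻¹ * x h) * x (h⁻¹ * (x ^ i) h) := by
      rw [pow_succ', MulAut.mul_apply, map_mul, map_inv]; group
    rw [h1]
    exact mul_mem hh (hL _ ih)

theorem K_inv (x : MulAut H) (h : H) : ∀ l ∈ K x h, x l ∈ K x h := by
  have h1 : K x h ≤ (K x h).comap (x : H →* H) := by
    conv_lhs => rw [K]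
    rw [closure_le]
    rintro c ⟨i, rfl⟩
    rw [SetLike.mem_coe, mem_comap]
    have h2 : (x : H →* H) (h⁻¹ * (x ^ i) h) = (h⁻¹ * (x ^ 1) h)⁻¹ * (h⁻¹ * (x ^ (i + 1)) h) := by
      have e1 : (x ^ 1) h = x h := by rw [pow_one]
      rw [e1, pow_succ', MulAut.mul_apply]
      change x (h⁻¹ * (x ^ i) h) = _
      rw [map_mul, map_inv]; group
    rw [h2]
    exact mul_mem (inv_mem (gen_mem_K x h 1)) (gen_mem_K x h (i + 1))
  exact h1

theorem KK_inv (x : MulAut H) : ∀ l ∈ KK x, x l ∈ KK x := by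
  have h1 : KK x ≤ (KK x).comap (x : H →* H) := by
    conv_lhs => rw [KK]
    rw [closure_le]
    rintro c ⟨h, i, rfl⟩
    rw [SetLike.mem_coe, mem_comap]
    have h2 : (x : H →* H) (h⁻¹ * (x ^ i) h) = (x h)⁻¹ * (x ^ i) (x h) := by
      rw [← MulAut.mul_apply, ← pow_succ, pow_succ', MulAut.mul_apply]
      change x (h⁻¹ * (x ^ i) h) = _
      rw [map_mul, map_inv]
    rw [h2]
    exact gen_mem_KK x (x h) i
  exact h1

instance KK_normal (x : MulAut H) : (KK x).Normal := by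
  refine ⟨fun n hn g => ?_⟩
  have h1 : KK x ≤ (KK x).comap (MulAut.conj g).toMonoidHom := by
    conv_lhs => rw [KK]
    rw [closure_le]
    rintro c ⟨h, i, rfl⟩
    rw [SetLike.mem_coe, mem_comap]
    have h2 : (MulAut.conj g).toMonoidHom (h⁻¹ * (x ^ i) h) =
        ((h * g⁻¹)⁻¹ * (x ^ i) (h * g⁻¹)) * ((g⁻¹)⁻¹ * (x ^ i) g⁻¹)⁻¹ := by
      change g * (h⁻¹ * (x ^ i) h) * g⁻¹ = _
      rw [map_mul]; group
    rw [h2]
    exact mul_mem (gen_mem_KK x _ i) (inv_mem (gen_mem_KK x _ i))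
  exact h1 hn

/-- conjugation by fixed points -/
theorem conj_mem_K {x : MulAut H} {c h k : H} (hc : x c = c) (hk : k ∈ K x h) :
    c * k * c⁻¹ ∈ K x (h * c⁻¹) := by
  have h1 : K x h ≤ (K x (h * c⁻¹)).comap (MulAut.conj c).toMonoidHom := by
    conv_lhs => rw [K]
    rw [closure_le]
    rintro _ ⟨i, rfl⟩
    rw [SetLike.mem_coe, mem_comap]
    have h2 : (MulAut.conj c).toMonoidHom (h⁻¹ * (x ^ i) h) = (h * c⁻¹)⁻¹ * (x ^ i) (h * c⁻¹) := by
      change c * (h⁻¹ * (x ^ i) h) * c⁻¹ = _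
      rw [map_mul, map_inv (x ^ i) c, pow_fix hc]; group
    rw [h2]
    exact gen_mem_K x _ i
  exact h1 hk

theorem conj_mem_D {x : MulAut H} {c d : H} (hc : x c = c) (hd : d ∈ D x) : c * d * c⁻¹ ∈ D x := by
  have h1 : D x ≤ (D x).comap (MulAut.conj c).toMonoidHom := by
    conv_lhs => rw [D]
    apply iSup_le
    rintro h k ⟨hk1, hk2⟩
    rw [mem_comap]
    apply le_D x (h * c⁻¹)
    refine ⟨conj_mem_K hc hk1, ?_⟩
    change x (c * k * c⁻¹) = c * k * c⁻¹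
    rw [map_mul, map_mul, map_inv, hc, show x k = k from hk2]
  exact h1 hd

variable [Finite H] {p : ℕ} [hp : Fact p.Prime]

omit [Finite H] in
/-- fixed points in invariant cosets -/
theorem fixpt {x : MulAut H} (hx : x ^ p = 1) {L : Subgroup H} [Finite L] (hL : ∀ l ∈ L, x l ∈ L)
    (hcop : ¬ p ∣ Nat.card L) {h : H} (hh : h⁻¹ * x h ∈ L) : ∃ l ∈ L, x (h * l) = h * l := by
  classical
  haveI : Fintype L := Fintype.ofFinite _
  let f : Function.End L := fun l => ⟨h⁻¹ * x (h * l), by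
    rw [map_mul, ← mul_assoc]
    exact mul_mem hh (hL l l.2)⟩
  have hfi : ∀ (i : ℕ) (l : L), (((f ^ i) l : L) : H) = h⁻¹ * (x ^ i) (h * l) := by
    intro i
    induction i with
    | zero =>
      intro l
      rw [pow_zero, pow_zero]
      change (l : H) = h⁻¹ * (h * l)
      group
    | succ i ih =>
      intro l
      rw [pow_succ']
      change h⁻¹ * x (h * ((f ^ i) l : L)) = _
      rw [ih, pow_succ', MulAut.mul_apply]
      congr 2
      group
  have hf : f ^ p ^ 1 = 1 := by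
    rw [pow_one]
    funext l
    apply Subtype.ext
    rw [hfi, hx]
    change h⁻¹ * (h * l) = (l : H)
    group
  have h5 := Equiv.Perm.card_fixedPoints_modEq (α := L) (f := f) hf
  rw [← Nat.card_eq_fintype_card, ← Nat.card_eq_fintype_card] at h5
  have h6 : Nat.card (Function.fixedPoints f) ≠ 0 := by
    intro h0
    rw [h0] at h5
    exact hcop ((Nat.modEq_zero_iff_dvd).1 h5)
  obtain ⟨⟨l, hl⟩⟩ := (Nat.card_ne_zero.1 h6).1
  refine ⟨l, l.2, ?_⟩
  have h7 : h⁻¹ * x (h * l) = l := congrArg Subtype.val hl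
  calc x (h * l) = h * (h⁻¹ * x (h * l)) := by group
    _ = h * l := by rw [h7]

theorem not_dvd_sub (hcop : ¬ p ∣ Nat.card H) (L : Subgroup H) : ¬ p ∣ Nat.card L :=
  fun h => hcop (h.trans (card_subgroup_dvd_card L))

/-- `H = C_H(x) [H, x]` -/
theorem exists_decomp {x : MulAut H} (hx : x ^ p = 1) (hcop : ¬ p ∣ Nat.card H) (h : H) :
    ∃ c k : H, x c = c ∧ k ∈ KK x ∧ h = c * k := by
  obtain ⟨l, hl, hfix⟩ := fixpt hx (KK_inv x) (not_dvd_sub hcop _) (h := h) (by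
    have := gen_mem_KK x h 1
    rwa [pow_one] at this)
  exact ⟨h * l, l⁻¹, hfix, inv_mem hl, by group⟩

theorem comm_fix {x : MulAut H} (hx : x ^ p = 1) (hcop : ¬ p ∣ Nat.card H) {z : H}
    (hz : z ∈ commutator H) (hxz : x z = z) :
    ∃ k ∈ KK x ⊓ Fx x, ∃ c ∈ ⁅Fx x, Fx x⁆, z = k * c := by
  have h1 : commutator H ≤ KK x ⊔ ⁅Fx x, Fx x⁆ := by
    rw [commutator_def, commutator_le]
    intro a _ b _
    obtain ⟨c, k, hc, hk, rfl⟩ := exists_decomp hx hcop a
    obtain ⟨c', k', hc', hk', rfl⟩ := exists_decomp hx hcop b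
    have h2 : ((⁅c * k, c' * k'⁆ : H) : H ⧸ KK x) = ((⁅c, c'⁆ : H) : H ⧸ KK x) := by
      have e1 : ((c * k : H) : H ⧸ KK x) = (c : H ⧸ KK x) := by
        rw [QuotientGroup.mk_mul, (QuotientGroup.eq_one_iff k).2 hk, mul_one]
      have e2 : ((c' * k' : H) : H ⧸ KK x) = (c' : H ⧸ KK x) := by
        rw [QuotientGroup.mk_mul, (QuotientGroup.eq_one_iff k').2 hk', mul_one]
      rw [commutatorElement_def, commutatorElement_def]
      simp only [QuotientGroup.mk_mul, QuotientGroup.mk_inv] at e1 e2 ⊢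
      rw [e1, e2]
    rw [QuotientGroup.eq_iff_div_mem] at h2
    have h3 : ⁅c * k, c' * k'⁆ = (⁅c * k, c' * k'⁆ / ⁅c, c'⁆) * ⁅c, c'⁆ := (div_mul_cancel _ _).symm
    rw [h3]
    exact mul_mem (le_sup_left (a := KK x) h2)
      ((le_sup_right : ⁅Fx x, Fx x⁆ ≤ KK x ⊔ ⁅Fx x, Fx x⁆) (commutator_mem_commutator hc hc'))
  obtain ⟨k, hk, c, hc, rfl⟩ := Subgroup.mem_sup_of_normal_left.1 (h1 hz)
  have hcF : c ∈ Fx x := (commutator_le_self (Fx x)) hc
  refine ⟨k, ⟨hk, ?_⟩, c, hc, rfl⟩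
  have h4 : x c = c := hcF
  rw [map_mul, h4] at hxz
  exact mul_right_cancel hxz

end basic

end Cfsg.Agent.H20.Flav
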