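import Mathlib
import Cfsg.Agent.H20.FlavA

/-!
Restriction to invariant subgroups and quotients (for Flavell's lemma S3816). Owner: helper20.
-/

set_option autoImplicit false

namespace Cfsg.Agent.H20.Flav

open scoped commutatorElement
open Subgroup

section res

variable {H : Type*} [Group H] [Finite H] {p : ℕ} [hp : Fact p.Prime]

/-- restriction to an invariant subgroup -/
noncomputable def res (x : MulAut H) (L : Subgroup H) (hL : ∀ l ∈ L, x l ∈ L) : MulAut L :=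
  MulEquiv.ofBijective
    ({ toFun := fun l => ⟨x (l : H), hL l l.2⟩
       map_one' := Subtype.ext (map_one x)
       map_mul' := fun a b => Subtype.ext (map_mul x (a : H) (b : H)) } : L →* L)
    (Finite.injective_iff_bijective.1 (fun a b hab =>
      Subtype.ext (x.injective (congrArg Subtype.val hab))))

theorem res_coe (x : MulAut H) (L : Subgroup H) (hL : ∀ l ∈ L, x l ∈ L) (l : L) :
    (res x L hL l : H) = x l := rfl

theorem res_pow_coe (x : MulAut H) (L : Subgroup H) (hL : ∀ l ∈ L, x l ∈ L) (i : ℕ) (l : L) :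
    ((res x L hL ^ i) l : H) = (x ^ i) l := by
  induction i with
  | zero => rfl
  | succ i ih => rw [pow_succ', pow_succ', MulAut.mul_apply, MulAut.mul_apply, res_coe, ih]

theorem res_pow {x : MulAut H} (hx : x ^ p = 1) (L : Subgroup H) (hL : ∀ l ∈ L, x l ∈ L) :
    res x L hL ^ p = 1 := by
  ext l
  rw [res_pow_coe, hx]
  rfl

theorem D_res {x : MulAut H} (L : Subgroup H) (hL : ∀ l ∈ L, x l ∈ L) {l : L}
    (hl : l ∈ D (res x L hL)) : (l : H) ∈ D x := by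
  have h1 : D (res x L hL) ≤ (D x).comap L.subtype := by
    conv_lhs => rw [D]
    apply iSup_le
    rintro h k ⟨hk1, hk2⟩
    rw [mem_comap]
    apply le_D x h
    refine ⟨?_, congrArg Subtype.val hk2⟩
    have h2 : K (res x L hL) h ≤ (K x (h : H)).comap L.subtype := by
      conv_lhs => rw [K]
      rw [closure_le]
      rintro c ⟨i, rfl⟩
      rw [SetLike.mem_coe, mem_comap]
      have h3 : L.subtype (h⁻¹ * (res x L hL ^ i) h) = (h : H)⁻¹ * (x ^ i) h := by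
        rw [map_mul, map_inv]
        change (h : H)⁻¹ * ((res x L hL ^ i) h : L) = _
        rw [res_pow_coe]
      rw [h3]
      exact gen_mem_K x _ i
    exact h2 hk1
  exact h1 hl

/-- `[H, x] = [H, x, x]` -/
theorem KK_KK {x : MulAut H} (hx : x ^ p = 1) (hcop : ¬ p ∣ Nat.card H) {z : H} (hz : z ∈ KK x) :
    (⟨z, hz⟩ : KK x) ∈ KK (res x (KK x) (KK_inv x)) := by
  have h1 : KK x ≤ (KK (res x (KK x) (KK_inv x))).map (KK x).subtype := by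
    conv_lhs => rw [KK]
    rw [closure_le]
    rintro _ ⟨h, i, rfl⟩
    obtain ⟨c, k, hc, hk, rfl⟩ := exists_decomp hx hcop h
    refine ⟨(⟨k, hk⟩ : KK x)⁻¹ * (res x (KK x) (KK_inv x) ^ i) ⟨k, hk⟩, gen_mem_KK _ _ i, ?_⟩
    rw [map_mul, map_inv]
    change k⁻¹ * ((res x (KK x) (KK_inv x) ^ i) ⟨k, hk⟩ : KK x) = _
    rw [res_pow_coe, map_mul (x ^ i), pow_fix hc]
    group
  obtain ⟨w, hw, hwz⟩ := h1 hz
  have : w = ⟨z, hz⟩ := Subtype.ext hwz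
  rw [← this]; exact hw

end res

section quo

variable {H : Type*} [Group H] [Finite H] {p : ℕ} [hp : Fact p.Prime]

/-- the induced automorphism of a quotient -/
noncomputable def quo (x : MulAut H) (N : Subgroup H) [N.Normal] (hN : ∀ l ∈ N, x l ∈ N) : MulAut (H ⧸ N) :=
  MulEquiv.ofBijective (QuotientGroup.map N N (x : H →* H) hN)
    (Finite.surjective_iff_bijective.1 (by
      intro q
      obtain ⟨h, rfl⟩ := QuotientGroup.mk_surjective q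
      refine ⟨((x⁻¹ h : H) : H ⧸ N), ?_⟩
      change ((x (x⁻¹ h) : H) : H ⧸ N) = h
      congr 1
      simp))

theorem quo_mk (x : MulAut H) (N : Subgroup H) [N.Normal] (hN : ∀ l ∈ N, x l ∈ N) (h : H) :
    quo x N hN (h : H ⧸ N) = ((x h : H) : H ⧸ N) := rfl

theorem quo_pow_mk (x : MulAut H) (N : Subgroup H) [N.Normal] (hN : ∀ l ∈ N, x l ∈ N) (i : ℕ) (h : H) :
    (quo x N hN ^ i) (h : H ⧸ N) = (((x ^ i) h : H) : H ⧸ N) := by
  induction i with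
  | zero => rfl
  | succ i ih => rw [pow_succ', pow_succ', MulAut.mul_apply, MulAut.mul_apply, ih, quo_mk]

theorem quo_pow {x : MulAut H} (hx : x ^ p = 1) (N : Subgroup H) [N.Normal] (hN : ∀ l ∈ N, x l ∈ N) :
    quo x N hN ^ p = 1 := by
  ext q
  obtain ⟨h, rfl⟩ := QuotientGroup.mk_surjective q
  rw [quo_pow_mk, hx]
  rfl

theorem D_quo {x : MulAut H} (hx : x ^ p = 1) (hcop : ¬ p ∣ Nat.card H) (N : Subgroup H) [N.Normal]
    (hN : ∀ l ∈ N, x l ∈ N) {q : H ⧸ N} (hq : q ∈ D (quo x N hN)) : ∃ d ∈ D x, (d : H ⧸ N) = q := by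
  have h1 : D (quo x N hN) ≤ (D x).map (QuotientGroup.mk' N) := by
    conv_lhs => rw [D]
    apply iSup_le
    rintro q k ⟨hk1, hk2⟩
    obtain ⟨h, rfl⟩ := QuotientGroup.mk_surjective q
    have h2 : K (quo x N hN) (h : H ⧸ N) ≤ (K x h).map (QuotientGroup.mk' N) := by
      conv_lhs => rw [K]
      rw [closure_le]
      rintro c ⟨i, rfl⟩
      refine ⟨h⁻¹ * (x ^ i) h, gen_mem_K x h i, ?_⟩
      rw [quo_pow_mk]
      rfl
    obtain ⟨k', hk', rfl⟩ := h2 hk1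
    have hk3 : ((x k' : H) : H ⧸ N) = (k' : H ⧸ N) := hk2
    have h3 : k'⁻¹ * x k' ∈ N := by
      rw [← QuotientGroup.eq]
      exact hk3.symm
    obtain ⟨l, hl, hfix⟩ := fixpt hx (L := N ⊓ K x h) (fun l hl => ⟨hN l hl.1, K_inv x h l hl.2⟩)
      (not_dvd_sub hcop _) (h := k')
      (Subgroup.mem_inf.2 ⟨h3, mul_mem (inv_mem hk') (K_inv x h _ hk')⟩)
    refine ⟨k' * l, le_D x h ⟨mul_mem hk' hl.2, hfix⟩, ?_⟩
    change ((k' * l : H) : H ⧸ N) = (k' : H ⧸ N)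
    rw [QuotientGroup.mk_mul, (QuotientGroup.eq_one_iff l).2 hl.1, mul_one]
  obtain ⟨d, hd, rfl⟩ := h1 hq
  exact ⟨d, hd, rfl⟩

end quo

section ring

variable {E : Type*} [Ring E] {T : Type*} [CommGroup T]

/-- elimination of `X` -/
theorem elim (ρ : T →* E) (σ : T →* T) (X Y : E) (hXY : X * Y = 1) (hX : ∀ t, X * ρ t = ρ (σ t) * X)
    (hI : ∀ h : T, (ρ (σ (σ h)) - ρ (σ h)) + (ρ h - ρ (σ (σ h))) * X + (ρ (σ h) - ρ h) * X ^ 2 = 0)
    (h1 : ∀ t : T, ∃ s, t = s⁻¹ * σ s) (h2 : ∀ t : T, ∃ s, t = s⁻¹ * σ (σ s))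
    (h3 : ∀ t : T, ∃ s, t = (σ s)⁻¹ * σ (σ s)) (s₁ s₂ s₃ : T) :
    (ρ s₁ - 1) * (ρ s₂ - 1) * (ρ s₃ - 1) = 0 := by
  have cm : ∀ a b : T, ρ a * ρ b = ρ b * ρ a := by
    intro a b
    rw [← map_mul, mul_comm, map_mul]
  have hX2 : ∀ t, X ^ 2 * ρ t = ρ (σ (σ t)) * X ^ 2 := by
    intro t
    rw [pow_two, mul_assoc, hX, ← mul_assoc, hX, mul_assoc]
  -- second identity
  have II : ∀ h g : T, (ρ h - ρ (σ (σ h))) * (ρ (σ g) - ρ g) * X +
      (ρ (σ h) - ρ h) * (ρ (σ (σ g)) - ρ g) * X ^ 2 = 0 := by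
    intro h g
    have e1 : ((ρ (σ (σ h)) - ρ (σ h)) + (ρ h - ρ (σ (σ h))) * X + (ρ (σ h) - ρ h) * X ^ 2) * ρ g
        - ρ g * ((ρ (σ (σ h)) - ρ (σ h)) + (ρ h - ρ (σ (σ h))) * X + (ρ (σ h) - ρ h) * X ^ 2) = 0 := by
      rw [hI h]; simp
    have e2 : ((ρ (σ (σ h)) - ρ (σ h)) + (ρ h - ρ (σ (σ h))) * X + (ρ (σ h) - ρ h) * X ^ 2) * ρ g
        = (ρ (σ (σ h)) - ρ (σ h)) * ρ g + (ρ h - ρ (σ (σ h))) * ρ (σ g) * X +
          (ρ (σ h) - ρ h) * ρ (σ (σ g)) * X ^ 2 := by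
      rw [add_mul, add_mul, mul_assoc _ X, hX, mul_assoc _ (X ^ 2), hX2, ← mul_assoc, ← mul_assoc]
    have e3 : ρ g * ((ρ (σ (σ h)) - ρ (σ h)) + (ρ h - ρ (σ (σ h))) * X + (ρ (σ h) - ρ h) * X ^ 2)
        = (ρ (σ (σ h)) - ρ (σ h)) * ρ g + (ρ h - ρ (σ (σ h))) * ρ g * X +
          (ρ (σ h) - ρ h) * ρ g * X ^ 2 := by
      rw [mul_add, mul_add, ← mul_assoc, ← mul_assoc]
      have c1 : ∀ a b : T, ρ g * (ρ a - ρ b) = (ρ a - ρ b) * ρ g := by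
        intro a b
        rw [mul_sub, sub_mul, cm g a, cm g b]
      rw [c1, c1, c1]
    rw [e2, e3] at e1
    rw [← e1]
    noncomm_ring
  have III : ∀ h g k : T, (ρ (σ h) - ρ h) * (ρ (σ (σ g)) - ρ g) * (ρ (σ (σ k)) - ρ (σ k)) = 0 := by
    intro h g k
    set A := (ρ h - ρ (σ (σ h))) * (ρ (σ g) - ρ g) with hA
    set B := (ρ (σ h) - ρ h) * (ρ (σ (σ g)) - ρ g) with hB
    have cA : ρ (σ k) * A = A * ρ (σ k) := by
      rw [hA]
      have c1 : ∀ a b : T, ρ (σ k) * (ρ a - ρ b) = (ρ a - ρ b) * ρ (σ k) := by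
        intro a b
        rw [mul_sub, sub_mul, cm _ a, cm _ b]
      rw [← mul_assoc, c1, mul_assoc, c1, ← mul_assoc]
    have cB : ρ (σ k) * B = B * ρ (σ k) := by
      rw [hB]
      have c1 : ∀ a b : T, ρ (σ k) * (ρ a - ρ b) = (ρ a - ρ b) * ρ (σ k) := by
        intro a b
        rw [mul_sub, sub_mul, cm _ a, cm _ b]
      rw [← mul_assoc, c1, mul_assoc, c1, ← mul_assoc]
    have e0 := II h g
    rw [← hA, ← hB] at e0
    have e1 : (A * X + B * X ^ 2) * ρ k - ρ (σ k) * (A * X + B * X ^ 2) = 0 := by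
      rw [e0]; simp
    have e2 : (A * X + B * X ^ 2) * ρ k = A * ρ (σ k) * X + B * ρ (σ (σ k)) * X ^ 2 := by
      rw [add_mul, mul_assoc _ X, hX, mul_assoc _ (X ^ 2), hX2, ← mul_assoc, ← mul_assoc]
    have e3 : ρ (σ k) * (A * X + B * X ^ 2) = A * ρ (σ k) * X + B * ρ (σ k) * X ^ 2 := by
      rw [mul_add, ← mul_assoc (ρ (σ k)) A X, ← mul_assoc (ρ (σ k)) B, cA, cB]
    rw [e2, e3] at e1
    have e4 : B * (ρ (σ (σ k)) - ρ (σ k)) * X ^ 2 = 0 := by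
      rw [← e1]; noncomm_ring
    calc B * (ρ (σ (σ k)) - ρ (σ k)) = B * (ρ (σ (σ k)) - ρ (σ k)) * X ^ 2 * (Y * Y) := by
          rw [mul_assoc _ (X ^ 2), pow_two, mul_assoc X X, ← mul_assoc X Y Y, hXY, one_mul, hXY, mul_one]
      _ = 0 := by rw [e4, zero_mul]
  -- conclusion
  have inv1 : ∀ a b : T, ρ (a⁻¹ * b) - 1 = ρ a⁻¹ * (ρ b - ρ a) := by
    intro a b
    rw [mul_sub, ← map_mul, ← map_mul, inv_mul_cancel, map_one]
  have c2 : ∀ a b c : T, (ρ a - ρ b) * ρ c = ρ c * (ρ a - ρ b) := by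
    intro a b c
    rw [mul_sub, sub_mul, cm _ a, cm _ b]
  obtain ⟨h, rfl⟩ := h1 s₁
  obtain ⟨g, rfl⟩ := h2 s₂
  obtain ⟨k, rfl⟩ := h3 s₃
  rw [inv1, inv1, inv1]
  calc ρ h⁻¹ * (ρ (σ h) - ρ h) * (ρ g⁻¹ * (ρ (σ (σ g)) - ρ g)) * (ρ (σ k)⁻¹ * (ρ (σ (σ k)) - ρ (σ k)))
      = ρ h⁻¹ * ((ρ (σ h) - ρ h) * ρ g⁻¹) * ((ρ (σ (σ g)) - ρ g) * ρ (σ k)⁻¹) * (ρ (σ (σ k)) - ρ (σ k)) := by
        simp only [mul_assoc]
    _ = ρ h⁻¹ * (ρ g⁻¹ * (ρ (σ h) - ρ h)) * (ρ (σ k)⁻¹ * (ρ (σ (σ g)) - ρ g)) * (ρ (σ (σ k)) - ρ (σ k)) := by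
        rw [c2, c2]
    _ = ρ h⁻¹ * ρ g⁻¹ * ((ρ (σ h) - ρ h) * ρ (σ k)⁻¹) * (ρ (σ (σ g)) - ρ g) * (ρ (σ (σ k)) - ρ (σ k)) := by
        simp only [mul_assoc]
    _ = ρ h⁻¹ * ρ g⁻¹ * ρ (σ k)⁻¹ * ((ρ (σ h) - ρ h) * (ρ (σ (σ g)) - ρ g) * (ρ (σ (σ k)) - ρ (σ k))) := by
        rw [c2]; simp only [mul_assoc]
    _ = 0 := by rw [III, mul_zero]

/-- the class two case: the norm kills `[M, T]` -/
theorem norm_kill (ρ : T →* E) (σ : T →* T) (X N : E) (hNX : N * X = N)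
    (hX : ∀ t, X * ρ t = ρ (σ t) * X)
    (hI : ∀ h : T, (ρ (σ (σ h)) - ρ (σ h)) + (ρ h - ρ (σ (σ h))) * X + (ρ (σ h) - ρ h) * X ^ 2 = 0)
    (hq : ∀ s t : T, (ρ s - 1) * (ρ t - 1) = 0)
    (h1 : ∀ t : T, ∃ s, t = s⁻¹ * σ s) (h2 : ∀ t : T, ∃ s, t = s⁻¹ * σ (σ s)) (t : T) :
    N * (ρ t - 1) = 0 := by
  set δ : T → E := fun t => ρ t - 1 with hδ
  have hadd : ∀ s t : T, δ (s * t) = δ s + δ t := by
    intro s t
    have h := hq s t
    rw [hδ]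
    simp only [map_mul]
    have : ρ s * ρ t - 1 = (ρ s - 1) * (ρ t - 1) + ((ρ s - 1) + (ρ t - 1)) := by noncomm_ring
    rw [this, h, zero_add]
  have hone : δ 1 = 0 := by rw [hδ]; simp
  have hinv : ∀ s : T, δ s⁻¹ = - δ s := by
    intro s
    have := hadd s⁻¹ s
    rw [inv_mul_cancel, hone] at this
    exact (neg_eq_of_add_eq_zero_left this.symm).symm
  have hXδ : ∀ t, X * δ t = δ (σ t) * X := by
    intro t
    rw [hδ]
    simp only [mul_sub, sub_mul, hX, mul_one, one_mul]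
  have hN1 : ∀ t, N * (δ (σ t) * X) = N * δ t := by
    intro t
    rw [← hXδ, ← mul_assoc, hNX]
  have hN2 : ∀ t, N * (δ (σ (σ t)) * X ^ 2) = N * δ t := by
    intro t
    have : δ (σ (σ t)) * X ^ 2 = X * X * δ t := by
      rw [mul_assoc, hXδ, ← mul_assoc, hXδ, pow_two, mul_assoc]
    rw [this, ← mul_assoc, ← mul_assoc, hNX, hNX]
  have key : ∀ g : T, N * δ (σ (σ (σ (σ g)))) - N * δ (σ (σ (σ g))) + (N * δ (σ g) - N * δ (σ (σ (σ g))))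
      + (N * δ (σ g) - N * δ g) = 0 := by
    intro g
    have e0 := hI (σ (σ g))
    have e1 : (δ (σ (σ (σ (σ g)))) - δ (σ (σ (σ g)))) + (δ (σ (σ g)) - δ (σ (σ (σ (σ g))))) * X +
        (δ (σ (σ (σ g))) - δ (σ (σ g))) * X ^ 2 = 0 := by
      rw [← e0, hδ]
      simp only [sub_sub_sub_cancel_right]
    have e2 := congrArg (fun a => N * a) e1
    simp only [mul_add, mul_sub, sub_mul, mul_zero] at e2
    rw [hN1, hN1, hN2, hN2] at e2
    exact e2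
  obtain ⟨a, rfl⟩ := h2 t
  obtain ⟨b, rfl⟩ := h1 a
  obtain ⟨g, rfl⟩ := h1 b
  have e3 := key g
  change N * δ ((((g⁻¹ * σ g)⁻¹ * σ (g⁻¹ * σ g))⁻¹ * σ (σ ((g⁻¹ * σ g)⁻¹ * σ (g⁻¹ * σ g))))) = 0
  simp only [map_mul, map_inv, hadd, hinv, mul_add, mul_neg, neg_neg, neg_add]
  rw [← e3]
  abel

end ring

end Cfsg.Agent.H20.Flav
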