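import Mathlib
import Cfsg.Agent.H20.FlavB

/-!
The core computation for Flavell's lemma (S3816). Owner: helper20.
-/

set_option autoImplicit false

namespace Cfsg.Agent.H20.Flav

open scoped commutatorElement IsMulCommutative
open Subgroup

section core

variable {H : Type*} [Group H] (M T : Subgroup H) [M.Normal] [IsMulCommutative M] [IsMulCommutative T]

/-- conjugation action -/
def rho : T →* AddMonoid.End (Additive M) where
  toFun t := MonoidHom.toAdditive ((MulAut.conjNormal (t : H) : MulAut M) : M →* M)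
  map_one' := by
    refine AddMonoidHom.ext fun m => ?_
    apply Additive.toMul.injective
    apply Subtype.ext
    exact (MulAut.conjNormal_apply (1 : H) (Additive.toMul m)).trans (by simp; rfl)
  map_mul' := by
    intro s t
    refine AddMonoidHom.ext fun m => ?_
    apply Additive.toMul.injective
    apply Subtype.ext
    refine (MulAut.conjNormal_apply ((s * t : T) : H) (Additive.toMul m)).trans ?_
    refine Eq.trans ?_ (MulAut.conjNormal_apply (s : H) (MulAut.conjNormal (t : H) (Additive.toMul m))).symm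
    rw [MulAut.conjNormal_apply, Subgroup.coe_mul]
    group

/-- value in `H` -/
def vl (m : Additive M) : H := ((Additive.toMul m : M) : H)

theorem vl_add (m n : Additive M) : vl M (m + n) = vl M m * vl M n := rfl

theorem vl_sub (m n : Additive M) : vl M (m - n) = vl M m * (vl M n)⁻¹ := by
  rw [sub_eq_add_neg, vl_add]; rfl

theorem vl_zero : vl M (0 : Additive M) = 1 := rfl

theorem vl_inj {m n : Additive M} (h : vl M m = vl M n) : m = n :=
  Additive.toMul.injective (Subtype.ext h)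

theorem vl_mem (m : Additive M) : vl M m ∈ M := (Additive.toMul m : M).2

theorem vl_rho (t : T) (m : Additive M) : vl M (rho M T t m) = t * vl M m * (t : H)⁻¹ :=
  MulAut.conjNormal_apply _ _

variable [Finite H]

/-- the automorphism `x` on `M` -/
noncomputable def Xe (x : MulAut H) (hM : ∀ l ∈ M, x l ∈ M) : AddMonoid.End (Additive M) :=
  MonoidHom.toAdditive ((res x M hM : MulAut M) : M →* M)

theorem vl_Xe (x : MulAut H) (hM : ∀ l ∈ M, x l ∈ M) (m : Additive M) :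
    vl M (Xe M x hM m) = x (vl M m) := rfl

theorem vl_Xe_pow (x : MulAut H) (hM : ∀ l ∈ M, x l ∈ M) (i : ℕ) (m : Additive M) :
    vl M ((Xe M x hM ^ i) m) = (x ^ i) (vl M m) := by
  induction i with
  | zero => rfl
  | succ i ih =>
    rw [pow_succ', pow_succ', MulAut.mul_apply, ← ih]
    rfl

theorem Xe_pow {p : ℕ} {x : MulAut H} (hx : x ^ p = 1) (hM : ∀ l ∈ M, x l ∈ M) : Xe M x hM ^ p = 1 := by
  refine AddMonoidHom.ext fun m => ?_
  apply vl_inj
  exact (vl_Xe_pow M x hM p m).trans (by rw [hx]; rfl)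

theorem Xe_rho {x : MulAut H} (hM : ∀ l ∈ M, x l ∈ M) (hT : ∀ l ∈ T, x l ∈ T) (t : T) :
    Xe M x hM * rho M T t = rho M T (res x T hT t) * Xe M x hM := by
  refine AddMonoidHom.ext fun m => ?_
  apply vl_inj
  change vl M (Xe M x hM (rho M T t m)) = vl M (rho M T (res x T hT t) (Xe M x hM m))
  rw [vl_Xe, vl_rho, vl_rho, vl_Xe, res_coe, map_mul, map_mul, map_inv]

/-- the identity coming from the commutativity of `[v h, x]` -/
theorem ident {x : MulAut H} (hM : ∀ l ∈ M, x l ∈ M) (hT : ∀ l ∈ T, x l ∈ T)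
    (hrel : ∀ h ∈ T, ∀ v ∈ M, ((v * h)⁻¹ * x (v * h)) * ((v * h)⁻¹ * x (x (v * h))) =
      ((v * h)⁻¹ * x (x (v * h))) * ((v * h)⁻¹ * x (v * h))) (h : T) :
    (rho M T (res x T hT (res x T hT h)) - rho M T (res x T hT h)) +
      (rho M T h - rho M T (res x T hT (res x T hT h))) * Xe M x hM +
      (rho M T (res x T hT h) - rho M T h) * Xe M x hM ^ 2 = 0 := by
  set a : T := h with ha
  set b : T := res x T hT h with hb
  set c : T := res x T hT b with hc
  set X := Xe M x hM with hX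
  refine AddMonoidHom.ext fun v => ?_
  set v1 := X v with hv1
  set v2 := X v1 with hv2
  have cm : ∀ s t : T, ∀ m, rho M T s (rho M T t m) = rho M T t (rho M T s m) := by
    intro s t m
    have h1 : rho M T s * rho M T t = rho M T t * rho M T s := by
      rw [← map_mul, mul_comm, map_mul]
    exact congrArg (fun f : AddMonoid.End (Additive M) => f m) h1
  have cmul : ∀ s t : T, ∀ m, rho M T (s * t) m = rho M T s (rho M T t m) := by
    intro s t m
    rw [map_mul]; rfl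
  obtain ⟨u1, hu1⟩ : ∃ u : Additive M, u = rho M T a⁻¹ (v1 - v) := ⟨_, rfl⟩
  obtain ⟨u2, hu2⟩ : ∃ u : Additive M, u = rho M T a⁻¹ (v2 - v) := ⟨_, rfl⟩
  have r1 : ∀ m, rho M T a (rho M T a⁻¹ m) = m := by
    intro m
    rw [← cmul, mul_inv_cancel, map_one]; rfl
  -- E1
  have E1 : u1 + rho M T (a⁻¹ * b) u2 = u2 + rho M T (a⁻¹ * c) u1 := by
    apply vl_inj
    rw [vl_add, vl_add, vl_rho, vl_rho]
    have hk1 : (vl M v * (a : H))⁻¹ * x (vl M v * a) = vl M u1 * ((a : H)⁻¹ * b) := by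
      rw [hu1, vl_rho, vl_sub, hv1, hX, vl_Xe, map_mul]
      have : (b : H) = x a := by rw [hb, res_coe]
      rw [this]
      have hcomm : (vl M v)⁻¹ * x (vl M v) = x (vl M v) * (vl M v)⁻¹ := by
        have h3 : (⟨vl M v, vl_mem M v⟩ : M)⁻¹ * ⟨x (vl M v), hM _ (vl_mem M v)⟩ =
          ⟨x (vl M v), hM _ (vl_mem M v)⟩ * (⟨vl M v, vl_mem M v⟩ : M)⁻¹ := mul_comm _ _
        exact congrArg Subtype.val h3
      have h4 : (vl M v * (a : H))⁻¹ * (x (vl M v) * x a) =
          (a : H)⁻¹ * ((vl M v)⁻¹ * x (vl M v)) * x a := by group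
      rw [h4, hcomm, Subgroup.coe_inv]
      group
    have hk2 : (vl M v * (a : H))⁻¹ * x (x (vl M v * a)) = vl M u2 * ((a : H)⁻¹ * c) := by
      rw [hu2, vl_rho, vl_sub, hv2, hv1, hX, vl_Xe, vl_Xe, map_mul, map_mul]
      have : (c : H) = x (x a) := by rw [hc, res_coe, hb, res_coe]
      rw [this]
      have hcomm : (vl M v)⁻¹ * x (x (vl M v)) = x (x (vl M v)) * (vl M v)⁻¹ := by
        have h3 : (⟨vl M v, vl_mem M v⟩ : M)⁻¹ * ⟨x (x (vl M v)), hM _ (hM _ (vl_mem M v))⟩ =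
          ⟨x (x (vl M v)), hM _ (hM _ (vl_mem M v))⟩ * (⟨vl M v, vl_mem M v⟩ : M)⁻¹ := mul_comm _ _
        exact congrArg Subtype.val h3
      have h4 : (vl M v * (a : H))⁻¹ * (x (x (vl M v)) * x (x a)) =
          (a : H)⁻¹ * ((vl M v)⁻¹ * x (x (vl M v))) * x (x a) := by group
      rw [h4, hcomm, Subgroup.coe_inv]
      group
    have hr := hrel a a.2 (vl M v) (vl_mem M v)
    rw [hk1, hk2] at hr
    have hg : ((a : H)⁻¹ * b) * ((a : H)⁻¹ * c) = ((a : H)⁻¹ * c) * ((a : H)⁻¹ * b) := by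
      have h5 : (a⁻¹ * b) * (a⁻¹ * c) = (a⁻¹ * c) * (a⁻¹ * b) := mul_comm _ _
      exact congrArg Subtype.val h5
    have e1 : ((a⁻¹ * b : T) : H) = (a : H)⁻¹ * b := rfl
    have e2 : ((a⁻¹ * c : T) : H) = (a : H)⁻¹ * c := rfl
    rw [e1, e2]
    apply mul_right_cancel (b := ((a : H)⁻¹ * b) * ((a : H)⁻¹ * c))
    calc vl M u1 * ((a : H)⁻¹ * b * vl M u2 * ((a : H)⁻¹ * b)⁻¹) * (((a : H)⁻¹ * b) * ((a : H)⁻¹ * c))
        = vl M u1 * ((a : H)⁻¹ * b) * (vl M u2 * ((a : H)⁻¹ * c)) := by group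
      _ = vl M u2 * ((a : H)⁻¹ * c) * (vl M u1 * ((a : H)⁻¹ * b)) := hr
      _ = vl M u2 * ((a : H)⁻¹ * c * vl M u1 * ((a : H)⁻¹ * c)⁻¹) * (((a : H)⁻¹ * c) * ((a : H)⁻¹ * b)) := by
          group
      _ = _ := by rw [hg]
  have E2 : rho M T a (v1 - v) + rho M T b (v2 - v) = rho M T a (v2 - v) + rho M T c (v1 - v) := by
    have h6 := congrArg (fun m => rho M T a (rho M T a m)) E1
    simp only [map_add, cmul, r1] at h6
    have ru1 : rho M T a u1 = v1 - v := by rw [hu1, r1]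
    have ru2 : rho M T a u2 = v2 - v := by rw [hu2, r1]
    rw [cm a b u2, cm a c u1, ru1, ru2] at h6
    exact h6
  change (rho M T c v - rho M T b v) + (rho M T a v1 - rho M T c v1) + (rho M T b v2 - rho M T a v2) = 0
  simp only [map_sub] at E2
  have h7 : (rho M T c v - rho M T b v) + (rho M T a v1 - rho M T c v1) + (rho M T b v2 - rho M T a v2) =
    (rho M T a v1 - rho M T a v + (rho M T b v2 - rho M T b v)) -
      (rho M T a v2 - rho M T a v + (rho M T c v1 - rho M T c v)) := by abel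
  rw [h7, E2, sub_self]

omit [Finite H] in
/-- an endomorphism killing all `(ρ t - 1) M` kills `[M, H]`. -/
theorem kill (e : AddMonoid.End (Additive M)) (he : ∀ t : T, e * (rho M T t - 1) = 0)
    (hTM : ∀ g : H, ∃ m ∈ M, ∃ t ∈ T, g = m * t) (z : Additive M)
    (hz : vl M z ∈ ⁅M, (⊤ : Subgroup H)⁆) : e z = 0 := by
  let S : Subgroup H :=
    { carrier := {g | ∃ z : Additive M, vl M z = g ∧ e z = 0}
      one_mem' := ⟨0, rfl, map_zero e⟩
      mul_mem' := by
        rintro _ _ ⟨z, rfl, hz⟩ ⟨w, rfl, hw⟩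
        exact ⟨z + w, rfl, by rw [map_add, hz, hw, add_zero]⟩
      inv_mem' := by
        rintro _ ⟨z, rfl, hz⟩
        exact ⟨-z, rfl, by rw [map_neg, hz, neg_zero]⟩ }
  have h1 : ⁅M, (⊤ : Subgroup H)⁆ ≤ S := by
    rw [commutator_le]
    intro m hm g _
    obtain ⟨m', hm', t, ht, rfl⟩ := hTM g
    refine ⟨Additive.ofMul (⟨m, hm⟩ : M) - rho M T ⟨t, ht⟩ (Additive.ofMul (⟨m, hm⟩ : M)), ?_, ?_⟩
    · rw [vl_sub, vl_rho]
      change m * (t * m * t⁻¹)⁻¹ = ⁅m, m' * t⁆
      have h2 : m' * (t * m⁻¹ * t⁻¹) = (t * m⁻¹ * t⁻¹) * m' := by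
        have h3 : t * m⁻¹ * t⁻¹ ∈ M := (inferInstance : M.Normal).conj_mem _ (inv_mem hm) t
        have h4 : (⟨m', hm'⟩ : M) * ⟨t * m⁻¹ * t⁻¹, h3⟩ = ⟨t * m⁻¹ * t⁻¹, h3⟩ * ⟨m', hm'⟩ := mul_comm _ _
        exact congrArg Subtype.val h4
      rw [commutatorElement_def]
      calc m * (t * m * t⁻¹)⁻¹ = m * ((t * m⁻¹ * t⁻¹) * m') * m'⁻¹ := by group
        _ = m * (m' * (t * m⁻¹ * t⁻¹)) * m'⁻¹ := by rw [h2]
        _ = _ := by group
    · have h5 := congrArg (fun f : AddMonoid.End (Additive M) => f (Additive.ofMul (⟨m, hm⟩ : M))) (he ⟨t, ht⟩)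
      have h6 : e (rho M T ⟨t, ht⟩ (Additive.ofMul (⟨m, hm⟩ : M)) - Additive.ofMul (⟨m, hm⟩ : M)) = 0 := h5
      rw [map_sub] at h6
      rw [map_sub, ← neg_sub, h6, neg_zero]
  obtain ⟨w, hw, hw0⟩ := h1 hz
  rw [← vl_inj M hw]
  exact hw0

end core

end Cfsg.Agent.H20.Flav
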