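import Mathlib
import Cfsg.Agent.H20.FlavC

/-!
Flavell's lemma (S3816): main induction. Owner: helper20.
-/

set_option autoImplicit false

namespace Cfsg.Agent.H20.Flav

open scoped commutatorElement IsMulCommutative
open Subgroup

universe u

theorem not_le_of_solvable {H : Type*} [Group H] [Finite H] [Group.IsSolvable H] (x : MulAut H)
    (h : ¬ Fx x ≤ D x) : ¬ Fx x ≤ D x ⊔ ⁅Fx x, Fx x⁆ := by
  intro hle
  apply h
  haveI : ((D x).subgroupOf (Fx x)).Normal := by
    refine ⟨fun n hn g => ?_⟩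
    rw [mem_subgroupOf] at hn ⊢
    exact conj_mem_D g.2 hn
  have h1 : (D x).subgroupOf (Fx x) ⊔ commutator (Fx x) = ⊤ := by
    apply Subgroup.map_injective (Fx x).subtype_injective
    rw [Subgroup.map_sup, _root_.commutator_def, map_commutator]
    rw [← MonoidHom.range_eq_map, Subgroup.range_subtype, subgroupOf_map_subtype,
      inf_eq_left.2 (D_le x)]
    apply le_antisymm
    · exact sup_le (D_le x) (commutator_le_self _)
    · exact hle
  by_contra hcon
  have hnt : Nontrivial (Fx x ⧸ (D x).subgroupOf (Fx x)) := by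
    rw [QuotientGroup.nontrivial_iff]
    intro h2
    apply hcon
    rwa [subgroupOf_eq_top] at h2
  have h3 := Group.IsSolvable.commutator_lt_top_of_nontrivial (Fx x ⧸ (D x).subgroupOf (Fx x))
  apply h3.ne
  have h4 := congrArg (fun S => S.map (QuotientGroup.mk' ((D x).subgroupOf (Fx x)))) h1
  simp only [Subgroup.map_sup] at h4
  rw [_root_.commutator_def, map_commutator, ← MonoidHom.range_eq_map,
    MonoidHom.range_eq_top.2 (QuotientGroup.mk'_surjective _)] at h4
  have h5 : ((D x).subgroupOf (Fx x)).map (QuotientGroup.mk' ((D x).subgroupOf (Fx x))) = ⊥ := by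
    rw [Subgroup.map_eq_bot_iff, QuotientGroup.ker_mk']
  rw [h5, bot_sup_eq] at h4
  exact h4

theorem main {p : ℕ} [hp : Fact p.Prime] (hp2 : p ≠ 2) : ∀ (n : ℕ) {H : Type u} [Group H] [Finite H]
    [Group.IsSolvable H] (x : MulAut H), x ^ p = 1 → ¬ p ∣ Nat.card H → Nat.card H = n →
    KK x ⊓ Fx x ≤ D x := by
  intro n
  induction n using Nat.strong_induction_on with
  | _ n ih =>
  intro H _ _ _ x hx hcop hn
  by_contra hcon
  -- F1
  have F1 : ∀ (L : Subgroup H) (hL : ∀ l ∈ L, x l ∈ L), L ≠ ⊤ → ∀ l : L, l ∈ KK (res x L hL) →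
      x l = l → (l : H) ∈ D x := by
    intro L hL hLt l hl hfix
    apply D_res L hL
    have hlt : Nat.card L < n := by
      rw [← hn]
      apply lt_of_le_of_ne (card_le_card_group L)
      intro h
      exact hLt (eq_top_of_card_eq L h)
    exact ih (Nat.card L) hlt (res x L hL) (res_pow hx L hL) (not_dvd_sub hcop L) rfl
      ⟨hl, Subtype.ext hfix⟩
  -- Step 1
  have hKK : KK x = ⊤ := by
    by_contra h
    apply hcon
    intro z hz
    exact F1 (KK x) (KK_inv x) h ⟨z, hz.1⟩ (KK_KK hx hcop hz.1) hz.2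
  have hFD : ¬ Fx x ≤ D x := by rwa [hKK, top_inf_eq] at hcon
  have hC0 := not_le_of_solvable x hFD
  -- F2
  have F2 : ∀ (N : Subgroup H) [N.Normal], (∀ l ∈ N, x l ∈ N) → N ≠ ⊥ → ∀ c, x c = c →
      ∃ d ∈ D x, ∃ m ∈ N, x m = m ∧ c = d * m := by
    intro N _ hN hN1 c hc
    have hcard : Nat.card (H ⧸ N) < n := by
      have h1 := card_eq_card_quotient_mul_card_subgroup N
      have h2 : 1 < Nat.card N := by
        rw [one_lt_card_iff_ne_bot]; exact hN1
      have h3 : 0 < Nat.card (H ⧸ N) := Nat.card_pos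
      rw [← hn, h1]
      nlinarith
    have hcop' : ¬ p ∣ Nat.card (H ⧸ N) := by
      intro h
      apply hcop
      rw [card_eq_card_quotient_mul_card_subgroup N]
      exact h.mul_right _
    have hKKq : (c : H ⧸ N) ∈ KK (quo x N hN) := by
      have h4 : KK x ≤ (KK (quo x N hN)).comap (QuotientGroup.mk' N) := by
        conv_lhs => rw [KK]
        rw [closure_le]
        rintro _ ⟨h, i, rfl⟩
        rw [SetLike.mem_coe, mem_comap]
        have h5 : (QuotientGroup.mk' N) (h⁻¹ * (x ^ i) h) = (h : H ⧸ N)⁻¹ * (quo x N hN ^ i) (h : H ⧸ N) := by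
          rw [quo_pow_mk]; rfl
        rw [h5]
        exact gen_mem_KK _ _ i
      have h6 : c ∈ KK x := by rw [hKK]; exact mem_top c
      exact h4 h6
    have h7 := ih (Nat.card (H ⧸ N)) hcard (quo x N hN) (quo_pow hx N hN) hcop' rfl
      (Subgroup.mem_inf.2 ⟨hKKq, by rw [mem_Fx, quo_mk, hc]⟩ :
        (c : H ⧸ N) ∈ KK (quo x N hN) ⊓ Fx (quo x N hN))
    obtain ⟨d, hd, hdc⟩ := D_quo hx hcop N hN h7
    refine ⟨d, hd, d⁻¹ * c, QuotientGroup.eq.1 hdc, ?_, by group⟩
    have hdf : x d = d := D_le x hd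
    rw [map_mul, map_inv, hdf, hc]
  -- if all fixed points of a normal subgroup are in `D [C, C]` then it is trivial
  have F3 : ∀ (N : Subgroup H) [N.Normal], (∀ l ∈ N, x l ∈ N) →
      (∀ m ∈ N, x m = m → m ∈ D x ⊔ ⁅Fx x, Fx x⁆) → N = ⊥ := by
    intro N _ hN hm
    by_contra hN1
    apply hC0
    intro c hc
    obtain ⟨d, hd, m, hmN, hmf, rfl⟩ := F2 N hN hN1 c hc
    exact mul_mem ((le_sup_left : D x ≤ D x ⊔ ⁅Fx x, Fx x⁆) hd) (hm m hmN hmf)
  -- Step 4
  have hAb : ∀ (L : Subgroup H) [L.Normal], (∀ l ∈ L, x l ∈ L) → L ≠ ⊤ → ⁅L, L⁆ = ⊥ := by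
    intro L _ hL hLt
    apply F3
    · intro l hl
      have h1 : ⁅L, L⁆ ≤ (⁅L, L⁆).comap (x : H →* H) := by
        rw [commutator_le]
        intro a ha b hb
        rw [mem_comap, map_commutatorElement]
        exact commutator_mem_commutator (hL a ha) (hL b hb)
      exact h1 hl
    · intro m hm hfix
      have hmL : m ∈ L := commutator_le_self L hm
      have h2 : (⟨m, hmL⟩ : L) ∈ commutator L := by
        have h3 : (commutator L).map L.subtype = ⁅L, L⁆ := by
          rw [_root_.commutator_def, map_commutator, ← MonoidHom.range_eq_map, Subgroup.range_subtype]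
        rw [← h3] at hm
        obtain ⟨m', hm', he⟩ := hm
        have : m' = ⟨m, hmL⟩ := Subtype.ext he
        rw [← this]; exact hm'
      obtain ⟨k, hk, c, hc, hkc⟩ := comm_fix (res_pow hx L hL) (not_dvd_sub hcop L) h2 (Subtype.ext hfix)
      have h4 : m = (k : H) * (c : H) := congrArg Subtype.val hkc
      rw [h4]
      refine mul_mem ((le_sup_left : D x ≤ D x ⊔ ⁅Fx x, Fx x⁆) ?_)
        ((le_sup_right : ⁅Fx x, Fx x⁆ ≤ D x ⊔ ⁅Fx x, Fx x⁆) ?_)
      · exact F1 L hL hLt k hk.1 (congrArg Subtype.val hk.2)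
      · have h5 : (⁅Fx (res x L hL), Fx (res x L hL)⁆).map L.subtype ≤ ⁅Fx x, Fx x⁆ := by
          rw [map_commutator]
          apply commutator_mono
          · rintro _ ⟨y, hy, rfl⟩
            exact congrArg Subtype.val hy
          · rintro _ ⟨y, hy, rfl⟩
            exact congrArg Subtype.val hy
        exact h5 ⟨c, hc, rfl⟩
  -- Step 5
  have hne : (⊥ : Subgroup H) ≠ ⊤ := by
    intro h
    apply hC0
    intro c _
    have : c ∈ (⊥ : Subgroup H) := by rw [h]; exact mem_top c
    rw [mem_bot.1 this]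
    exact one_mem _
  obtain ⟨M, hM⟩ := Set.Finite.exists_maximal (Set.toFinite {L : Subgroup H | L.Normal ∧ (∀ l ∈ L, x l ∈ L) ∧ L ≠ ⊤})
    ⟨⊥, inferInstance, by
      intro l hl
      rw [mem_bot] at hl ⊢
      rw [hl, map_one], hne⟩
  obtain ⟨⟨hMn, hMx, hMt⟩, hMmax⟩ := hM
  have hmax : ∀ L : Subgroup H, L.Normal → (∀ l ∈ L, x l ∈ L) → M ≤ L → L = M ∨ L = ⊤ := by
    intro L hLn hLx hML
    by_cases hLt : L = ⊤
    · exact Or.inr hLt
    · exact Or.inl (le_antisymm (hMmax ⟨hLn, hLx, hLt⟩ hML) hML)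
  have supInv : ∀ A B : Subgroup H, (∀ l ∈ A, x l ∈ A) → (∀ l ∈ B, x l ∈ B) → ∀ l ∈ A ⊔ B, x l ∈ A ⊔ B := by
    intro A B hA hB
    have h1 : A ⊔ B ≤ (A ⊔ B).comap (x : H →* H) := by
      apply sup_le
      · intro a ha; exact (le_sup_left : A ≤ A ⊔ B) (hA a ha)
      · intro b hb; exact (le_sup_right : B ≤ A ⊔ B) (hB b hb)
    exact h1
  have hcomInv : ∀ l ∈ commutator H, x l ∈ commutator H := by
    have h1 : commutator H ≤ (commutator H).comap (x : H →* H) := by
      conv_lhs => rw [_root_.commutator_def]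
      rw [commutator_le]
      intro a _ b _
      rw [mem_comap, map_commutatorElement]
      exact commutator_mem_commutator (mem_top _) (mem_top _)
    exact h1
  have hcomM : commutator H ≤ M := by
    rcases hmax (M ⊔ commutator H) inferInstance (supInv _ _ hMx hcomInv) le_sup_left with h | h
    · rw [← h]; exact le_sup_right
    · exfalso
      have hnt : Nontrivial (H ⧸ M) := by
        rw [QuotientGroup.nontrivial_iff]
        exact hMt
      have h3 := Group.IsSolvable.commutator_lt_top_of_nontrivial (H ⧸ M)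
      apply h3.ne
      have h4 := congrArg (fun S => S.map (QuotientGroup.mk' M)) h
      simp only [Subgroup.map_sup] at h4
      rw [_root_.commutator_def, map_commutator, ← MonoidHom.range_eq_map,
        MonoidHom.range_eq_top.2 (QuotientGroup.mk'_surjective _)] at h4
      have h5 : M.map (QuotientGroup.mk' M) = ⊥ := by
        rw [Subgroup.map_eq_bot_iff, QuotientGroup.ker_mk']
      rw [h5, bot_sup_eq] at h4
      exact h4
  have hnorm : ∀ L : Subgroup H, commutator H ≤ L → L.Normal := by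
    intro L hL
    refine ⟨fun l hl g => ?_⟩
    have h1 : g * l * g⁻¹ = ⁅g, l⁆ * l := by rw [commutatorElement_def]; group
    rw [h1]
    refine mul_mem (hL ?_) hl
    exact commutator_mem_commutator (mem_top _) (mem_top _)
  have hmax' : ∀ L : Subgroup H, (∀ l ∈ L, x l ∈ L) → M ≤ L → L = M ∨ L = ⊤ :=
    fun L hLx hML => hmax L (hnorm L (hcomM.trans hML)) hLx hML
  have hFxInv : ∀ l ∈ Fx x, x l ∈ Fx x := by
    intro l hl
    rw [show x l = l from hl]; exact hl
  have hCM : Fx x ≤ M := by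
    rcases hmax' (Fx x ⊔ M) (supInv _ _ hFxInv hMx) le_sup_right with h | h
    · rw [← h]; exact le_sup_left
    · exfalso
      apply hMt
      rw [eq_top_iff, ← hKK, KK, closure_le]
      rintro _ ⟨h', i, rfl⟩
      have h1 : h' ∈ Fx x ⊔ M := by rw [h]; exact mem_top _
      obtain ⟨c, hc, m, hm, rfl⟩ := mem_sup_of_normal_right.1 h1
      have h2 : ∀ i : ℕ, (x ^ i) m ∈ M := by
        intro i
        induction i with
        | zero => exact hm
        | succ i ih => rw [pow_succ', MulAut.mul_apply]; exact hMx _ ih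
      rw [map_mul, pow_fix hc]
      have h3 : (c * m)⁻¹ * (c * (x ^ i) m) = m⁻¹ * (x ^ i) m := by group
      rw [h3]
      exact mul_mem (inv_mem hm) (h2 i)
  have hMab : IsMulCommutative M := by
    have h1 := hAb M hMx hMt
    refine ⟨⟨fun a b => ?_⟩⟩
    apply Subtype.ext
    have h2 : ⁅(a : H), (b : H)⁆ = 1 := by
      have : ⁅(a : H), (b : H)⁆ ∈ ⁅M, M⁆ := commutator_mem_commutator a.2 b.2
      rw [h1] at this
      exact mem_bot.1 this
    exact commutatorElement_eq_one_iff_mul_comm.1 h2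
  have hMc : ∀ a ∈ M, ∀ b ∈ M, a * b = b * a := by
    intro a ha b hb
    have h1 : (⟨a, ha⟩ : M) * ⟨b, hb⟩ = ⟨b, hb⟩ * ⟨a, ha⟩ := mul_comm _ _
    exact congrArg Subtype.val h1
  have hKM : ∀ h, h ∉ M → K x h ⊔ M = ⊤ := by
    intro h hh
    rcases hmax' (K x h ⊔ M) (supInv _ _ (K_inv x h) hMx) le_sup_right with h1 | h1
    · exfalso
      apply hh
      have h2 : h⁻¹ * x h ∈ M := by
        rw [← h1]
        have := gen_mem_K x h 1
        rw [pow_one] at this
        exact (le_sup_left : K x h ≤ K x h ⊔ M) this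
      obtain ⟨l, hl, hfix⟩ := fixpt hx hMx (not_dvd_sub hcop M) h2
      have h3 : h * l ∈ M := hCM hfix
      have : h = (h * l) * l⁻¹ := by group
      rw [this]
      exact mul_mem h3 (inv_mem hl)
    · exact h1
  have hKM' : ∀ h, h ∉ M → K x h ⊓ M = ⊥ := by
    intro h hh
    haveI : (K x h ⊓ M).Normal := by
      refine ⟨fun n hn g => ?_⟩
      have h1 : g ∈ K x h ⊔ M := by rw [hKM h hh]; exact mem_top g
      obtain ⟨k, hk, m, hm, rfl⟩ := mem_sup_of_normal_right.1 h1
      have h2 : m * n * m⁻¹ = n := by rw [hMc m hm n hn.2]; group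
      have h3 : k * m * n * (k * m)⁻¹ = k * n * k⁻¹ := by
        calc k * m * n * (k * m)⁻¹ = k * (m * n * m⁻¹) * k⁻¹ := by group
          _ = _ := by rw [h2]
      rw [h3]
      exact Subgroup.mem_inf.2 ⟨mul_mem (mul_mem hk hn.1) (inv_mem hk), hMn.conj_mem n hn.2 k⟩
    apply F3
    · intro l hl
      exact ⟨K_inv x h l hl.1, hMx l hl.2⟩
    · intro m hm hfix
      exact (le_sup_left : D x ≤ D x ⊔ ⁅Fx x, Fx x⁆) (le_D x h ⟨hm.1, hfix⟩)
  have hKc : ∀ h, h ∉ M → ∀ a ∈ K x h, ∀ b ∈ K x h, a * b = b * a := by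
    intro h hh a ha b hb
    have h1 : ⁅a, b⁆ ∈ K x h ⊓ M := by
      refine Subgroup.mem_inf.2 ⟨?_, hcomM (commutator_mem_commutator (mem_top _) (mem_top _))⟩
      rw [commutatorElement_def]
      exact mul_mem (mul_mem (mul_mem ha hb) (inv_mem ha)) (inv_mem hb)
    rw [hKM' h hh, mem_bot] at h1
    exact commutatorElement_eq_one_iff_mul_comm.1 h1
  obtain ⟨h₀, hh₀⟩ : ∃ h, h ∉ M := by
    by_contra hall
    push Not at hall
    exact hMt (eq_top_iff.2 (fun h _ => hall h))
  set T := K x h₀ with hT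
  have hTx := K_inv x h₀
  rw [← hT] at hTx
  have hTab : IsMulCommutative T := ⟨⟨fun a b => Subtype.ext (hKc h₀ hh₀ a a.2 b b.2)⟩⟩
  have hTM := hKM' h₀ hh₀
  rw [← hT] at hTM
  have hdec : ∀ g : H, ∃ m ∈ M, ∃ t ∈ T, g = m * t := by
    intro g
    have h1 : g ∈ M ⊔ T := by rw [sup_comm, hKM h₀ hh₀]; exact mem_top g
    obtain ⟨m, hm, t, ht, rfl⟩ := mem_sup_of_normal_left.1 h1
    exact ⟨m, hm, t, ht, rfl⟩
  have hrel : ∀ h ∈ T, ∀ v ∈ M, ((v * h)⁻¹ * x (v * h)) * ((v * h)⁻¹ * x (x (v * h))) =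
      ((v * h)⁻¹ * x (x (v * h))) * ((v * h)⁻¹ * x (v * h)) := by
    intro h hh v hv
    by_cases h1 : h ∈ M
    · have h2 : v * h ∈ M := mul_mem hv h1
      exact hMc _ (mul_mem (inv_mem h2) (hMx _ h2)) _ (mul_mem (inv_mem h2) (hMx _ (hMx _ h2)))
    · have h2 : v * h ∉ M := by
        intro h3
        apply h1
        have : h = v⁻¹ * (v * h) := by group
        rw [this]
        exact mul_mem (inv_mem hv) h3
      apply hKc (v * h) h2
      · have := gen_mem_K x (v * h) 1
        rwa [pow_one] at this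
      · have := gen_mem_K x (v * h) 2
        rwa [pow_two, MulAut.mul_apply] at this
  have hI := ident M T hMx hTx hrel
  -- surjectivity
  have hTfix : ∀ t : T, res x T hTx t = t → t = 1 := by
    intro t ht
    have h1 : x (t : H) = t := congrArg Subtype.val ht
    have h2 : (t : H) ∈ T ⊓ M := ⟨t.2, hCM h1⟩
    rw [hTM, mem_bot] at h2
    exact Subtype.ext h2
  have hTfix2 : ∀ t : T, res x T hTx (res x T hTx t) = t → t = 1 := by
    intro t ht
    apply hTfix
    have h1 : (res x T hTx ^ 2) t = t := by rw [pow_two, MulAut.mul_apply]; exact ht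
    have hodd : p % 2 = 1 := by
      rcases hp.out.eq_two_or_odd with h | h
      · exact absurd h hp2
      · exact h
    have h2 : ((res x T hTx ^ 2) ^ ((p + 1) / 2)) t = t := by
      generalize (p + 1) / 2 = k
      induction k with
      | zero => rfl
      | succ k ih => rw [pow_succ, MulAut.mul_apply, h1, ih]
    rw [← pow_mul, show 2 * ((p + 1) / 2) = p + 1 by omega, pow_succ, res_pow hx, one_mul] at h2
    exact h2
  have surj : ∀ σ : T → T, (∀ a b, σ (a * b) = σ a * σ b) → (∀ t, σ t = t → t = 1) → ∀ t, ∃ s, t = s⁻¹ * σ s := by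
    intro σ hσ hfix
    let f : T →* T :=
      { toFun := fun s => s⁻¹ * σ s
        map_one' := by
          have : σ 1 = 1 := by
            have := hσ 1 1
            rw [mul_one] at this
            exact (mul_eq_left.1 this.symm)
          rw [this]; simp
        map_mul' := by
          intro a b
          rw [hσ, mul_inv]
          exact mul_mul_mul_comm _ _ _ _ }
    have hinj : Function.Injective f := by
      rw [injective_iff_map_eq_one]
      intro a ha
      apply hfix
      have : a⁻¹ * σ a = 1 := ha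
      exact (inv_mul_eq_one.1 this).symm
    have hs : Function.Surjective f := Finite.surjective_of_injective hinj
    intro t
    obtain ⟨s, hs⟩ := hs t
    exact ⟨s, hs.symm⟩
  set σ : T →* T := (res x T hTx : T →* T) with hσ
  have s1 := surj σ (fun a b => map_mul σ a b) hTfix
  have s2 := surj (fun t => σ (σ t)) (fun a b => by simp only [map_mul]) hTfix2
  have s3 : ∀ t : T, ∃ s, t = (σ s)⁻¹ * σ (σ s) := by
    intro t
    obtain ⟨s, hs⟩ := s1 t
    have hsur : Function.Surjective σ := (res x T hTx).surjective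
    obtain ⟨s', rfl⟩ := hsur s
    exact ⟨s', hs⟩
  set X := Xe M x hMx with hX
  have hXp : X ^ p = 1 := Xe_pow M hx hMx
  have hXY : X * X ^ (p - 1) = 1 := by
    rw [← pow_succ', Nat.sub_add_cancel hp.out.one_le, hXp]
  have hXr : ∀ t : T, X * rho M T t = rho M T (σ t) * X := fun t => Xe_rho M T hMx hTx t
  set B : Subgroup H := ⁅M, (⊤ : Subgroup H)⁆ with hB
  haveI hBn : B.Normal := by rw [hB]; infer_instance
  have hBM : B ≤ M := commutator_le_left M ⊤
  have hBx : ∀ l ∈ B, x l ∈ B := by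
    have h1 : B ≤ B.comap (x : H →* H) := by
      conv_lhs => rw [hB]
      rw [commutator_le]
      intro a ha b _
      rw [mem_comap, map_commutatorElement]
      exact commutator_mem_commutator (hMx a ha) (mem_top _)
    exact h1
  have hcomB : commutator H ≤ B := by
    rw [_root_.commutator_def, commutator_le]
    intro a _ b _
    obtain ⟨m, hm, t, ht, rfl⟩ := hdec a
    obtain ⟨m', hm', t', ht', rfl⟩ := hdec b
    have cen : ∀ m ∈ M, ∀ g : H, ((m : H) : H ⧸ B) * (g : H ⧸ B) = (g : H ⧸ B) * (m : H ⧸ B) := by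
      intro m hm g
      rw [← QuotientGroup.mk_mul, ← QuotientGroup.mk_mul, QuotientGroup.eq_iff_div_mem]
      have : m * g / (g * m) = ⁅m, g⁆ := by rw [commutatorElement_def, div_eq_mul_inv]; group
      rw [this]
      exact commutator_mem_commutator hm (mem_top g)
    have hTT : (t : H ⧸ B) * (t' : H ⧸ B) = (t' : H ⧸ B) * (t : H ⧸ B) := by
      rw [← QuotientGroup.mk_mul, ← QuotientGroup.mk_mul, hKc h₀ hh₀ t ht t' ht']
    rw [← QuotientGroup.eq_one_iff]
    have h1 : ((⁅m * t, m' * t'⁆ : H) : H ⧸ B) = ⁅((m * t : H) : H ⧸ B), ((m' * t' : H) : H ⧸ B)⁆ := rfl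
    rw [h1, commutatorElement_eq_one_iff_mul_comm, QuotientGroup.mk_mul, QuotientGroup.mk_mul]
    calc (m : H ⧸ B) * t * (m' * t') = m * (t * m') * t' := by simp only [mul_assoc]
      _ = m * (m' * t) * t' := by rw [cen m' hm' t]
      _ = (m * m') * (t * t') := by simp only [mul_assoc]
      _ = (m' * m) * (t' * t) := by rw [cen m hm m', hTT]
      _ = m' * (m * t') * t := by simp only [mul_assoc]
      _ = m' * (t' * m) * t := by rw [cen m hm t']
      _ = _ := by simp only [mul_assoc]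
  have hLinv := supInv T B hTx hBx
  haveI hLn : (T ⊔ B).Normal := hnorm _ (hcomB.trans le_sup_right)
  have hTBM : ∀ m ∈ M, m ∈ T ⊔ B → m ∈ B := by
    intro m hm h
    obtain ⟨t, ht, b, hb, rfl⟩ := mem_sup_of_normal_right.1 h
    have h1 : t ∈ T ⊓ M := by
      refine Subgroup.mem_inf.2 ⟨ht, ?_⟩
      have : t = (t * b) * b⁻¹ := by group
      rw [this]
      exact mul_mem hm (inv_mem (hBM hb))
    rw [hTM, mem_bot] at h1
    rw [h1, one_mul]; exact hb
  by_cases hLt : T ⊔ B = ⊤
  · -- `M = [M, T]`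
    have hMB : ∀ m ∈ M, m ∈ B := fun m hm => hTBM m hm (by rw [hLt]; exact mem_top m)
    have h3 := elim (rho M T) σ X (X ^ (p - 1)) hXY hXr hI s1 s2 s3
    have kk : ∀ e : AddMonoid.End (Additive M), (∀ t : T, e * (rho M T t - 1) = 0) → e = 0 := by
      intro e he
      refine AddMonoidHom.ext fun z => ?_
      exact kill M T e he hdec z (hMB _ (vl_mem M z))
    have h2 : ∀ a b : T, (rho M T a - 1) * (rho M T b - 1) = 0 := fun a b => kk _ (fun t => h3 a b t)
    have h1 : ∀ a : T, (rho M T a - 1) = 0 := fun a => kk _ (fun t => h2 a t)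
    have h0 : (1 : AddMonoid.End (Additive M)) = 0 := kk _ (fun t => by rw [h1 t, mul_zero])
    apply hFD
    intro c hc
    have hcM := hCM hc
    have h4 := congrArg (fun f : AddMonoid.End (Additive M) => vl M (f (Additive.ofMul ⟨c, hcM⟩))) h0
    have h5 : c = 1 := h4
    rw [h5]
    exact one_mem _
  · have hLab := hAb (T ⊔ B) hLinv hLt
    have hTB : ∀ t ∈ T, ∀ b ∈ B, t * b = b * t := by
      intro t ht b hb
      have h1 : ⁅t, b⁆ ∈ ⁅T ⊔ B, T ⊔ B⁆ := commutator_mem_commutator
        ((le_sup_left : T ≤ T ⊔ B) ht) ((le_sup_right : B ≤ T ⊔ B) hb)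
      rw [hLab, mem_bot] at h1
      exact commutatorElement_eq_one_iff_mul_comm.1 h1
    have hq : ∀ s t : T, (rho M T s - 1) * (rho M T t - 1) = 0 := by
      intro s t
      refine AddMonoidHom.ext fun z => ?_
      apply vl_inj
      change vl M (rho M T s (rho M T t z - z) - (rho M T t z - z)) = 1
      rw [vl_sub, vl_rho, vl_sub, vl_rho]
      have h1 : (t : H) * vl M z * (t : H)⁻¹ * (vl M z)⁻¹ ∈ B := by
        have h2 : (t : H) * vl M z * (t : H)⁻¹ * (vl M z)⁻¹ = ⁅vl M z, (t : H)⁆⁻¹ := by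
          rw [commutatorElement_def]; group
        rw [h2]
        exact inv_mem (commutator_mem_commutator (vl_mem M z) (mem_top _))
      rw [hTB s s.2 _ h1]
      group
    have hN : (∑ i ∈ Finset.range p, X ^ i) * X = ∑ i ∈ Finset.range p, X ^ i := by
      have h1 := geom_sum_mul X p
      rw [hXp, sub_self, mul_sub, mul_one, sub_eq_zero] at h1
      exact h1
    have hk := norm_kill (rho M T) σ X _ hN hXr hI hq s1 s2
    have hBfix : ∀ b ∈ B, x b = b → b = 1 := by
      intro b hb hfix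
      have hbM := hBM hb
      have h1 := kill M T _ hk hdec (Additive.ofMul ⟨b, hbM⟩) hb
      have h2 : ∀ i : ℕ, (X ^ i) (Additive.ofMul (⟨b, hbM⟩ : M)) = Additive.ofMul ⟨b, hbM⟩ := by
        intro i
        apply vl_inj
        refine (vl_Xe_pow M x hMx i _).trans ?_
        exact pow_fix hfix i
      have h3 : (∑ i ∈ Finset.range p, X ^ i) (Additive.ofMul (⟨b, hbM⟩ : M)) =
          ∑ i ∈ Finset.range p, (X ^ i) (Additive.ofMul (⟨b, hbM⟩ : M)) :=
        AddMonoidHom.finset_sum_apply _ _ _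
      rw [h3, Finset.sum_congr rfl (fun i _ => h2 i), Finset.sum_const, Finset.card_range] at h1
      have h4 : b ^ p = 1 := congrArg (vl M) h1
      have h5 : orderOf b ∣ p := orderOf_dvd_of_pow_eq_one h4
      rcases (Nat.dvd_prime hp.out).1 h5 with h | h
      · exact orderOf_eq_one_iff.1 h
      · exfalso
        apply hcop
        rw [← h]
        exact orderOf_dvd_natCard b
    have hLbot : T ⊔ B = ⊥ := by
      apply F3 _ hLinv
      intro m hm hfix
      rw [hBfix m (hTBM m (hCM hfix) hm) hfix]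
      exact one_mem _
    have hTbot : T = ⊥ := le_bot_iff.1 (hLbot ▸ le_sup_left)
    have := hKM h₀ hh₀
    rw [← hT, hTbot, bot_sup_eq] at this
    exact hMt this

end Cfsg.Agent.H20.Flav
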