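import Mathlib
import Cfsg.Agent.H20.GIsoM
import Cfsg.Agent.H20.GIsoE
import Cfsg.Agent.Fus.Alperin

/-!
Glauberman: dihedral modulo `O_2` (S4385). Owner: helper20.
-/

set_option autoImplicit false
set_option maxHeartbeats 800000

namespace Cfsg.Agent.H20.GIso

open Subgroup
open Pointwise

theorem dihedral_odd {L : Type*} [Group L] [Finite L] {n : ℕ} (hn : 2 ≤ n) {φ : L →* DihedralGroup n}
    (hφ : Function.Surjective φ) (hker : φ.ker = Cfsg.pCore 2 L) : Odd n := by
  haveI : NeZero n := ⟨by omega⟩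
  by_contra hodd
  rw [Nat.not_odd_iff_even] at hodd
  obtain ⟨m, hm⟩ := hodd
  have hmn : ((m : ZMod n) + m) = 0 := by
    rw [← Nat.cast_add, ← hm, ZMod.natCast_self]
  have hm0 : (m : ZMod n) ≠ 0 := by
    intro h0
    rw [ZMod.natCast_eq_zero_iff] at h0
    have := Nat.le_of_dvd (by omega) h0
    omega
  have hsq : (DihedralGroup.r (m : ZMod n)) * DihedralGroup.r (m : ZMod n) = 1 := by
    rw [DihedralGroup.r_mul_r, hmn]; rfl
  have hcent : ∀ d : DihedralGroup n, Commute d (DihedralGroup.r (m : ZMod n)) := by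
    rintro (i | i)
    · change DihedralGroup.r i * DihedralGroup.r (m : ZMod n) = DihedralGroup.r (m : ZMod n) * DihedralGroup.r i
      rw [DihedralGroup.r_mul_r, DihedralGroup.r_mul_r, add_comm]
    · change DihedralGroup.sr i * DihedralGroup.r (m : ZMod n) = DihedralGroup.r (m : ZMod n) * DihedralGroup.sr i
      rw [DihedralGroup.sr_mul_r, DihedralGroup.r_mul_sr]
      congr 1
      rw [sub_eq_add_neg, ← eq_neg_of_add_eq_zero_left hmn]
  have hZn : (zpowers (DihedralGroup.r (m : ZMod n))).Normal := by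
    haveI : Finite (DihedralGroup n) := Finite.of_surjective φ hφ
    rw [← normalizer_eq_top_iff, eq_top_iff]
    intro w _
    exact norm_zpowers_of_commute (hcent w)
  have hZp : IsPGroup 2 (zpowers (DihedralGroup.r (m : ZMod n))) := by
    apply IsPGroup.of_card (n := 1)
    rw [Nat.card_zpowers, pow_one]
    apply orderOf_eq_prime (by rw [pow_two, hsq])
    intro h1
    apply hm0
    have : DihedralGroup.r (m : ZMod n) = DihedralGroup.r 0 := h1
    exact DihedralGroup.r.inj this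
  have hle : (zpowers (DihedralGroup.r (m : ZMod n))).comap φ ≤ φ.ker := by
    rw [hker]
    apply Cfsg.Agent.Fus.le_pCore (hZn.comap φ)
    exact hZp.comap_of_ker_isPGroup φ (by rw [hker]; exact Cfsg.Agent.Fus.isPGroup_pCore 2 L)
  obtain ⟨z, hz⟩ := hφ (DihedralGroup.r (m : ZMod n))
  have h1 : z ∈ φ.ker := hle (by rw [mem_comap, hz]; exact mem_zpowers _)
  rw [MonoidHom.mem_ker, hz] at h1
  have : DihedralGroup.r (m : ZMod n) = DihedralGroup.r 0 := h1
  exact hm0 (DihedralGroup.r.inj this)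

/-- the image of a Sylow 2-subgroup in a dihedral group `D_n`, `n` odd -/
theorem sylow_image {L : Type*} [Group L] [Finite L] {n : ℕ} (hn : Odd n) {φ : L →* DihedralGroup n}
    (hφ : Function.Surjective φ) {P : Subgroup L} (hP : IsPGroup 2 P) (hidx : ¬ 2 ∣ P.index) :
    ∃ i : ZMod n, P.map φ = zpowers (DihedralGroup.sr i) := by
  haveI : NeZero n := ⟨hn.pos.ne'⟩
  haveI : Fact (Nat.Prime 2) := ⟨Nat.prime_two⟩
  haveI : Finite (DihedralGroup n) := Finite.of_surjective φ hφ
  have hc := DihedralGroup.nat_card (n := n)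
  have h1 : (P.map φ).index ∣ P.index := index_map_dvd P hφ
  have h2 := (P.map φ).card_mul_index
  rw [hc] at h2
  obtain ⟨k, hk⟩ := (IsPGroup.iff_card.1 (hP.map φ))
  have h3 : Nat.card (P.map φ) = 2 := by
    have h4 : 2 ∣ Nat.card (P.map φ) := by
      have : 2 ∣ Nat.card (P.map φ) * (P.map φ).index := by rw [h2]; exact dvd_mul_right 2 n
      rcases (Nat.Prime.dvd_mul Nat.prime_two).1 this with h5 | h5
      · exact h5
      · exact absurd (h5.trans h1) hidx
    have h5 : ¬ 4 ∣ Nat.card (P.map φ) := by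
      intro h6
      have h7 : 4 ∣ 2 * n := by rw [← h2]; exact h6.trans (dvd_mul_right _ _)
      obtain ⟨c, hc⟩ := h7
      obtain ⟨d, hd⟩ := hn
      omega
    rw [hk] at h4 h5 ⊢
    have h6 : k ≠ 0 := by
      rintro rfl
      norm_num at h4
    have h7 : ¬ 2 ≤ k := by
      intro h8
      apply h5
      rw [show 4 = 2 ^ 2 by norm_num]
      exact pow_dvd_pow 2 h8
    have : k = 1 := by omega
    rw [this]; norm_num
  obtain ⟨d, hd⟩ := exists_prime_orderOf_dvd_card' (G := P.map φ) 2 (by rw [h3])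
  have hd' : orderOf (d : DihedralGroup n) = 2 := by rw [Subgroup.orderOf_coe, hd]
  rcases hdd : (d : DihedralGroup n) with i | i
  · exfalso
    rw [hdd] at hd'
    have h4 : (DihedralGroup.r i) ^ n = 1 := by
      rw [DihedralGroup.r_pow, ZMod.natCast_self, mul_zero]; rfl
    have h5 := orderOf_dvd_of_pow_eq_one h4
    rw [hd'] at h5
    obtain ⟨c, hc⟩ := h5
    obtain ⟨e, he⟩ := hn
    omega
  · refine ⟨i, ?_⟩
    symm
    apply Subgroup.eq_of_le_of_card_ge
    · rw [zpowers_le, ← hdd]; exact d.2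
    · rw [h3, Nat.card_zpowers, ← hdd, hd']

theorem main4385 {G : Type*} [Group G] [Finite G]
    (H : Subgroup G) (hO : Cfsg.pCore 2 ↥H ≠ ⊥) (n : ℕ) (hn : 2 ≤ n) (hdih : Nonempty (↥H ⧸ Cfsg.pCore 2 ↥H ≃* DihedralGroup n))
    (P : Subgroup G) (hPH : P ≤ H) (hP : IsPGroup 2 P) (hPsyl : ¬ 2 ∣ P.relIndex H)
    (y : G) (hy2 : y ^ 2 ∈ P ⊔ Subgroup.centralizer (P : Set G)) (hyN : MulAut.conj y • P = P)
    (hyQ : ∀ Q : Subgroup G, Q ≤ P → (Q.subgroupOf H).Normal → MulAut.conj y • Q = Q → Q = ⊥) :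
    ∃ g x t, 2 ≤ t ∧ t ≤ 4 ∧ GS g x 2 t ∧ Sg g x 0 t = P ∧ Sg g x 0 (t + 1) = H ∧
      (∀ z ∈ Sg g x 0 t, (∀ w ∈ Sg g x 0 (t + 2), z * w = w * z) → z = 1) ∧ Odd n ∧ Nat.card H = n * 2 ^ t := by
  haveI : NeZero n := ⟨by omega⟩
  haveI : Fact (Nat.Prime 2) := ⟨Nat.prime_two⟩
  haveI : Fact (1 < n) := ⟨by omega⟩
  obtain ⟨ε⟩ := hdih
  haveI : (Cfsg.pCore 2 ↥H).Normal := Cfsg.pCore_normal 2 ↥H
  set φ : ↥H →* DihedralGroup n := ε.toMonoidHom.comp (QuotientGroup.mk' (Cfsg.pCore 2 ↥H)) with hφd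
  have hφ : Function.Surjective φ := ε.surjective.comp (QuotientGroup.mk'_surjective _)
  have hker : φ.ker = Cfsg.pCore 2 ↥H := by
    ext z
    rw [MonoidHom.mem_ker]
    change ε (QuotientGroup.mk z) = 1 ↔ _
    rw [map_eq_one_iff _ ε.injective, QuotientGroup.eq_one_iff]
  have hodd := dihedral_odd hn hφ hker
  have hP' : IsPGroup 2 (P.subgroupOf H) := hP.comap_of_injective H.subtype H.subtype_injective
  obtain ⟨i, hi⟩ := sylow_image hodd hφ hP' hPsyl
  have hOP : Cfsg.pCore 2 ↥H ≤ P.subgroupOf H := Cfsg.Agent.Fus.pCore_le_sylow (hP'.toSylow hPsyl)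
  -- φ on P
  have hsr : ∀ i : ZMod n, (DihedralGroup.sr i) * DihedralGroup.sr i = 1 := fun i => by
    rw [DihedralGroup.sr_mul_sr, sub_self]; rfl
  have hφP : ∀ p : ↥H, (p : G) ∈ P → φ p = 1 ∨ φ p = DihedralGroup.sr i := by
    intro p hp
    apply zpowers_mem_two (hsr i)
    rw [← hi]
    exact ⟨p, hp, rfl⟩
  obtain ⟨p0, hp0, hp0i⟩ : ∃ p0 : ↥H, (p0 : G) ∈ P ∧ φ p0 = DihedralGroup.sr i := by
    have : DihedralGroup.sr i ∈ (P.subgroupOf H).map φ := by rw [hi]; exact mem_zpowers _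
    obtain ⟨p0, h1, h2⟩ := this
    exact ⟨p0, h1, h2⟩
  obtain ⟨k, hk⟩ := id hodd
  obtain ⟨h, hh⟩ := hφ (DihedralGroup.r ((k + 1 : ℕ) : ZMod n))
  have h2j : ((k + 1 : ℕ) : ZMod n) + ((k + 1 : ℕ) : ZMod n) = 1 := by
    rw [← Nat.cast_add, show k + 1 + (k + 1) = n + 1 by omega, Nat.cast_add, ZMod.natCast_self, zero_add, Nat.cast_one]
  have hconj : ∀ z : ↥H, φ z = DihedralGroup.sr i → φ (h⁻¹ * z * h) = DihedralGroup.sr (i + 1) := by
    intro z hz
    rw [map_mul, map_mul, map_inv, hh, hz, DihedralGroup.inv_r, DihedralGroup.r_mul_sr, DihedralGroup.sr_mul_r,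
      sub_neg_eq_add, add_assoc, h2j]
  have hφPh : ∀ z : ↥H, (z : G) ∈ cg (h : G) P → φ z = 1 ∨ φ z = DihedralGroup.sr (i + 1) := by
    intro z hz
    rw [mem_cg] at hz
    have h1 : ((h * z * h⁻¹ : ↥H) : G) ∈ P := hz
    have h2 : z = h⁻¹ * (h * z * h⁻¹) * h := by group
    rcases hφP _ h1 with h3 | h3
    · left
      rw [h2, map_mul, map_mul, h3, mul_one, ← map_mul, inv_mul_cancel, map_one]
    · right
      rw [h2]; exact hconj _ h3
  set O := (Cfsg.pCore 2 ↥H).map H.subtype with hOd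
  have hOP' : O ≤ P := by
    rintro _ ⟨z, hz, rfl⟩
    exact hOP hz
  have hHO : H ≤ normalizer (O : Set G) := by
    intro w hw
    apply mem_normalizer_fintype
    rintro _ ⟨z, hz, rfl⟩
    exact ⟨⟨w, hw⟩ * z * ⟨w, hw⟩⁻¹, (Cfsg.pCore_normal 2 ↥H).conj_mem z hz _, rfl⟩
  have hmemO : ∀ z : ↥H, φ z = 1 → (z : G) ∈ O := by
    intro z hz
    refine ⟨z, ?_, rfl⟩
    have : z ∈ φ.ker := hz
    rwa [hker] at this
  have hThH : cg (h : G) P ≤ H := by
    have h1 : cg (h : G) H = H := cg_of_mem (le_normalizer h.2)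
    exact (cg_mono hPH).trans h1.le
  have hOPh : O ≤ cg (h : G) P := by
    intro z hz
    rw [mem_cg]
    exact hOP' ((mem_normalizer_iff.1 (hHO h.2) z).1 hz)
  have hinf : P ⊓ cg (h : G) P = O := by
    apply le_antisymm _ (le_inf hOP' hOPh)
    intro z hz
    obtain ⟨hz1, hz2⟩ := mem_inf.1 hz
    have hzH := hPH hz1
    rcases hφP ⟨z, hzH⟩ hz1 with h3 | h3
    · exact hmemO _ h3
    · rcases hφPh ⟨z, hzH⟩ hz2 with h4 | h4
      · exact hmemO _ h4
      · exfalso
        rw [h3] at h4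
        have h5 := DihedralGroup.sr.inj h4
        have : (1 : ZMod n) = 0 := by
          have h6 : i + 0 = i + 1 := by rw [add_zero]; exact h5
          exact (add_left_cancel h6).symm
        exact one_ne_zero this
  have hgen : P ⊔ cg (h : G) P = H := by
    apply le_antisymm (sup_le hPH hThH)
    intro z hz
    set M := P ⊔ cg (h : G) P with hM
    have hMtop : (M.subgroupOf H).map φ = ⊤ := by
      rw [eq_top_iff]
      have a0 : DihedralGroup.sr i ∈ (M.subgroupOf H).map φ :=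
        ⟨p0, (mem_sup_left hp0 : (p0 : G) ∈ M), hp0i⟩
      have a1 : DihedralGroup.sr (i + 1) ∈ (M.subgroupOf H).map φ := by
        refine ⟨h⁻¹ * p0 * h, ?_, hconj _ hp0i⟩
        apply mem_sup_right
        change (h : G)⁻¹ * (p0 : G) * (h : G) ∈ cg (h : G) P
        rw [mem_cg]
        have : (h : G) * ((h : G)⁻¹ * (p0 : G) * (h : G)) * (h : G)⁻¹ = p0 := by group
        rw [this]; exact hp0
      have a2 : DihedralGroup.r (1 : ZMod n) ∈ (M.subgroupOf H).map φ := by
        have := mul_mem a0 a1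
        rwa [DihedralGroup.sr_mul_sr, add_sub_cancel_left] at this
      have a3 : ∀ j : ZMod n, DihedralGroup.r j ∈ (M.subgroupOf H).map φ := by
        intro j
        have := pow_mem a2 j.val
        rwa [DihedralGroup.r_one_pow, ZMod.natCast_val, ZMod.cast_id] at this
      rintro (j | j) _
      · exact a3 j
      · have := mul_mem a0 (a3 (j - i))
        rwa [DihedralGroup.sr_mul_r, add_sub_cancel] at this
    have h1 : φ ⟨z, hz⟩ ∈ (M.subgroupOf H).map φ := by rw [hMtop]; exact mem_top _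
    obtain ⟨w, hw, hwz⟩ := h1
    have h2 : (((⟨z, hz⟩ : ↥H) * w⁻¹ : ↥H) : G) ∈ O := hmemO _ (by rw [map_mul, map_inv, hwz, mul_inv_cancel])
    have h3 : z * (w : G)⁻¹ ∈ M := mem_sup_left (hOP' h2)
    have h4 := mul_mem h3 (show (w : G) ∈ M from hw)
    rwa [inv_mul_cancel_right] at h4
  have hcP : Nat.card P = 2 * Nat.card O := by
    -- restriction of φ to P
    have h1 : (O.relIndex P) = 2 := by
      have e1 : O.relIndex P = ((Cfsg.pCore 2 ↥H).relIndex (P.subgroupOf H)) := by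
        have h2 := Cfsg.Agent.H11.card_mul_relIndex hOP'
        have h3 := Cfsg.Agent.H11.card_mul_relIndex hOP
        have h4 : Nat.card O = Nat.card (Cfsg.pCore 2 ↥H) :=
          Nat.card_congr (equivMapOfInjective _ _ H.subtype_injective).symm.toEquiv
        have h5 : Nat.card (P.subgroupOf H) = Nat.card P := Nat.card_congr (subgroupOfEquivOfLe hPH).toEquiv
        rw [h5, ← h2, h4] at h3
        exact (Nat.eq_of_mul_eq_mul_left Nat.card_pos h3).symm
      have h6 : Nat.card ((P.subgroupOf H).map φ) = 2 := by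
        rw [hi, Nat.card_zpowers]
        apply orderOf_eq_prime (by rw [pow_two, hsr])
        intro h7
        have h8 : DihedralGroup.sr i = DihedralGroup.r 0 := h7
        cases h8
      rw [e1, ← hker]
      rw [Subgroup.relIndex_ker]
      exact h6
    have h2 := Cfsg.Agent.H11.card_mul_relIndex hOP'
    rw [h1, mul_comm] at h2
    exact h2.symm
  have hcH : Nat.card H = Nat.card O * (2 * n) := by
    have h1 := φ.ker.card_mul_index
    rw [index_ker, MonoidHom.range_eq_top.2 hφ, card_top, DihedralGroup.nat_card, hker] at h1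
    have h4 : Nat.card O = Nat.card (Cfsg.pCore 2 ↥H) :=
      Nat.card_congr (equivMapOfInjective _ _ H.subtype_injective).symm.toEquiv
    rw [h4, h1]
  have hyP : cg y P = P := by
    have h1 : cg y (MulAut.conj y • P) = P := by
      have : MulAut.conj y • P = cg y⁻¹ P := by
        change _ = P.map (MulAut.conj y⁻¹⁻¹).toMonoidHom
        rw [inv_inv]; rfl
      rw [this, cg_cg_inv]
    rwa [hyN] at h1
  have hyQ' : ∀ N : Subgroup G, N ≤ P → H ≤ normalizer (N : Set G) → cg y N = N → N = ⊥ := by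
    intro N hN1 hN2 hN3
    apply hyQ N hN1 ((normal_subgroupOf_iff_le_normalizer (hN1.trans hPH)).2 hN2)
    have : MulAut.conj y • N = cg y⁻¹ N := by
      change _ = N.map (MulAut.conj y⁻¹⁻¹).toMonoidHom
      rw [inv_inv]; rfl
    rw [this]
    nth_rewrite 1 [← hN3]
    exact cg_inv_cg y N
  obtain ⟨x, t, ht1, ht4, hGS, hST, hSH, hSQ, hZ⟩ := core_setup (h := (h : G)) h.2 hyP hgen (by rw [hinf]; exact hHO)
    (by
      rw [hinf]
      have h2 := Cfsg.Agent.H11.card_mul_relIndex hOP'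
      rw [hcP, mul_comm] at h2
      exact Nat.eq_of_mul_eq_mul_right Nat.card_pos h2) hyQ' (by
    intro E hE1 hE2 hE3
    have s1 : cg y H ≤ normalizer (E : Set G) := by
      have h1 := cg_normalizer (g := (h : G)⁻¹) hE3
      have h2 : cg (h : G)⁻¹ E = E := cg_of_mem (hE2 (inv_mem h.2))
      rwa [cg_mul, cg_inv_cg, h2] at h1
    have s2 : H ≤ normalizer ((cg y⁻¹ E : Subgroup G) : Set G) := by
      have h1 := cg_normalizer (g := y⁻¹) s1
      rwa [cg_inv_cg] at h1
    have s3 : y ^ 2 ∈ normalizer (E : Set G) := by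
      have h1 : P ⊔ centralizer (P : Set G) ≤ normalizer (E : Set G) := by
        apply sup_le (hPH.trans hE2)
        intro c hc
        apply mem_normalizer_fintype
        intro e he
        have h2 : e * c = c * e := mem_centralizer_iff.1 hc e (hE1 he)
        have h3 : c * e * c⁻¹ = e := by rw [← h2, mul_inv_cancel_right]
        rw [h3]; exact he
      exact h1 hy2
    have s4 : cg y (cg y E) = E := by rw [← cg_mul, ← pow_two]; exact cg_of_mem s3
    have s5 : cg y⁻¹ E = cg y E := by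
      nth_rewrite 1 [← s4]
      exact cg_inv_cg y _
    rw [s5] at s2
    have s6 : cg y E ≤ P := by rw [← hyP]; exact cg_mono hE1
    have s7 : E ⊔ cg y E = ⊥ := by
      apply hyQ' _ (sup_le hE1 s6)
      · intro w hw
        apply mem_normalizer_of_cg
        rw [cg_sup, cg_of_mem (hE2 hw), cg_of_mem (s2 hw)]
      · rw [cg_sup, s4, sup_comm]
    exact le_bot_iff.1 (s7 ▸ le_sup_left))
  have hcO : Nat.card O = 2 ^ (t - 1) := by
    rw [← hinf, ← hSQ, card_Sg hGS (by omega) (by omega)]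
  have ht2 : 2 ≤ t := by
    by_contra hlt
    have h1 : t = 1 := by omega
    rw [h1, Nat.sub_self, pow_zero] at hcO
    apply hO
    have h2 : O = ⊥ := eq_bot_of_card_eq _ hcO
    rw [hOd, map_eq_bot_iff_of_injective _ H.subtype_injective] at h2
    exact h2
  refine ⟨_, x, t, ht2, ht4, hGS, hST, hSH, hZ, hodd, ?_⟩
  rw [hcH, hcO, ← mul_assoc, ← pow_succ, show t - 1 + 1 = t by omega, mul_comm]

end Cfsg.Agent.H20.GIso
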