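import Cfsg.Agent.H20.HarQ

set_option autoImplicit false
set_option maxHeartbeats 800000
set_option linter.unusedSectionVars false

/-! Harada's theorem, case `|V| = 8`, `|A ∩ V| = 4`: set-up and the case `b² = z'`. -/

namespace Cfsg.Agent.H20.Har
open Subgroup

/-- conjugation by `a` as a homomorphism -/
def cj {S : Type*} [Group S] (a : S) : S →* S := (MulAut.conj a).toMonoidHom

theorem cj_apply {S : Type*} [Group S] (a s : S) : cj a s = a * s * a⁻¹ := rfl

/-- The set-up. -/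
structure HB {S : Type*} [Group S] (A V : Subgroup S) (a v z : S) : Prop where
  h : HS A V
  V8 : Nat.card V = 8
  W4 : Nat.card ↥(A ⊓ V) = 4
  aA : a ∈ A
  aV : a ∉ V
  vV : v ∈ V
  vA : v ∉ A
  zV : z ∈ V
  zA : z ∈ A
  z1 : z ≠ 1
  va : cj a v = v * z

section
variable {S : Type*} [Group S]

theorem form1 {M : Subgroup S} (hM : M.Normal) {x g : S} (h : x * g * x⁻¹ * g⁻¹ ∈ M) : x⁻¹ * (g * x * g⁻¹) ∈ M := by
  have := hM.conj_mem _ (M.inv_mem h) x⁻¹
  convert this using 1; group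

theorem form2 {M : Subgroup S} {x g : S} (h : x * g * x⁻¹ * g⁻¹ ∈ M) : g * x * g⁻¹ * x⁻¹ ∈ M := by
  have := M.inv_mem h
  convert this using 1; group

variable [Finite S]

/-- existence of the set-up -/
theorem HS.toHB {A V : Subgroup S} (h : HS A V) (V8 : Nat.card V = 8) (X4 : Nat.card ↥(A ⊓ V) = 4) :
    ∃ a v z, HB A V a v z := by
  have hAV : ¬ A ≤ V := fun k => by rw [inf_eq_left.2 k, h.A8] at X4; omega
  have hVA : ¬ V ≤ A := fun k => by rw [inf_eq_right.2 k, V8] at X4; omega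
  obtain ⟨a, haA, haV⟩ := SetLike.not_le_iff_exists.1 hAV
  obtain ⟨v, hvV, hvA⟩ := SetLike.not_le_iff_exists.1 hVA
  have haa := h.Asq a haA
  have hainv : a⁻¹ = a := inv_eq_of_mul_eq_one_left haa
  -- elements of `A` are `w` or `a w`
  have hAw : ∀ x ∈ A, x ∈ V ∨ x * a ∈ V := by
    intro x hx
    by_cases hxV : x ∈ V
    · exact Or.inl hxV
    · right
      have h1 := (idx_two (H := A ⊓ V) inf_le_left (by rw [h.A8, X4]) hx haA).2
        ⟨fun k => absurd k.2 hxV, fun k => absurd k.2 haV⟩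
      exact h1.2
  -- elements of `V` commuting with `a`
  have hfix : ∀ u ∈ V, a * u * a⁻¹ = u → u ∈ A := by
    intro u hu hau
    have hau' : a * u = u * a := by rwa [mul_inv_eq_iff_eq_mul] at hau
    refine h.cent u fun x hx => ?_
    rcases hAw x hx with h1 | h1
    · exact h.Vcomm u hu x h1
    · have h3 : x = (x * a) * a := by rw [mul_assoc, haa, mul_one]
      have h4 := h.Vcomm u hu _ h1
      calc u * x = u * (x * a) * a := by rw [mul_assoc, mul_assoc x, haa, mul_one]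
        _ = (x * a) * (u * a) := by rw [h4]; group
        _ = (x * a) * (a * u) := by rw [hau']
        _ = x * (a * a) * u := by group
        _ = x * u := by rw [haa, mul_one]
  refine ⟨a, v, v⁻¹ * cj a v, ⟨h, V8, X4, haA, haV, hvV, hvA, ?_, ?_, ?_, by group⟩⟩
  · rw [cj_apply]; exact V.mul_mem (V.inv_mem hvV) (h.Vn v hvV a)
  · apply hfix
    · rw [cj_apply]; exact V.mul_mem (V.inv_mem hvV) (h.Vn v hvV a)
    · rw [cj_apply]
      have h1 := h.Vsq (v⁻¹ * (a * v * a⁻¹)) (V.mul_mem (V.inv_mem hvV) (h.Vn v hvV a))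
      have h2 : v⁻¹ * (a * v * a⁻¹) = (v⁻¹ * (a * v * a⁻¹))⁻¹ := eq_inv_of_mul_eq_one_left h1
      calc a * (v⁻¹ * (a * v * a⁻¹)) * a⁻¹ = (a * v * a⁻¹)⁻¹ * (a * a) * v * a⁻¹ * a⁻¹ := by group
        _ = (a * v * a⁻¹)⁻¹ * v * (a⁻¹ * a⁻¹) := by rw [haa]; group
        _ = (a * v * a⁻¹)⁻¹ * v := by rw [hainv, haa, mul_one]
        _ = (v⁻¹ * (a * v * a⁻¹))⁻¹ := by group
        _ = _ := h2.symm
  · intro h1
    rw [inv_mul_eq_one] at h1
    exact hvA (hfix v hvV (by rw [← cj_apply]; exact h1.symm))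

namespace HB
variable {A V : Subgroup S} {a v z : S} (H : HB A V a v z)
include H

theorem aa : a * a = 1 := H.h.Asq a H.aA
theorem ainv : a⁻¹ = a := inv_eq_of_mul_eq_one_left H.aa
theorem cc (s : S) : cj a (cj a s) = s := by
  rw [cj_apply, cj_apply, show a * (a * s * a⁻¹) * a⁻¹ = (a * a) * s * (a * a)⁻¹ by group, H.aa]; group
theorem Vnn : V.Normal := ⟨H.h.Vn⟩
theorem za : cj a z = z := by
  rw [cj_apply, H.h.Acomm a H.aA z H.zA]; group
theorem vA' : v * v = 1 := H.h.Vsq v H.vV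
theorem VA {u u' : S} (hu : u ∈ V) (hu' : u' ∈ V) : u * u' ∈ A ↔ (u ∈ A ↔ u' ∈ A) := by
  have h1 := idx_two (H := A ⊓ V) inf_le_right (by rw [H.V8, H.W4]) hu hu'
  simp only [mem_inf, hu, hu', V.mul_mem hu hu', and_true] at h1
  exact h1
theorem AV {u u' : S} (hu : u ∈ A) (hu' : u' ∈ A) : u * u' ∈ V ↔ (u ∈ V ↔ u' ∈ V) := by
  have h1 := idx_two (H := A ⊓ V) inf_le_left (by rw [H.h.A8, H.W4]) hu hu'
  simp only [mem_inf, hu, hu', A.mul_mem hu hu', true_and] at h1
  exact h1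
theorem ca {u : S} (hu : u ∈ A) : cj a u = u := by
  rw [cj_apply, H.h.Acomm a H.aA u hu]; group
theorem cv {u : S} (hu : u ∈ V) (huA : u ∉ A) : cj a u = u * z := by
  have h1 : u * v ∈ A := (H.VA hu H.vV).2 ⟨fun k => absurd k huA, fun k => absurd k H.vA⟩
  have h2 : u = (u * v) * v := by rw [mul_assoc, H.vA', mul_one]
  have h3 := H.ca h1
  rw [h2, map_mul, h3, H.va]; group
theorem cV {u : S} (hu : u ∈ V) : cj a u ∈ V := by rw [cj_apply]; exact H.h.Vn u hu a
theorem fix {u : S} (hu : u ∈ V) (h1 : cj a u = u) : u ∈ A := by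
  by_contra h2
  rw [H.cv hu h2, mul_eq_left] at h1
  exact H.z1 h1
/-- the commutator of `y` and `a` is inverted by `a` -/
theorem dd (y : S) : (y⁻¹ * cj a y) * cj a (y⁻¹ * cj a y) = 1 := by
  rw [map_mul, H.cc, map_inv]; group
/-- `C_C(a) = W` -/
theorem CCa {x : S} (hx : ∀ u ∈ V, x * u = u * x) (h1 : cj a x = x) : x ∈ A ∧ x ∈ V := by
  have h2 : x ∈ A := by
    refine H.h.cent x fun y hy => ?_
    by_cases hyV : y ∈ V
    · exact hx y hyV
    · have h3 : y * a ∈ V := (H.AV hy H.aA).2 ⟨fun k => absurd k hyV, fun k => absurd k H.aV⟩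
      have h4 := hx _ h3
      have h5 : a * x = x * a := by rwa [cj_apply, mul_inv_eq_iff_eq_mul] at h1
      have h6 : y = (y * a) * a := by rw [mul_assoc, H.aa, mul_one]
      calc x * y = x * (y * a) * a := by rw [mul_assoc, mul_assoc y, H.aa, mul_one]
        _ = (y * a) * (x * a) := by rw [h4]; group
        _ = (y * a) * (a * x) := by rw [h5]
        _ = y * (a * a) * x := by group
        _ = y * x := by rw [H.aa, mul_one]
  refine ⟨h2, ?_⟩
  by_contra h3
  have h4 : x * a ∈ V := (H.AV h2 H.aA).2 ⟨fun k => absurd k h3, fun k => absurd k H.aV⟩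
  -- then `a` commutes with `v`
  have h5 : a * v = v * a := by
    have h6 := H.h.Vcomm _ h4 v H.vV
    have h7 := hx v H.vV
    have h8 : x * (a * v) = x * (v * a) := by
      calc x * (a * v) = v * (x * a) := by rw [← h6]; group
        _ = (v * x) * a := by group
        _ = (x * v) * a := by rw [h7]
        _ = _ := by group
    exact mul_left_cancel h8
  have h6 := H.va
  rw [cj_apply, h5, mul_inv_cancel_right, left_eq_mul] at h6
  exact H.z1 h6
/-- `W = {1, z, f, f z}` -/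
theorem W {f : S} (hfV : f ∈ V) (hfA : f ∈ A) (hf1 : f ≠ 1) (hfz : f ≠ z) {g : S} (hgV : g ∈ V) (hgA : g ∈ A) :
    g = 1 ∨ g = z ∨ g = f ∨ g = f * z := by
  have hzz := H.h.Vsq z H.zV
  have hz2 : orderOf z = 2 := orderOf_eq_prime (by rw [pow_two]; exact hzz) H.z1
  have hzp : ∀ x, x ∈ zpowers z → x = 1 ∨ x = z := by
    intro x hx
    obtain ⟨k, rfl⟩ := mem_zpowers_iff.1 hx
    rcases Int.even_or_odd k with ⟨j, rfl⟩ | ⟨j, rfl⟩
    · left
      rw [← two_mul, zpow_mul]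
      rw [show z ^ (2 : ℤ) = 1 by rw [zpow_ofNat, pow_two]; exact hzz, one_zpow]
    · right
      rw [zpow_add, zpow_mul, zpow_one, show z ^ (2 : ℤ) = 1 by rw [zpow_ofNat, pow_two]; exact hzz, one_zpow, one_mul]
  have hle : zpowers z ≤ A ⊓ V := by rw [zpowers_le]; exact ⟨H.zA, H.zV⟩
  have h1 := idx_two hle (by rw [Nat.card_zpowers, hz2, H.W4]) (u := f) (u' := g) ⟨hfA, hfV⟩ ⟨hgA, hgV⟩
  have hfn : f ∉ zpowers z := fun k => by
    rcases hzp f k with h | h
    · exact hf1 h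
    · exact hfz h
  by_cases hg : g ∈ zpowers z
  · rcases hzp g hg with h | h
    · exact Or.inl h
    · exact Or.inr (Or.inl h)
  · have h2 := h1.2 ⟨fun k => absurd k hfn, fun k => absurd k hg⟩
    have hff := H.h.Vsq f hfV
    rcases hzp _ h2 with h | h
    · right; right; left
      have : f * g = f * f := by rw [h, hff]
      exact mul_left_cancel this
    · right; right; right
      have : f * g = f * (f * z) := by rw [h, ← mul_assoc, hff, one_mul]
      exact mul_left_cancel this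

theorem memC {x : S} : x ∈ Subgroup.centralizer (V : Set S) ↔ ∀ u ∈ V, x * u = u * x := by
  rw [mem_centralizer_iff]
  exact ⟨fun k u hu => (k u hu).symm, fun k u hu => (k u hu).symm⟩

theorem Cn : (Subgroup.centralizer (V : Set S)).Normal := by
  haveI := H.Vnn
  infer_instance

theorem VC : V ≤ Subgroup.centralizer (V : Set S) := fun x hx => H.memC.2 fun u hu => H.h.Vcomm x hx u hu

end HB

/-- the element `b` -/
structure Hb {S : Type*} [Group S] (V : Subgroup S) (b : S) : Prop where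
  bC : ∀ u ∈ V, b * u = u * b
  bV : b ∉ V
  bb : b * b ∈ V
  bg : ∀ g : S, b * g * b⁻¹ * g⁻¹ ∈ V
  bn : (V ⊔ zpowers b).Normal
  b2 : Nat.card ↥(V ⊔ zpowers b) = Nat.card V * 2

theorem HB.exists_b {A V : Subgroup S} {a v z : S} (H : HB A V a v z)
    (hC : ¬ Subgroup.centralizer (V : Set S) ≤ V) : ∃ b, Hb V b := by
  haveI : Fact (Nat.Prime 2) := ⟨Nat.prime_two⟩
  obtain ⟨b, hbC, hbV, hbb, hbg, hbn, hb2⟩ := H23.exists_step H.h.two H.Vnn H.Cn
    (lt_of_le_of_ne H.VC fun k => hC k.ge)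
  exact ⟨b, H.memC.1 hbC, hbV, by rw [← pow_two]; exact hbb, hbg, hbn, hb2⟩

section
variable {A V : Subgroup S} {a v z b : S} (H : HB A V a v z) (hb : Hb V b)
include H hb

theorem HB.fV : b⁻¹ * cj a b ∈ V := form1 H.Vnn (hb.bg a)
theorem HB.fA : b⁻¹ * cj a b ∈ A := by
  apply H.fix (H.fV hb)
  have h1 := H.dd b
  have h2 := H.h.Vsq _ (H.fV hb)
  exact mul_left_cancel (h1.trans h2.symm)
theorem HB.f1 : b⁻¹ * cj a b ≠ 1 := by
  intro h
  rw [inv_mul_eq_one] at h
  exact hb.bV (H.CCa hb.bC h.symm).2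
theorem HB.fz : b⁻¹ * cj a b ≠ z := by
  intro h
  have h1 : cj a b = b * z := by rw [← h]; group
  have h2 : cj a (b * v) = b * v := by
    rw [map_mul, h1, H.va, H.h.Vcomm v H.vV z H.zV]
    calc b * z * (z * v) = b * (z * z) * v := by group
      _ = b * v := by rw [H.h.Vsq z H.zV, mul_one]
  have h3 := (H.CCa (x := b * v) (fun u hu => by
    rw [mul_assoc, H.h.Vcomm v H.vV u hu, ← mul_assoc, hb.bC u hu, mul_assoc]) h2).2
  exact hb.bV (by simpa using V.mul_mem h3 (V.inv_mem H.vV))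
theorem HB.bbA : b * b ∈ A := by
  apply H.fix hb.bb
  have h1 : cj a b = b * (b⁻¹ * cj a b) := by group
  have h2 := hb.bC _ (H.fV hb)
  have h3 := H.h.Vsq _ (H.fV hb)
  rw [map_mul]
  calc cj a b * cj a b = (b * (b⁻¹ * cj a b)) * (b * (b⁻¹ * cj a b)) := by rw [← h1]
    _ = b * ((b⁻¹ * cj a b) * b) * (b⁻¹ * cj a b) := by group
    _ = b * (b * (b⁻¹ * cj a b)) * (b⁻¹ * cj a b) := by rw [← h2]
    _ = b * b * ((b⁻¹ * cj a b) * (b⁻¹ * cj a b)) := by group
    _ = b * b := by rw [h3, mul_one]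
/-- elements of `V⟨b⟩` -/
theorem Hb.mem {x : S} (hx : x ∈ V ⊔ zpowers b) (hxV : x ∉ V) : x * b ∈ V := by
  exact (idx_two (H := V) le_sup_left (by rw [hb.b2]; ring) hx (le_sup_right (a := V) (mem_zpowers b))).2
    ⟨fun k => absurd k hxV, fun k => absurd k hb.bV⟩
theorem HB.bb1 : b * b ≠ 1 := by
  intro hbb
  have hbi : b⁻¹ = b := inv_eq_of_mul_eq_one_left hbb
  have hmem : ∀ x ∈ V ⊔ zpowers b, ∃ u ∈ V, x = u ∨ x = u * b := by
    intro x hx
    by_cases hxV : x ∈ V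
    · exact ⟨x, hxV, Or.inl rfl⟩
    · exact ⟨x * b, hb.mem H hx hxV, Or.inr (by rw [mul_assoc, hbb, mul_one])⟩
  have h1 := H.h.Vmax (V ⊔ zpowers b) hb.bn ?_ ?_
  · rw [hb.b2, H.V8] at h1; omega
  · intro x hx y hy
    obtain ⟨u, hu, rfl | rfl⟩ := hmem x hx <;> obtain ⟨u', hu', rfl | rfl⟩ := hmem y hy
    · exact H.h.Vcomm x hu y hu'
    · rw [← mul_assoc, H.h.Vcomm x hu u' hu', mul_assoc, ← hb.bC x hu, mul_assoc]
    · rw [mul_assoc, hb.bC y hu', ← mul_assoc, H.h.Vcomm u hu y hu', mul_assoc]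
    · calc u * b * (u' * b) = u * (b * u') * b := by group
        _ = (u * u') * (b * b) := by rw [hb.bC u' hu']; group
        _ = (u' * u) * (b * b) := by rw [H.h.Vcomm u hu u' hu']
        _ = u' * (u * b) * b := by group
        _ = u' * (b * u) * b := by rw [hb.bC u hu]
        _ = _ := by group
  · intro x hx
    obtain ⟨u, hu, rfl | rfl⟩ := hmem x hx
    · exact H.h.Vsq x hu
    · calc u * b * (u * b) = u * (b * u) * b := by group
        _ = (u * u) * (b * b) := by rw [hb.bC u hu]; group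
        _ = 1 := by rw [H.h.Vsq u hu, hbb, mul_one]
/-- `b²` is central -/
theorem HB.bbc (s : S) : s * (b * b) = (b * b) * s := by
  have h1 := form2 (hb.bg s)
  set u := s * b * s⁻¹ * b⁻¹ with hu
  have h2 : s * b = u * b * s := by rw [hu]; group
  have h3 := hb.bC u h1
  calc s * (b * b) = (s * b) * b := by group
    _ = (u * b * s) * b := by rw [h2]
    _ = u * b * (s * b) := by group
    _ = u * b * (u * b * s) := by rw [h2]
    _ = u * (b * u) * b * s := by group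
    _ = (u * u) * (b * b) * s := by rw [h3]; group
    _ = _ := by rw [H.h.Vsq u h1, one_mul]
/-- claim (P) -/
theorem HB.P {y : S} (hy : ∀ u ∈ V, y * u = u * y) (h1 : y⁻¹ * cj a y ∈ V) : y ∈ V ∨ b⁻¹ * y ∈ V := by
  set g := y⁻¹ * cj a y with hg
  have hgA : g ∈ A := by
    apply H.fix h1
    have h3 := H.dd y
    rw [← hg] at h3
    exact mul_left_cancel (h3.trans (H.h.Vsq _ h1).symm)
  have hya : cj a y = y * g := by rw [hg]; group
  set f := b⁻¹ * cj a b with hf
  have hba : cj a b = b * f := by rw [hf]; group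
  have hbi : ∀ u ∈ V, b⁻¹ * u = u * b⁻¹ := by
    intro u hu
    rw [inv_mul_eq_iff_eq_mul, ← mul_assoc, hb.bC u hu, mul_assoc, mul_inv_cancel, mul_one]
  have hzz := H.h.Vsq z H.zV
  have hff := H.h.Vsq f (H.fV hb)
  have hfi : f⁻¹ = f := inv_eq_of_mul_eq_one_left hff
  rcases H.W (H.fV hb) (H.fA hb) (H.f1 hb) (H.fz hb) h1 hgA with h3 | h3 | h3 | h3
  · left
    exact (H.CCa hy (by rw [hya, h3, mul_one])).2
  · left
    have h4 : cj a (y * v) = y * v := by
      rw [map_mul, hya, h3, H.va, H.h.Vcomm v H.vV z H.zV]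
      calc y * z * (z * v) = y * (z * z) * v := by group
        _ = y * v := by rw [hzz, mul_one]
    have h5 := (H.CCa (x := y * v) (fun u hu => by
      rw [mul_assoc, H.h.Vcomm v H.vV u hu, ← mul_assoc, hy u hu, mul_assoc]) h4).2
    simpa using V.mul_mem h5 (V.inv_mem H.vV)
  · right
    have h4 : cj a (b⁻¹ * y) = b⁻¹ * y := by
      rw [map_mul, map_inv, hba, hya, h3, ← hf, mul_inv_rev, hfi]
      calc f * b⁻¹ * (y * f) = (f * b⁻¹) * (f * y) := by rw [hy f (H.fV hb)]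
        _ = f * (b⁻¹ * f) * y := by group
        _ = (f * f) * b⁻¹ * y := by rw [hbi f (H.fV hb)]; group
        _ = b⁻¹ * y := by rw [hff, one_mul]
    exact (H.CCa (fun u hu => by rw [mul_assoc, hy u hu, ← mul_assoc, hbi u hu, mul_assoc]) h4).2
  · right
    have h4 : cj a (b⁻¹ * y * v) = b⁻¹ * y * v := by
      rw [map_mul, map_mul, map_inv, hba, hya, h3, ← hf, mul_inv_rev, hfi, H.va, H.h.Vcomm v H.vV z H.zV]
      calc f * b⁻¹ * (y * (f * z)) * (z * v) = f * b⁻¹ * (y * f) * (z * z) * v := by group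
        _ = (f * b⁻¹) * (f * y) * v := by rw [hy f (H.fV hb), hzz]; group
        _ = f * (b⁻¹ * f) * y * v := by group
        _ = (f * f) * b⁻¹ * y * v := by rw [hbi f (H.fV hb)]; group
        _ = b⁻¹ * y * v := by rw [hff, one_mul]
    have h5 := (H.CCa (x := b⁻¹ * y * v) (fun u hu => by
      rw [mul_assoc, H.h.Vcomm v H.vV u hu, ← mul_assoc, mul_assoc b⁻¹, hy u hu, ← mul_assoc, hbi u hu]; group) h4).2
    simpa using V.mul_mem h5 (V.inv_mem H.vV)

end

/-- the case `b² ∉ ⟨z⟩`, normalized so that `[b, a] = b²` -/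
structure H1 {S : Type*} [Group S] (A V : Subgroup S) (a v z b : S) : Prop where
  H : HB A V a v z
  hb : Hb V b
  bz : b * b ≠ z
  ba : cj a b = b * (b * b)

/-- the abelian normal subgroup `D` and its subgroup `E = D² V` of index 2 -/
structure HD {S : Type*} [Group S] (A V : Subgroup S) (a v z b : S) (D E : Subgroup S) : Prop extends
    H1 A V a v z b where
  Dn : D.Normal
  En : E.Normal
  VE : V ≤ E
  ED : E ≤ D
  bD : b ∈ D
  Dcomm : ∀ x ∈ D, ∀ y ∈ D, x * y = y * x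
  Dsq : ∀ d ∈ D, d * d ∈ V → d ∈ V ∨ d * d = b * b
  D1 : ∀ d ∈ D, d * d = 1 → d ∈ V
  E2 : ∀ d ∈ D, d * d ∈ E
  Eex : ∀ e ∈ E, ∃ d ∈ D, ∃ u ∈ V, e = d * d * u
  DE : ∀ x ∈ D, ∀ y ∈ D, x ∉ E → y ∉ E → x * y ∈ E
  DE1 : ∃ x ∈ D, x ∉ E
  CD : (∀ x : S, (∀ u ∈ V, x * u = u * x) → x ∈ D) ∨
    ∃ y : S, (∀ u ∈ V, y * u = u * y) ∧ y ∉ D ∧ y * y ∈ E ∧ y⁻¹ * cj a y ∈ D ∧ y⁻¹ * cj a y ∉ E ∧
      ∀ x : S, (∀ u ∈ V, x * u = u * x) → x ∈ D ∨ y⁻¹ * x ∈ D

end

end Cfsg.Agent.H20.Har
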