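import Mathlib
import Cfsg.Prelude.Def_CaseTheorems
import Cfsg.Agent.H23.PGroupNormal
import Cfsg.Agent.H63.PG

set_option autoImplicit false
set_option maxHeartbeats 800000
set_option linter.unusedSectionVars false

/-! Harada's theorem on 2-groups with a self-centralizing `E₈`: set-up and small tools. -/

namespace Cfsg.Agent.H20.Har
open Subgroup

/-- `V` is a normal elementary abelian 2-subgroup of maximal order among such, `A` is elementary abelian of
order 8 and `C_S(A V) ≤ A`. -/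
structure HW {S : Type*} [Group S] (A V : Subgroup S) : Prop where
  two : IsPGroup 2 S
  Acomm : ∀ a ∈ A, ∀ b ∈ A, a * b = b * a
  Asq : ∀ a ∈ A, a * a = 1
  A8 : Nat.card A = 8
  cent' : ∀ x : S, (∀ a ∈ A, x * a = a * x) → (∀ v ∈ V, x * v = v * x) → x ∈ A
  Vn : ∀ v ∈ V, ∀ g : S, g * v * g⁻¹ ∈ V
  Vcomm : ∀ v ∈ V, ∀ w ∈ V, v * w = w * v
  Vsq : ∀ v ∈ V, v * v = 1
  Vmax : ∀ E : Subgroup S, E.Normal → (∀ v ∈ E, ∀ w ∈ E, v * w = w * v) → (∀ v ∈ E, v * v = 1) →
    Nat.card E ≤ Nat.card V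

/-- The same with `A` self-centralizing. -/
structure HS {S : Type*} [Group S] (A V : Subgroup S) : Prop extends HW A V where
  cent : ∀ x : S, (∀ a ∈ A, x * a = a * x) → x ∈ A

/-- The conclusion: all elementary abelian sections have order at most 16. -/
def R4 (S : Type*) [Group S] : Prop :=
  ∀ L N : Subgroup S, N ≤ L → (∀ x ∈ L, ∀ y ∈ L, x * y * x⁻¹ * y⁻¹ ∈ N) → (∀ x ∈ L, x * x ∈ N) →
    Nat.card L ≤ 16 * Nat.card N

section
variable {S : Type*} [Group S]

/-- If two elements of `L` outside `K` always differ by an element of `K` then `|L : L ∩ K| ≤ 2`. -/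
theorem card_le_two [Finite S] (L K : Subgroup S) (h : ∀ s ∈ L, ∀ s' ∈ L, s ∉ K → s' ∉ K → s⁻¹ * s' ∈ K) :
    Nat.card L ≤ 2 * Nat.card ↥(L ⊓ K) := by
  classical
  by_cases hLK : L ≤ K
  · rw [inf_eq_left.2 hLK]; omega
  · obtain ⟨s0, hs0, hs0K⟩ := SetLike.not_le_iff_exists.1 hLK
    have hmem : ∀ x : L, (x : S) ∉ K → s0⁻¹ * (x : S) ∈ L ⊓ K := fun x hx =>
      Subgroup.mem_inf.2 ⟨L.mul_mem (L.inv_mem hs0) x.2, h s0 hs0 x x.2 hs0K hx⟩
    let j : L → Bool × ↥(L ⊓ K) := fun x =>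
      if hx : (x : S) ∈ K then (true, ⟨x, Subgroup.mem_inf.2 ⟨x.2, hx⟩⟩) else (false, ⟨s0⁻¹ * x, hmem x hx⟩)
    have hj : Function.Injective j := by
      intro x y hxy
      by_cases hx : (x : S) ∈ K <;> by_cases hy : (y : S) ∈ K
      · have h1 : j x = (true, ⟨x, Subgroup.mem_inf.2 ⟨x.2, hx⟩⟩) := dif_pos hx
        have h2 : j y = (true, ⟨y, Subgroup.mem_inf.2 ⟨y.2, hy⟩⟩) := dif_pos hy
        rw [h1, h2] at hxy
        exact Subtype.ext (congrArg (fun z : Bool × ↥(L ⊓ K) => (z.2 : S)) hxy)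
      · have h1 : j x = (true, ⟨x, Subgroup.mem_inf.2 ⟨x.2, hx⟩⟩) := dif_pos hx
        have h2 : j y = (false, ⟨s0⁻¹ * y, hmem y hy⟩) := dif_neg hy
        rw [h1, h2] at hxy
        exact absurd (congrArg (fun z : Bool × ↥(L ⊓ K) => z.1) hxy) (by simp)
      · have h1 : j x = (false, ⟨s0⁻¹ * x, hmem x hx⟩) := dif_neg hx
        have h2 : j y = (true, ⟨y, Subgroup.mem_inf.2 ⟨y.2, hy⟩⟩) := dif_pos hy
        rw [h1, h2] at hxy
        exact absurd (congrArg (fun z : Bool × ↥(L ⊓ K) => z.1) hxy) (by simp)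
      · have h1 : j x = (false, ⟨s0⁻¹ * x, hmem x hx⟩) := dif_neg hx
        have h2 : j y = (false, ⟨s0⁻¹ * y, hmem y hy⟩) := dif_neg hy
        rw [h1, h2] at hxy
        have h3 : s0⁻¹ * (x : S) = s0⁻¹ * (y : S) := congrArg (fun z : Bool × ↥(L ⊓ K) => (z.2 : S)) hxy
        exact Subtype.ext (mul_left_cancel h3)
    have h1 := Nat.card_le_card_of_injective j hj
    rwa [Nat.card_prod, Nat.card_eq_fintype_card (α := Bool), Fintype.card_bool] at h1

/-- Fixed points of an involution `a` on an elementary abelian section `T/N`: with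
`F = {s ∈ T | s⁻¹ s^a ∈ N}` we have `|T/N| ≤ |F/N|²`. -/
theorem fixed_points [Finite S] (T N F : Subgroup S) (a : S) (ha : a * a = 1) (hNT : N ≤ T)
    (hTa : ∀ s ∈ T, a * s * a ∈ T) (hNa : ∀ s ∈ N, a * s * a ∈ N)
    (hc : ∀ x ∈ T, ∀ y ∈ T, x * y * x⁻¹ * y⁻¹ ∈ N) (hs : ∀ x ∈ T, x * x ∈ N)
    (hF : ∀ s, s ∈ F ↔ s ∈ T ∧ s⁻¹ * (a * s * a) ∈ N) :
    Nat.card T * Nat.card N ≤ Nat.card F * Nat.card F := by
  have hNn : (N.subgroupOf T).Normal := by
    constructor
    rintro ⟨n, hnT⟩ hn ⟨x, hx⟩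
    rw [mem_subgroupOf] at hn ⊢
    have h1 := hc x hx n hnT
    have h3 : x * n * x⁻¹ = (x * n * x⁻¹ * n⁻¹) * n := by group
    change x * n * x⁻¹ ∈ N
    rw [h3]
    exact N.mul_mem h1 hn
  have hcomm : ∀ x y : T ⧸ N.subgroupOf T, x * y = y * x := by
    intro x y
    induction x using QuotientGroup.induction_on with
    | H x =>
      induction y using QuotientGroup.induction_on with
      | H y =>
        rw [← QuotientGroup.mk_mul, ← QuotientGroup.mk_mul, eq_comm, QuotientGroup.eq, mem_subgroupOf]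
        have := hc (x : S)⁻¹ (T.inv_mem x.2) (y : S)⁻¹ (T.inv_mem y.2)
        convert this using 1
        push_cast
        group
  have hsq : ∀ x : T ⧸ N.subgroupOf T, x * x = 1 := by
    intro x
    induction x using QuotientGroup.induction_on with
    | H x =>
      rw [← QuotientGroup.mk_mul, QuotientGroup.eq_one_iff, mem_subgroupOf]
      exact hs x x.2
  have hainv : a⁻¹ = a := inv_eq_of_mul_eq_one_left ha
  let ψ : T →* T ⧸ N.subgroupOf T :=
    { toFun := fun s => QuotientGroup.mk (s⁻¹ * ⟨a * s * a, hTa s s.2⟩)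
      map_one' := by
        rw [QuotientGroup.eq_one_iff, mem_subgroupOf]
        change (1 : S)⁻¹ * (a * 1 * a) ∈ N
        rw [mul_one, ha, inv_one, one_mul]; exact one_mem _
      map_mul' := by
        intro x y
        have e1 : (⟨a * ((x * y : T) : S) * a, hTa _ (x * y).2⟩ : T) = ⟨a * x * a, hTa x x.2⟩ * ⟨a * y * a, hTa y y.2⟩ := by
          apply Subtype.ext
          change a * (x * y) * a = (a * x * a) * (a * y * a)
          calc a * (x * y) * a = a * x * 1 * y * a := by group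
            _ = a * x * (a * a) * y * a := by rw [ha]
            _ = _ := by group
        simp only [e1, mul_inv_rev, QuotientGroup.mk_mul, QuotientGroup.mk_inv]
        generalize (QuotientGroup.mk x : T ⧸ N.subgroupOf T) = p
        generalize (QuotientGroup.mk y : T ⧸ N.subgroupOf T) = q
        generalize (QuotientGroup.mk (⟨a * x * a, hTa x x.2⟩ : T) : T ⧸ N.subgroupOf T) = r
        generalize (QuotientGroup.mk (⟨a * y * a, hTa y y.2⟩ : T) : T ⧸ N.subgroupOf T) = t
        calc q⁻¹ * p⁻¹ * (r * t) = q⁻¹ * (p⁻¹ * r) * t := by group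
          _ = (p⁻¹ * r) * q⁻¹ * t := by rw [hcomm q⁻¹ (p⁻¹ * r)]
          _ = _ := by group }
  have hker : Nat.card ψ.ker = Nat.card F := by
    have h1 : ψ.ker.map T.subtype = F := by
      ext s
      rw [hF]
      constructor
      · rintro ⟨⟨s, hsT⟩, hk, rfl⟩
        have h2 : (QuotientGroup.mk ((⟨s, hsT⟩ : T)⁻¹ * ⟨a * s * a, hTa s hsT⟩) : T ⧸ N.subgroupOf T) = 1 := hk
        rw [QuotientGroup.eq_one_iff, mem_subgroupOf] at h2
        exact ⟨hsT, h2⟩
      · rintro ⟨hsT, h2⟩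
        refine ⟨⟨s, hsT⟩, ?_, rfl⟩
        change (QuotientGroup.mk ((⟨s, hsT⟩ : T)⁻¹ * ⟨a * s * a, hTa s hsT⟩) : T ⧸ N.subgroupOf T) = 1
        rw [QuotientGroup.eq_one_iff, mem_subgroupOf]
        exact h2
    rw [← h1, Subgroup.card_map_of_injective T.subtype_injective]
  -- the range lies in `F/N`
  have hrange : Nat.card ψ.range * Nat.card N ≤ Nat.card F := by
    have hFT : F ≤ T := fun s hs => ((hF s).1 hs).1
    have hNF : N ≤ F := fun s hs => (hF s).2 ⟨hNT hs, N.mul_mem (N.inv_mem hs) (hNa s hs)⟩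
    have h1 : ψ.range ≤ (F.subgroupOf T).map (QuotientGroup.mk' (N.subgroupOf T)) := by
      rintro _ ⟨s, rfl⟩
      refine ⟨s⁻¹ * ⟨a * s * a, hTa s s.2⟩, ?_, rfl⟩
      rw [SetLike.mem_coe, mem_subgroupOf, hF]
      refine ⟨(s⁻¹ * ⟨a * s * a, hTa s s.2⟩ : T).2, ?_⟩
      change ((s : S)⁻¹ * (a * s * a))⁻¹ * (a * ((s : S)⁻¹ * (a * s * a)) * a) ∈ N
      -- `u = s⁻¹ s^a`, `u^a = u⁻¹` modulo `N`; `u⁻¹ u^a = u⁻²`
      set u := (s : S)⁻¹ * (a * s * a) with hu
      have h2 : a * u * a = u⁻¹ := by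
        rw [hu]
        have e1 : (a : S) * ((s : S)⁻¹ * (a * s * a)) * a = (a * (s : S)⁻¹ * a) * s * (a * a) := by group
        rw [e1, ha, mul_one, mul_inv_rev, inv_inv]
        congr 1
        rw [mul_inv_rev, mul_inv_rev, hainv, mul_assoc]
      rw [h2]
      have huT : u ∈ T := T.mul_mem (T.inv_mem s.2) (hTa s s.2)
      have := hs u⁻¹ (T.inv_mem huT)
      exact this
    have h2 : Nat.card ψ.range ≤ Nat.card ↥((F.subgroupOf T).map (QuotientGroup.mk' (N.subgroupOf T))) :=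
      Subgroup.card_le_of_le h1
    have h3 : Nat.card ↥((F.subgroupOf T).map (QuotientGroup.mk' (N.subgroupOf T))) * Nat.card N = Nat.card F := by
      have h4 := Subgroup.relIndex_mul_relIndex ⊥ ((QuotientGroup.mk' (N.subgroupOf T)).ker ⊓ F.subgroupOf T)
        (F.subgroupOf T) bot_le inf_le_right
      rw [Subgroup.relIndex_bot_left, Subgroup.relIndex_bot_left, Subgroup.inf_relIndex_right, Subgroup.relIndex_ker,
        QuotientGroup.ker_mk'] at h4
      have e1 : Nat.card (F.subgroupOf T) = Nat.card F := by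
        rw [← Subgroup.card_map_of_injective (K := F.subgroupOf T) T.subtype_injective, Subgroup.subgroupOf_map_subtype,
          inf_eq_left.2 hFT]
      have e2 : Nat.card ↥(N.subgroupOf T ⊓ F.subgroupOf T) = Nat.card N := by
        have e3 : N.subgroupOf T ⊓ F.subgroupOf T = N.subgroupOf T :=
          inf_eq_left.2 (Subgroup.comap_mono hNF)
        rw [e3, ← Subgroup.card_map_of_injective (K := N.subgroupOf T) T.subtype_injective,
          Subgroup.subgroupOf_map_subtype, inf_eq_left.2 hNT]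
      rw [e1, e2, mul_comm] at h4
      exact h4
    rw [← h3]
    exact Nat.mul_le_mul_right _ h2
  have h5 := Subgroup.card_mul_index ψ.ker
  rw [Subgroup.index_ker, hker] at h5
  calc Nat.card T * Nat.card N = Nat.card F * (Nat.card ψ.range * Nat.card N) := by rw [← h5, mul_assoc]
    _ ≤ _ := Nat.mul_le_mul_left _ hrange

/-- `|X| |Y| ≤ |S| |X ∩ Y|`. -/
theorem card_mul_le [Finite S] (X Y : Subgroup S) : Nat.card X * Nat.card Y ≤ Nat.card S * Nat.card ↥(X ⊓ Y) := by
  have h1 := Subgroup.relIndex_mul_relIndex ⊥ (X ⊓ Y) Y bot_le inf_le_right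
  rw [Subgroup.relIndex_bot_left, Subgroup.relIndex_bot_left, Subgroup.inf_relIndex_right] at h1
  have h2 : X.relIndex Y ≤ X.index := by
    have := Subgroup.relIndex_le_of_le_right (H := X) (K := Y) (L := ⊤) le_top (by
      rw [Subgroup.relIndex_top_right]; exact Subgroup.index_ne_zero_of_finite)
    rwa [Subgroup.relIndex_top_right] at this
  rw [← h1, ← X.card_mul_index]
  calc Nat.card X * (Nat.card ↥(X ⊓ Y) * X.relIndex Y) ≤ Nat.card X * (Nat.card ↥(X ⊓ Y) * X.index) :=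
        Nat.mul_le_mul_left _ (Nat.mul_le_mul_left _ h2)
    _ = _ := by ring

end

end Cfsg.Agent.H20.Har
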