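import Cfsg.Agent.H20.HarB
import Cfsg.Agent.H78.HarG

set_option autoImplicit false
set_option maxHeartbeats 800000
set_option linter.unusedSectionVars false

/-! Harada's theorem, case `|V| = 8`, `|A ∩ V| = 4`, `b² ≠ z`: the final count. -/

namespace Cfsg.Agent.H20.Har
open Subgroup

section
variable {S : Type*} [Group S]

/-- squares of an abelian subgroup -/
theorem exists_Q [Finite S] (L' V : Subgroup S) (hc : ∀ x ∈ L', ∀ y ∈ L', x * y = y * x)
    (hV : ∀ x ∈ L', x * x = 1 ↔ x ∈ V) :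
    ∃ Q : Subgroup S, (∀ x, x ∈ Q ↔ ∃ d ∈ L', d * d = x) ∧ Nat.card L' = Nat.card Q * Nat.card ↥(L' ⊓ V) := by
  let sq : L' →* S :=
    { toFun := fun d => (d : S) * d
      map_one' := by simp
      map_mul' := by
        intro x y
        change (x : S) * y * (x * y) = x * x * (y * y)
        rw [mul_assoc, ← mul_assoc (y : S), hc y y.2 x x.2]
        group }
  refine ⟨sq.range, fun x => ?_, ?_⟩
  · constructor
    · rintro ⟨d, rfl⟩
      exact ⟨d, d.2, rfl⟩
    · rintro ⟨d, hd, rfl⟩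
      exact ⟨⟨d, hd⟩, rfl⟩
  · have h1 := Subgroup.card_mul_index sq.ker
    rw [Subgroup.index_ker] at h1
    have h2 : sq.ker.map L'.subtype = L' ⊓ V := by
      ext x
      constructor
      · rintro ⟨⟨d, hd⟩, hk, rfl⟩
        exact mem_inf.2 ⟨hd, (hV d hd).1 hk⟩
      · intro hx
        obtain ⟨hx1, hx2⟩ := mem_inf.1 hx
        exact ⟨⟨x, hx1⟩, (hV x hx1).2 hx2, rfl⟩
    rw [← h2, Subgroup.card_map_of_injective L'.subtype_injective, mul_comm]
    exact h1.symm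

theorem zp2 {w : S} (hw : w * w = 1) {x : S} : x ∈ zpowers w ↔ x = 1 ∨ x = w := by
  have h2 : w ^ (2 : ℤ) = 1 := by rw [zpow_ofNat, pow_two]; exact hw
  constructor
  · intro hx
    obtain ⟨k, rfl⟩ := mem_zpowers_iff.1 hx
    rcases Int.even_or_odd k with ⟨j, rfl⟩ | ⟨j, rfl⟩
    · left
      rw [← two_mul, zpow_mul, h2, one_zpow]
    · right
      rw [zpow_add, zpow_mul, zpow_one, h2, one_zpow, one_mul]
  · rintro (rfl | rfl)
    · exact one_mem _
    · exact mem_zpowers _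

variable [Finite S] {A V D E : Subgroup S} {a v z b : S}

namespace H1
variable (h : H1 A V a v z b)
include h

theorem ww : (b * b) * (b * b) = 1 := h.H.h.Vsq _ h.hb.bb
theorem Wm {g : S} (hgV : g ∈ V) (hgA : g ∈ A) : g = 1 ∨ g = z ∨ g = b * b ∨ g = b * b * z :=
  h.H.W h.hb.bb (h.H.bbA h.hb) (h.H.bb1 h.hb) h.bz hgV hgA
theorem Mn : (zpowers (b * b)).Normal := by
  constructor
  intro n hn g
  obtain ⟨k, rfl⟩ := mem_zpowers_iff.1 hn
  have h1 : Commute g (b * b) := h.H.bbc h.hb g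
  have h2 := (h1.zpow_right k).eq
  rw [h2, mul_inv_cancel_right]
  exact hn
theorem MV : zpowers (b * b) ≤ V := by rw [zpowers_le]; exact h.hb.bb
theorem ca_b : cj a (b * b) = b * b := h.H.ca (h.H.bbA h.hb)
theorem ca_M {x : S} (hx : x ∈ zpowers (b * b)) : cj a x = x := by
  rcases (zp2 h.ww).1 hx with rfl | rfl
  · exact map_one _
  · exact h.ca_b
theorem Mc {x : S} (hx : x ∈ zpowers (b * b)) (s : S) : s * x = x * s := by
  rcases (zp2 h.ww).1 hx with rfl | rfl
  · rw [mul_one, one_mul]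
  · exact h.H.bbc h.hb s
theorem zM : z ∉ zpowers (b * b) := by
  intro k
  rcases (zp2 h.ww).1 k with h1 | h1
  · exact h.H.z1 h1
  · exact h.bz h1.symm

/-- `V` is generated by `z, w, v` -/
theorem genV (K : Subgroup S) (hz : z ∈ K) (hw : b * b ∈ K) (hv : v ∈ K) : V ≤ K := by
  have key : ∀ u ∈ V, u ∈ A → u ∈ K := by
    intro u hu huA
    rcases h.Wm hu huA with h1 | h1 | h1 | h1 <;> rw [h1]
    · exact one_mem _
    · exact hz
    · exact hw
    · exact K.mul_mem hw hz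
  intro u hu
  by_cases huA : u ∈ A
  · exact key u hu huA
  · have h1 : u * v ∈ A := (h.H.VA hu h.H.vV).2 ⟨fun k => absurd k huA, fun k => absurd k h.H.vA⟩
    have h2 := K.mul_mem (key _ (V.mul_mem hu h.H.vV) h1) hv
    rwa [mul_assoc, h.H.vA', mul_one] at h2

/-- commuting with `z, v` -/
theorem comm_of {s : S} (hz : s * z = z * s) (hv : s * v = v * s) : ∀ u ∈ V, s * u = u * s := by
  have h1 := h.genV (Subgroup.centralizer {s}) ?_ ?_ ?_
  · intro u hu
    exact (mem_centralizer_iff.1 (h1 hu) s rfl)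
  · rw [mem_centralizer_iff]; intro x hx; rw [Set.mem_singleton_iff.1 hx]; exact hz
  · rw [mem_centralizer_iff]; intro x hx; rw [Set.mem_singleton_iff.1 hx]; exact h.H.bbc h.hb s
  · rw [mem_centralizer_iff]; intro x hx; rw [Set.mem_singleton_iff.1 hx]; exact hv

/-- the flag: `[z, S] ≤ ⟨w⟩` -/
theorem Z (g : S) : g * z * g⁻¹ * z⁻¹ ∈ zpowers (b * b) := by
  haveI : Fact (Nat.Prime 2) := ⟨Nat.prime_two⟩
  obtain ⟨x, hxV, hxM, -, hxg, -, -⟩ := H23.exists_step h.H.h.two h.Mn h.H.Vnn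
    (lt_of_le_of_ne h.MV (fun k => h.zM (by rw [k]; exact h.H.zV)))
  have hx1 := form1 h.Mn (hxg a)
  have hxA : x ∈ A := by
    by_contra hxA
    have h3 := h.H.cv hxV hxA
    rw [cj_apply] at h3
    rw [h3, inv_mul_cancel_left] at hx1
    exact h.zM hx1
  have hg := form2 (hxg g)
  rcases h.Wm hxV hxA with h1 | h1 | h1 | h1
  · exact absurd (h1 ▸ one_mem _) hxM
  · rwa [h1] at hg
  · exact absurd (h1 ▸ mem_zpowers _) hxM
  · rw [h1] at hg
    have h4 := h.H.bbc h.hb g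
    have h5 : g * (b * b * z) * g⁻¹ * (b * b * z)⁻¹ = g * z * g⁻¹ * z⁻¹ := by
      calc g * (b * b * z) * g⁻¹ * (b * b * z)⁻¹ = (g * (b * b)) * z * g⁻¹ * z⁻¹ * (b * b)⁻¹ := by group
        _ = (b * b) * (g * z * g⁻¹ * z⁻¹) * (b * b)⁻¹ := by rw [h4]; group
        _ = _ := by rw [← h.H.bbc h.hb]; group
    rwa [h5] at hg

/-- `[v, S] ≤ W` -/
theorem Zv (g : S) : g * v * g⁻¹ * v⁻¹ ∈ A ⊓ V := by
  have hV : g * v * g⁻¹ ∈ V := h.H.h.Vn v h.H.vV g
  have hzz := h.H.h.Vsq z h.H.zV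
  have hnA : g * v * g⁻¹ ∉ A := by
    intro hA
    apply h.H.vA
    -- `W` is invariant
    have key : ∀ x, x ∈ V → x ∈ A → g⁻¹ * x * g ∈ A := by
      intro x hxV hxA
      have hz : g⁻¹ * z * g ∈ A := by
        have h1 := h.Z g⁻¹
        rw [inv_inv] at h1
        have h2 : g⁻¹ * z * g = (g⁻¹ * z * g * z⁻¹) * z := by group
        rw [h2]
        refine A.mul_mem ?_ h.H.zA
        have h3 : zpowers (b * b) ≤ A := by rw [zpowers_le]; exact h.H.bbA h.hb
        exact h3 h1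
      have hw : g⁻¹ * (b * b) * g = b * b := by rw [h.H.bbc h.hb]; group
      rcases h.Wm hxV hxA with h1 | h1 | h1 | h1 <;> rw [h1]
      · rw [mul_one, inv_mul_cancel]; exact one_mem _
      · exact hz
      · rw [hw]; exact h.H.bbA h.hb
      · have : g⁻¹ * (b * b * z) * g = (g⁻¹ * (b * b) * g) * (g⁻¹ * z * g) := by group
        rw [this, hw]; exact A.mul_mem (h.H.bbA h.hb) hz
    have := key _ hV hA
    convert this using 1
    group
  have hvi : v⁻¹ = v := inv_eq_of_mul_eq_one_left h.H.vA'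
  rw [hvi]
  exact ⟨(h.H.VA hV h.H.vV).2 ⟨fun k => absurd k hnA, fun k => absurd k h.H.vA⟩, V.mul_mem hV h.H.vV⟩

/-- the elements acting trivially on `V/⟨w⟩` -/
theorem S0V {s : S} (hs : s * v * s⁻¹ * v⁻¹ ∈ zpowers (b * b)) : ∀ u ∈ V, s * u * s⁻¹ * u⁻¹ ∈ zpowers (b * b) := by
  obtain ⟨K, hK⟩ := exists_CM _ h.Mn s
  have h1 := h.genV K ?_ ?_ ?_
  · intro u hu
    exact form2 ((hK u).1 (h1 hu))
  · rw [hK]; exact form2 (h.Z s)
  · rw [hK]
    have : b * b * s * (b * b)⁻¹ * s⁻¹ = 1 := by rw [← h.H.bbc h.hb s]; group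
    rw [this]
    exact one_mem _
  · rw [hK]; exact form2 hs

/-- `s` and `s^a` -/
theorem S0a {s : S} (hs : s * v * s⁻¹ * v⁻¹ ∈ zpowers (b * b)) :
    cj a s * v * (cj a s)⁻¹ * v⁻¹ ∈ zpowers (b * b) ∧
      (cj a s * v * (cj a s)⁻¹ = (s * v * s⁻¹) * (s * z * s⁻¹ * z⁻¹)) := by
  have hm := h.Z s
  set m' := s * z * s⁻¹ * z⁻¹ with hm'
  set m := s * v * s⁻¹ * v⁻¹ with hmm
  have e1 : s * v * s⁻¹ = m * v := by rw [hmm]; group
  have e2 : s * z * s⁻¹ = m' * z := by rw [hm']; group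
  have hzz := h.H.h.Vsq z h.H.zV
  have hvz := h.H.h.Vcomm v h.H.vV z h.H.zV
  have e3 : cj a s * v * (cj a s)⁻¹ = m * m' * v := by
    have e4 : v = cj a (v * z) := by
      rw [map_mul, h.H.va, h.H.za, mul_assoc, hzz, mul_one]
    calc cj a s * v * (cj a s)⁻¹ = cj a s * cj a (v * z) * (cj a s)⁻¹ := by rw [← e4]
      _ = cj a (s * (v * z) * s⁻¹) := by
        rw [map_mul (cj a) (s * (v * z)) s⁻¹, map_mul (cj a) s (v * z), map_inv]
      _ = cj a ((s * v * s⁻¹) * (s * z * s⁻¹)) := by congr 1; group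
      _ = cj a (m * (v * m') * z) := by rw [e1, e2]; congr 1; group
      _ = cj a (m * m' * (v * z)) := by rw [h.Mc hm v]; congr 1; group
      _ = m * m' * v := by
        rw [map_mul, map_mul, h.ca_M hs, h.ca_M hm, ← e4]
  constructor
  · rw [e3, mul_inv_cancel_right]
    exact mul_mem hs hm
  · rw [e3, e1]
    calc m * m' * v = m * (m' * v) := by group
      _ = m * (v * m') := by rw [← h.Mc hm v]
      _ = m * v * m' := by group

end H1

end

end Cfsg.Agent.H20.Har
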