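import Cfsg.Agent.H20.HarF

set_option autoImplicit false
set_option maxHeartbeats 800000
set_option linter.unusedSectionVars false

/-! Harada's theorem, case `|V| = 8`, `|A ∩ V| = 4`, `b² ≠ z`: tools about `D`. -/

namespace Cfsg.Agent.H20.Har
open Subgroup

section
variable {S : Type*} [Group S] [Finite S] {A V D E : Subgroup S} {a v z b : S}

namespace HD
variable (h : HD A V a v z b D E)
include h

theorem VD : V ≤ D := h.VE.trans h.ED
theorem DC {x : S} (hx : x ∈ D) : ∀ u ∈ V, x * u = u * x := fun u hu => h.Dcomm x hx u (h.VD hu)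
theorem cD {x : S} (hx : x ∈ D) : cj a x ∈ D := h.Dn.conj_mem x hx a
theorem cE {x : S} (hx : x ∈ E) : cj a x ∈ E := h.En.conj_mem x hx a
theorem cEE {x : S} : cj a x ∈ E ↔ x ∈ E := ⟨fun k => by have := h.cE k; rwa [h.H.cc] at this, h.cE⟩
/-- `D/E` is central -/
theorem cent_DE {d : S} (hd : d ∈ D) (g : S) : g * d * g⁻¹ * d⁻¹ ∈ E := by
  by_cases hdE : d ∈ E
  · exact E.mul_mem (h.En.conj_mem d hdE g) (E.inv_mem hdE)
  · refine h.DE _ (h.Dn.conj_mem d hd g) _ (D.inv_mem hd) ?_ (fun k => hdE (by simpa using E.inv_mem k))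
    intro k
    apply hdE
    have := h.En.conj_mem _ k g⁻¹
    convert this using 1
    group
theorem dci {d : S} (hd : d ∈ D) (g : S) : (g * d * g⁻¹ ∈ E ↔ d ∈ E) := by
  have h1 := h.cent_DE hd g
  constructor
  · intro k
    have h2 : d = (g * d * g⁻¹ * d⁻¹)⁻¹ * (g * d * g⁻¹) := by group
    rw [h2]; exact E.mul_mem (E.inv_mem h1) k
  · intro k; exact h.En.conj_mem d k g
/-- parity in `D` -/
theorem par {x y : S} (hx : x ∈ D) (hy : y ∈ D) : x * y ∈ E ↔ (x ∈ E ↔ y ∈ E) := by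
  constructor
  · intro k
    constructor
    · intro hxE
      have h2 : y = x⁻¹ * (x * y) := by group
      rw [h2]; exact E.mul_mem (E.inv_mem hxE) k
    · intro hyE
      have h2 : x = (x * y) * y⁻¹ := by group
      rw [h2]; exact E.mul_mem k (E.inv_mem hyE)
  · intro k
    by_cases hxE : x ∈ E
    · exact E.mul_mem hxE (k.1 hxE)
    · exact h.DE x hx y hy hxE (fun k' => hxE (k.2 k'))

/-- the even tool -/
theorem ET {s : S} (hs : s⁻¹ * cj a s ∈ E) : ∃ d ∈ D, cj a (s * d) = s * d := by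
  obtain ⟨d, hd, u, hu, hδ⟩ := h.Eex _ hs
  set δ := s⁻¹ * cj a s with hδd
  -- `ω = d d^a ∈ W`
  set ω := d * cj a d with hω
  have hωD : ω ∈ D := D.mul_mem hd (h.cD hd)
  have hωa : cj a ω = ω := by
    rw [hω, map_mul, h.H.cc]; exact h.Dcomm _ (h.cD hd) _ hd
  obtain ⟨hωA, hωV⟩ := h.H.CCa (h.DC hωD) hωa
  set κ := (d⁻¹)⁻¹ * cj a d⁻¹ with hκ
  have hκD : κ ∈ D := D.mul_mem (D.inv_mem (D.inv_mem hd)) (h.cD (D.inv_mem hd))
  have hdd : d * d = κ * ω := by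
    rw [hκ, hω, map_inv, inv_inv, h.Dcomm d hd (cj a d) (h.cD hd)]
    group
  have hu' : δ = κ * (ω * u) := by rw [hδ, hdd, mul_assoc]
  have hωu : ω * u ∈ V := V.mul_mem hωV hu
  have hinv : (ω * u) * cj a (ω * u) = 1 := by
    have h1 : δ * cj a δ = 1 := h.H.dd s
    have h2 : κ * cj a κ = 1 := h.H.dd d⁻¹
    rw [hu', map_mul] at h1
    have h3 := h.Dcomm _ (h.VD hωu) _ (h.cD hκD)
    calc (ω * u) * cj a (ω * u) = 1 * ((ω * u) * cj a (ω * u)) := (one_mul _).symm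
      _ = (κ * cj a κ) * ((ω * u) * cj a (ω * u)) := by rw [h2]
      _ = κ * (cj a κ * (ω * u)) * cj a (ω * u) := by group
      _ = κ * ((ω * u) * cj a κ) * cj a (ω * u) := by rw [h3]
      _ = κ * (ω * u) * (cj a κ * cj a (ω * u)) := by group
      _ = 1 := h1
  have hωuA : ω * u ∈ A := by
    apply h.H.fix hωu
    exact mul_left_cancel (hinv.trans (h.H.h.Vsq _ hωu).symm)
  -- `ω u = [d2, a]`
  have hvD : v ∈ D := h.VD h.H.vV
  have hex : ∃ d2 ∈ D, ω * u = d2⁻¹ * cj a d2 := by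
    rcases h.toH1.Wm hωu hωuA with h1 | h1 | h1 | h1 <;> rw [h1]
    · exact ⟨1, one_mem _, by simp⟩
    · exact ⟨v, hvD, by rw [h.H.va]; group⟩
    · exact ⟨b, h.bD, by rw [h.ba]; group⟩
    · refine ⟨b * v, D.mul_mem h.bD hvD, ?_⟩
      rw [map_mul, h.H.va, h.ba]
      have h4 := h.hb.bC v h.H.vV
      have h5 := h.toH1.Mc (mem_zpowers (b * b)) v
      calc b * b * z = v⁻¹ * (v * (b * b)) * z := by group
        _ = v⁻¹ * (b * b * v) * z := by rw [h5]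
        _ = _ := by group
  obtain ⟨d2, hd2, hd2e⟩ := hex
  refine ⟨(d⁻¹ * d2)⁻¹, D.inv_mem (D.mul_mem (D.inv_mem hd) hd2), ?_⟩
  have hsa : cj a s = s * δ := by rw [hδd]; group
  rw [map_mul, map_inv, map_mul, hsa, hu', hd2e, hκ]
  have h6 := h.Dcomm (cj a d⁻¹) (h.cD (D.inv_mem hd)) (d2⁻¹) (D.inv_mem hd2)
  calc s * ((d⁻¹)⁻¹ * cj a d⁻¹ * (d2⁻¹ * cj a d2)) * (cj a d⁻¹ * cj a d2)⁻¹
      = s * ((d⁻¹)⁻¹ * (cj a d⁻¹ * d2⁻¹) * cj a d2) * (cj a d⁻¹ * cj a d2)⁻¹ := by group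
    _ = s * ((d⁻¹)⁻¹ * (d2⁻¹ * cj a d⁻¹) * cj a d2) * (cj a d⁻¹ * cj a d2)⁻¹ := by rw [h6]
    _ = s * ((d⁻¹)⁻¹ * d2⁻¹) := by group
    _ = s * (d2⁻¹ * (d⁻¹)⁻¹) := by rw [h.Dcomm _ (D.inv_mem (D.inv_mem hd)) _ (D.inv_mem hd2)]
    _ = s * (d⁻¹ * d2)⁻¹ := by rw [mul_inv_rev]

/-- elements commuting with `a, z` are in `A` -/
theorem inA {x : S} (h1 : cj a x = x) (h2 : x * z = z * x) : x ∈ A := by
  have hax : a * x = x * a := by rwa [cj_apply, mul_inv_eq_iff_eq_mul] at h1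
  have hW : ∀ u ∈ V, u ∈ A → x * u = u * x := by
    intro u hu huA
    have h3 := h.H.bbc h.hb x
    rcases h.toH1.Wm hu huA with k | k | k | k <;> rw [k]
    · rw [mul_one, one_mul]
    · exact h2
    · exact h3
    · rw [← mul_assoc, h3, mul_assoc, h2]; group
  refine h.H.h.cent x fun y hy => ?_
  by_cases hyV : y ∈ V
  · exact hW y hyV hy
  · have h3 : y * a ∈ V := (h.H.AV hy h.H.aA).2 ⟨fun k => absurd k hyV, fun k => absurd k h.H.aV⟩
    have h4 := hW _ h3 (A.mul_mem hy h.H.aA)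
    calc x * y = x * (y * a) * a := by rw [mul_assoc, mul_assoc y, h.H.aa, mul_one]
      _ = (y * a) * (x * a) := by rw [h4]; group
      _ = (y * a) * (a * x) := by rw [hax]
      _ = y * (a * a) * x := by group
      _ = y * x := by rw [h.H.aa, mul_one]

/-- Tool T -/
theorem tool {s : S} (hsz : s * z = z * s) (hsv : s * v * s⁻¹ * v⁻¹ ∈ zpowers (b * b)) (hs : s⁻¹ * cj a s ∈ E) :
    s ∈ D := by
  obtain ⟨d, hd, hda⟩ := h.ET hs
  have hzd := h.DC hd z h.H.zV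
  have h1 : s * d ∈ A := h.inA hda (by rw [mul_assoc, hzd, ← mul_assoc, hsz, mul_assoc])
  by_cases hV : s * d ∈ V
  · have := D.mul_mem (h.VD hV) (D.inv_mem hd)
    rwa [mul_inv_cancel_right] at this
  · exfalso
    have h2 : s * d * a ∈ V := (h.H.AV h1 h.H.aA).2 ⟨fun k => absurd k hV, fun k => absurd k h.H.aV⟩
    -- `s v s⁻¹ = v z`
    set u := s * d * a with hu
    have hs' : s = u * a⁻¹ * d⁻¹ := by rw [hu]; group
    have hdv := h.DC (D.inv_mem hd) v h.H.vV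
    have h3 : s * v * s⁻¹ = v * z := by
      have hav : a⁻¹ * v * a = v * z := by
        rw [← h.H.va, cj_apply, h.H.ainv]
      have hvz : v * z ∈ V := V.mul_mem h.H.vV h.H.zV
      calc s * v * s⁻¹ = u * a⁻¹ * (d⁻¹ * v) * d * a * u⁻¹ := by rw [hs']; group
        _ = u * (a⁻¹ * v * a) * u⁻¹ := by rw [hdv]; group
        _ = v * z := by rw [hav, h.H.h.Vcomm u h2 _ hvz, mul_inv_cancel_right]
    rw [h3, h.H.h.Vcomm v h.H.vV z h.H.zV, mul_inv_cancel_right] at hsv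
    exact h.toH1.zM hsv

/-- the C-tool -/
theorem ctool {δ : S} (hδ : ∀ u ∈ V, δ * u = u * δ) (h1 : δ * cj a δ = 1) : δ ∈ D := by
  rcases h.CD with hC | ⟨y, hyC, hyD, hyE, hβD, hβE, hC⟩
  · exact hC δ hδ
  · rcases hC δ hδ with h2 | h2
    · exact h2
    · exfalso
      set d := y⁻¹ * δ with hd
      set β := y⁻¹ * cj a y with hβ
      have hδe : δ = y * d := by rw [hd]; group
      have hya : cj a y = y * β := by rw [hβ]; group
      rw [hδe, map_mul, hya] at h1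
      -- `y d y β d^a = y² (y⁻¹ d y) β d^a`
      have h3 : y * d * (y * β * cj a d) = (y * y) * (β * ((y⁻¹ * d * y) * cj a d)) := by
        have hd1 : y⁻¹ * d * y ∈ D := by
          have := h.Dn.conj_mem d h2 y⁻¹
          rwa [inv_inv] at this
        calc y * d * (y * β * cj a d) = (y * y) * ((y⁻¹ * d * y) * β * cj a d) := by group
          _ = (y * y) * ((β * (y⁻¹ * d * y)) * cj a d) := by rw [h.Dcomm _ hd1 _ hβD]
          _ = _ := by group
      rw [h3] at h1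
      have hd1 : y⁻¹ * d * y ∈ D := by
        have := h.Dn.conj_mem d h2 y⁻¹
        rwa [inv_inv] at this
      have h4 : (y⁻¹ * d * y) * cj a d ∈ E := by
        rw [h.par hd1 (h.cD h2)]
        have h5 := h.dci h2 y⁻¹
        rw [inv_inv] at h5
        rw [h5, h.cEE]
      have h6 : β * ((y⁻¹ * d * y) * cj a d) ∉ E := by
        rw [h.par hβD (h.ED h4)]
        exact fun k => hβE (k.2 h4)
      apply h6
      have h7 : β * ((y⁻¹ * d * y) * cj a d) = (y * y)⁻¹ := (inv_eq_of_mul_eq_one_right h1).symm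
      rw [h7]
      exact E.inv_mem hyE

/-- two elements of `C` outside `D` -/
theorem C2 {x y : S} (hx : ∀ u ∈ V, x * u = u * x) (hy : ∀ u ∈ V, y * u = u * y) (hxD : x ∉ D) (hyD : y ∉ D) :
    x⁻¹ * y ∈ D := by
  rcases h.CD with hC | ⟨t, htC, htD, htE, hβD, hβE, hC⟩
  · exact absurd (hC x hx) hxD
  · have h1 := (hC x hx).resolve_left hxD
    have h2 := (hC y hy).resolve_left hyD
    have := D.mul_mem (D.inv_mem h1) h2
    convert this using 1
    group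

/-- elements of `C` outside `D` -/
theorem C3 {c : S} (hc : ∀ u ∈ V, c * u = u * c) (hcD : c ∉ D) : c⁻¹ * cj a c ∈ D ∧ c⁻¹ * cj a c ∉ E := by
  rcases h.CD with hC | ⟨y, hyC, hyD, hyE, hβD, hβE, hC⟩
  · exact absurd (hC c hc) hcD
  · have h1 := (hC c hc).resolve_left hcD
    set d := y⁻¹ * c with hd
    set β := y⁻¹ * cj a y with hβ
    have hce : c = y * d := by rw [hd]; group
    have hya : cj a y = y * β := by rw [hβ]; group
    have h2 : c⁻¹ * cj a c = β * (d⁻¹ * cj a d) := by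
      rw [hce, map_mul, hya]
      calc (y * d)⁻¹ * (y * β * cj a d) = (d⁻¹ * β) * cj a d := by group
        _ = (β * d⁻¹) * cj a d := by rw [h.Dcomm _ (D.inv_mem h1) _ hβD]
        _ = _ := by group
    have h3 : d⁻¹ * cj a d ∈ E := by
      rw [h.par (D.inv_mem h1) (h.cD h1), h.cEE, inv_mem_iff]
    rw [h2]
    refine ⟨D.mul_mem hβD (h.ED h3), ?_⟩
    rw [h.par hβD (h.ED h3)]
    exact fun k => hβE (k.2 h3)

/-- `P₀` -/
theorem P0 {s : S} (hsz : s * z = z * s) (hsv : s * v * s⁻¹ * v⁻¹ ∈ zpowers (b * b)) : s⁻¹ * cj a s ∈ D := by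
  apply h.ctool
  · have h1 := (h.toH1.S0a hsv).2
    have h2 : s * z * s⁻¹ * z⁻¹ = 1 := by rw [hsz]; group
    rw [h2, mul_one] at h1
    have h3 : cj a s * z = z * cj a s := by
      have := congrArg (cj a) hsz
      rwa [map_mul, map_mul, h.H.za] at this
    apply h.toH1.comm_of
    · calc s⁻¹ * cj a s * z = s⁻¹ * (z * cj a s) := by rw [mul_assoc, h3]
        _ = s⁻¹ * (z * s) * s⁻¹ * cj a s := by group
        _ = s⁻¹ * (s * z) * s⁻¹ * cj a s := by rw [hsz]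
        _ = _ := by group
    · have h4 : cj a s * v = s * v * s⁻¹ * cj a s := by rw [← h1]; group
      calc s⁻¹ * cj a s * v = s⁻¹ * (s * v * s⁻¹ * cj a s) := by rw [mul_assoc, h4]
        _ = _ := by group
  · exact h.H.dd s

theorem P0_two (X : Subgroup S) (hX : ∀ s ∈ X, s * z = z * s ∧ s * v * s⁻¹ * v⁻¹ ∈ zpowers (b * b)) :
    Nat.card X ≤ 2 * Nat.card ↥(X ⊓ D) := by
  refine card_le_two X D fun s hs s' hs' hsD hsD' => ?_
  obtain ⟨h1, h2⟩ := hX s hs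
  obtain ⟨h1', h2'⟩ := hX s' hs'
  obtain ⟨h3, h4⟩ := hX _ (X.mul_mem (X.inv_mem hs) hs')
  refine h.tool h3 h4 ?_
  have k1 := h.P0 h1 h2
  have k2 := h.P0 h1' h2'
  have k1' : s⁻¹ * cj a s ∉ E := fun k => hsD (h.tool h1 h2 k)
  have k2' : s'⁻¹ * cj a s' ∉ E := fun k => hsD' (h.tool h1' h2' k)
  have e1 : (s⁻¹ * s')⁻¹ * cj a (s⁻¹ * s') =
      ((s'⁻¹ * s) * (s⁻¹ * cj a s)⁻¹ * (s'⁻¹ * s)⁻¹) * (s'⁻¹ * cj a s') := by
    rw [map_mul, map_inv]; group
  rw [e1]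
  refine h.DE _ (h.Dn.conj_mem _ (D.inv_mem k1) _) _ k2 ?_ k2'
  rw [h.dci (D.inv_mem k1)]
  exact fun k => k1' (by simpa using E.inv_mem k)

/-- fixed cosets -/
theorem F4 {s : S} (hsv : s * v * s⁻¹ * v⁻¹ ∈ zpowers (b * b)) (hδ : s⁻¹ * cj a s ∈ D) : s * z = z * s := by
  have h1 := (h.toH1.S0a hsv).2
  set δ := s⁻¹ * cj a s with hδd
  have h2 : cj a s = s * δ := by rw [hδd]; group
  have h3 := h.DC hδ v h.H.vV
  have h4 : cj a s * v * (cj a s)⁻¹ = s * v * s⁻¹ := by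
    rw [h2]
    calc s * δ * v * (s * δ)⁻¹ = s * (δ * v) * δ⁻¹ * s⁻¹ := by group
      _ = s * v * s⁻¹ := by rw [h3]; group
  rw [h4, left_eq_mul, mul_inv_eq_one, mul_inv_eq_iff_eq_mul] at h1
  exact h1

end HD
end

end Cfsg.Agent.H20.Har
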