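import Cfsg.Agent.H20.HarF2

set_option autoImplicit false
set_option maxHeartbeats 800000
set_option linter.unusedSectionVars false

/-! Harada's theorem, case `|V| = 8`, `|A ∩ V| = 4`, `b² ≠ z`: the final count. -/

namespace Cfsg.Agent.H20.Har
open Subgroup

section
variable {S : Type*} [Group S] [Finite S]

theorem card_sup (L D : Subgroup S) (hD : D.Normal) :
    Nat.card ↥(L ⊔ D) * Nat.card ↥(L ⊓ D) = Nat.card L * Nat.card D := by
  have h1 := H63.card_mul_relIndex (le_sup_right : D ≤ L ⊔ D)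
  have h2 := H63.card_mul_relIndex (inf_le_left : L ⊓ D ≤ L)
  rw [Subgroup.inf_relIndex_left] at h2
  rw [Subgroup.relIndex_sup_right] at h1
  rw [← h1, ← h2]; ring

theorem form1_iff {M : Subgroup S} (hM : M.Normal) {x g : S} : x * g * x⁻¹ * g⁻¹ ∈ M ↔ x⁻¹ * (g * x * g⁻¹) ∈ M := by
  refine ⟨form1 hM, fun h => ?_⟩
  have := M.inv_mem (hM.conj_mem _ h x)
  convert this using 1; group

theorem exists_root (h2 : IsPGroup 2 S) {V : Subgroup S} {d : S} (hd : d ∉ V) :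
    ∃ k : ℕ, d ^ (2 ^ k) ∉ V ∧ d ^ (2 ^ k) * d ^ (2 ^ k) ∈ V := by
  classical
  have hex : ∃ k : ℕ, d ^ (2 ^ k) ∈ V := by
    obtain ⟨k, hk⟩ := h2 d
    exact ⟨k, by rw [hk]; exact one_mem _⟩
  have h1 := Nat.find_spec hex
  set k := Nat.find hex with hk
  have hk0 : k ≠ 0 := by
    intro h0
    rw [h0, pow_zero, pow_one] at h1
    exact hd h1
  obtain ⟨j, hj⟩ := Nat.exists_eq_succ_of_ne_zero hk0
  refine ⟨j, Nat.find_min hex (by rw [← hk, hj]; exact Nat.lt_succ_self j), ?_⟩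
  rw [← pow_add, ← two_mul, ← pow_succ']
  rwa [hj] at h1

variable {A V D E : Subgroup S} {a v z b : S}

namespace HD
variable (h : HD A V a v z b D E)
include h

theorem zp_mul {x y : S} (hx : x ∈ zpowers (b * b)) (hy : y ∈ zpowers (b * b)) (hx1 : x ≠ 1) (hy1 : y ≠ 1) :
    x * y = 1 := by
  have h1 := ((zp2 h.toH1.ww).1 hx).resolve_left hx1
  have h2 := ((zp2 h.toH1.ww).1 hy).resolve_left hy1
  rw [h1, h2, h.toH1.ww]

theorem DCle : D ≤ Subgroup.centralizer (V : Set S) := fun x hx => h.H.memC.2 (h.DC hx)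

/-- `|L ∩ C| ≤ 2 |L ∩ D|` -/
theorem lC (L : Subgroup S) : Nat.card ↥(L ⊓ Subgroup.centralizer (V : Set S)) ≤ 2 * Nat.card ↥(L ⊓ D) := by
  have h1 := card_le_two (L ⊓ Subgroup.centralizer (V : Set S)) D fun s hs s' hs' hsD hsD' =>
    h.C2 (h.H.memC.1 hs.2) (h.H.memC.1 hs'.2) hsD hsD'
  have h2 : L ⊓ Subgroup.centralizer (V : Set S) ⊓ D = L ⊓ D := by
    rw [inf_assoc, inf_eq_right.2 h.DCle]
  rwa [h2] at h1

/-- the squares of `L ∩ D` -/
theorem Q (L N : Subgroup S) (hs : ∀ x ∈ L, x * x ∈ N) : ∃ Q : Subgroup S,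
    (∀ x, x ∈ Q ↔ ∃ d ∈ L ⊓ D, d * d = x) ∧ Nat.card ↥(L ⊓ D) = Nat.card Q * Nat.card ↥(L ⊓ V) ∧
      Q ≤ N ⊓ D ∧ Q ≤ E := by
  obtain ⟨Q, hQ, hc⟩ := exists_Q (L ⊓ D) V (fun x hx y hy => h.Dcomm x hx.2 y hy.2)
    (fun x hx => ⟨fun k => h.D1 x hx.2 k, fun k => h.H.h.Vsq x k⟩)
  refine ⟨Q, hQ, ?_, ?_, ?_⟩
  · rw [hc, inf_assoc, inf_eq_right.2 h.VD]
  · intro x hx
    obtain ⟨d, hd, rfl⟩ := (hQ x).1 hx
    exact ⟨hs d hd.1, D.mul_mem hd.2 hd.2⟩
  · intro x hx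
    obtain ⟨d, hd, rfl⟩ := (hQ x).1 hx
    exact h.E2 d hd.2

theorem DE2 : Nat.card D ≤ 2 * Nat.card E := by
  have h1 := card_le_two D E fun s hs s' hs' hsE hsE' =>
    h.DE _ (D.inv_mem hs) _ hs' (fun k => hsE (by simpa using E.inv_mem k)) hsE'
  rwa [inf_eq_right.2 h.ED] at h1

/-- Case I -/
theorem caseI (L N : Subgroup S) (hNL : N ≤ L) (hc : ∀ x ∈ L, ∀ y ∈ L, x * y * x⁻¹ * y⁻¹ ∈ N)
    (hs : ∀ x ∈ L, x * x ∈ N) (h32 : 32 * Nat.card N ≤ Nat.card L)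
    (hI : 8 * Nat.card ↥(N ⊓ D) ≤ Nat.card ↥(L ⊓ D)) : False := by
  obtain ⟨Q, hQ, hlD, hQN, hQE⟩ := h.Q L N hs
  have hn0 : 0 < Nat.card N := Nat.card_pos
  have hnD0 : 0 < Nat.card ↥(N ⊓ D) := Nat.card_pos
  have hlD0 : 0 < Nat.card ↥(L ⊓ D) := Nat.card_pos
  have hD0 : 0 < Nat.card D := Nat.card_pos
  have hE0 : 0 < Nat.card E := Nat.card_pos
  have hq0 : 0 < Nat.card Q := Nat.card_pos
  have hqn : Nat.card Q ≤ Nat.card ↥(N ⊓ D) := Subgroup.card_le_of_le hQN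
  have hlV : Nat.card ↥(L ⊓ V) ≤ 8 := by rw [← h.H.V8]; exact Subgroup.card_le_of_le inf_le_right
  have hnDn : Nat.card ↥(N ⊓ D) ≤ Nat.card N := Subgroup.card_le_of_le inf_le_left
  have hlV8 : Nat.card ↥(L ⊓ V) = 8 := by
    by_contra hne
    have h7 : Nat.card ↥(L ⊓ V) ≤ 7 := by omega
    have := Nat.mul_le_mul hqn h7
    omega
  have hVL : V ≤ L := by
    have : L ⊓ V = V := Subgroup.eq_of_le_of_card_ge inf_le_right (by rw [hlV8, h.H.V8])
    exact this ▸ inf_le_left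
  rw [hlV8] at hlD
  have hqe : Nat.card ↥(N ⊓ D) ≤ Nat.card Q := by omega
  have hQe : Q = N ⊓ D := Subgroup.eq_of_le_of_card_ge hQN hqe
  by_cases hLV : L ⊓ D ≤ V
  · have hND1 : N ⊓ D = ⊥ := by
      rw [← hQe, eq_bot_iff]
      intro x hx
      obtain ⟨d, hd, rfl⟩ := (hQ x).1 hx
      rw [mem_bot]; exact h.H.h.Vsq d (hLV hd)
    have hLC : L ≤ Subgroup.centralizer (V : Set S) := by
      intro l hl
      refine h.H.memC.2 fun u hu => ?_
      have h5 : l * u * l⁻¹ * u⁻¹ ∈ N ⊓ D :=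
        mem_inf.2 ⟨hc l hl u (hVL hu), h.VD (V.mul_mem (h.H.h.Vn u hu l) (V.inv_mem hu))⟩
      rw [hND1, mem_bot, mul_inv_eq_one, mul_inv_eq_iff_eq_mul] at h5
      exact h5
    have h6 := h.lC L
    rw [inf_eq_left.2 hLC] at h6
    have h7 : Nat.card ↥(L ⊓ D) ≤ 8 := by rw [← h.H.V8]; exact Subgroup.card_le_of_le hLV
    omega
  · obtain ⟨d, hd, hdV⟩ := SetLike.not_le_iff_exists.1 hLV
    obtain ⟨k, hk1, hk2⟩ := exists_root h.H.h.two hdV
    set e := d ^ (2 ^ k) with he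
    have heLD : e ∈ L ⊓ D := (L ⊓ D).pow_mem hd _
    have hee : e * e = b * b := (h.Dsq e heLD.2 hk2).resolve_left hk1
    have heb : e * b⁻¹ ∈ V := by
      apply h.D1 _ (D.mul_mem heLD.2 (D.inv_mem h.bD))
      have h8 := h.Dcomm _ (D.inv_mem h.bD) _ heLD.2
      calc e * b⁻¹ * (e * b⁻¹) = e * (b⁻¹ * e) * b⁻¹ := by group
        _ = (e * e) * (b * b)⁻¹ := by rw [h8]; group
        _ = 1 := by rw [hee, mul_inv_cancel]
    have hbL : b ∈ L := by
      have h9 : b = (e * b⁻¹)⁻¹ * e := by group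
      rw [h9]; exact L.mul_mem (L.inv_mem (hVL heb)) heLD.1
    have hNV : ∀ x, x ∈ N → x ∈ V → x ∈ zpowers (b * b) := by
      intro x hx hxV
      have h9 : x ∈ Q := by rw [hQe]; exact ⟨hx, h.VD hxV⟩
      obtain ⟨d1, hd1, rfl⟩ := (hQ x).1 h9
      rcases h.Dsq d1 hd1.2 hxV with h10 | h10
      · rw [h.H.h.Vsq d1 h10]; exact one_mem _
      · rw [h10]; exact mem_zpowers _
    obtain ⟨S0, hS0⟩ := exists_CM _ h.toH1.Mn v
    obtain ⟨Kb, hKb⟩ := exists_CM _ h.toH1.Mn b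
    obtain ⟨Kz, hKz⟩ := exists_CM ⊥ inferInstance z
    have hLT : L ≤ S0 ⊓ Kb := by
      intro l hl
      refine mem_inf.2 ⟨(hS0 l).2 ?_, (hKb l).2 ?_⟩
      · exact hNV _ (hc l hl v (hVL h.H.vV)) (V.mul_mem (h.H.h.Vn v h.H.vV l) (V.inv_mem h.H.vV))
      · exact hNV _ (hc l hl b hbL) (form2 (h.hb.bg l))
    have hDT : D ≤ S0 ⊓ Kb := by
      intro x hx
      refine mem_inf.2 ⟨(hS0 x).2 ?_, (hKb x).2 ?_⟩
      · rw [h.Dcomm x hx v (h.VD h.H.vV), mul_inv_cancel_right, mul_inv_cancel]; exact one_mem _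
      · rw [h.Dcomm x hx b h.bD, mul_inv_cancel_right, mul_inv_cancel]; exact one_mem _
    have hT1 : Nat.card ↥(S0 ⊓ Kb) ≤ 2 * Nat.card ↥(S0 ⊓ Kb ⊓ Kz) :=
      card_step (M := ⊥) (M' := zpowers (b * b)) inferInstance hKz (fun s _ => h.toH1.Z s) (by
        intro u hu u' hu' h1 h2
        rw [mem_bot] at h1 h2 ⊢
        exact h.zp_mul hu hu' h1 h2)
    have hT2 : Nat.card ↥(S0 ⊓ Kb ⊓ Kz) ≤ 2 * Nat.card ↥(S0 ⊓ Kb ⊓ Kz ⊓ D) := by
      refine h.P0_two _ fun s hs => ⟨?_, (hS0 s).1 hs.1.1⟩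
      have h1 := (hKz s).1 hs.2
      rwa [mem_bot, mul_inv_eq_one, mul_inv_eq_iff_eq_mul] at h1
    have hT3 : Nat.card ↥(S0 ⊓ Kb ⊓ Kz ⊓ D) ≤ Nat.card D := Subgroup.card_le_of_le inf_le_right
    have hT : Nat.card ↥(S0 ⊓ Kb) ≤ 4 * Nat.card D := by omega
    have hsup := card_sup L D h.Dn
    have hl4 : 4 * Nat.card ↥(L ⊓ D) ≤ Nat.card L := by omega
    have hLD4 : 4 * Nat.card D ≤ Nat.card ↥(L ⊔ D) := by
      have h1 : 4 * Nat.card D * Nat.card ↥(L ⊓ D) ≤ Nat.card ↥(L ⊔ D) * Nat.card ↥(L ⊓ D) := by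
        rw [hsup]; calc 4 * Nat.card D * Nat.card ↥(L ⊓ D) = 4 * Nat.card ↥(L ⊓ D) * Nat.card D := by ring
          _ ≤ _ := Nat.mul_le_mul_right _ hl4
      exact Nat.le_of_mul_le_mul_right h1 hlD0
    have hTe : L ⊔ D = S0 ⊓ Kb :=
      Subgroup.eq_of_le_of_card_ge (sup_le hLT hDT) (hT.trans hLD4)
    -- `N ≤ D`
    have hle : Nat.card L ≤ 4 * Nat.card ↥(L ⊓ D) := by
      have h1 : Nat.card L * Nat.card D ≤ 4 * Nat.card ↥(L ⊓ D) * Nat.card D := by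
        rw [← hsup, hTe]
        calc Nat.card ↥(S0 ⊓ Kb) * Nat.card ↥(L ⊓ D) ≤ 4 * Nat.card D * Nat.card ↥(L ⊓ D) :=
              Nat.mul_le_mul_right _ hT
          _ = _ := by ring
      exact Nat.le_of_mul_le_mul_right h1 hD0
    have hND : N ⊓ D = N := Subgroup.eq_of_le_of_card_ge inf_le_left (by omega)
    have hNE : N ≤ E := by rw [← hND, ← hQe]; exact hQE
    -- elements of `T`
    haveI := h.En
    haveI := h.Dn
    have hcen : ∀ d ∈ D, ∀ g : S, QuotientGroup.mk' E g * QuotientGroup.mk' E d = QuotientGroup.mk' E d * QuotientGroup.mk' E g := by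
      intro d hd g
      have h1 := h.cent_DE hd g
      rw [← QuotientGroup.ker_mk' E, MonoidHom.mem_ker, map_mul, map_mul, map_mul, map_inv, map_inv,
        mul_inv_eq_one, mul_inv_eq_iff_eq_mul] at h1
      exact h1
    have hmemT : ∀ x ∈ L ⊔ D, ∃ l ∈ L, ∃ d ∈ D, x = l * d := by
      intro x hx
      rw [← SetLike.mem_coe, Subgroup.mul_normal] at hx
      obtain ⟨l, hl, d, hd, rfl⟩ := hx
      exact ⟨l, hl, d, hd, rfl⟩
    have hTc : ∀ x ∈ L ⊔ D, ∀ y ∈ L ⊔ D, x * y * x⁻¹ * y⁻¹ ∈ E := by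
      intro x hx y hy
      obtain ⟨l, hl, d, hd, rfl⟩ := hmemT x hx
      obtain ⟨l', hl', d', hd', rfl⟩ := hmemT y hy
      have h1 := hNE (hc l hl l' hl')
      rw [← QuotientGroup.ker_mk' E, MonoidHom.mem_ker, map_mul, map_mul, map_mul, map_inv, map_inv] at h1 ⊢
      rw [map_mul, map_mul]
      have c1 := hcen d hd l'
      have c2 := hcen d hd d'
      have c3 := hcen d' hd' l⁻¹
      rw [map_inv] at c3
      generalize QuotientGroup.mk' E l = P at *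
      generalize QuotientGroup.mk' E l' = P' at *
      generalize QuotientGroup.mk' E d = p at *
      generalize QuotientGroup.mk' E d' = p' at *
      calc P * p * (P' * p') * (P * p)⁻¹ * (P' * p')⁻¹ = P * (p * P') * p' * p⁻¹ * P⁻¹ * p'⁻¹ * P'⁻¹ := by group
        _ = P * P' * (p * p') * p⁻¹ * P⁻¹ * p'⁻¹ * P'⁻¹ := by rw [← c1]; group
        _ = P * P' * (p' * P⁻¹) * p'⁻¹ * P'⁻¹ := by rw [← c2]; group
        _ = P * P' * P⁻¹ * P'⁻¹ := by rw [← c3]; group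
        _ = 1 := h1
    have hTs : ∀ x ∈ L ⊔ D, x * x ∈ E := by
      intro x hx
      obtain ⟨l, hl, d, hd, rfl⟩ := hmemT x hx
      have h1 := hNE (hs l hl)
      have h2 := h.E2 d hd
      rw [← QuotientGroup.ker_mk' E, MonoidHom.mem_ker, map_mul] at h1 h2 ⊢
      rw [map_mul]
      have c1 := hcen d hd l
      generalize QuotientGroup.mk' E l = P at *
      generalize QuotientGroup.mk' E d = p at *
      calc P * p * (P * p) = P * (p * P) * p := by group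
        _ = (P * P) * (p * p) := by rw [← c1]; group
        _ = 1 := by rw [h1, h2, one_mul]
    obtain ⟨K, hK⟩ := exists_CM E h.En a
    have hasa : ∀ s : S, a * s * a = cj a s := fun s => by rw [cj_apply, h.H.ainv]
    have hfp := fixed_points (S0 ⊓ Kb) E (S0 ⊓ Kb ⊓ K) a h.H.aa (h.ED.trans hDT) ?_ ?_ ?_ ?_ ?_
    · have hF : S0 ⊓ Kb ⊓ K ≤ D := by
        intro s hs
        have h1 := hs.2
        have h2 := form1 h.En ((hK s).1 h1)
        have h3 := (hS0 s).1 hs.1.1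
        exact h.tool (h.F4 h3 (h.ED h2)) h3 h2
      have hF' := Subgroup.card_le_of_le hF
      have h1 := Nat.mul_le_mul hF' hF'
      have h2 := h.DE2
      have h3 : Nat.card ↥(S0 ⊓ Kb) * Nat.card E ≤ 2 * Nat.card D * Nat.card E := by
        calc _ ≤ _ := hfp
          _ ≤ _ := h1
          _ ≤ Nat.card D * (2 * Nat.card E) := Nat.mul_le_mul_left _ h2
          _ = _ := by ring
      have h4 := Nat.le_of_mul_le_mul_right h3 hE0
      rw [hTe] at hLD4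
      omega
    · intro s hs
      rw [hasa]
      refine mem_inf.2 ⟨(hS0 _).2 (h.toH1.S0a ((hS0 s).1 hs.1)).1, (hKb _).2 ?_⟩
      have h1 := (hKb s).1 hs.2
      have h2 : cj a s * b * (cj a s)⁻¹ * b⁻¹ = cj a (s * b * s⁻¹ * b⁻¹) := by
        have h3 : b = cj a (b * (b * b)) := by rw [← h.ba, h.H.cc]
        have h4 := h.H.bbc h.hb s
        calc cj a s * b * (cj a s)⁻¹ * b⁻¹ = cj a s * cj a (b * (b * b)) * (cj a s)⁻¹ * (cj a (b * (b * b)))⁻¹ := by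
              rw [← h3]
          _ = cj a (s * (b * (b * b)) * s⁻¹ * (b * (b * b))⁻¹) := by
              rw [map_mul (cj a) (s * (b * (b * b)) * s⁻¹), map_mul (cj a) (s * (b * (b * b))), map_mul (cj a) s,
                map_inv, map_inv]
          _ = cj a (s * b * s⁻¹ * b⁻¹) := by
              congr 1
              calc s * (b * (b * b)) * s⁻¹ * (b * (b * b))⁻¹ = (s * (b * b)) * b * s⁻¹ * b⁻¹ * (b * b)⁻¹ := by group
                _ = (b * b) * (s * b * s⁻¹ * b⁻¹) * (b * b)⁻¹ := by rw [h4]; group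
                _ = s * b * s⁻¹ * b⁻¹ := by rw [← h.H.bbc h.hb]; group
      rw [h2, h.toH1.ca_M h1]
      exact h1
    · intro s hs
      rw [hasa]; exact h.cE hs
    · rw [← hTe]; exact hTc
    · rw [← hTe]; exact hTs
    · intro s
      rw [mem_inf, hK, form1_iff h.En, hasa, cj_apply]

end HD
end

end Cfsg.Agent.H20.Har
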