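import Cfsg.Agent.H20.HarF3

set_option autoImplicit false
set_option maxHeartbeats 800000
set_option linter.unusedSectionVars false

/-! Harada's theorem, case `|V| = 8`, `|A ∩ V| = 4`, `b² ≠ z`: the final count, second case. -/

namespace Cfsg.Agent.H20.Har
open Subgroup

section
variable {S : Type*} [Group S] [Finite S] {A V D E : Subgroup S} {a v z b : S}

namespace HD
variable (h : HD A V a v z b D E)
include h

/-- a proper subgroup has at most half the order -/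
theorem half {X Y : Subgroup S} (hXY : X ≤ Y) (hne : X ≠ Y) : 2 * Nat.card X ≤ Nat.card Y := by
  have h4 := H63.card_mul_relIndex hXY
  have h5 : X.relIndex Y ≠ 1 := by
    intro k; rw [Subgroup.relIndex_eq_one] at k
    exact hne (le_antisymm hXY k)
  have h6 : X.relIndex Y ≠ 0 := by
    intro k; rw [k, mul_zero] at h4
    exact absurd h4.symm Nat.card_pos.ne'
  have h7 : 2 ≤ X.relIndex Y := by omega
  calc 2 * Nat.card X = Nat.card X * 2 := mul_comm _ _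
    _ ≤ Nat.card X * X.relIndex Y := Nat.mul_le_mul_left _ h7
    _ = _ := h4

/-- the case of an element `a d` in `L` -/
theorem caseII1 (L N : Subgroup S) (hNL : N ≤ L) (hc : ∀ x ∈ L, ∀ y ∈ L, x * y * x⁻¹ * y⁻¹ ∈ N)
    (hs : ∀ x ∈ L, x * x ∈ N) (h4 : 4 * Nat.card ↥(N ⊓ D) ≤ Nat.card ↥(L ⊓ D)) {c d : S} (hcL : c ∈ L)
    (hcC : ∀ u ∈ V, c * u = u * c) (hcD : c ∉ D) (hd : d ∈ D) (hl : a * d ∈ L) : False := by
  obtain ⟨Q, hQ, hlD, hQN, hQE⟩ := h.Q L N hs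
  obtain ⟨hδD, hδE⟩ := h.C3 hcC hcD
  set δ := c⁻¹ * cj a c with hδ
  -- the commutator
  have hν : c⁻¹ * (a * d) * c * (a * d)⁻¹ ∈ N ∧ c⁻¹ * (a * d) * c * (a * d)⁻¹ ∈ D ∧
      c⁻¹ * (a * d) * c * (a * d)⁻¹ ∉ E := by
    have h1 := hc c⁻¹ (L.inv_mem hcL) (a * d) hl
    rw [inv_inv] at h1
    have h2 : (c⁻¹ * d * c) * d⁻¹ ∈ E := by
      have := h.cent_DE hd c⁻¹
      rwa [inv_inv] at this
    have h3 : c⁻¹ * (a * d) * c * (a * d)⁻¹ = δ * cj a ((c⁻¹ * d * c) * d⁻¹) := by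
      have e1 : (a * d) * c * (a * d)⁻¹ = cj a (c * ((c⁻¹ * d * c) * d⁻¹)) := by
        rw [cj_apply]; group
      calc c⁻¹ * (a * d) * c * (a * d)⁻¹ = c⁻¹ * ((a * d) * c * (a * d)⁻¹) := by group
        _ = c⁻¹ * cj a (c * ((c⁻¹ * d * c) * d⁻¹)) := by rw [e1]
        _ = _ := by rw [map_mul, hδ]; group
    refine ⟨h1, ?_, ?_⟩
    · rw [h3]; exact D.mul_mem hδD (h.ED (h.cE h2))
    · rw [h3, h.par hδD (h.ED (h.cE h2))]
      exact fun k => hδE (k.2 (h.cE h2))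
  obtain ⟨hνN, hνD, hνE⟩ := hν
  have hQNE : Q ≤ N ⊓ D ⊓ E := le_inf hQN hQE
  have hne : N ⊓ D ⊓ E ≠ N ⊓ D := by
    intro k
    have : c⁻¹ * (a * d) * c * (a * d)⁻¹ ∈ N ⊓ D ⊓ E := by rw [k]; exact ⟨hνN, hνD⟩
    exact hνE this.2
  have h5 := h.half inf_le_left hne
  have h6 := Subgroup.card_le_of_le hQNE
  have hlV : Nat.card ↥(L ⊓ V) ≤ 8 := by rw [← h.H.V8]; exact Subgroup.card_le_of_le inf_le_right
  have hq0 : 0 < Nat.card Q := Nat.card_pos
  have hlV8 : Nat.card ↥(L ⊓ V) = 8 := by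
    by_contra hne'
    have h7 : Nat.card ↥(L ⊓ V) ≤ 7 := by omega
    have := Nat.mul_le_mul_left (Nat.card Q) h7
    omega
  have hVL : V ≤ L := by
    have : L ⊓ V = V := Subgroup.eq_of_le_of_card_ge inf_le_right (by rw [hlV8, h.H.V8])
    exact this ▸ inf_le_left
  rw [hlV8] at hlD
  have hQe : Q = N ⊓ D ⊓ E := Subgroup.eq_of_le_of_card_ge hQNE (by omega)
  have hzN : z ∈ N := by
    have h1 := hc (a * d) hl v (hVL h.H.vV)
    have h2 : a * d * v * (a * d)⁻¹ * v⁻¹ = z := by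
      have h3 := h.DC hd v h.H.vV
      have h8 := h.H.va
      rw [cj_apply] at h8
      calc a * d * v * (a * d)⁻¹ * v⁻¹ = a * (d * v) * d⁻¹ * a⁻¹ * v⁻¹ := by group
        _ = (a * v * a⁻¹) * v⁻¹ := by rw [h3]; group
        _ = z := by rw [h8, h.H.h.Vcomm v h.H.vV z h.H.zV, mul_inv_cancel_right]
    rwa [h2] at h1
  have hzQ : z ∈ Q := by
    rw [hQe]
    exact ⟨⟨hzN, h.VD h.H.zV⟩, h.VE h.H.zV⟩
  obtain ⟨e, he, hez⟩ := (hQ z).1 hzQ
  rcases h.Dsq e he.2 (by rw [hez]; exact h.H.zV) with h7 | h7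
  · rw [h.H.h.Vsq e h7] at hez
    exact h.H.z1 hez.symm
  · exact h.bz (by rw [← h7, hez])

/-- Case II -/
theorem caseII (L N : Subgroup S) (hNL : N ≤ L) (hc : ∀ x ∈ L, ∀ y ∈ L, x * y * x⁻¹ * y⁻¹ ∈ N)
    (hs : ∀ x ∈ L, x * x ∈ N) (h32 : 32 * Nat.card N ≤ Nat.card L)
    (hI : Nat.card ↥(L ⊓ D) ≤ 4 * Nat.card ↥(N ⊓ D)) : False := by
  set C := Subgroup.centralizer (V : Set S) with hCdef
  have hq8 := q8 h.H.h.two V h.H.h.Vn h.H.h.Vcomm h.H.h.Vsq h.H.V8 L N hNL hc hs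
  rw [← hCdef] at hq8
  have hlC := h.lC L
  rw [← hCdef] at hlC
  have hnDC : Nat.card ↥(N ⊓ D) ≤ Nat.card ↥(N ⊓ C) := Subgroup.card_le_of_le (inf_le_inf_left N h.DCle)
  have hn0 : 0 < Nat.card N := Nat.card_pos
  have hnC0 : 0 < Nat.card ↥(N ⊓ C) := Nat.card_pos
  have hnD0 : 0 < Nat.card ↥(N ⊓ D) := Nat.card_pos
  have hlC0 : 0 < Nat.card ↥(L ⊓ C) := Nat.card_pos
  have hlD0 : 0 < Nat.card ↥(L ⊓ D) := Nat.card_pos
  have hC0 : 0 < Nat.card C := Nat.card_pos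
  have hD0 : 0 < Nat.card D := Nat.card_pos
  -- equalities
  have key : 8 * Nat.card ↥(N ⊓ C) ≤ Nat.card ↥(L ⊓ C) := by
    have h1 : Nat.card N * (8 * Nat.card ↥(N ⊓ C)) ≤ Nat.card N * Nat.card ↥(L ⊓ C) := by
      have h2 := Nat.mul_le_mul_right (Nat.card ↥(N ⊓ C)) h32
      nlinarith
    exact Nat.le_of_mul_le_mul_left h1 hn0
  have e1 : Nat.card ↥(N ⊓ D) = Nat.card ↥(N ⊓ C) := by omega
  have e2 : Nat.card ↥(L ⊓ D) = 4 * Nat.card ↥(N ⊓ D) := by omega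
  have e3 : Nat.card ↥(L ⊓ C) = 2 * Nat.card ↥(L ⊓ D) := by omega
  have hNCD : N ⊓ C ≤ D := by
    have : N ⊓ D = N ⊓ C := Subgroup.eq_of_le_of_card_ge (inf_le_inf_left N h.DCle) e1.ge
    rw [← this]; exact inf_le_right
  have e4 : Nat.card L = 32 * Nat.card N := by
    have h1 : Nat.card L * Nat.card ↥(N ⊓ C) ≤ 32 * Nat.card N * Nat.card ↥(N ⊓ C) := by
      rw [e3, e2, e1] at hq8
      calc _ ≤ _ := hq8
        _ = _ := by ring
    have := Nat.le_of_mul_le_mul_right h1 hnC0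
    omega
  obtain ⟨c, hcLC, hcD⟩ : ∃ c ∈ L ⊓ C, c ∉ D := by
    by_contra hcon
    push Not at hcon
    have : L ⊓ C ≤ L ⊓ D := fun x hx => ⟨hx.1, hcon x hx⟩
    have := Subgroup.card_le_of_le this
    omega
  have hcL := hcLC.1
  have hcC := h.H.memC.1 hcLC.2
  -- no element of `L` acts like `a`
  have hna : ∀ l ∈ L, a⁻¹ * l ∉ C := by
    intro l hl hlC'
    by_cases h1 : a⁻¹ * l ∈ D
    · exact h.caseII1 L N hNL hc hs e2.ge hcL hcC hcD h1 (by rwa [mul_inv_cancel_left])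
    · have h2 := h.C2 (h.H.memC.1 hlC') hcC h1 hcD
      -- `(a⁻¹ l)⁻¹ c ∈ D` so `c⁻¹ a⁻¹ l ∈ D`; take `l c⁻¹`
      have h3 : a⁻¹ * l * c⁻¹ ∈ D := by
        have := h.Dn.conj_mem _ (D.inv_mem h2) c
        convert this using 1
        group
      exact h.caseII1 L N hNL hc hs e2.ge hcL hcC hcD h3 (by
        have : a * (a⁻¹ * l * c⁻¹) = l * c⁻¹ := by group
        rw [this]; exact L.mul_mem hl (L.inv_mem hcL))
  obtain ⟨S0, hS0⟩ := exists_CM _ h.toH1.Mn v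
  obtain ⟨Kz, hKz⟩ := exists_CM ⊥ inferInstance z
  obtain ⟨Kv, hKv⟩ := exists_CM ⊥ inferInstance v
  have hbot : ∀ {x g : S}, x * g * x⁻¹ * g⁻¹ ∈ (⊥ : Subgroup S) ↔ x * g = g * x := by
    intro x g
    rw [mem_bot, mul_inv_eq_one, mul_inv_eq_iff_eq_mul]
  -- index bounds
  have st1 : ∀ X : Subgroup S, Nat.card X ≤ 2 * Nat.card ↥(X ⊓ S0) := fun X =>
    card_step (M' := A ⊓ V) h.toH1.Mn hS0 (fun s _ => h.toH1.Zv s) (by
      intro u hu u' hu' h1 h2
      have h3 := idx_two (H := zpowers (b * b)) (K := A ⊓ V)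
        (by rw [zpowers_le]; exact ⟨h.H.bbA h.hb, h.hb.bb⟩)
        (by rw [h.H.W4, Nat.card_zpowers, orderOf_eq_prime (p := 2) (by rw [_root_.pow_two]; exact h.toH1.ww) (h.H.bb1 h.hb)])
        hu hu'
      exact h3.2 ⟨fun k => absurd k h1, fun k => absurd k h2⟩)
  have st2 : ∀ X : Subgroup S, Nat.card X ≤ 2 * Nat.card ↥(X ⊓ Kz) := fun X =>
    card_step (M := ⊥) (M' := zpowers (b * b)) inferInstance hKz (fun s _ => h.toH1.Z s) (by
      intro u hu u' hu' h1 h2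
      rw [mem_bot] at h1 h2 ⊢
      exact h.zp_mul hu hu' h1 h2)
  have st3 : ∀ X : Subgroup S, X ≤ S0 → Nat.card X ≤ 2 * Nat.card ↥(X ⊓ Kv) := fun X hX =>
    card_step (M := ⊥) (M' := zpowers (b * b)) inferInstance hKv (fun s hs => (hS0 s).1 (hX hs)) (by
      intro u hu u' hu' h1 h2
      rw [mem_bot] at h1 h2 ⊢
      exact h.zp_mul hu hu' h1 h2)
  have h8 : ∀ X : Subgroup S, Nat.card X ≤ 8 * Nat.card ↥(X ⊓ C) := by
    intro X
    have k1 := st1 X
    have k2 := st2 (X ⊓ S0)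
    have k3 := st3 (X ⊓ S0 ⊓ Kz) (inf_le_left.trans inf_le_right)
    have k4 : Nat.card ↥(X ⊓ S0 ⊓ Kz ⊓ Kv) ≤ Nat.card ↥(X ⊓ C) := Subgroup.card_le_of_le (by
      intro x hx
      refine ⟨hx.1.1.1, h.H.memC.2 (h.toH1.comm_of (hbot.1 ((hKz x).1 hx.1.2)) (hbot.1 ((hKv x).1 hx.2)))⟩)
    omega
  -- `N ≤ C`
  have hNC : N ≤ C := by
    by_contra hNC
    have h1 : 2 * Nat.card ↥(N ⊓ C) ≤ Nat.card N :=
      h.half inf_le_left (fun k => hNC (by rw [← k]; exact inf_le_right))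
    have hl8 : 8 * Nat.card ↥(L ⊓ C) ≤ Nat.card L := by omega
    have hsup := card_sup L C h.H.Cn
    have hS8 : Nat.card (⊤ : Subgroup S) ≤ 8 * Nat.card C := by
      have := h8 ⊤
      rwa [top_inf_eq] at this
    have h2 : 8 * Nat.card C ≤ Nat.card ↥(L ⊔ C) := by
      have h3 : 8 * Nat.card C * Nat.card ↥(L ⊓ C) ≤ Nat.card ↥(L ⊔ C) * Nat.card ↥(L ⊓ C) := by
        rw [hsup]
        calc 8 * Nat.card C * Nat.card ↥(L ⊓ C) = 8 * Nat.card ↥(L ⊓ C) * Nat.card C := by ring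
          _ ≤ _ := Nat.mul_le_mul_right _ hl8
      exact Nat.le_of_mul_le_mul_right h3 hlC0
    have h3 : L ⊔ C = ⊤ := Subgroup.eq_of_le_of_card_ge le_top (hS8.trans h2)
    haveI := h.H.Cn
    have h4 : a ∈ L ⊔ C := by rw [h3]; exact mem_top _
    rw [← SetLike.mem_coe, Subgroup.mul_normal] at h4
    obtain ⟨l, hl, c', hc', hlc⟩ := h4
    apply hna l hl
    have h5 : a⁻¹ * l = c'⁻¹ := by
      rw [← hlc]; group
    rw [h5]; exact C.inv_mem hc'
  have e5 : Nat.card N = Nat.card ↥(N ⊓ D) := by rw [e1, inf_eq_left.2 hNC]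
  -- elements of `L` outside `S0` commute with `z`
  have hzz := h.H.h.Vsq z h.H.zV
  have hvv := h.H.vA'
  have hout : ∀ l ∈ L, l ∉ S0 → (l * z = z * l ∧ ∃ m ∈ zpowers (b * b), l * v * l⁻¹ = m * z * v) := by
    intro l hl hlS
    rw [hS0] at hlS
    have h1 := h.toH1.Zv l
    have hm : ∃ m ∈ zpowers (b * b), l * v * l⁻¹ = m * z * v := by
      rcases h.toH1.Wm h1.2 h1.1 with k | k | k | k
      · exact absurd (by rw [k]; exact one_mem _) hlS
      · exact ⟨1, one_mem _, by rw [one_mul, ← k]; group⟩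
      · exact absurd (by rw [k]; exact mem_zpowers _) hlS
      · exact ⟨b * b, mem_zpowers _, by rw [← k]; group⟩
    refine ⟨?_, hm⟩
    obtain ⟨m, hm, hlv⟩ := hm
    have h2 := h.H.memC.1 (hNC (hs l hl)) v h.H.vV
    have hz' := h.toH1.Z l
    set m' := l * z * l⁻¹ * z⁻¹ with hm'
    have hlz : l * z * l⁻¹ = m' * z := by rw [hm']; group
    have hmm : m * m = 1 := by
      rcases (zp2 h.toH1.ww).1 hm with k | k <;> rw [k]
      · rw [mul_one]
      · exact h.toH1.ww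
    have hml := h.toH1.Mc hm l
    have hmz := h.toH1.Mc hm z
    have h3 : (l * l) * v * (l * l)⁻¹ = m' * v := by
      calc (l * l) * v * (l * l)⁻¹ = l * (l * v * l⁻¹) * l⁻¹ := by group
        _ = (l * m) * z * v * l⁻¹ := by rw [hlv]; group
        _ = m * (l * z * l⁻¹) * (l * v * l⁻¹) := by rw [hml]; group
        _ = m * m' * (z * m) * z * v := by rw [hlz, hlv]; group
        _ = m * (m' * m) * (z * z) * v := by rw [hmz]; group
        _ = (m * m) * m' * v := by rw [hzz, h.toH1.Mc hm m']; group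
        _ = m' * v := by rw [hmm, one_mul]
    rw [h2, mul_inv_cancel_right, right_eq_mul] at h3
    rw [h3, one_mul, mul_inv_eq_iff_eq_mul] at hlz
    exact hlz
  have hLS0 : L ≤ S0 := by
    by_contra hcon
    obtain ⟨l0, hl0, hl0S⟩ := SetLike.not_le_iff_exists.1 hcon
    obtain ⟨hl0z, m, hm, hl0v⟩ := hout l0 hl0 hl0S
    have k1 := st1 L
    have e6 : Nat.card L = 4 * Nat.card ↥(L ⊓ C) := by omega
    obtain ⟨l', hl', hl'C⟩ : ∃ l' ∈ L ⊓ S0, l' ∉ C := by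
      by_contra hcon2
      push Not at hcon2
      have : L ⊓ S0 ≤ L ⊓ C := fun x hx => ⟨hx.1, hcon2 x hx⟩
      have := Subgroup.card_le_of_le this
      omega
    have hll : l0 * l' ∉ S0 := fun k => hl0S (by
      have := S0.mul_mem k (S0.inv_mem hl'.2)
      rwa [mul_inv_cancel_right] at this)
    obtain ⟨hllz, -, -, -⟩ := hout _ (L.mul_mem hl0 hl'.1) hll
    have hl'z : l' * z = z * l' := by
      have h1 : l0 * (l' * z) = l0 * (z * l') := by
        calc l0 * (l' * z) = l0 * l' * z := by group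
          _ = z * l0 * l' := by rw [hllz]; group
          _ = l0 * z * l' := by rw [hl0z]
          _ = _ := by group
      exact mul_left_cancel h1
    have hl'v := (hS0 l').1 hl'.2
    have hl'v1 : l' * v * l'⁻¹ * v⁻¹ = b * b := by
      rcases (zp2 h.toH1.ww).1 hl'v with k | k
      · exfalso
        rw [mul_inv_eq_one, mul_inv_eq_iff_eq_mul] at k
        exact hl'C (h.H.memC.2 (h.toH1.comm_of hl'z k))
      · exact k
    have hl'v2 : l' * v * l'⁻¹ = (b * b) * v := by rw [← hl'v1]; group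
    -- action of `a`
    have hav : a * v * a⁻¹ = v * z := h.H.va
    have haz : a * z * a⁻¹ = z := h.H.za
    have hact : ∀ l : S, l * z = z * l → l * v * l⁻¹ = z * v → a⁻¹ * l ∈ C := by
      intro l h1 h2
      rw [h.H.memC]
      have h3 : a⁻¹ * (z * v) * a = v := by
        have h4 : a * v * a⁻¹ = z * v := by rw [hav, h.H.h.Vcomm v h.H.vV z h.H.zV]
        rw [← h4]; group
      have h5 : a⁻¹ * z = z * a⁻¹ := by
        have h6 : a * z = z * a := by rwa [mul_inv_eq_iff_eq_mul] at haz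
        calc a⁻¹ * z = a⁻¹ * (z * a) * a⁻¹ := by group
          _ = a⁻¹ * (a * z) * a⁻¹ := by rw [h6]
          _ = _ := by group
      apply h.toH1.comm_of
      · calc a⁻¹ * l * z = a⁻¹ * (z * l) := by rw [mul_assoc, h1]
          _ = (a⁻¹ * z) * l := by group
          _ = z * (a⁻¹ * l) := by rw [h5]; group
      · calc a⁻¹ * l * v = a⁻¹ * (l * v * l⁻¹) * l := by group
          _ = (a⁻¹ * (z * v) * a) * (a⁻¹ * l) := by rw [h2]; group
          _ = v * (a⁻¹ * l) := by rw [h3]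
    rcases (zp2 h.toH1.ww).1 hm with k | k
    · rw [k, one_mul] at hl0v
      exact hna l0 hl0 (hact l0 hl0z hl0v)
    · rw [k] at hl0v
      apply hna (l0 * l') (L.mul_mem hl0 hl'.1)
      apply hact _ hllz
      have h1 := h.H.bbc h.hb l0
      calc l0 * l' * v * (l0 * l')⁻¹ = l0 * (l' * v * l'⁻¹) * l0⁻¹ := by group
        _ = (l0 * (b * b)) * v * l0⁻¹ := by rw [hl'v2]; group
        _ = (b * b) * (l0 * v * l0⁻¹) := by rw [h1]; group
        _ = ((b * b) * (b * b)) * z * v := by rw [hl0v]; group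
        _ = z * v := by rw [h.toH1.ww, one_mul]
  -- the end
  have hDS0 : D ≤ S0 := by
    intro x hx
    rw [hS0, h.Dcomm x hx v (h.VD h.H.vV), mul_inv_cancel_right, mul_inv_cancel]
    exact one_mem _
  have k1 := st2 S0
  have k2 : Nat.card ↥(S0 ⊓ Kz) ≤ 2 * Nat.card ↥(S0 ⊓ Kz ⊓ D) :=
    h.P0_two _ fun s hs => ⟨hbot.1 ((hKz s).1 hs.2), (hS0 s).1 hs.1⟩
  have k3 : Nat.card ↥(S0 ⊓ Kz ⊓ D) ≤ Nat.card D := Subgroup.card_le_of_le inf_le_right
  have k4 := Subgroup.card_le_of_le (sup_le hLS0 hDS0)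
  have hsup := card_sup L D h.Dn
  have hl8 : Nat.card L = 8 * Nat.card ↥(L ⊓ D) := by omega
  rw [hl8] at hsup
  have h9 : Nat.card ↥(L ⊔ D) = 8 * Nat.card D := by
    have : Nat.card ↥(L ⊔ D) * Nat.card ↥(L ⊓ D) = 8 * Nat.card D * Nat.card ↥(L ⊓ D) := by
      rw [hsup]; ring
    exact Nat.eq_of_mul_eq_mul_right hlD0 this
  omega

/-- the count -/
theorem count : R4 S := by
  intro L N hNL hc hs
  by_contra hcon
  rw [not_le] at hcon
  obtain ⟨k, hk⟩ := H78.HarG.pow_two h.H.h.two hNL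
  have hn0 : 0 < Nat.card N := Nat.card_pos
  have h32 : 32 * Nat.card N ≤ Nat.card L := by
    rw [hk] at hcon ⊢
    have h1 : 16 < 2 ^ k := Nat.lt_of_mul_lt_mul_right hcon
    have h2 : 4 < k := by
      by_contra h3
      rw [not_lt] at h3
      have := Nat.pow_le_pow_right (show 0 < 2 by norm_num) h3
      omega
    exact Nat.mul_le_mul_right _ (by
      calc 32 = 2 ^ 5 := by norm_num
        _ ≤ 2 ^ k := Nat.pow_le_pow_right (by norm_num) h2)
  obtain ⟨j, hj⟩ := H78.HarG.pow_two h.H.h.two (inf_le_inf_right D hNL)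
  by_cases h3 : j ≤ 2
  · refine h.caseII L N hNL hc hs h32 ?_
    rw [hj]
    exact Nat.mul_le_mul_right _ (by
      calc 2 ^ j ≤ 2 ^ 2 := Nat.pow_le_pow_right (by norm_num) h3
        _ = 4 := by norm_num)
  · refine h.caseI L N hNL hc hs h32 ?_
    rw [hj]
    exact Nat.mul_le_mul_right _ (by
      calc 8 = 2 ^ 3 := by norm_num
        _ ≤ 2 ^ j := Nat.pow_le_pow_right (by norm_num) (by omega))

end HD
end

end Cfsg.Agent.H20.Har
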