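import Cfsg.Agent.H20.HarDef

set_option autoImplicit false
set_option maxHeartbeats 800000
set_option linter.unusedSectionVars false

/-! Harada's theorem: the action on a normal elementary abelian subgroup of order 8. -/

namespace Cfsg.Agent.H20.Har
open Subgroup

section
variable {S : Type*} [Group S]

/-- membership for a subgroup of index 2 -/
theorem idx_two [Finite S] {H K : Subgroup S} (hHK : H ≤ K) (hc : Nat.card K = 2 * Nat.card H) {u u' : S}
    (hu : u ∈ K) (hu' : u' ∈ K) : u * u' ∈ H ↔ (u ∈ H ↔ u' ∈ H) := by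
  have h1 : (H.subgroupOf K).index = 2 := by
    have h2 := H63.card_mul_relIndex hHK
    rw [hc, mul_comm 2] at h2
    exact Nat.eq_of_mul_eq_mul_left Nat.card_pos h2
  have h3 := Subgroup.mul_mem_iff_of_index_two h1 (a := (⟨u, hu⟩ : K)) (b := ⟨u', hu'⟩)
  simp only [mem_subgroupOf] at h3
  exact h3

/-- the elements commuting with `x` modulo a normal subgroup `M` -/
theorem exists_CM (M : Subgroup S) (hM : M.Normal) (x : S) :
    ∃ K : Subgroup S, ∀ s, s ∈ K ↔ s * x * s⁻¹ * x⁻¹ ∈ M := by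
  refine ⟨(Subgroup.centralizer {(QuotientGroup.mk' M x : S ⧸ M)}).comap (QuotientGroup.mk' M), fun s => ?_⟩
  rw [mem_comap, mem_centralizer_iff]
  constructor
  · intro h
    have h1 := h _ rfl
    rw [← QuotientGroup.ker_mk' M, MonoidHom.mem_ker, map_mul, map_mul, map_mul, map_inv, map_inv, ← h1]
    group
  · rintro h _ rfl
    rw [← QuotientGroup.ker_mk' M, MonoidHom.mem_ker, map_mul, map_mul, map_mul, map_inv, map_inv] at h
    rw [mul_inv_eq_one, mul_inv_eq_iff_eq_mul] at h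
    exact h.symm

/-- one step of a chain: `[L, x] ≤ M'` and `|M' : M| = 2` -/
theorem card_step [Finite S] {M M' L K : Subgroup S} (hM : M.Normal) {x : S}
    (hK : ∀ s, s ∈ K ↔ s * x * s⁻¹ * x⁻¹ ∈ M) (hL : ∀ s ∈ L, s * x * s⁻¹ * x⁻¹ ∈ M')
    (hMM : ∀ u ∈ M', ∀ u' ∈ M', u ∉ M → u' ∉ M → u * u' ∈ M) :
    Nat.card L ≤ 2 * Nat.card ↥(L ⊓ K) := by
  refine card_le_two L K fun s hs s' hs' hsK hsK' => ?_
  rw [hK] at hsK hsK' ⊢
  have h1 : s' * x * s'⁻¹ * x⁻¹ * (s * x * s⁻¹ * x⁻¹)⁻¹ ∈ M :=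
    hMM _ (hL s' hs') _ (M'.inv_mem (hL s hs)) hsK' (fun h => hsK (by simpa using M.inv_mem h))
  have h2 := hM.conj_mem _ h1 s⁻¹
  convert h2 using 1
  group

variable [Finite S]

section
variable (h2 : IsPGroup 2 S) (V : Subgroup S) (Vn : ∀ v ∈ V, ∀ g : S, g * v * g⁻¹ ∈ V)
  (Vcomm : ∀ v ∈ V, ∀ w ∈ V, v * w = w * v) (Vsq : ∀ v ∈ V, v * v = 1) (V8 : Nat.card V = 8)
include h2 Vn Vcomm Vsq V8

theorem q8 (L N : Subgroup S) (hNL : N ≤ L) (hc : ∀ x ∈ L, ∀ y ∈ L, x * y * x⁻¹ * y⁻¹ ∈ N)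
    (hs : ∀ x ∈ L, x * x ∈ N) :
    Nat.card L * Nat.card ↥(N ⊓ Subgroup.centralizer (V : Set S)) ≤
      4 * (Nat.card N * Nat.card ↥(L ⊓ Subgroup.centralizer (V : Set S))) := by
  haveI : Fact (Nat.Prime 2) := ⟨Nat.prime_two⟩
  set C := Subgroup.centralizer (V : Set S) with hCdef
  have hVn : V.Normal := ⟨Vn⟩
  -- the flag
  have hlt1 : (⊥ : Subgroup S) < V := by
    rw [bot_lt_iff_ne_bot]; rintro rfl
    rw [Subgroup.card_bot] at V8; omega
  obtain ⟨z, hzV, hz0, -, hzc, hM1n, hM1c⟩ := H23.exists_step h2 (M := ⊥) (N := V) inferInstance hVn hlt1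
  set M1 := (⊥ : Subgroup S) ⊔ zpowers z with hM1
  rw [Subgroup.card_bot] at hM1c
  have hM1V : M1 ≤ V := sup_le bot_le (by rwa [zpowers_le])
  have hlt2 : M1 < V := lt_of_le_of_ne hM1V (by rintro h; rw [h, V8] at hM1c; omega)
  obtain ⟨v1, hv1V, hv10, -, hv1c, hM2n, hM2c⟩ := H23.exists_step h2 hM1n hVn hlt2
  set M2 := M1 ⊔ zpowers v1 with hM2
  rw [hM1c] at hM2c
  have hM2V : M2 ≤ V := sup_le hM1V (by rwa [zpowers_le])
  have hlt3 : M2 < V := lt_of_le_of_ne hM2V (by rintro h; rw [h, V8] at hM2c; omega)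
  obtain ⟨v2, hv2V, hv20, -, hv2c, -, -⟩ := H23.exists_step h2 hM2n hVn hlt3
  have hM12 : M1 ≤ M2 := le_sup_left
  have hv1M2 : v1 ∈ M2 := le_sup_right (a := M1) (mem_zpowers v1)
  -- elements of `M1`
  have hzz : ∀ g : S, g * z = z * g := by
    intro g
    have := hzc g
    rw [mem_bot, mul_inv_eq_one, mul_inv_eq_iff_eq_mul] at this
    exact this.symm
  have hM1z : ∀ x ∈ M1, ∀ y ∈ M1, x ≠ 1 → y ≠ 1 → x * y = 1 := by
    intro x hx y hy hx1 hy1
    have := (idx_two (H := ⊥) (K := M1) bot_le (by rw [Subgroup.card_bot, hM1c]) hx hy).2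
      (by rw [mem_bot, mem_bot]; exact ⟨fun h => absurd h hx1, fun h => absurd h hy1⟩)
    rwa [mem_bot] at this
  have hM1x : ∀ x ∈ M1, ∀ g : S, g * x = x * g := by
    intro x hx g
    have h1 : x ∈ Subgroup.center S := by
      have h3 : M1 ≤ Subgroup.center S := sup_le bot_le (by
        rw [zpowers_le, mem_center_iff]; exact hzz)
      exact h3 hx
    exact mem_center_iff.1 h1 g
  have hV2 : ∀ u ∈ V, ∀ u' ∈ V, u ∉ M2 → u' ∉ M2 → u * u' ∈ M2 := by
    intro u hu u' hu' h h'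
    exact (idx_two hM2V (by rw [V8, hM2c]) hu hu').2 ⟨fun k => absurd k h, fun k => absurd k h'⟩
  have hM21 : ∀ u ∈ M2, ∀ u' ∈ M2, u ∉ M1 → u' ∉ M1 → u * u' ∈ M1 := by
    intro u hu u' hu' h h'
    exact (idx_two hM12 (by rw [hM1c, hM2c]) hu hu').2 ⟨fun k => absurd k h, fun k => absurd k h'⟩
  obtain ⟨K1, hK1⟩ := exists_CM M1 hM1n v2
  obtain ⟨K2, hK2⟩ := exists_CM ⊥ inferInstance v1
  obtain ⟨K3, hK3⟩ := exists_CM ⊥ inferInstance v2
  have inv' : ∀ {M : Subgroup S} {x g : S}, x * g * x⁻¹ * g⁻¹ ∈ M → g * x * g⁻¹ * x⁻¹ ∈ M := by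
    intro M x g h
    have := M.inv_mem h
    convert this using 1
    group
  have hst1 : ∀ L : Subgroup S, Nat.card L ≤ 2 * Nat.card ↥(L ⊓ K1) := fun L =>
    card_step hM1n hK1 (fun s _ => inv' (hv2c s)) hM21
  have hst2 : ∀ L : Subgroup S, Nat.card L ≤ 2 * Nat.card ↥(L ⊓ K2) := fun L =>
    card_step (M' := M1) inferInstance hK2 (fun s _ => inv' (hv1c s)) (by
      intro u hu u' hu' h h'
      rw [mem_bot] at h h' ⊢
      exact hM1z u hu u' hu' h h')
  have hst3 : ∀ L : Subgroup S, L ≤ K1 → Nat.card L ≤ 2 * Nat.card ↥(L ⊓ K3) := fun L hL =>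
    card_step (M' := M1) inferInstance hK3 (fun s hs => (hK1 s).1 (hL hs)) (by
      intro u hu u' hu' h h'
      rw [mem_bot] at h h' ⊢
      exact hM1z u hu u' hu' h h')
  -- `K2 ∩ K3 = C`
  have hCC : K2 ⊓ K3 ≤ C := by
    intro s hs23
    obtain ⟨hs2, hs3⟩ := mem_inf.1 hs23
    rw [hK2, mem_bot, mul_inv_eq_one, mul_inv_eq_iff_eq_mul] at hs2
    rw [hK3, mem_bot, mul_inv_eq_one, mul_inv_eq_iff_eq_mul] at hs3
    rw [hCdef, mem_centralizer_iff]
    have key : ∀ u ∈ M1, u * s = s * u := fun u hu => (hM1x u hu s).symm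
    have key2 : ∀ u ∈ M2, u * s = s * u := by
      intro u hu
      by_cases hu1 : u ∈ M1
      · exact key u hu1
      · have h3 := key _ (hM21 u hu v1 hv1M2 hu1 hv10)
        have h4 : u = (u * v1) * v1 := by rw [mul_assoc, Vsq v1 hv1V, mul_one]
        rw [h4, mul_assoc, ← hs2, ← mul_assoc, h3]
        group
    intro u hu
    by_cases hu1 : u ∈ M2
    · exact key2 u hu1
    · have h3 := key2 _ (hV2 u hu v2 hv2V hu1 hv20)
      have h4 : u = (u * v2) * v2 := by rw [mul_assoc, Vsq v2 hv2V, mul_one]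
      rw [h4, mul_assoc, ← hs3, ← mul_assoc, h3]
      group
  have hb3 : Nat.card ↥(L ⊓ K1 ⊓ K2 ⊓ K3) ≤ Nat.card ↥(L ⊓ C) :=
    Subgroup.card_le_of_le (by
      refine le_inf (inf_le_left.trans (inf_le_left.trans inf_le_left)) (le_trans ?_ hCC)
      exact le_inf (inf_le_left.trans inf_le_right) inf_le_right)
  have hb2 : Nat.card ↥(L ⊓ K1 ⊓ K2) ≤ 2 * Nat.card ↥(L ⊓ C) :=
    (hst3 (L ⊓ K1 ⊓ K2) (inf_le_left.trans inf_le_right)).trans (Nat.mul_le_mul_left _ hb3)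
  have hb1 : Nat.card ↥(L ⊓ K1) ≤ 4 * Nat.card ↥(L ⊓ C) := by
    have := hst2 (L ⊓ K1); omega
  have hb0 : Nat.card L ≤ 8 * Nat.card ↥(L ⊓ C) := by
    have := hst1 L; omega
  by_contra hcon
  rw [not_le] at hcon
  by_cases hNC : N ≤ C
  · rw [inf_eq_left.2 hNC] at hcon
    have hN0 : 0 < Nat.card N := Nat.card_pos
    have hL4 : 4 * Nat.card ↥(L ⊓ C) < Nat.card L := by
      by_contra h
      rw [not_lt] at h
      have := Nat.mul_le_mul_right (Nat.card N) h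
      nlinarith
    have hLK1 : ¬ L ≤ K1 := fun h => by
      rw [inf_eq_left.2 h] at hb1; omega
    obtain ⟨l2, hl2, hl2K⟩ := SetLike.not_le_iff_exists.1 hLK1
    have hLK2 : ¬ L ⊓ K1 ≤ K2 := fun h => by
      rw [inf_eq_left.2 h] at hb2
      have := hst1 L
      omega
    obtain ⟨l1, hl1, hl1K⟩ := SetLike.not_le_iff_exists.1 hLK2
    have hl1L := hl1.1
    have hl1K1 := (hK1 l1).1 hl1.2
    rw [hK2, mem_bot] at hl1K
    rw [hK1] at hl2K
    -- u
    set u := l2 * v2 * l2⁻¹ * v2⁻¹ with hu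
    have huM2 : u ∈ M2 := inv' (hv2c l2)
    set t := l1 * v2 * l1⁻¹ * v2⁻¹ with ht
    have htM1 : t ∈ M1 := hl1K1
    have e2 : l2 * v2 * l2⁻¹ = u * v2 := by rw [hu]; group
    have e1 : l1 * v2 * l1⁻¹ = t * v2 := by rw [ht]; group
    -- `l1` does not commute with `u`
    have hl1u : l1 * u * l1⁻¹ ≠ u := by
      intro h
      apply hl1K
      have h3 := hM1x _ (hM21 u huM2 v1 hv1M2 hl2K hv10) l1
      -- l1 commutes with u * v1 and u
      have h4 : l1 * u = u * l1 := by rw [← mul_inv_eq_iff_eq_mul]; exact h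
      have h5 : l1 * v1 = v1 * l1 := by
        have h5' : l1 * (u * v1) = u * (l1 * v1) := by rw [← mul_assoc, h4, mul_assoc]
        have h5'' : u * (l1 * v1) = u * (v1 * l1) := by rw [← h5', h3, mul_assoc]
        exact mul_left_cancel h5''
      rw [h5]; group
    have hcC : l1 * l2 * l1⁻¹ * l2⁻¹ ∈ C := hNC (hc l1 hl1L l2 hl2)
    rw [hCdef, mem_centralizer_iff] at hcC
    have e3 : (l1 * l2) * v2 * (l1 * l2)⁻¹ = (l2 * l1) * v2 * (l2 * l1)⁻¹ := by
      have h5 := hcC ((l2 * l1) * v2 * (l2 * l1)⁻¹) (Vn v2 hv2V _)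
      have h6 : (l1 * l2) * v2 * (l1 * l2)⁻¹ =
          (l1 * l2 * l1⁻¹ * l2⁻¹) * ((l2 * l1) * v2 * (l2 * l1)⁻¹) * (l1 * l2 * l1⁻¹ * l2⁻¹)⁻¹ := by group
      rw [h6, ← h5]; group
    have e4 : (l1 * l2) * v2 * (l1 * l2)⁻¹ = (l1 * u * l1⁻¹) * (t * v2) := by
      have : (l1 * l2) * v2 * (l1 * l2)⁻¹ = (l1 * (l2 * v2 * l2⁻¹) * l1⁻¹) := by group
      rw [this, e2, ← e1]; group
    have e5 : (l2 * l1) * v2 * (l2 * l1)⁻¹ = t * (u * v2) := by
      have : (l2 * l1) * v2 * (l2 * l1)⁻¹ = (l2 * (l1 * v2 * l1⁻¹) * l2⁻¹) := by group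
      rw [this, e1, ← e2]
      have h7 := hM1x t htM1 l2
      calc l2 * (t * v2) * l2⁻¹ = (l2 * t) * v2 * l2⁻¹ := by group
        _ = (t * l2) * v2 * l2⁻¹ := by rw [h7]
        _ = _ := by group
    rw [e4, e5] at e3
    apply hl1u
    have h8 := hM1x t htM1 u
    have : l1 * u * l1⁻¹ * t = t * u := by
      have h9 : l1 * u * l1⁻¹ * t * v2 = t * u * v2 := by
        rw [mul_assoc (l1 * u * l1⁻¹), e3]; group
      exact mul_right_cancel h9
    rw [← h8] at this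
    exact mul_right_cancel this
  · -- `|N : N ∩ C| ≥ 2`
    have h3 : 2 * Nat.card ↥(N ⊓ C) ≤ Nat.card N := by
      have h4 := H63.card_mul_relIndex (inf_le_left : N ⊓ C ≤ N)
      have h5 : (N ⊓ C).relIndex N ≠ 1 := by
        intro h; rw [Subgroup.relIndex_eq_one] at h
        exact hNC (h.trans inf_le_right)
      have h6 : (N ⊓ C).relIndex N ≠ 0 := by
        intro h; rw [h, mul_zero] at h4
        exact absurd h4.symm Nat.card_pos.ne'
      have h7 : 2 ≤ (N ⊓ C).relIndex N := by omega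
      calc 2 * Nat.card ↥(N ⊓ C) = Nat.card ↥(N ⊓ C) * 2 := mul_comm _ _
        _ ≤ Nat.card ↥(N ⊓ C) * (N ⊓ C).relIndex N := Nat.mul_le_mul_left _ h7
        _ = _ := h4
    have h8 := Nat.mul_le_mul hb0 h3
    nlinarith

/-- The case `C_S(V) = V`. -/
theorem p8 (hCV : ∀ x : S, (∀ v ∈ V, x * v = v * x) → x ∈ V) : R4 S := by
  intro L N hNL hc hs
  by_contra hcon
  rw [not_le] at hcon
  have hCV' : Subgroup.centralizer (V : Set S) = V := by
    apply le_antisymm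
    · intro x hx
      rw [mem_centralizer_iff] at hx
      exact hCV x fun v hv => (hx v hv).symm
    · intro x hx
      rw [mem_centralizer_iff]
      intro v hv
      exact Vcomm v hv x hx
  have hq := q8 h2 V Vn Vcomm Vsq V8 L N hNL hc hs
  rw [hCV'] at hq
  have hLV : Nat.card ↥(L ⊓ V) ∣ 8 := by rw [← V8]; exact Subgroup.card_dvd_of_le inf_le_right
  have hNV : 0 < Nat.card ↥(N ⊓ V) := Nat.card_pos
  have hN0 : 0 < Nat.card N := Nat.card_pos
  have h1 : 4 * Nat.card ↥(N ⊓ V) < Nat.card ↥(L ⊓ V) := by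
    by_contra h
    rw [not_lt] at h
    have h3 : 16 * Nat.card N * Nat.card ↥(N ⊓ V) < Nat.card L * Nat.card ↥(N ⊓ V) :=
      Nat.mul_lt_mul_of_pos_right hcon hNV
    have h4 := Nat.mul_le_mul_left (4 * Nat.card N) h
    nlinarith
  have h2' : Nat.card ↥(L ⊓ V) ≤ 8 := Nat.le_of_dvd (by norm_num) hLV
  have h3 : Nat.card ↥(N ⊓ V) = 1 := by
    have h3' : Nat.card ↥(N ⊓ V) ∣ 8 := by rw [← V8]; exact Subgroup.card_dvd_of_le inf_le_right
    have h3'' : Nat.card ↥(N ⊓ V) ∈ Nat.divisors 8 := Nat.mem_divisors.2 ⟨h3', by norm_num⟩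
    have h5 : Nat.divisors 8 = {1, 2, 4, 8} := by decide
    rw [h5] at h3''
    simp only [Finset.mem_insert, Finset.mem_singleton] at h3''
    omega
  have h4 : Nat.card ↥(L ⊓ V) = 8 := by
    have : Nat.card ↥(L ⊓ V) ∈ Nat.divisors 8 := Nat.mem_divisors.2 ⟨hLV, by norm_num⟩
    have h5 : Nat.divisors 8 = {1, 2, 4, 8} := by decide
    rw [h5] at this
    simp only [Finset.mem_insert, Finset.mem_singleton] at this
    omega
  have hVL : V ≤ L := by
    have : L ⊓ V = V := Subgroup.eq_of_le_of_card_ge inf_le_right (by rw [h4, V8])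
    exact this ▸ inf_le_left
  have hLC : L ≤ V := by
    intro l hl
    apply hCV
    intro v hv
    have h5 : l * v * l⁻¹ * v⁻¹ ∈ N ⊓ V := mem_inf.2 ⟨hc l hl v (hVL hv), V.mul_mem (Vn v hv l) (V.inv_mem hv)⟩
    rw [Subgroup.card_eq_one.1 h3, mem_bot, mul_inv_eq_one, mul_inv_eq_iff_eq_mul] at h5
    exact h5
  have h6 := Subgroup.card_le_of_le hLC
  rw [V8] at h6
  omega

end
end

end Cfsg.Agent.H20.Har
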