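import Cfsg.Agent.H20.HarMain0
import Cfsg.Agent.H20.HarF4
import Cfsg.Agent.H99.HarB1a
import Cfsg.Agent.H47.HarB2
import Cfsg.Agent.H47.HarD2
import Cfsg.Agent.H10.HarE2
import Cfsg.Agent.H39.HarC

set_option autoImplicit false
set_option maxHeartbeats 800000
set_option linter.unusedSectionVars false

/-! Harada's theorem: a 2-group with a self-centralizing `E₈` has sectional rank at most 4. -/

namespace Cfsg.Agent.H20.Har
open Subgroup

section
variable {S : Type*} [Group S] [Finite S]

/-- case (b) -/
theorem caseB {A V : Subgroup S} (h : HS A V) (V8 : Nat.card V = 8) (X4 : Nat.card ↥(A ⊓ V) = 4) : R4 S := by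
  obtain ⟨a, v, z, H⟩ := h.toHB V8 X4
  by_cases hC : Subgroup.centralizer (V : Set S) ≤ V
  · exact p8 h.two V h.Vn h.Vcomm h.Vsq V8 fun x hx => hC (H.memC.2 hx)
  · obtain ⟨b, hb⟩ := H.exists_b hC
    by_cases hbz : b * b = z
    · exact H47.HarB2.b2 H hb hbz
    · obtain ⟨b', hb'⟩ := H99.HarB1a.exists_H1 H hb hbz
      obtain ⟨D, E, hD⟩ := H99.HarB1a.exists_D hb'
      exact hD.count

theorem fix_le {V F : Subgroup S} (a : S) (haa : a * a = 1) (Vn : ∀ v ∈ V, a * v * a ∈ V)
    (Vcomm : ∀ v ∈ V, ∀ w ∈ V, v * w = w * v) (Vsq : ∀ v ∈ V, v * v = 1)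
    (hF : ∀ s, s ∈ F ↔ s ∈ V ∧ s * a = a * s) : Nat.card V ≤ Nat.card F * Nat.card F := by
  have h1 := fixed_points V ⊥ F a haa bot_le Vn (by
      intro s hs; rw [mem_bot] at hs ⊢; rw [hs, mul_one, haa])
    (by
      intro x hx y hy
      rw [Vcomm x hx y hy, mem_bot]; group)
    (by intro x hx; rw [Vsq x hx]; exact one_mem _)
    (by
      intro s
      rw [hF, mem_bot]
      constructor
      · rintro ⟨k1, k2⟩
        refine ⟨k1, ?_⟩
        rw [← k2, mul_assoc, haa, mul_one, inv_mul_cancel]
      · rintro ⟨k1, k2⟩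
        refine ⟨k1, ?_⟩
        rw [inv_mul_eq_one] at k2
        calc s * a = (a * s * a) * a := by rw [← k2]
          _ = a * s * (a * a) := by group
          _ = a * s := by rw [haa, mul_one])
  rwa [Subgroup.card_bot, mul_one] at h1

theorem harada_R4 {A V : Subgroup S} (h : HS A V) (hV8 : 8 ≤ Nat.card V) : R4 S := by
  have hVn : V.Normal := ⟨h.Vn⟩
  haveI : Fact (Nat.Prime 2) := ⟨Nat.prime_two⟩
  have hAi : ∀ a ∈ A, a⁻¹ = a := fun a ha => inv_eq_of_mul_eq_one_left (h.Asq a ha)
  have haV : ∀ a ∈ A, ∀ v ∈ V, a * v * a ∈ V := fun a ha v hv => by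
    have := h.Vn v hv a
    rwa [hAi a ha] at this
  have hXd : Nat.card ↥(A ⊓ V) ∣ 8 := by rw [← h.A8]; exact Subgroup.card_dvd_of_le inf_le_left
  have hX : Nat.card ↥(A ⊓ V) = 1 ∨ Nat.card ↥(A ⊓ V) = 2 ∨ Nat.card ↥(A ⊓ V) = 4 ∨ Nat.card ↥(A ⊓ V) = 8 := by
    have h1 : Nat.card ↥(A ⊓ V) ∈ Nat.divisors 8 := Nat.mem_divisors.2 ⟨hXd, by norm_num⟩
    have h2 : Nat.divisors 8 = {1, 2, 4, 8} := by decide
    rw [h2] at h1
    simpa only [Finset.mem_insert, Finset.mem_singleton] using h1
  obtain ⟨n, hn⟩ := (h.two.to_subgroup V).exists_card_eq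
  have hV816 : Nat.card V ≤ 16 → Nat.card V = 8 ∨ Nat.card V = 16 := by
    intro h16
    rw [hn] at h16 hV8 ⊢
    have h3 : 2 < n := by
      by_contra k
      rw [not_lt] at k
      have := Nat.pow_le_pow_right (show 0 < 2 by norm_num) k
      omega
    have h4 : n < 5 := by
      by_contra k
      rw [not_lt] at k
      have := Nat.pow_le_pow_right (show 0 < 2 by norm_num) k
      omega
    interval_cases n <;> norm_num
  rcases hX with h1 | h2 | h4 | h8
  · exfalso
    have hne : V ≠ ⊥ := by
      rintro rfl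
      rw [Subgroup.card_bot] at hV8
      omega
    obtain ⟨z, hzV, hz2, hzc⟩ := H23.exists_central_orderOf (p := 2) h.two hVn hne
    have hzA : z ∈ A := h.cent z (fun a _ => (Subgroup.mem_center_iff.1 hzc a).symm)
    have hz1 : z ∈ A ⊓ V := ⟨hzA, hzV⟩
    rw [Subgroup.card_eq_one.1 h1, mem_bot] at hz1
    rw [hz1, orderOf_one] at hz2
    omega
  · -- |X| = 2
    have hVle : Nat.card V ≤ 16 := by
      obtain ⟨a, haA, haX, -⟩ := H10.HarE.exists_third A (A ⊓ V) h.A8 h2 inf_le_left 1
      obtain ⟨b, hbA, hbX, hab⟩ := H10.HarE.exists_third A (A ⊓ V) h.A8 h2 inf_le_left a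
      have k1 := fix_le (V := V) (F := V ⊓ Subgroup.centralizer {a}) a (h.Asq a haA) (haV a haA) h.Vcomm h.Vsq
        (fun s => by rw [mem_inf, mem_centralizer_singleton_iff])
      have k2 := fix_le (V := V ⊓ Subgroup.centralizer {a}) (F := A ⊓ V) b (h.Asq b hbA) (by
          intro s hs
          refine mem_inf.2 ⟨haV b hbA s hs.1, ?_⟩
          have k3 : s * a = a * s := mem_centralizer_singleton_iff.1 hs.2
          rw [mem_centralizer_singleton_iff]
          have k4 := h.Acomm a haA b hbA
          calc b * s * b * a = b * s * (a * b) := by rw [k4]; group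
            _ = b * (s * a) * b := by group
            _ = (b * a) * s * b := by rw [k3]; group
            _ = a * (b * s * b) := by rw [← k4]; group)
        (fun x hx y hy => h.Vcomm x hx.1 y hy.1) (fun x hx => h.Vsq x hx.1)
        (fun s => by
          constructor
          · intro hs
            refine ⟨mem_inf.2 ⟨hs.2, ?_⟩, h.Acomm s hs.1 b hbA⟩
            rw [mem_centralizer_singleton_iff]
            exact h.Acomm s hs.1 a haA
          · rintro ⟨hs1, hs2⟩
            refine ⟨?_, hs1.1⟩
            have k3 := H10.HarE.gen3 A (A ⊓ V) (Subgroup.centralizer {s}) h.A8 h2 inf_le_left haA haX hbA hbX hab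
              (by
                intro x hx
                rw [mem_centralizer_singleton_iff]
                exact h.Vcomm x hx.2 s hs1.1)
              (by
                rw [mem_centralizer_singleton_iff]
                exact (mem_centralizer_singleton_iff.1 hs1.2).symm)
              (by
                rw [mem_centralizer_singleton_iff]
                exact hs2.symm)
            exact h.cent s fun x hx => (mem_centralizer_singleton_iff.1 (k3 hx)).symm)
      rw [h2] at k2
      calc Nat.card V ≤ _ := k1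
        _ ≤ (2 * 2) * (2 * 2) := Nat.mul_le_mul k2 k2
        _ = 16 := by norm_num
    rcases hV816 hVle with k | k
    · exact H39.HarC.caseC h.toHW k h2
    · exact H10.HarE.caseE h k h2
  · -- |X| = 4
    have hVle : Nat.card V ≤ 16 := by
      have hAV : ¬ A ≤ V := fun k => by rw [inf_eq_left.2 k, h.A8] at h4; omega
      obtain ⟨a, haA, haX⟩ := SetLike.not_le_iff_exists.1 hAV
      have k1 := fix_le (V := V) (F := A ⊓ V) a (h.Asq a haA) (haV a haA) h.Vcomm h.Vsq
        (fun s => by
          constructor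
          · intro hs
            exact ⟨hs.2, h.Acomm s hs.1 a haA⟩
          · rintro ⟨hs1, hs2⟩
            refine ⟨h.cent s fun x hx => ?_, hs1⟩
            by_cases hxV : x ∈ V
            · exact h.Vcomm s hs1 x hxV
            · have k2 := ((idx_two (H := A ⊓ V) inf_le_left (by rw [h.A8, h4]) hx haA).2
                ⟨fun k => absurd k.2 hxV, fun k => absurd k.2 haX⟩).2
              have k3 := h.Vcomm s hs1 _ k2
              calc s * x = s * (x * a) * a := by rw [mul_assoc, mul_assoc x, h.Asq a haA, mul_one]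
                _ = (x * a) * (s * a) := by rw [k3]; group
                _ = (x * a) * (a * s) := by rw [hs2]
                _ = x * (a * a) * s := by group
                _ = x * s := by rw [h.Asq a haA, mul_one])
      rwa [h4] at k1
    rcases hV816 hVle with k | k
    · exact caseB h k h4
    · exact H47.HarD.caseD h k h4
  · -- |X| = 8
    have hAV : A ≤ V := by
      have : A ⊓ V = A := Subgroup.eq_of_le_of_card_ge inf_le_left (by rw [h8, h.A8])
      exact this ▸ inf_le_right
    have hVA : V = A := le_antisymm (fun v hv => h.cent v fun a ha => h.Vcomm v hv a (hAV ha)) hAV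
    exact p8 h.two V h.Vn h.Vcomm h.Vsq (by rw [hVA, h.A8]) (fun x hx => by
      rw [hVA]; exact h.cent x fun a ha => hx a (hAV ha))

end

/-- Harada's theorem. -/
theorem harada {S : Type*} [Group S] [Finite S] (hS : IsPGroup 2 S) (A : Subgroup S)
    (hA : Cfsg.IsElementaryAbelian 2 A) (hA8 : Nat.card A = 8)
    (hC : Subgroup.centralizer (A : Set S) = A) : Cfsg.SectionalPRankLE 2 4 S := by
  rcases exists_V hS with h | ⟨V, Vn, Vcomm, Vsq, Vmax, hV8⟩
  · exact h
  · apply of_R4
    have hcent : ∀ x : S, (∀ a ∈ A, x * a = a * x) → x ∈ A := by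
      intro x hx
      rw [← hC, mem_centralizer_iff]
      exact fun a ha => (hx a ha).symm
    have h : HS A V :=
      { two := hS
        Acomm := fun a ha b hb => congrArg Subtype.val (hA.1.is_comm.comm (⟨a, ha⟩ : A) ⟨b, hb⟩)
        Asq := fun a ha => by rw [← pow_two]; exact hA.2 a ha
        A8 := hA8
        cent' := fun x hx _ => hcent x hx
        Vn := Vn
        Vcomm := Vcomm
        Vsq := Vsq
        Vmax := Vmax
        cent := hcent }
    exact harada_R4 h hV8

end Cfsg.Agent.H20.Har
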