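import Cfsg.Agent.H20.MacWC
import Cfsg.Agent.H73.Sec2
import Cfsg.Agent.OddP.Alperin

set_option autoImplicit false
set_option maxHeartbeats 800000
set_option linter.unusedSectionVars false

/-! MacWilliams' four generator theorem, part D: conclusion. -/

namespace Cfsg.Agent.H20.MacW
open Subgroup

theorem card_subgroupOf' {P : Type*} [Group P] (L K : Subgroup P) : Nat.card (L.subgroupOf K) = Nat.card ↥(L ⊓ K) := by
  rw [← Subgroup.subgroupOf_map_subtype, Subgroup.card_map_of_injective K.subtype_injective]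

section
variable {P : Type*} [Group P] [Finite P] {A V C K : Subgroup P} {u v a b : P} (h : X A V C K u v a b)
include h

theorem X.cardK (L : Subgroup P) :
    Nat.card ↥(L ⊓ K) = Nat.card ↥(L ⊓ C) * Nat.card ((L.subgroupOf K).map h.Phi) := by
  have e := card_map_ker h.Phi (L.subgroupOf K)
  rw [card_subgroupOf', h.ker] at e
  have e2 : C.subgroupOf K ⊓ L.subgroupOf K = (L ⊓ C).subgroupOf K := by
    ext x
    simp only [Subgroup.mem_inf, Subgroup.mem_subgroupOf]
    tauto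
  rw [e2, card_subgroupOf', inf_assoc, inf_eq_left.2 h.CK] at e
  exact e

theorem X.mem_phi {L : Subgroup P} {x y : V} (hxy : (x, y) ∈ (L.subgroupOf K).map h.Phi) :
    ∃ c ∈ L, c ∈ K ∧ d c a = x ∧ d c b = y := by
  obtain ⟨⟨c, hc⟩, hcL, hcx⟩ := hxy
  exact ⟨c, hcL, hc, congrArg (fun z : V × V => (z.1 : P)) hcx, congrArg (fun z : V × V => (z.2 : P)) hcx⟩

/-- every pair gives an omega element when `Phi` is onto -/
theorem X.omega_of {c : P} (hc : c ∈ K) (h1 : d c a = v) (h2 : d c b = u * v) : Inv A c ∧ Fx A c := by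
  have nu1 := h.hu1
  have nv1 := h.hv1
  have n1 : u * v ≠ u := fun h' => nv1 (mul_eq_left.1 h')
  have n2 : u * v ≠ v := fun h' => nu1 (mul_eq_right.1 h')
  constructor
  · apply h.inv_of hc
    · rw [h1]; exact h.huv.symm
    · rw [h2]; exact n2
    · rw [h1, h2, h.vuv]; exact n1.symm
  · apply h.fx_of hc
    · rw [h1]; exact nv1
    · rw [h2]; exact h.uv_ne
    · rw [h1, h2, h.vuv]; exact nu1

theorem X.main (h8 : ∀ E : Subgroup P, E.Normal → IsMulCommutative E → (∀ a ∈ E, a ^ 2 = 1) → Nat.card E ≤ 4)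
    (hV4 : Nat.card V = 4) (hsq : ∀ t ∈ V, ∃ x ∈ A, x ^ 2 = t) {L N : Subgroup P} (hNL : N ≤ L)
    (hc : ∀ x ∈ L, ∀ y ∈ L, x * y * x⁻¹ * y⁻¹ ∈ N) (hs : ∀ x ∈ L, x ^ 2 ∈ N)
    (hbig : 32 * Nat.card N ≤ Nat.card L) : False := by
  have hM : Nat.card (V × V) = 16 := by rw [Nat.card_prod, hV4]
  have hdiv : ∀ W : Subgroup (V × V), Nat.card W * W.index = 16 := fun W => by rw [W.card_mul_index, hM]
  have hidx2 : ∀ W : Subgroup (V × V), 8 ≤ Nat.card W → Nat.card W ≠ 16 → Nat.card W = 8 ∧ W.index = 2 := by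
    intro W h1 h2
    have h3 := hdiv W
    have h4 : W.index ≤ 2 := by
      by_contra hlt
      push Not at hlt
      nlinarith
    interval_cases hi : W.index
    · omega
    · omega
    · omega
  have htop : ∀ W : Subgroup (V × V), Nat.card W = 16 → W = ⊤ := fun W h1 =>
    Subgroup.eq_top_of_card_eq W (by rw [h1, hM])
  set φL := (L.subgroupOf K).map h.Phi with hφL
  set φN := (N.subgroupOf K).map h.Phi with hφN
  have eL := h.cardK L
  have eN := h.cardK N
  rw [← hφL] at eL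
  rw [← hφN] at eN
  have pN : 0 < Nat.card ↥(N ⊓ C) := Nat.card_pos
  have pφN : 0 < Nat.card φN := Nat.card_pos
  have hNK : Nat.card ↥(N ⊓ K) ≤ Nat.card N := Subgroup.card_le_of_le inf_le_left
  have hb : Nat.card ↥(L ⊓ C) ≤ Nat.card ↥(N ⊓ C) * 4 := by
    rw [← hV4]
    exact h.toHyp.card_le inf_le_right (fun x hx =>
      Subgroup.mem_inf.2 ⟨hs x (Subgroup.mem_inf.1 hx).1, pow_mem (Subgroup.mem_inf.1 hx).2 2⟩)
  have hLK2 := h.toHyp.index_two hV4 L
  -- the case `L ≤ K`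
  by_cases hLK : L ≤ K
  · have e1 : L ⊓ K = L := inf_eq_left.2 hLK
    rw [e1] at eL
    have h8L : 8 * Nat.card φN ≤ Nat.card φL := by
      have h1 : 32 * (Nat.card ↥(N ⊓ C) * Nat.card φN) ≤ Nat.card ↥(L ⊓ C) * Nat.card φL := by
        rw [← eL, ← eN]
        exact (Nat.mul_le_mul_left _ hNK).trans hbig
      have h2 : Nat.card ↥(L ⊓ C) * Nat.card φL ≤ (Nat.card ↥(N ⊓ C) * 4) * Nat.card φL := Nat.mul_le_mul_right _ hb
      have h3 : Nat.card ↥(N ⊓ C) * (8 * Nat.card φN) ≤ Nat.card ↥(N ⊓ C) * Nat.card φL := by nlinarith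
      exact Nat.le_of_mul_le_mul_left h3 pN
    have hge8 : Nat.card φL = 8 → 4 * Nat.card ↥(N ⊓ C) ≤ Nat.card ↥(L ⊓ C) := by
      intro h1
      have h2 : 32 * (Nat.card ↥(N ⊓ C) * Nat.card φN) ≤ Nat.card ↥(L ⊓ C) * 8 := by
        rw [← h1, ← eL, ← eN]
        exact (Nat.mul_le_mul_left _ hNK).trans hbig
      nlinarith
    by_cases hPK : ∃ s : P, s ∉ K
    · obtain ⟨s, hsK⟩ := hPK
      have hs1 : s * v * s⁻¹ = u * v := (h.conj_v s).resolve_left fun h1 => hsK (h.mem_K h1)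
      have hφr : φL ≤ h.Phi.range := by
        rintro _ ⟨x, -, rfl⟩
        exact ⟨x, rfl⟩
      have hr8 : Nat.card φL ≤ Nat.card h.Phi.range := Subgroup.card_le_of_le hφr
      have hN1 : ∃ c ∈ K, d c a = 1 ∧ d c b = u := by
        by_cases h16 : Nat.card h.Phi.range = 16
        · have h1 := htop _ h16
          have h2 : ((1 : V), (⟨u, h.hu⟩ : V)) ∈ h.Phi.range := by rw [h1]; exact Subgroup.mem_top _
          obtain ⟨⟨c, hc⟩, hcW⟩ := h2
          exact ⟨c, hc, congrArg (fun z : V × V => (z.1 : P)) hcW, congrArg (fun z : V × V => (z.2 : P)) hcW⟩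
        · exact h.F2 hs1 (hidx2 _ (by omega) h16).2
      obtain ⟨c₀, hc₀, e1, e2⟩ := hN1
      by_cases h16 : Nat.card h.Phi.range = 16
      · have h1 := htop _ h16
        have h2 : ((⟨v, h.hv⟩ : V), (⟨u * v, mul_mem h.hu h.hv⟩ : V)) ∈ h.Phi.range := by rw [h1]; exact Subgroup.mem_top _
        obtain ⟨⟨c, hc⟩, hcW⟩ := h2
        obtain ⟨i1, i2⟩ := h.omega_of hc (congrArg (fun z : V × V => (z.1 : P)) hcW)
          (congrArg (fun z : V × V => (z.2 : P)) hcW)
        exact h.w2 h8 hV4 hsq hc i1 i2 hc₀ (h.inv_u hc₀ e1 e2) (h.notC_u hc₀ e2) (h.cen_of hc₀ e1 e2)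
      · have h1 := (hidx2 _ (by omega) h16).1
        have h2 : φL = h.Phi.range := Subgroup.eq_of_le_of_card_ge hφr (by omega)
        have h3 : ((1 : V), (⟨u, h.hu⟩ : V)) ∈ φL := by
          rw [h2]
          refine ⟨⟨c₀, hc₀⟩, ?_⟩
          exact Prod.ext (Subtype.ext e1) (Subtype.ext e2)
        obtain ⟨c, hcL, hcK, e3, e4⟩ := h.mem_phi h3
        exact h.fin h8 hV4 hs (hge8 (by rw [h2]; exact h1)) hcL hcK (h.inv_u hcK e3 e4) (h.notC_u hcK e4)
          (h.cen_of hcK e3 e4)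
    · push Not at hPK
      have hcen : ∀ c : P, Cen C c := fun c g => h.commKC (hPK g) (hPK c)
      by_cases h16 : Nat.card φL = 16
      · have h1 := htop _ h16
        have h2 : ((⟨v, h.hv⟩ : V), (⟨u * v, mul_mem h.hu h.hv⟩ : V)) ∈ φL := by rw [h1]; exact Subgroup.mem_top _
        obtain ⟨c, hcL, hcK, e3, e4⟩ := h.mem_phi h2
        obtain ⟨i1, i2⟩ := h.omega_of hcK e3 e4
        exact h.w1 h8 hV4 hsq hcK i1 (h.notC i2) (hcen c) (h.fx_memV i2 (h.sqC hcK) (by rw [sq]; group))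
      · obtain ⟨h1, h2⟩ := hidx2 φL (by omega) h16
        obtain ⟨⟨x, y⟩, hm, ⟨i1, i2, i3⟩, hne⟩ := h.F1 φL h2
        obtain ⟨c, hcL, hcK, e3, e4⟩ := h.mem_phi hm
        refine h.fin h8 hV4 hs (hge8 h1) hcL hcK (h.inv_of hcK (by rw [e3]; exact i1) (by rw [e4]; exact i2)
          (by rw [e3, e4]; exact i3)) ?_ (hcen c)
        intro hcC
        rw [h.mem_C hcK, e3, e4] at hcC
        exact hne (Prod.ext (Subtype.ext hcC.1) (Subtype.ext hcC.2))
  · -- the case `L ≰ K`
    obtain ⟨s, hsL, hsK⟩ := SetLike.not_le_iff_exists.1 hLK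
    have hs1 : s * v * s⁻¹ = u * v := (h.conj_v s).resolve_left fun h1 => hsK (h.mem_K h1)
    have h1 : 32 * (Nat.card ↥(N ⊓ C) * Nat.card φN) ≤ 2 * (Nat.card ↥(L ⊓ C) * Nat.card φL) := by
      rw [← eL, ← eN]
      exact ((Nat.mul_le_mul_left _ hNK).trans hbig).trans hLK2
    have h4 : 4 * Nat.card φN ≤ Nat.card φL := by
      have h2 : Nat.card ↥(L ⊓ C) * Nat.card φL ≤ (Nat.card ↥(N ⊓ C) * 4) * Nat.card φL := Nat.mul_le_mul_right _ hb
      have h3 : Nat.card ↥(N ⊓ C) * (4 * Nat.card φN) ≤ Nat.card ↥(N ⊓ C) * Nat.card φL := by nlinarith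
      exact Nat.le_of_mul_le_mul_left h3 pN
    obtain ⟨h5, h6⟩ := h.F3 hV4 hs1 φL φN (by
      rintro ⟨x, y⟩ hm
      obtain ⟨c, hcL, hcK, e3, e4⟩ := h.mem_phi hm
      have hsc : s * c * s⁻¹ ∈ K := h.nK hcK s
      refine ⟨h.Phi ⟨s * c * s⁻¹ * c⁻¹, mul_mem hsc (inv_mem hcK)⟩, ⟨_, hc s hsL c hcL, rfl⟩, ?_, ?_⟩
      · change d (s * c * s⁻¹ * c⁻¹) a = s * x * s⁻¹ * (x : P)⁻¹
        have e5 : d (c * c⁻¹) a = 1 := by rw [mul_inv_cancel]; unfold d; group
        rw [h.d_mul hcK (inv_mem hcK) h.ha] at e5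
        rw [h.d_mul hsc (inv_mem hcK) h.ha, h.d_conj_a s hcK, eq_inv_of_mul_eq_one_right e5, e3]
      · change d (s * c * s⁻¹ * c⁻¹) b = s * (x * y) * s⁻¹ * (y : P)⁻¹
        have e5 : d (c * c⁻¹) b = 1 := by rw [mul_inv_cancel]; unfold d; group
        rw [h.d_mul hcK (inv_mem hcK) h.hb] at e5
        rw [h.d_mul hsc (inv_mem hcK) h.hb, h.d_conj_b hs1 hcK, eq_inv_of_mul_eq_one_right e5, e3, e4]) h4
    obtain ⟨c, hcL, hcK, e3, e4⟩ := h.mem_phi h5
    refine h.fin h8 hV4 hs ?_ hcL hcK (h.inv_u hcK e3 e4) (h.notC_u hcK e4) (h.cen_of hcK e3 e4)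
    have h7 : 2 * (Nat.card ↥(L ⊓ C) * Nat.card φL) ≤ 2 * (Nat.card ↥(L ⊓ C) * (4 * Nat.card φN)) := by
      exact Nat.mul_le_mul_left _ (Nat.mul_le_mul_left _ h6)
    have h9 : Nat.card φN * (4 * Nat.card ↥(N ⊓ C)) ≤ Nat.card φN * Nat.card ↥(L ⊓ C) := by nlinarith
    exact Nat.le_of_mul_le_mul_left h9 pφN

end

section
variable {P : Type*} [Group P] [Finite P] {A V C K : Subgroup P} (h : Hyp A V C K)
include h

/-- The case where the squares of the elements of `A` form a group of order at most 2. -/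
theorem Hyp.small (hV : Nat.card V ≤ 4) {a : P} (ha : a ∈ A)
    (hall : ∀ x ∈ A, x ^ 2 = 1 ∨ x ^ 2 = a ^ 2) {L N : Subgroup P} (hNL : N ≤ L)
    (hc : ∀ x ∈ L, ∀ y ∈ L, x * y * x⁻¹ * y⁻¹ ∈ N) (hs : ∀ x ∈ L, x ^ 2 ∈ N) : Nat.card L ≤ 16 * Nat.card N := by
  have hkr : ∀ c ∈ K, (d c a = 1 ↔ c ∈ C) := by
    intro c hcK
    rw [h.mem_C_iff]
    refine ⟨fun h1 x hx => ?_, fun h1 => h1 a ha⟩
    rcases hall x hx with h2 | h2
    · exact h.d_V hcK ((h.hV x).2 ⟨hx, h2⟩)
    · rw [h.d_eq hcK hx ha h2, h1]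
  let θ : K →* V :=
    { toFun := fun c => ⟨d c a, h.d_mem c.2 ha⟩
      map_one' := by
        apply Subtype.ext
        change d 1 a = 1
        unfold d; group
      map_mul' := fun c c' => Subtype.ext (h.d_mul c.2 c'.2 ha) }
  have hker : θ.ker = C.subgroupOf K := by
    ext ⟨c, hcK⟩
    rw [MonoidHom.mem_ker, mem_subgroupOf, ← hkr c hcK]
    constructor
    · intro h1
      exact congrArg Subtype.val h1
    · intro h1
      exact Subtype.ext h1
  have cardK : ∀ L : Subgroup P, Nat.card ↥(L ⊓ K) = Nat.card ↥(L ⊓ C) * Nat.card ((L.subgroupOf K).map θ) := by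
    intro L
    have e := card_map_ker θ (L.subgroupOf K)
    rw [card_subgroupOf', hker] at e
    have e2 : C.subgroupOf K ⊓ L.subgroupOf K = (L ⊓ C).subgroupOf K := by
      ext x
      simp only [Subgroup.mem_inf, Subgroup.mem_subgroupOf]
      tauto
    rw [e2, card_subgroupOf', inf_assoc, inf_eq_left.2 h.CK] at e
    exact e
  have eL := cardK L
  have eN := cardK N
  set φL := (L.subgroupOf K).map θ with hφL
  set φN := (N.subgroupOf K).map θ with hφN
  have pφN : 0 < Nat.card φN := Nat.card_pos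
  have hNK : Nat.card ↥(N ⊓ K) ≤ Nat.card N := Subgroup.card_le_of_le inf_le_left
  have hNC : Nat.card ↥(N ⊓ C) ≤ Nat.card N := Subgroup.card_le_of_le inf_le_left
  have hφV : Nat.card φL ≤ Nat.card V := Nat.card_le_card_of_injective _ (Subgroup.subtype_injective φL)
  have hb : Nat.card ↥(L ⊓ C) ≤ Nat.card ↥(N ⊓ C) * Nat.card V := h.card_le inf_le_right (fun x hx =>
    Subgroup.mem_inf.2 ⟨hs x (Subgroup.mem_inf.1 hx).1, pow_mem (Subgroup.mem_inf.1 hx).2 2⟩)
  have hb4 : Nat.card ↥(L ⊓ C) ≤ Nat.card ↥(N ⊓ C) * 4 := hb.trans (Nat.mul_le_mul_left _ hV)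
  by_cases hLK : L ≤ K
  · rw [inf_eq_left.2 hLK] at eL
    rw [eL]
    calc Nat.card ↥(L ⊓ C) * Nat.card φL ≤ (Nat.card ↥(N ⊓ C) * 4) * 4 := Nat.mul_le_mul hb4 (hφV.trans hV)
      _ ≤ (Nat.card N * 4) * 4 := by nlinarith
      _ = _ := by ring
  · obtain ⟨s, hsL, hsK⟩ := SetLike.not_le_iff_exists.1 hLK
    -- `|V| = 4`
    have hV4 : Nat.card V = 4 := by
      obtain ⟨n, hn⟩ := (h.two.to_subgroup V).exists_card_eq
      by_contra hne
      have hn1 : n ≤ 1 := by
        by_contra hlt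
        push Not at hlt
        have : n = 2 := by
          by_contra hn2
          have h3 : 3 ≤ n := by omega
          have := Nat.pow_le_pow_right (show 0 < 2 by norm_num) h3
          omega
        rw [this] at hn
        exact hne hn
      have h2 : Nat.card V ≤ 2 := by
        rw [hn]
        calc 2 ^ n ≤ 2 ^ 1 := Nat.pow_le_pow_right (by norm_num) hn1
          _ = 2 := by norm_num
      apply hsK
      rw [h.hK]
      intro x hx
      by_cases hx1 : x = 1
      · rw [hx1]; simp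
      have h3 : s * x * s⁻¹ = x := by
        by_contra hne'
        have h4 : s * x * s⁻¹ ≠ 1 := fun h5 => hx1 (conj_eq_one_iff.1 h5)
        have h5 : Function.Injective (fun i : Fin 3 => (![(1 : V), ⟨x, hx⟩, ⟨s * x * s⁻¹, h.nV hx s⟩] i)) := by
          have m : ∀ i j : Fin 3, i < j → ((![(1 : P), x, s * x * s⁻¹] i) ≠ (![(1 : P), x, s * x * s⁻¹] j)) := by
            intro i j hij
            fin_cases i <;> fin_cases j <;> first
              | exact absurd hij (by decide)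
              | exact fun h' => hx1 h'.symm
              | exact fun h' => h4 h'.symm
              | exact fun h' => hne' h'.symm
          have m' : ∀ i : Fin 3, ((![(1 : V), ⟨x, hx⟩, ⟨s * x * s⁻¹, h.nV hx s⟩] i : V) : P) = (![(1 : P), x, s * x * s⁻¹] i) := by
            intro i
            fin_cases i <;> rfl
          intro i j hij
          have hij' : (![(1 : P), x, s * x * s⁻¹] i) = (![(1 : P), x, s * x * s⁻¹] j) := by
            rw [← m', ← m']
            exact congrArg Subtype.val hij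
          rcases lt_trichotomy i j with h1 | h1 | h1
          · exact absurd hij' (m i j h1)
          · exact h1
          · exact absurd hij'.symm (m j i h1)
        have h6 := Nat.card_le_card_of_injective _ h5
        rw [Nat.card_eq_fintype_card, Fintype.card_fin] at h6
        omega
      rwa [mul_inv_eq_iff_eq_mul] at h3
    have hLK2 := h.index_two hV4 L
    rw [eL] at hLK2
    by_cases hφ2 : Nat.card φL ≤ 2
    · calc Nat.card L ≤ 2 * (Nat.card ↥(L ⊓ C) * Nat.card φL) := hLK2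
        _ ≤ 2 * ((Nat.card ↥(N ⊓ C) * 4) * 2) := Nat.mul_le_mul_left _ (Nat.mul_le_mul hb4 hφ2)
        _ ≤ 16 * Nat.card N := by nlinarith
    · have hφ4 : Nat.card φL = 4 := by
        have h1 := φL.card_mul_index
        rw [hV4] at h1
        have h2 : Nat.card φL ∣ 4 := ⟨_, h1.symm⟩
        have h3 : Nat.card φL ≤ 4 := Nat.le_of_dvd (by norm_num) h2
        interval_cases hh : Nat.card φL <;> first | rfl | omega
      have hφtop : φL = ⊤ := Subgroup.eq_top_of_card_eq φL (by rw [hφ4, hV4])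
      by_cases hφN2 : 2 ≤ Nat.card φN
      · calc Nat.card L ≤ 2 * (Nat.card ↥(L ⊓ C) * Nat.card φL) := hLK2
          _ ≤ 2 * ((Nat.card ↥(N ⊓ C) * 4) * 4) := Nat.mul_le_mul_left _ (Nat.mul_le_mul hb4 hφ4.le)
          _ = 16 * (Nat.card ↥(N ⊓ C) * 2) := by ring
          _ ≤ 16 * (Nat.card ↥(N ⊓ C) * Nat.card φN) := Nat.mul_le_mul_left _ (Nat.mul_le_mul_left _ hφN2)
          _ = 16 * Nat.card ↥(N ⊓ K) := by rw [← eN]
          _ ≤ _ := Nat.mul_le_mul_left _ hNK
      · exfalso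
        have hφN1 : Nat.card φN = 1 := by omega
        have hNKC : ∀ x ∈ N, x ∈ K → x ∈ C := by
          intro x hx hxK
          rw [← hkr x hxK]
          have h1 : θ ⟨x, hxK⟩ ∈ φN := ⟨⟨x, hxK⟩, hx, rfl⟩
          rw [Subgroup.card_eq_one.1 hφN1, Subgroup.mem_bot] at h1
          exact congrArg Subtype.val h1
        apply hsK
        rw [h.hK]
        intro x hx
        have h1 : (⟨x, hx⟩ : V) ∈ φL := by rw [hφtop]; exact Subgroup.mem_top _
        obtain ⟨⟨c, hcK⟩, hcL, hcx⟩ := h1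
        have hcx' : d c a = x := congrArg Subtype.val hcx
        have hsc : s * c * s⁻¹ ∈ K := h.nK hcK s
        have h2 : s * c * s⁻¹ * c⁻¹ ∈ C := hNKC _ (hc s hsL c hcL) (mul_mem hsc (inv_mem hcK))
        have h3 : d (s * c * s⁻¹) a = d c a := by
          have h4 := h.mem_C_iff.1 h2 a ha
          have h5 : s * c * s⁻¹ = (s * c * s⁻¹ * c⁻¹) * c := by group
          rw [h5, h.d_mul (h.CK h2) hcK ha, h4, one_mul]
        rw [d_conj] at h3
        have h1' : s⁻¹ * a * s ∈ A := by simpa using h.nA a ha s⁻¹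
        have h6 : d c (s⁻¹ * a * s) = d c a := by
          rcases hall _ h1' with h7 | h7
          · have h8 : a ^ 2 = 1 := by
              have := conj_pow (i := 2) (a := s⁻¹) (b := a)
              rw [inv_inv] at this
              rw [this] at h7
              have h9 : s⁻¹ * a ^ 2 * s⁻¹⁻¹ = 1 := by rwa [inv_inv]
              exact conj_eq_one_iff.1 h9
            rw [h.d_eq hcK h1' ha (by rw [h7, h8])]
          · exact h.d_eq hcK h1' ha h7
        rw [h6, hcx'] at h3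
        rwa [mul_inv_eq_iff_eq_mul] at h3

end

/-- MacWilliams' four generator theorem. -/
theorem macwilliams {P : Type*} [Group P] [Finite P] (hP : IsPGroup 2 P)
    (h8 : ∀ A : Subgroup P, A.Normal → IsMulCommutative A → (∀ a ∈ A, a ^ 2 = 1) → Nat.card A ≤ 4) :
    Cfsg.SectionalPRankLE 2 4 P := by
  classical
  -- a maximal normal abelian subgroup of exponent dividing 4
  obtain ⟨A, hAm, hmax⟩ : ∃ A : Subgroup P, (A.Normal ∧ IsMulCommutative A ∧ ∀ a ∈ A, a ^ 2 ^ 2 = 1) ∧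
      ∀ B : Subgroup P, B.Normal → IsMulCommutative B → (∀ b ∈ B, b ^ 2 ^ 2 = 1) → A ≤ B → B = A := by
    obtain ⟨A, hA, hm⟩ := (Set.toFinite {A : Subgroup P | A.Normal ∧ IsMulCommutative A ∧ ∀ a ∈ A, a ^ 2 ^ 2 = 1}).exists_maximalFor
      (fun A => A) _ ⟨⊥, inferInstance, ⟨⟨fun x y => Subsingleton.elim _ _⟩⟩, by
        intro a ha
        rw [Subgroup.mem_bot.1 ha, one_pow]⟩
    refine ⟨A, hA, fun B h1 h2 h3 h4 => ?_⟩
    exact le_antisymm (hm ⟨h1, h2, h3⟩ h4) h4
  obtain ⟨hAn, hAc, hA4⟩ := hAm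
  have hAab : ∀ a ∈ A, ∀ b ∈ A, a * b = b * a := by
    intro a ha b hb
    exact congrArg Subtype.val (hAc.is_comm.comm (⟨a, ha⟩ : A) ⟨b, hb⟩)
  let V : Subgroup P :=
    { carrier := {x | x ∈ A ∧ x ^ 2 = 1}
      one_mem' := ⟨one_mem _, one_pow 2⟩
      mul_mem' := by
        rintro x y ⟨hx, hx2⟩ ⟨hy, hy2⟩
        refine ⟨mul_mem hx hy, ?_⟩
        rw [(show Commute x y from hAab x hx y hy).mul_pow, hx2, hy2, one_mul]
      inv_mem' := by
        rintro x ⟨hx, hx2⟩
        exact ⟨inv_mem hx, by rw [inv_pow, hx2, inv_one]⟩ }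
  have hVmem : ∀ x, x ∈ V ↔ x ∈ A ∧ x ^ 2 = 1 := fun x => Iff.rfl
  have hyp : Hyp A V (Subgroup.centralizer (A : Set P)) (Subgroup.centralizer (V : Set P)) :=
    { two := hP
      ab := hAab
      nA := fun a ha g => hAn.conj_mem a ha g
      four := fun a ha => by simpa using hA4 a ha
      hV := hVmem
      hC := fun x => by
        rw [Subgroup.mem_centralizer_iff]
        exact ⟨fun h1 a ha => (h1 a ha).symm, fun h1 a ha => (h1 a ha).symm⟩
      hK := fun x => by
        rw [Subgroup.mem_centralizer_iff]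
        exact ⟨fun h1 a ha => (h1 a ha).symm, fun h1 a ha => (h1 a ha).symm⟩
      om := fun x hx hx4 => by
        haveI := hAn
        exact Cfsg.Agent.OddP.alperin (p := 2) hP 2 (by norm_num) A hAc hA4 hmax x hx (by simpa using hx4) }
  have hVn : V.Normal := ⟨fun v hv g => hyp.nV hv g⟩
  have hVc : IsMulCommutative V := ⟨⟨fun x y => Subtype.ext (hAab x x.2.1 y y.2.1)⟩⟩
  have hV4 : Nat.card V ≤ 4 := h8 V hVn hVc fun a ha => ha.2
  apply Cfsg.Agent.H73.Sec.intro
  intro L N hNL hc hs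
  have hrel := Cfsg.Agent.H63.card_mul_relIndex hNL
  have pN : 0 < Nat.card N := Nat.card_pos
  by_cases hX : Nat.card V = 4 ∧ ∀ t ∈ V, ∃ x ∈ A, x ^ 2 = t
  · obtain ⟨hV4', hsq⟩ := hX
    obtain ⟨u, v, hu, hv, hu1, hv1, huv, cu, hall⟩ := hyp.exists_uv hV4'
    obtain ⟨a, ha, ha2⟩ := hsq u hu
    obtain ⟨b, hb, hb2⟩ := hsq v hv
    have hx : X A V (Subgroup.centralizer (A : Set P)) (Subgroup.centralizer (V : Set P)) u v a b :=
      { toHyp := hyp, hu := hu, hv := hv, hu1 := hu1, hv1 := hv1, huv := huv, cu := cu, all := hall,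
        ha := ha, hb := hb, ha2 := ha2, hb2 := hb2 }
    by_contra hlt
    push Not at hlt
    refine hx.main h8 hV4' hsq hNL hc hs ?_
    obtain ⟨k, hk⟩ : ∃ k, N.relIndex L = 2 ^ k := by
      have h1 : N.relIndex L ∣ Nat.card P := ⟨_, by
        have h2 := L.card_mul_index
        rw [← h2, ← hrel, mul_comm (Nat.card N), mul_assoc]⟩
      obtain ⟨n, hn⟩ := hP.exists_card_eq
      rw [hn] at h1
      obtain ⟨k, -, hk⟩ := (Nat.dvd_prime_pow Nat.prime_two).1 h1
      exact ⟨k, hk⟩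
    have h5 : 5 ≤ k := by
      by_contra h6
      push Not at h6
      have h7 : 2 ^ k ≤ 2 ^ 4 := Nat.pow_le_pow_right (by norm_num) (by omega)
      omega
    have h6 : 32 ≤ N.relIndex L := by
      rw [hk]
      calc 32 = 2 ^ 5 := by norm_num
        _ ≤ 2 ^ k := Nat.pow_le_pow_right (by norm_num) h5
    rw [← hrel, mul_comm]
    exact Nat.mul_le_mul_left _ h6
  · -- the squares of elements of `A`
    obtain ⟨a, ha, hall⟩ : ∃ a ∈ A, ∀ x ∈ A, x ^ 2 = 1 ∨ x ^ 2 = a ^ 2 := by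
      by_contra hcon
      push Not at hcon
      obtain ⟨a, ha, ha1, -⟩ := hcon 1 (one_mem _)
      obtain ⟨b, hb, hb1, hba⟩ := hcon a ha
      apply hX
      have hc1 : Commute a b := hAab a ha b hb
      have hu := hyp.sqV ha
      have hv := hyp.sqV hb
      have huv := hyp.sqV (mul_mem ha hb)
      rw [hc1.mul_pow] at huv
      have hinj : Function.Injective (fun i : Fin 4 => (![(1 : V), ⟨a ^ 2, hu⟩, ⟨b ^ 2, hv⟩, ⟨a ^ 2 * b ^ 2, huv⟩] i)) := by
        have n3 : a ^ 2 * b ^ 2 ≠ 1 := by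
          intro h1
          apply hba
          rw [eq_inv_of_mul_eq_one_right h1]
          exact (hyp.Vinv hu)
        have n4 : a ^ 2 * b ^ 2 ≠ a ^ 2 := fun h1 => hb1 (mul_eq_left.1 h1)
        have n5 : a ^ 2 * b ^ 2 ≠ b ^ 2 := fun h1 => ha1 (mul_eq_right.1 h1)
        have m : ∀ i j : Fin 4, i < j → ((![(1 : P), a ^ 2, b ^ 2, a ^ 2 * b ^ 2] i) ≠ (![(1 : P), a ^ 2, b ^ 2, a ^ 2 * b ^ 2] j)) := by
          intro i j hij
          fin_cases i <;> fin_cases j <;> first
            | exact absurd hij (by decide)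
            | exact ha1.symm
            | exact hb1.symm
            | exact n3.symm
            | exact hba.symm
            | exact n4.symm
            | exact n5.symm
        have m' : ∀ i : Fin 4, ((![(1 : V), ⟨a ^ 2, hu⟩, ⟨b ^ 2, hv⟩, ⟨a ^ 2 * b ^ 2, huv⟩] i : V) : P) = (![(1 : P), a ^ 2, b ^ 2, a ^ 2 * b ^ 2] i) := by
          intro i
          fin_cases i <;> rfl
        intro i j hij
        have hij' : (![(1 : P), a ^ 2, b ^ 2, a ^ 2 * b ^ 2] i) = (![(1 : P), a ^ 2, b ^ 2, a ^ 2 * b ^ 2] j) := by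
          rw [← m', ← m']
          exact congrArg Subtype.val hij
        rcases lt_trichotomy i j with h1 | h1 | h1
        · exact absurd hij' (m i j h1)
        · exact h1
        · exact absurd hij'.symm (m j i h1)
      have h4 : Nat.card V = 4 := by
        apply le_antisymm hV4
        have := Nat.card_le_card_of_injective _ hinj
        rwa [Nat.card_eq_fintype_card, Fintype.card_fin] at this
      refine ⟨h4, ?_⟩
      have hbij := (Nat.bijective_iff_injective_and_card _).2 ⟨hinj, by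
        rw [h4, Nat.card_eq_fintype_card, Fintype.card_fin]⟩
      intro t ht
      obtain ⟨i, hi⟩ := hbij.2 ⟨t, ht⟩
      have hi' := congrArg Subtype.val hi
      fin_cases i
      · exact ⟨1, one_mem _, by rw [one_pow]; exact hi'⟩
      · exact ⟨a, ha, hi'⟩
      · exact ⟨b, hb, hi'⟩
      · exact ⟨a * b, mul_mem ha hb, by rw [hc1.mul_pow]; exact hi'⟩
    have h1 := hyp.small hV4 ha hall hNL hc hs
    rw [← hrel, mul_comm 16] at h1
    have h2 := Nat.le_of_mul_le_mul_left h1 pN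
    simpa using h2

end Cfsg.Agent.H20.MacW
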