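import Cfsg.Agent.H20.HarDef
import Cfsg.Agent.H20.MacWD
import Cfsg.Agent.H73.Sec2

set_option autoImplicit false
set_option maxHeartbeats 800000

/-! Harada's theorem: general tools. -/

namespace Cfsg.Agent.H20.Har
open Subgroup

theorem of_R4 {S : Type*} [Group S] [Finite S] (h : R4 S) : Cfsg.SectionalPRankLE 2 4 S := by
  refine H73.Sec.intro fun L N hNL hc hs => ?_
  have h1 := h L N hNL hc (fun x hx => by rw [← pow_two]; exact hs x hx)
  have h2 := H63.card_mul_relIndex hNL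
  have h3 : Nat.card N * N.relIndex L ≤ Nat.card N * 16 := by rw [h2, mul_comm _ 16]; exact h1
  have h4 := Nat.le_of_mul_le_mul_left h3 Nat.card_pos
  norm_num
  exact h4

/-- A normal elementary abelian subgroup of maximal order; if it has order at most 4 use MacWilliams. -/
theorem exists_V {S : Type*} [Group S] [Finite S] (hS : IsPGroup 2 S) :
    Cfsg.SectionalPRankLE 2 4 S ∨ ∃ V : Subgroup S, (∀ v ∈ V, ∀ g : S, g * v * g⁻¹ ∈ V) ∧
      (∀ v ∈ V, ∀ w ∈ V, v * w = w * v) ∧ (∀ v ∈ V, v * v = 1) ∧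
      (∀ E : Subgroup S, E.Normal → (∀ v ∈ E, ∀ w ∈ E, v * w = w * v) → (∀ v ∈ E, v * v = 1) →
        Nat.card E ≤ Nat.card V) ∧ 8 ≤ Nat.card V := by
  obtain ⟨V, ⟨hVn, hVc, hVs⟩, hmax⟩ := Set.exists_max_image
    {E : Subgroup S | E.Normal ∧ (∀ v ∈ E, ∀ w ∈ E, v * w = w * v) ∧ (∀ v ∈ E, v * v = 1)} (fun E => Nat.card E)
    (Set.toFinite _) ⟨⊥, inferInstance, by simp, by simp⟩
  by_cases h4 : Nat.card V ≤ 4
  · left
    refine MacW.macwilliams hS fun A hA hAc hA2 => (hmax A ⟨hA, ?_, ?_⟩).trans h4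
    · intro v hv w hw
      exact congrArg Subtype.val (hAc.is_comm.comm (⟨v, hv⟩ : A) ⟨w, hw⟩)
    · intro v hv
      rw [← pow_two]; exact hA2 v hv
  · right
    refine ⟨V, fun v hv g => hVn.conj_mem v hv g, hVc, hVs, fun E h1 h2 h3 => hmax E ⟨h1, h2, h3⟩, ?_⟩
    obtain ⟨n, hn⟩ := (hS.to_subgroup V).exists_card_eq
    rw [hn] at h4 ⊢
    have : 2 < n := by
      by_contra h
      rw [not_lt] at h
      have := Nat.pow_le_pow_right (show 0 < 2 by norm_num) h
      omega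
    calc 8 = 2 ^ 3 := by norm_num
      _ ≤ 2 ^ n := Nat.pow_le_pow_right (by norm_num) this

end Cfsg.Agent.H20.Har
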