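import Cfsg.Agent.H20.HeisLines

set_option autoImplicit false

/-! Elements acting on a line of a Sylow subgroup that is extraspecial of order `p ^ 3`. -/

namespace Cfsg.Agent.H20.HeisFus

open MulAction Subgroup
open scoped commutatorElement Pointwise

section act

variable {G : Type*} [Group G]

/-- `g` acts on the pair `z, v` by an integer matrix -/
def Act (z v g : G) (a b c d : ℤ) : Prop :=
  g * z * g⁻¹ = z ^ a * v ^ b ∧ g * v * g⁻¹ = z ^ c * v ^ d

theorem Act.mul {z v g g' : G} (hzv : Commute z v) {a b c d a' b' c' d' : ℤ}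
    (h : Act z v g a b c d) (h' : Act z v g' a' b' c' d') :
    Act z v (g * g') (a' * a + b' * c) (a' * b + b' * d) (c' * a + d' * c) (c' * b + d' * d) := by
  have key : ∀ (r t : ℤ), g * (z ^ r * v ^ t) * g⁻¹ = z ^ (r * a + t * c) * v ^ (r * b + t * d) := by
    intro r t
    have h1 : g * (z ^ r * v ^ t) * g⁻¹ = (g * z * g⁻¹) ^ r * (g * v * g⁻¹) ^ t := by
      rw [conj_zpow, conj_zpow]; group
    have h2 : ∀ (i j k : ℤ), (z ^ i * v ^ j) ^ k = z ^ (k * i) * v ^ (k * j) := by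
      intro i j k
      rw [((hzv.zpow_zpow i j)).mul_zpow, ← zpow_mul, ← zpow_mul, mul_comm i, mul_comm j]
    rw [h1, h.1, h.2, h2, h2, zpow_add, zpow_add]
    have h3 := (hzv.zpow_zpow (t * c) (r * b)).eq
    calc z ^ (r * a) * v ^ (r * b) * (z ^ (t * c) * v ^ (t * d))
        = z ^ (r * a) * (v ^ (r * b) * z ^ (t * c)) * v ^ (t * d) := by simp only [mul_assoc]
      _ = z ^ (r * a) * z ^ (t * c) * (v ^ (r * b) * v ^ (t * d)) := by
          rw [← h3]; simp only [mul_assoc]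
  constructor
  · have : g * g' * z * (g * g')⁻¹ = g * (g' * z * g'⁻¹) * g⁻¹ := by group
    rw [this, h'.1, key]
  · have : g * g' * v * (g * g')⁻¹ = g * (g' * v * g'⁻¹) * g⁻¹ := by group
    rw [this, h'.2, key]

theorem zpow_conj {x z v : G} (hxz : Commute x z) (hxv : x * v * x⁻¹ = z * v) (j : ℤ) :
    x ^ j * v * (x ^ j)⁻¹ = z ^ j * v := by
  have h1 : v * x * v⁻¹ = z⁻¹ * x := by
    have h2 : x * v = z * v * x := by rw [← hxv]; group
    have h3 : v * x = z⁻¹ * (x * v) := by rw [h2]; group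
    rw [h3]; group
  have h4 : ∀ i : ℤ, v * x ^ i * v⁻¹ = z ^ (-i) * x ^ i := by
    intro i
    rw [← conj_zpow, h1, (hxz.symm.inv_left).mul_zpow, inv_zpow, zpow_neg]
  have h5 := h4 (-j)
  rw [neg_neg] at h5
  calc x ^ j * v * (x ^ j)⁻¹ = x ^ j * (v * x ^ (-j) * v⁻¹) * v := by rw [zpow_neg]; group
    _ = x ^ j * (z ^ j * x ^ (-j)) * v := by rw [h5]
    _ = x ^ j * z ^ j * x ^ (-j) * v := by simp only [mul_assoc]
    _ = z ^ j * x ^ j * x ^ (-j) * v := by rw [(hxz.zpow_zpow j j).eq]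
    _ = z ^ j * v := by rw [zpow_neg]; group

theorem actX {x z v : G} (hxz : Commute x z) (hxv : x * v * x⁻¹ = z * v) (j : ℤ) :
    Act z v (x ^ j) 1 0 j 1 := by
  refine ⟨?_, ?_⟩
  · rw [(hxz.zpow_left j).eq]; simp
  · rw [zpow_conj hxz hxv, zpow_one]

theorem actQ {q z v : G} (hzv : Commute z v) (hqv : Commute q v) (hqz : q * z * q⁻¹ = z * v)
    (j : ℤ) : Act z v (q ^ j) 1 j 0 1 := by
  refine ⟨?_, ?_⟩
  · rw [zpow_conj hqv (by rw [hqz, hzv.eq]), zpow_one, (hzv.zpow_right j).eq]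
  · rw [(hqv.zpow_left j).eq]; simp

theorem exists_diag {p : ℕ} {x q z v : G} (hzv : Commute z v) (hxz : Commute x z)
    (hxv : x * v * x⁻¹ = z * v) (hqv : Commute q v) (hqz : q * z * q⁻¹ = z * v)
    (hzp : z ^ p = 1) (hvp : v ^ p = 1) {s m : ℕ} (hsm : (s * m) % p = 1) :
    ∃ h : G, h * z * h⁻¹ = z ^ s ∧ h * v * h⁻¹ = v ^ m := by
  obtain ⟨t, ht⟩ : ∃ t : ℤ, (s : ℤ) * m = 1 + p * t := by
    refine ⟨((s * m / p : ℕ) : ℤ), ?_⟩
    have := Nat.div_add_mod (s * m) p
    rw [hsm] at this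
    generalize s * m / p = c at this ⊢
    have h2 : ((s * m : ℕ) : ℤ) = ((p * c + 1 : ℕ) : ℤ) := by rw [this]
    push_cast at h2
    rw [h2]; ring
  have key : ∀ (w : G), w ^ p = 1 → ∀ (i j : ℤ), (∃ k, i = j + p * k) → w ^ i = w ^ j := by
    rintro w hw i j ⟨k, rfl⟩
    rw [zpow_add, zpow_mul, zpow_natCast, hw, one_zpow, mul_one]
  have hX := fun j => actX hxz hxv j
  have hQ := fun j => actQ hzv hqv hqz j
  have H := ((((hX s).mul hzv (hQ (-m))).mul hzv (hX (s - 1))).mul hzv (hQ 1)).mul hzv (hX (-1))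
  refine ⟨_, H.1.trans ?_, H.2.trans ?_⟩
  · rw [← zpow_natCast z s]
    rw [key z hzp _ (s : ℤ) ⟨-s * t, by linear_combination (-(s : ℤ)) * ht⟩,
      key v hvp _ 0 ⟨-t, by linear_combination (-1 : ℤ) * ht⟩, zpow_zero, mul_one]
  · rw [← zpow_natCast v m]
    rw [key z hzp _ 0 ⟨t, by linear_combination (1 : ℤ) * ht⟩,
      key v hvp _ (m : ℤ) ⟨0, by ring⟩, zpow_zero, one_mul]

end act

section

variable {G : Type*} [Group G] [Finite G] {p : ℕ} [hp : Fact p.Prime]

/-- the elements fixing `z` and `v` modulo powers of `z` -/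
def tsub (z v : G) : Subgroup G where
  carrier := {g | Commute g z ∧ ∃ j : ℤ, g * v * g⁻¹ = z ^ j * v}
  one_mem' := ⟨Commute.one_left _, 0, by simp⟩
  mul_mem' := by
    rintro g h ⟨hg, i, hi⟩ ⟨hh, j, hj⟩
    refine ⟨hg.mul_left hh, j + i, ?_⟩
    calc g * h * v * (g * h)⁻¹ = g * (h * v * h⁻¹) * g⁻¹ := by group
      _ = g * z ^ j * v * g⁻¹ := by rw [hj]; group
      _ = z ^ j * (g * v * g⁻¹) := by rw [(hg.zpow_right j).eq]; group
      _ = z ^ (j + i) * v := by rw [hi, zpow_add, mul_assoc]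
  inv_mem' := by
    rintro g ⟨hg, i, hi⟩
    refine ⟨hg.inv_left, -i, ?_⟩
    have h1 : v = z ^ i * (g⁻¹ * v * g⁻¹⁻¹) := by
      calc v = g⁻¹ * (g * v * g⁻¹) * g := by group
        _ = g⁻¹ * z ^ i * v * g := by rw [hi]; group
        _ = z ^ i * (g⁻¹ * v * g⁻¹⁻¹) := by rw [(hg.inv_left.zpow_right i).eq]; group
    rw [zpow_neg, eq_inv_mul_iff_mul_eq]
    exact h1.symm

theorem exists_norm (P : Sylow p G) {x q z v : G} (hxP : x ∈ P) (hzc : ∀ y ∈ P, Commute y z)
    (hPv : ∀ y ∈ P, ∃ j : ℤ, y * v * y⁻¹ = z ^ j * v) (hzv : Commute z v)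
    (hxv : x * v * x⁻¹ = z * v) (hqv : Commute q v) (hqz : q * z * q⁻¹ = z * v)
    (hzp : z ^ p = 1) (hvp : v ^ p = 1) {s m : ℕ} (hsm : (s * m) % p = 1) :
    ∃ n ∈ normalizer ((P : Subgroup G) : Set G), n * z * n⁻¹ = z ^ s ∧ n * v * n⁻¹ = v ^ m := by
  obtain ⟨h, hhz, hhv⟩ := exists_diag hzv (hzc x hxP) hxv hqv hqz hzp hvp hsm
  have hpow : ∀ w : G, w ^ p = 1 → w ^ (s * m) = w := by
    intro w hw
    have := Nat.div_add_mod (s * m) p
    rw [hsm] at this
    rw [← this, pow_add, pow_mul, hw, one_pow, one_mul, pow_one]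
  have hPT : (P : Subgroup G) ≤ tsub z v := fun y hy => ⟨hzc y hy, hPv y hy⟩
  have hPT' : ((h • P : Sylow p G) : Subgroup G) ≤ tsub z v := by
    intro y' hy'
    rw [Sylow.coe_subgroup_smul] at hy'
    obtain ⟨y, hy, rfl⟩ := hy'
    change h * y * h⁻¹ ∈ tsub z v
    have hyP : y ∈ P := hy
    have e1 : h * y * h⁻¹ * z ^ s * (h * y * h⁻¹)⁻¹ = z ^ s := by
      rw [← hhz]
      calc h * y * h⁻¹ * (h * z * h⁻¹) * (h * y * h⁻¹)⁻¹ = h * (y * z) * y⁻¹ * h⁻¹ := by group
        _ = h * z * h⁻¹ := by rw [(hzc y hyP).eq]; group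
    constructor
    · have e2 : h * y * h⁻¹ * z * (h * y * h⁻¹)⁻¹ = z := by
        conv_lhs => rw [← hpow z hzp, pow_mul, ← conj_pow, e1, ← pow_mul, hpow z hzp]
      exact mul_inv_eq_iff_eq_mul.mp e2
    · obtain ⟨j, hj⟩ := hPv y hyP
      refine ⟨s * j * s, ?_⟩
      have e3 : h * y * h⁻¹ * v ^ m * (h * y * h⁻¹)⁻¹ = z ^ ((s : ℤ) * j) * v ^ m := by
        rw [← hhv]
        calc h * y * h⁻¹ * (h * v * h⁻¹) * (h * y * h⁻¹)⁻¹ = h * (y * v * y⁻¹) * h⁻¹ := by group
          _ = (h * z ^ j * h⁻¹) * (h * v * h⁻¹) := by rw [hj]; group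
          _ = z ^ ((s : ℤ) * j) * (h * v * h⁻¹) := by
            rw [← conj_zpow, hhz, ← zpow_natCast, ← zpow_mul]
      conv_lhs => rw [← hpow v hvp, mul_comm s m, pow_mul, ← conj_pow, e3]
      rw [((hzv.zpow_left _).pow_right m).mul_pow, ← pow_mul, mul_comm m s, hpow v hvp,
        ← zpow_natCast, ← zpow_mul]
  obtain ⟨t, ht⟩ := MulAction.exists_smul_eq (tsub z v) ((h • P).subtype hPT') (P.subtype hPT)
  rw [Sylow.smul_subtype] at ht
  have ht2 := Sylow.subtype_injective ht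
  have ht3 : (t : G) * h ∈ normalizer ((P : Subgroup G) : Set G) := by
    have ht4 : ((t : G) * h) • P = P := by rw [mul_smul]; exact ht2
    exact Sylow.smul_eq_iff_mem_normalizer.mp ht4
  obtain ⟨htz, j, hj⟩ := t.2
  refine ⟨x ^ (-j) * ((t : G) * h), mul_mem (le_normalizer (zpow_mem hxP _)) ht3, ?_, ?_⟩
  · have e1 : (x ^ (-j) * ((t : G) * h)) * z * (x ^ (-j) * ((t : G) * h))⁻¹ =
        (x ^ (-j) * t) * (h * z * h⁻¹) * (x ^ (-j) * t)⁻¹ := by group
    have e2 : Commute (x ^ (-j) * (t : G)) z := ((hzc x hxP).zpow_left _).mul_left htz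
    rw [e1, hhz, (e2.pow_right s).eq]
    group
  · have e1 : (x ^ (-j) * ((t : G) * h)) * v * (x ^ (-j) * ((t : G) * h))⁻¹ =
        (x ^ (-j) * t) * (h * v * h⁻¹) * (x ^ (-j) * t)⁻¹ := by group
    have e2 : (x ^ (-j) * (t : G)) * v * (x ^ (-j) * (t : G))⁻¹ = v := by
      calc (x ^ (-j) * (t : G)) * v * (x ^ (-j) * (t : G))⁻¹
          = x ^ (-j) * (t * v * (t : G)⁻¹) * (x ^ (-j))⁻¹ := by group
        _ = x ^ (-j) * z ^ j * v * (x ^ (-j))⁻¹ := by rw [hj]; group
        _ = z ^ j * (x ^ (-j) * v * (x ^ (-j))⁻¹) := by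
          rw [((hzc x hxP).zpow_zpow (-j) j).eq]; group
        _ = v := by rw [zpow_conj (hzc x hxP) hxv]; group
    rw [e1, hhv, ← conj_pow, e2]

theorem main2 (P : Sylow p G) (hE : Cfsg.IsExtraspecial p P) (hcard : Nat.card P = p ^ 3)
    (hexp : ∀ a : P, a ^ p = 1) (h11 : 11 ≤ p) {ι : Type*} (f : Fin 3 ↪ ι) (v : ι → P)
    (hv : ∀ i, v i ∉ center P) (hdist : ∀ i j, ⁅v i, v j⁆ = 1 → i = j)
    (hq : ∀ i, ∃ z ∈ center P, z ≠ 1 ∧ ∃ q : G, q * z * q⁻¹ = z * v i ∧
      Commute q (v i : G)) :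
    p = 13 ∧ Nat.card ι ≤ 12 := by
  have hG := Extra.ges_of_isExtraspecial hE
  have hc := hG.classTwo
  refine HeisLines.main_lines P hE hcard hexp h11 f v hv hdist ?_
  intro i s m hsm
  obtain ⟨z, hz, hz1, q, hqz, hqv⟩ := hq i
  obtain ⟨x, hx⟩ := hG.exists_comm_eq (hv i) (inv_mem hz)
  have hx' : ⁅x, v i⁆ = z := by rw [← commutatorElement_inv, hx, inv_inv]
  have hcenz : ∀ y : P, Commute y z := fun y => (mem_center_iff.mp hz) y
  obtain ⟨n, hn, hnz, hnv⟩ := exists_norm P (x := (x : G)) (q := q) (z := (z : G))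
    (v := ((v i : P) : G)) x.2
    (fun y hy => congrArg Subtype.val (hcenz ⟨y, hy⟩).eq)
    (by
      intro y hy
      obtain ⟨k, hk⟩ := hG.exists_pow_eq hz hz1 (hc.mem ⟨y, hy⟩ (v i))
      refine ⟨k, ?_⟩
      have h1 : (⟨y, hy⟩ : P) * v i * (⟨y, hy⟩ : P)⁻¹ = z ^ k * v i := by
        rw [hk, commutatorElement_def]; group
      have h2 := congrArg Subtype.val h1
      rw [zpow_natCast]
      exact h2)
    (congrArg Subtype.val (hcenz (v i)).eq.symm)
    (by
      have h1 : x * v i * x⁻¹ = z * v i := by rw [← hx', commutatorElement_def]; group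
      exact congrArg Subtype.val h1)
    hqv hqz (congrArg Subtype.val (hexp z)) (congrArg Subtype.val (hexp (v i))) hsm
  refine ⟨⟨n, hn⟩, ?_, ?_⟩
  · intro w hw
    obtain ⟨k, hk⟩ := hG.exists_pow_eq hz hz1 hw
    have h1 : (P : Subgroup G).normalizerMonoidHom ⟨n, hn⟩ z = z ^ s := Subtype.ext hnz
    rw [← hk, map_pow, h1, ← pow_mul, ← pow_mul, mul_comm]
  · exact Subtype.ext hnv

end

section planes

variable {p : ℕ} [hp : Fact p.Prime] {E : Type*} [Group E] [Finite E]

theorem comm_of_card_sq (B : Subgroup E) (hB : Nat.card B = p ^ 2) {a b : E} (ha : a ∈ B)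
    (hb : b ∈ B) : a * b = b * a := by
  have : ∀ x y : B, x * y = y * x := by
    letI := IsPGroup.commGroupOfCardEqPrimeSq (p := p) hB
    exact fun a b => mul_comm a b
  exact congrArg Subtype.val (this ⟨a, ha⟩ ⟨b, hb⟩)

theorem eq_or_top (hcard : Nat.card E = p ^ 3) {B C : Subgroup E} (hB : Nat.card B = p ^ 2)
    (hBC : B ≤ C) : C = B ∨ C = ⊤ := by
  have h1 : Nat.card C ∣ p ^ 3 := hcard ▸ card_subgroup_dvd_card C
  have h2 : p ^ 2 ∣ Nat.card C := hB ▸ card_dvd_of_le hBC
  obtain ⟨k, hk, hk2⟩ := (Nat.dvd_prime_pow hp.out).mp h1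
  rw [hk2] at h2
  have h3 : 2 ≤ k := (Nat.pow_dvd_pow_iff_le_right hp.out.one_lt).mp h2
  interval_cases k
  · left
    exact (eq_of_le_of_card_ge hBC (by rw [hk2, hB])).symm
  · right
    rw [← card_eq_iff_eq_top, hk2, hcard]

theorem center_le (hG : Extra.GES p E) (hcard : Nat.card E = p ^ 3) (B : Subgroup E)
    (hB : Nat.card B = p ^ 2) : center E ≤ B := by
  have h1 : B ≤ centralizer (B : Set E) := by
    intro a ha
    rw [mem_centralizer_iff]
    intro b hb
    exact comm_of_card_sq B hB hb ha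
  rcases eq_or_top hcard hB h1 with h2 | h2
  · rw [← h2]
    exact center_le_centralizer _
  · exfalso
    have h3 : B ≤ center E := by
      intro b hb
      rw [mem_center_iff]
      intro g
      have : g ∈ centralizer (B : Set E) := by rw [h2]; exact mem_top g
      exact (mem_centralizer_iff.mp this b hb).symm
    have h4 := card_le_of_le h3
    rw [hB, hG.card_center] at h4
    have := hp.out.one_lt
    nlinarith

theorem eq_centralizer (hcard : Nat.card E = p ^ 3) (B : Subgroup E)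
    (hB : Nat.card B = p ^ 2) {v : E} (hv : v ∉ center E) (hvB : v ∈ B) :
    centralizer ({v} : Set E) = B := by
  have h1 : B ≤ centralizer ({v} : Set E) := by
    intro a ha
    rw [mem_centralizer_singleton_iff]
    exact comm_of_card_sq B hB ha hvB
  rcases eq_or_top hcard hB h1 with h2 | h2
  · exact h2
  · exfalso
    apply hv
    rw [mem_center_iff]
    intro g
    have : g ∈ centralizer ({v} : Set E) := by rw [h2]; exact mem_top g
    exact (mem_centralizer_singleton_iff.mp this)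

end planes

section transvection

variable {p : ℕ} [hp : Fact p.Prime]

theorem exists_transvection {A : Type*} [Group A] [Finite A] (hA : Nat.card A = p ^ 2)
    (hexp : ∀ a : A, a ^ p = 1) {z v : A} (hz : z ≠ 1) (hzv : v ∉ zpowers z) :
    ∃ φ : MulAut A, orderOf φ = p ∧ φ z = z * v ∧ φ v = v := by
  let CG : CommGroup A := { (inferInstance : Group A) with
    mul_comm := by
      letI := IsPGroup.commGroupOfCardEqPrimeSq (p := p) hA
      exact fun a b => mul_comm a b }
  obtain ⟨e', he'⟩ := @HeisGL.exists_equiv A CG _ p _ hA hexp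
  let e : A →* Multiplicative (Fin 2 → ZMod p) := e'
  let E : A ≃* Multiplicative (Fin 2 → ZMod p) := MulEquiv.ofBijective e he'
  let a : Fin 2 → ZMod p := Multiplicative.toAdd (E z)
  let b : Fin 2 → ZMod p := Multiplicative.toAdd (E v)
  have ha : a ≠ 0 := by
    intro h
    apply hz
    have : E z = 1 := h
    exact (map_eq_one_iff E E.injective).mp this
  have hD : a 0 * b 1 - b 0 * a 1 ≠ 0 := by
    intro h
    by_cases hb : b = 0
    · have : E v = 1 := hb
      have : v = 1 := (map_eq_one_iff E E.injective).mp this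
      apply hzv
      rw [this]
      exact one_mem _
    · rw [← H81.mk_eq_mk_iff_cross ha hb, eq_comm, Projectivization.mk_eq_mk_iff'] at h
      obtain ⟨c, hc⟩ := h
      apply hzv
      have h2 : z ^ c.val = v := by
        apply E.injective
        rw [map_pow]
        apply Multiplicative.toAdd.injective
        rw [toAdd_pow, ← Nat.cast_smul_eq_nsmul (ZMod p), ZMod.natCast_zmod_val]
        exact hc
      rw [← h2]
      exact pow_mem (mem_zpowers z) _
  set D := a 0 * b 1 - b 0 * a 1 with hDdef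
  let ℓ : (Fin 2 → ZMod p) →+ ZMod p :=
    { toFun := fun w => (w 0 * b 1 - b 0 * w 1) / D
      map_zero' := by simp
      map_add' := by intro x y; simp only [Pi.add_apply]; ring }
  have hla : ℓ a = 1 := by
    show (a 0 * b 1 - b 0 * a 1) / D = 1
    rw [← hDdef, div_self hD]
  have hlb : ℓ b = 0 := by
    show (b 0 * b 1 - b 0 * b 1) / D = 0
    rw [sub_self, zero_div]
  have hlsm : ∀ c : ZMod p, ℓ (c • b) = 0 := by
    intro c
    show ((c • b) 0 * b 1 - b 0 * (c • b) 1) / D = 0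
    simp only [Pi.smul_apply, smul_eq_mul]
    ring
  let T : (Fin 2 → ZMod p) ≃+ (Fin 2 → ZMod p) :=
    { toFun := fun w => w + ℓ w • b
      invFun := fun w => w - ℓ w • b
      left_inv := by
        intro w
        show w + ℓ w • b - ℓ (w + ℓ w • b) • b = w
        rw [map_add, hlsm, add_zero, add_sub_cancel_right]
      right_inv := by
        intro w
        show w - ℓ w • b + ℓ (w - ℓ w • b) • b = w
        rw [map_sub, hlsm, sub_zero, sub_add_cancel]
      map_add' := by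
        intro x y
        rw [map_add, add_smul]
        abel }
  let φ : MulAut A := (E.trans (AddEquiv.toMultiplicative T)).trans E.symm
  have hφ : ∀ x, φ x = E.symm (Multiplicative.ofAdd
      (Multiplicative.toAdd (E x) + ℓ (Multiplicative.toAdd (E x)) • b)) := fun x => rfl
  have hpow : ∀ (k : ℕ) x, (φ ^ k) x = E.symm (Multiplicative.ofAdd
      (Multiplicative.toAdd (E x) + (k : ZMod p) • (ℓ (Multiplicative.toAdd (E x)) • b))) := by
    intro k
    induction k with
    | zero => intro x; simp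
    | succ k ih =>
      intro x
      rw [pow_succ', MulAut.mul_apply, ih, hφ, MulEquiv.apply_symm_apply, toAdd_ofAdd]
      set c := ℓ (Multiplicative.toAdd (E x)) with hcdef
      have h5 : ℓ (Multiplicative.toAdd (E x) + (k : ZMod p) • c • b) = c := by
        rw [map_add ℓ, smul_smul, hlsm, add_zero]
      rw [h5, Nat.cast_succ, add_smul, one_smul, add_assoc]
  have h1 : φ z = z * v := by
    rw [hφ]
    show E.symm (Multiplicative.ofAdd (a + ℓ a • b)) = z * v
    rw [hla, one_smul]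
    apply E.injective
    rw [MulEquiv.apply_symm_apply, map_mul]
    rfl
  refine ⟨φ, ?_, h1, ?_⟩
  · apply orderOf_eq_prime
    · apply MulEquiv.ext
      intro x
      rw [hpow, CharP.cast_eq_zero, zero_smul, add_zero]
      simp
    · intro h
      rw [h] at h1
      have h2 : z = z * v := h1
      have h3 : v = 1 := by
        have := h2.symm
        rwa [mul_eq_left] at this
      apply hzv
      rw [h3]
      exact one_mem _
  · rw [hφ]
    show E.symm (Multiplicative.ofAdd (b + ℓ b • b)) = v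
    rw [hlb, zero_smul, add_zero]
    exact E.symm_apply_apply v

end transvection

end Cfsg.Agent.H20.HeisFus
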