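import Cfsg.Agent.H20.MobLines
import Cfsg.Agent.Dk.Act
import Cfsg.Agent.Extra.Basic

set_option autoImplicit false

/-! The action of the normalizer of an extraspecial Sylow subgroup of order `p ^ 3`, exponent `p`, on
the projective line. -/

namespace Cfsg.Agent.H20.HeisGL

open MulAction Subgroup Cfsg.Agent.Dk Matrix LinearAlgebra.Projectivization
open scoped MatrixGroups commutatorElement

attribute [local instance 10] Cfsg.Agent.Dk.pact

theorem exists_equiv {Q : Type*} [CommGroup Q] [Finite Q] {p : ℕ} [hp : Fact p.Prime]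
    (hcq : Nat.card Q = p ^ 2) (hexp : ∀ a : Q, a ^ p = 1) :
    ∃ e : Q →* Multiplicative (Fin 2 → ZMod p), Function.Bijective e := by
  letI inst : Module (ZMod p) (Additive Q) :=
    AddCommGroup.zmodModule (n := p) (G := Additive Q) (fun x => hexp x)
  have hfin : Finite (Additive Q) := inferInstanceAs (Finite Q)
  have hMF : Module.Finite (ZMod p) (Additive Q) := Module.Finite.of_finite
  have hMFr : Module.Free (ZMod p) (Additive Q) := Module.Free.of_divisionRing (ZMod p) (Additive Q)
  have hfr : Module.finrank (ZMod p) (Additive Q) = 2 := by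
    have h1 : Nat.card (Additive Q) = Nat.card (ZMod p) ^ Module.finrank (ZMod p) (Additive Q) :=
      Module.natCard_eq_pow_finrank
    have h2 : Nat.card (Additive Q) = p ^ 2 := hcq
    rw [h2, Nat.card_zmod] at h1
    exact (Nat.pow_right_injective hp.out.two_le h1).symm
  have hfr2 : Module.finrank (ZMod p) (Fin 2 → ZMod p) = 2 := by simp
  let e : Additive Q ≃ₗ[ZMod p] (Fin 2 → ZMod p) :=
    LinearEquiv.ofFinrankEq _ _ (hfr.trans hfr2.symm)
  exact ⟨AddMonoidHom.toMultiplicativeRight (e.toAddEquiv.toAddMonoidHom), e.bijective⟩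

theorem exists_coord {E : Type*} [Group E] [Finite E] {p : ℕ} [hp : Fact p.Prime]
    (hcard : Nat.card E = p ^ 3) (hZ : Nat.card (center E) = p)
    (hc : ∀ a b : E, ⁅a, b⁆ ∈ center E) (hexp : ∀ a : E, a ^ p = 1) :
    ∃ u : E →* Multiplicative (Fin 2 → ZMod p), Function.Surjective u ∧ u.ker = center E := by
  let CG : CommGroup (E ⧸ center E) :=
    { (inferInstance : Group (E ⧸ center E)) with
      mul_comm := by
        intro a b
        obtain ⟨a, rfl⟩ := QuotientGroup.mk_surjective a
        obtain ⟨b, rfl⟩ := QuotientGroup.mk_surjective b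
        rw [← QuotientGroup.mk_mul, ← QuotientGroup.mk_mul, QuotientGroup.eq]
        have h1 := hc b⁻¹ a⁻¹
        rw [commutatorElement_def] at h1
        convert h1 using 1
        group }
  have hcq : Nat.card (E ⧸ center E) = p ^ 2 := by
    have h2 := Subgroup.card_eq_card_quotient_mul_card_subgroup (center E)
    rw [hcard, hZ, pow_succ] at h2
    exact (Nat.eq_of_mul_eq_mul_right hp.out.pos h2).symm
  obtain ⟨e', he'⟩ := @exists_equiv (E ⧸ center E) CG _ p _ hcq (by
      intro y
      obtain ⟨a, rfl⟩ := QuotientGroup.mk_surjective y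
      have : (QuotientGroup.mk a : E ⧸ center E) ^ p = 1 := by
        rw [← QuotientGroup.mk_pow, hexp]; rfl
      exact this)
  let e'' : (E ⧸ center E) →* Multiplicative (Fin 2 → ZMod p) := e'
  have he'' : Function.Bijective e'' := he'
  refine ⟨e''.comp (QuotientGroup.mk' (center E)), he''.2.comp (QuotientGroup.mk'_surjective _), ?_⟩
  ext x
  rw [MonoidHom.mem_ker, MonoidHom.comp_apply, map_eq_one_iff e'' he''.1]
  exact QuotientGroup.eq_one_iff x

section

variable {E : Type*} [Group E] {p : ℕ} {u : E →* Multiplicative (Fin 2 → ZMod p)}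
  (hu : Function.Surjective u) (hk : u.ker = center E)

theorem ker_le (hk : u.ker = center E) (σ : MulAut E) : u.ker ≤ (u.comp σ.toMonoidHom).ker := by
  intro x hx
  rw [MonoidHom.mem_ker, MonoidHom.comp_apply]
  rw [hk] at hx
  have : σ x ∈ center E := by
    rw [mem_center_iff] at hx ⊢
    intro g
    have := congrArg σ (hx (σ.symm g))
    rw [map_mul, map_mul, MulEquiv.apply_symm_apply] at this
    exact this
  rw [← hk] at this
  exact this

/-- the induced endomorphism of the coordinate plane -/
noncomputable def L (σ : MulAut E) : (Fin 2 → ZMod p) →ₗ[ZMod p] (Fin 2 → ZMod p) :=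
  AddMonoidHom.toZModLinearMap p (MonoidHom.toAdditive
    (MonoidHom.liftOfSurjective u hu ⟨u.comp σ.toMonoidHom, ker_le hk σ⟩) :
    (Fin 2 → ZMod p) →+ (Fin 2 → ZMod p))

theorem L_apply (σ : MulAut E) (x : E) :
    L hu hk σ (Multiplicative.toAdd (u x)) = Multiplicative.toAdd (u (σ x)) := by
  have := MonoidHom.liftOfRightInverse_comp_apply u _ (Function.rightInverse_surjInv hu)
    ⟨u.comp σ.toMonoidHom, ker_le hk σ⟩ x
  exact congrArg Multiplicative.toAdd this

noncomputable def Lhom : MulAut E →* Matrix (Fin 2) (Fin 2) (ZMod p) where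
  toFun σ := LinearMap.toMatrix' (L hu hk σ)
  map_one' := by
    have : L hu hk 1 = LinearMap.id := by
      apply LinearMap.ext
      intro w
      obtain ⟨x, hx⟩ := hu (Multiplicative.ofAdd w)
      have hw : w = Multiplicative.toAdd (u x) := by rw [hx]; rfl
      rw [hw, L_apply]
      rfl
    rw [this, LinearMap.toMatrix'_id]
  map_mul' σ τ := by
    have : L hu hk (σ * τ) = (L hu hk σ).comp (L hu hk τ) := by
      apply LinearMap.ext
      intro w
      obtain ⟨x, hx⟩ := hu (Multiplicative.ofAdd w)
      have hw : w = Multiplicative.toAdd (u x) := by rw [hx]; rfl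
      rw [hw, L_apply, LinearMap.comp_apply, L_apply, L_apply]
      rfl
    rw [this, LinearMap.toMatrix'_comp]

noncomputable def GLhom : MulAut E →* GL (Fin 2) (ZMod p) := (Lhom hu hk).toHomUnits

theorem GLhom_mulVec (σ : MulAut E) (x : E) :
    (GLhom hu hk σ).1 *ᵥ (Multiplicative.toAdd (u x)) = Multiplicative.toAdd (u (σ x)) := by
  rw [← L_apply hu hk]
  show LinearMap.toMatrix' (L hu hk σ) *ᵥ _ = _
  rw [← Matrix.toLin'_apply, Matrix.toLin'_toMatrix']

end

end Cfsg.Agent.H20.HeisGL
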