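import Cfsg.Agent.H20.HeisGL
import Cfsg.Agent.H81.SL2Orb
import Cfsg.Agent.H81.FixPts

set_option autoImplicit false

/-! Automizers of lines in a Sylow subgroup that is extraspecial of order `p ^ 3`. -/

namespace Cfsg.Agent.H20.HeisLines

open MulAction Subgroup Cfsg.Agent.Dk Matrix LinearAlgebra.Projectivization
open scoped MatrixGroups commutatorElement

attribute [local instance 10] Cfsg.Agent.Dk.pact

section

variable {F : Type*} (K : Type*) [Field F] [Field K] [Algebra F K]

theorem map_ne_zero {a : Fin 2 → F} (ha : a ≠ 0) : (fun i => algebraMap F K (a i)) ≠ 0 := by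
  intro h
  apply ha
  funext i
  have := congrFun h i
  exact (map_eq_zero_iff _ (algebraMap F K).injective).1 this

/-- the point with coordinates `a` -/
noncomputable def pt (a : Fin 2 → F) (ha : a ≠ 0) : ℙ K (Fin 2 → K) :=
  Projectivization.mk K (fun i => algebraMap F K (a i)) (map_ne_zero K ha)

theorem pt_eq_iff {a b : Fin 2 → F} (ha : a ≠ 0) (hb : b ≠ 0) :
    pt K a ha = pt K b hb ↔ a 0 * b 1 - b 0 * a 1 = 0 := by
  rw [pt, pt, H81.mk_eq_mk_iff_cross, ← map_mul, ← map_mul, ← map_sub, map_eq_zero]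

theorem smul_pt (g : GL (Fin 2) F) {a b : Fin 2 → F} (ha : a ≠ 0) (hb : b ≠ 0)
    (hab : g.1 *ᵥ a = b) : (ProjGenLinGroup.mk g : PGL(2, F)) • pt K a ha = pt K b hb := by
  have h : (ProjGenLinGroup.mk g : PGL(2, F)) • pt K a ha =
    (GeneralLinearGroup.map (algebraMap F K) g) • pt K a ha := rfl
  subst hab
  rw [h, pt, H81.gl_smul_mk, pt]
  congr 1
  funext i
  show ((g.1.map (algebraMap F K)) *ᵥ fun i => algebraMap F K (a i)) i = algebraMap F K ((g.1 *ᵥ a) i)
  simp [Matrix.mulVec, dotProduct, Fin.sum_univ_two, Matrix.map_apply]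

end

theorem pow_apply {E : Type*} [Group E] (σ : MulAut E) {x : E} {m : ℕ} (h : σ x = x ^ m) (k : ℕ) :
    (σ ^ k) x = x ^ (m ^ k) := by
  induction k with
  | zero => simp
  | succ k ih =>
    rw [pow_succ, MulAut.mul_apply, h, map_pow, ih, ← pow_mul, pow_succ]

section

variable {G : Type*} [Group G] [Finite G] {p : ℕ} [hp : Fact p.Prime]

theorem main_lines (P : Sylow p G) (hE : Cfsg.IsExtraspecial p P) (hcard : Nat.card P = p ^ 3)
    (hexp : ∀ a : P, a ^ p = 1) (h11 : 11 ≤ p) {ι : Type*} (f : Fin 3 ↪ ι) (v : ι → P)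
    (hv : ∀ i, v i ∉ center P) (hdist : ∀ i j, ⁅v i, v j⁆ = 1 → i = j)
    (hact : ∀ i, ∀ s m : ℕ, (s * m) % p = 1 →
      ∃ n : (normalizer ((P : Subgroup G) : Set G) : Subgroup G),
      (∀ z ∈ center P, (P : Subgroup G).normalizerMonoidHom n z = z ^ s) ∧
      (P : Subgroup G).normalizerMonoidHom n (v i) = v i ^ m) :
    p = 13 ∧ Nat.card ι ≤ 12 := by
  have hG := Extra.ges_of_isExtraspecial hE
  have hc := hG.classTwo
  obtain ⟨u, hu, hk⟩ := HeisGL.exists_coord hcard hG.card_center (fun a b => hc.mem a b) hexp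
  let K := AlgebraicClosure (ZMod p)
  haveI : CharP K p := charP_of_injective_algebraMap (algebraMap (ZMod p) K).injective p
  let N := (normalizer ((P : Subgroup G) : Set G) : Subgroup G)
  let φ : N →* MulAut P := (P : Subgroup G).normalizerMonoidHom
  let θ : N →* GL (Fin 2) (ZMod p) := (HeisGL.GLhom hu hk).comp φ
  let ρ : N →* PGL(2, ZMod p) := ProjGenLinGroup.mk.comp θ
  have hθ : ∀ (n : N) (x : P), (θ n).1 *ᵥ (Multiplicative.toAdd (u x)) =
      Multiplicative.toAdd (u (φ n x)) := fun n x => HeisGL.GLhom_mulVec hu hk (φ n) x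
  have hscal : ∀ (c : ZMod p) (x : P), c • Multiplicative.toAdd (u x) =
      Multiplicative.toAdd (u (x ^ c.val)) := by
    intro c x
    rw [map_pow, toAdd_pow, ← Nat.cast_smul_eq_nsmul (ZMod p), ZMod.natCast_zmod_val]
  have hnat : ∀ (c : ℕ) (x : P), (c : ZMod p) • Multiplicative.toAdd (u x) =
      Multiplicative.toAdd (u (x ^ c)) := by
    intro c x
    rw [map_pow, toAdd_pow, Nat.cast_smul_eq_nsmul (ZMod p)]
  have hzero : ∀ x : P, Multiplicative.toAdd (u x) = 0 ↔ x ∈ center P := by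
    intro x
    rw [← hk, MonoidHom.mem_ker]
    exact Iff.rfl
  have heqv : ∀ x y : P, Multiplicative.toAdd (u x) = Multiplicative.toAdd (u y) →
      x * y⁻¹ ∈ center P := by
    intro x y h
    rw [← hk, MonoidHom.mem_ker, map_mul, map_inv, mul_inv_eq_one]
    exact Multiplicative.toAdd.injective h
  have hne : ∀ i, Multiplicative.toAdd (u (v i)) ≠ 0 := fun i h => hv i ((hzero _).mp h)
  -- the group
  let Γ := ρ.range
  haveI : Finite Γ := Finite.of_surjective ρ.rangeRestrict ρ.rangeRestrict_surjective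
  let M : Mob p Γ (ℙ K (Fin 2 → K)) K := (mobF (F := ZMod p) (K := K) (p := p)).subgroup Γ
  have hpΓ : ¬ p ∣ Nat.card Γ := by
    intro hdvd
    have h1 : Nat.card Γ = ρ.ker.index := (Subgroup.index_ker ρ).symm
    have h2 : (P : Subgroup G).subgroupOf N ≤ ρ.ker := by
      intro n hn
      rw [mem_subgroupOf] at hn
      rw [MonoidHom.mem_ker]
      have h3 : θ n = 1 := by
        apply Units.ext
        apply Matrix.ext_of_mulVec_single
        intro j
        obtain ⟨x, hx⟩ := hu (Multiplicative.ofAdd (Pi.single j 1))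
        have hw : (Pi.single j 1 : Fin 2 → ZMod p) = Multiplicative.toAdd (u x) := by rw [hx]; rfl
        rw [hw, hθ, Units.val_one, Matrix.one_mulVec]
        have h4 : φ n x = ⁅(⟨n.1, hn⟩ : P), x⁆ * x := by
          apply Subtype.ext
          show n.1 * x.1 * (n.1)⁻¹ = n.1 * x.1 * (n.1)⁻¹ * (x.1)⁻¹ * x.1
          group
        have h5 : u ⁅(⟨n.1, hn⟩ : P), x⁆ = 1 := by
          rw [← MonoidHom.mem_ker, hk]
          exact hc.mem _ _
        rw [h4, map_mul, h5, one_mul]
      show ProjGenLinGroup.mk (θ n) = 1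
      rw [h3, map_one]
    have h6 : ρ.ker.index ∣ ((P : Subgroup G).subgroupOf N).index := index_dvd_of_le h2
    have h7 : ((P : Subgroup G).subgroupOf N).index ∣ (P : Subgroup G).index := by
      have h8 : (P : Subgroup G) ≤ N := le_normalizer
      exact ⟨_, (relIndex_mul_index h8).symm⟩
    exact P.not_dvd_index ((h1 ▸ hdvd).trans (h6.trans h7))
  have hU : ∀ x, M.U x = ⊥ := by
    intro x
    by_contra h
    exact hpΓ (M.dvd_of_U_ne_bot h)
  -- a primitive root
  obtain ⟨g, hg⟩ := IsCyclic.exists_generator (α := (ZMod p)ˣ)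
  have hgo : orderOf g = p - 1 := by
    rw [orderOf_eq_card_of_forall_mem_zpowers hg, Nat.card_eq_fintype_card, ZMod.card_units]
  let m := (g : ZMod p).val
  let s := ((g⁻¹ : (ZMod p)ˣ) : ZMod p).val
  have hm : (m : ZMod p) = g := ZMod.natCast_zmod_val _
  have hs : (s : ZMod p) = (g⁻¹ : (ZMod p)ˣ) := ZMod.natCast_zmod_val _
  have hsm : (s * m) % p = 1 := by
    have h1 : ((s * m : ℕ) : ZMod p) = ((1 : ℕ) : ZMod p) := by
      rw [Nat.cast_mul, hm, hs, Units.inv_mul, Nat.cast_one]
    rw [ZMod.natCast_eq_natCast_iff'] at h1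
    rw [h1, Nat.mod_eq_of_lt hp.out.one_lt]
  choose n hn1 hn2 using fun i => hact i s m hsm
  refine MobLines.concl M hU f (x := fun i => pt K (Multiplicative.toAdd (u (v i))) (hne i)) ?_
    (g := fun i => ⟨ρ (n i), ⟨n i, rfl⟩⟩) ?_ ?_ h11
  · intro i j hij
    apply hdist
    have h1 := (pt_eq_iff K (hne i) (hne j)).mp hij
    rw [← H81.mk_eq_mk_iff_cross (hne i) (hne j), Projectivization.mk_eq_mk_iff'] at h1
    obtain ⟨c, hc1⟩ := h1
    rw [hscal] at hc1
    have h2 := heqv _ _ hc1.symm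
    have h3 : v i = (v i * (v j ^ c.val)⁻¹) * v j ^ c.val := by group
    rw [h3, hc.mul_left, hc.pow_left, commutatorElement_self, one_pow, mul_one,
      commutatorElement_eq_one_iff_mul_comm]
    exact ((mem_center_iff.mp h2) (v j)).symm
  · intro i
    have h1 : (ρ (n i)) • pt K (Multiplicative.toAdd (u (v i))) (hne i) =
        pt K (Multiplicative.toAdd (u (v i))) (hne i) := by
      have hb : Multiplicative.toAdd (u (v i ^ m)) ≠ 0 := by
        rw [← hnat, hm]
        exact smul_ne_zero (Units.ne_zero g) (hne i)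
      have h2 := smul_pt K (θ (n i)) (hne i) hb (by rw [hθ, hn2])
      show (ProjGenLinGroup.mk (θ (n i)) : PGL(2, ZMod p)) • _ = _
      rw [h2, pt_eq_iff, ← hnat]
      simp only [Pi.smul_apply, smul_eq_mul]
      ring
    exact h1
  · intro i k hik
    have h1 : ρ (n i ^ k) = 1 := by
      rw [map_pow]
      exact congrArg Subtype.val hik
    have h2 : (ProjGenLinGroup.mk (θ (n i ^ k)) : PGL(2, ZMod p)) = 1 := h1
    rw [mk_eq_one_iff] at h2
    obtain ⟨h3, h4, h5⟩ := h2
    set c : ZMod p := (θ (n i ^ k)).1 0 0 with hcdef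
    have h6 : ∀ x : P, Multiplicative.toAdd (u (φ (n i ^ k) x)) =
        Multiplicative.toAdd (u (x ^ c.val)) := by
      intro x
      rw [← hθ, ← hscal]
      funext j
      rw [Matrix.mulVec, dotProduct, Fin.sum_univ_two]
      fin_cases j
      · show (θ (n i ^ k)).1 0 0 * _ + (θ (n i ^ k)).1 0 1 * _ = _
        rw [h4, ← hcdef]
        simp
      · show (θ (n i ^ k)).1 1 0 * _ + (θ (n i ^ k)).1 1 1 * _ = _
        rw [h3, h5]
        simp
    have hφ1 : φ (n i ^ k) (v i) = v i ^ (m ^ k) := by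
      rw [map_pow]
      exact pow_apply (φ (n i)) (hn2 i) k
    have hmc : ((g : ZMod p)) ^ k = c := by
      have h7 := h6 (v i)
      rw [hφ1, ← hnat, ← hscal, Nat.cast_pow, hm] at h7
      exact smul_left_injective _ (hne i) h7
    -- commutators
    obtain ⟨z, hz⟩ : ∃ z : P, z ≠ 1 ∧ z ∈ center P := by
      have : Nontrivial (center P) := by
        rw [← Finite.one_lt_card_iff_nontrivial, hG.card_center]
        exact hp.out.one_lt
      obtain ⟨z, hz⟩ := exists_ne (1 : center P)
      exact ⟨z.1, fun h => hz (Subtype.ext h), z.2⟩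
    obtain ⟨y, hy⟩ := hG.exists_comm_eq (hv i) hz.2
    have h8 : φ (n i ^ k) z = z ^ (s ^ k) := by
      rw [map_pow]
      exact pow_apply (φ (n i)) (hn1 i z hz.2) k
    have h9 : φ (n i ^ k) z = z ^ (c.val * c.val) := by
      have hx : ∀ x : P, ∃ ζ ∈ center P, φ (n i ^ k) x = ζ * x ^ c.val := by
        intro x
        exact ⟨_, heqv _ _ (h6 x), by group⟩
      obtain ⟨ζ, hζ, e1⟩ := hx (v i)
      obtain ⟨ξ, hξ, e2⟩ := hx y
      have hcen : ∀ a ∈ center P, ∀ b : P, ⁅a, b⁆ = 1 ∧ ⁅b, a⁆ = 1 := by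
        intro a ha b
        rw [commutatorElement_eq_one_iff_mul_comm, commutatorElement_eq_one_iff_mul_comm]
        exact ⟨((mem_center_iff.mp ha) b).symm, (mem_center_iff.mp ha) b⟩
      rw [← hy, map_commutatorElement, e1, e2, hc.mul_left, (hcen ζ hζ _).1, one_mul,
        hc.mul_right, (hcen ξ hξ _).2, one_mul, hc.pow_left, hc.pow_right, ← pow_mul]
    have hzo : orderOf z = p := orderOf_eq_prime (hexp z) hz.1
    have h10 : ((s ^ k : ℕ) : ZMod p) = ((c.val * c.val : ℕ) : ZMod p) := by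
      have h11 := h8.symm.trans h9
      rw [pow_inj_mod, hzo] at h11
      rw [ZMod.natCast_eq_natCast_iff']
      exact h11
    rw [Nat.cast_pow, hs, Nat.cast_mul, ZMod.natCast_zmod_val, ← hmc] at h10
    have h12 : g ^ (3 * k) = 1 := by
      have h13 : (g⁻¹) ^ k = g ^ k * g ^ k := by
        apply Units.ext
        push_cast at h10 ⊢
        exact h10
      have h14 : (3 * k) = k + (k + k) := by ring
      rw [h14, pow_add, pow_add, ← h13, ← mul_pow, mul_inv_cancel, one_pow]
    rw [← hgo]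
    exact orderOf_dvd_of_pow_eq_one h12

end

end Cfsg.Agent.H20.HeisLines
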