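import Mathlib
import Cfsg.Prelude.Def_CaseTheorems

set_option autoImplicit false
set_option maxHeartbeats 800000
set_option linter.unusedSectionVars false

/-! MacWilliams' four generator theorem, part A: groups acting on a normal abelian subgroup of
exponent 4 containing all elements of order at most 4 of its centralizer. -/

namespace Cfsg.Agent.H20.MacW
open Subgroup

/-- the standard set-up -/
structure Hyp {P : Type*} [Group P] (A V C K : Subgroup P) : Prop where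
  two : IsPGroup 2 P
  ab : ∀ a ∈ A, ∀ b ∈ A, a * b = b * a
  nA : ∀ a ∈ A, ∀ g : P, g * a * g⁻¹ ∈ A
  four : ∀ a ∈ A, a ^ 4 = 1
  hV : ∀ x, x ∈ V ↔ x ∈ A ∧ x ^ 2 = 1
  hC : ∀ x, x ∈ C ↔ ∀ a ∈ A, x * a = a * x
  hK : ∀ x, x ∈ K ↔ ∀ a ∈ V, x * a = a * x
  om : ∀ x ∈ C, x ^ 4 = 1 → x ∈ A

/-- no element of order 4 of `A` is inverted by `c` -/
def Inv {P : Type*} [Group P] (A : Subgroup P) (c : P) : Prop :=
  ∀ a ∈ A, c * a * c⁻¹ = a⁻¹ → a ^ 2 = 1

/-- no element of order 4 of `A` is fixed by `c` -/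
def Fx {P : Type*} [Group P] (A : Subgroup P) (c : P) : Prop :=
  ∀ a ∈ A, c * a * c⁻¹ = a → a ^ 2 = 1

/-- `c` is central modulo `C` -/
def Cen {P : Type*} [Group P] (C : Subgroup P) (c : P) : Prop :=
  ∀ g : P, g * c * g⁻¹ * c⁻¹ ∈ C

section
variable {P : Type*} [Group P] [Finite P] {A V C K : Subgroup P} (h : Hyp A V C K)
include h

theorem Hyp.AC : A ≤ C := fun a ha => (h.hC a).2 fun b hb => h.ab a ha b hb

theorem Hyp.VA : V ≤ A := fun a ha => ((h.hV a).1 ha).1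

theorem Hyp.CK : C ≤ K := fun x hx => (h.hK x).2 fun b hb => (h.hC x).1 hx b (h.VA hb)

theorem Hyp.nV {v : P} (hv : v ∈ V) (g : P) : g * v * g⁻¹ ∈ V := by
  rw [h.hV] at hv ⊢
  refine ⟨h.nA v hv.1 g, ?_⟩
  rw [conj_pow, hv.2, mul_one, mul_inv_cancel]

theorem Hyp.nC {x : P} (hx : x ∈ C) (g : P) : g * x * g⁻¹ ∈ C := by
  rw [h.hC] at hx ⊢
  intro a ha
  have h1 := hx (g⁻¹ * a * g) (by simpa using h.nA a ha g⁻¹)
  calc g * x * g⁻¹ * a = g * (x * (g⁻¹ * a * g)) * g⁻¹ := by group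
    _ = g * ((g⁻¹ * a * g) * x) * g⁻¹ := by rw [h1]
    _ = a * (g * x * g⁻¹) := by group

theorem Hyp.nK {x : P} (hx : x ∈ K) (g : P) : g * x * g⁻¹ ∈ K := by
  rw [h.hK] at hx ⊢
  intro a ha
  have h1 := hx (g⁻¹ * a * g) (by simpa using h.nV ha g⁻¹)
  calc g * x * g⁻¹ * a = g * (x * (g⁻¹ * a * g)) * g⁻¹ := by group
    _ = g * ((g⁻¹ * a * g) * x) * g⁻¹ := by rw [h1]
    _ = a * (g * x * g⁻¹) := by group

theorem Hyp.sqV {a : P} (ha : a ∈ A) : a ^ 2 ∈ V := by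
  rw [h.hV]
  exact ⟨pow_mem ha 2, by rw [← pow_mul]; exact h.four a ha⟩

theorem Hyp.conjC {c a : P} (hc : c ∈ C) (ha : a ∈ A) : c * a * c⁻¹ = a := by
  rw [(h.hC c).1 hc a ha, mul_assoc, mul_inv_cancel, mul_one]

theorem Hyp.conjK {c a : P} (hc : c ∈ K) (ha : a ∈ V) : c * a * c⁻¹ = a := by
  rw [(h.hK c).1 hc a ha, mul_assoc, mul_inv_cancel, mul_one]

/-- elements of `K` act trivially on `A/V` -/
theorem Hyp.dV {c a : P} (hc : c ∈ K) (ha : a ∈ A) : c * a * c⁻¹ * a⁻¹ ∈ V := by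
  rw [h.hV]
  refine ⟨mul_mem (h.nA a ha c) (inv_mem ha), ?_⟩
  have h1 : Commute (c * a * c⁻¹) a⁻¹ := h.ab _ (h.nA a ha c) _ (inv_mem ha)
  rw [h1.mul_pow, conj_pow, h.conjK hc (h.sqV ha), inv_pow, mul_inv_cancel]

theorem Hyp.exists_pow (x : P) : ∃ k : ℕ, x ^ 2 ^ k = 1 := by
  obtain ⟨k, hk⟩ := h.two x
  exact ⟨k, hk⟩

theorem Hyp.inv_memV {g : P} (hg : Inv A g) {y : P} (hy : y ∈ C) (hgy : g * y * g⁻¹ = y⁻¹) : y ∈ V := by
  obtain ⟨k, hk⟩ := h.exists_pow y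
  induction k generalizing y with
  | zero =>
    rw [pow_zero, pow_one] at hk
    rw [hk]; exact one_mem _
  | succ k ih =>
    have h1 : y ^ 2 ∈ V := by
      apply ih (pow_mem hy 2)
      · rw [← conj_pow, hgy, inv_pow]
      · rw [← pow_mul, ← pow_succ']
        exact hk
    have h2 : y ∈ A := h.om y hy (by
      have := ((h.hV _).1 h1).2
      rwa [← pow_mul] at this)
    rw [h.hV]
    exact ⟨h2, hg y h2 hgy⟩

theorem Hyp.fx_memV {g : P} (hg : Fx A g) {y : P} (hy : y ∈ C) (hgy : g * y * g⁻¹ = y) : y ∈ V := by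
  obtain ⟨k, hk⟩ := h.exists_pow y
  induction k generalizing y with
  | zero =>
    rw [pow_zero, pow_one] at hk
    rw [hk]; exact one_mem _
  | succ k ih =>
    have h1 : y ^ 2 ∈ V := by
      apply ih (pow_mem hy 2)
      · rw [← conj_pow, hgy]
      · rw [← pow_mul, ← pow_succ']
        exact hk
    have h2 : y ∈ A := h.om y hy (by
      have := ((h.hV _).1 h1).2
      rwa [← pow_mul] at this)
    rw [h.hV]
    exact ⟨h2, hg y h2 hgy⟩

theorem Hyp.inv_of_C {x : P} (hx : x ∈ C) : Inv A x := by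
  intro a ha hxa
  rw [h.conjC hx ha] at hxa
  rw [sq]
  nth_rewrite 1 [hxa]
  exact inv_mul_cancel a

theorem Hyp.sq_eq {x y : P} (hx : x ∈ C) (hy : y ∈ C) (hxy : x ^ 2 = y ^ 2) : x⁻¹ * y ∈ V := by
  apply h.inv_memV (h.inv_of_C hx) (mul_mem (inv_mem hx) hy)
  have h1 : y * x⁻¹ = y⁻¹ * x := by
    have h2 : y * (y * x⁻¹) = x := by
      rw [← mul_assoc, ← sq, ← hxy, sq, mul_assoc, mul_inv_cancel, mul_one]
    rw [eq_inv_mul_iff_mul_eq]
    exact h2
  rw [mul_inv_cancel_left, mul_inv_rev, inv_inv, h1]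

/-- elements of `K` square into `C` -/
theorem Hyp.sqC {c : P} (hc : c ∈ K) : c ^ 2 ∈ C := by
  rw [h.hC]
  intro a ha
  have h1 := h.dV hc ha
  have h3 := h.conjK hc h1
  have h4 : (c * a * c⁻¹ * a⁻¹) ^ 2 = 1 := ((h.hV _).1 h1).2
  have h5 : c ^ 2 * a * (c ^ 2)⁻¹ = a := by
    calc c ^ 2 * a * (c ^ 2)⁻¹ = (c * (c * a * c⁻¹ * a⁻¹) * c⁻¹) * (c * a * c⁻¹ * a⁻¹) * a := by
          rw [sq]; group
      _ = a := by rw [h3, ← sq, h4, one_mul]
  rw [mul_inv_eq_iff_eq_mul] at h5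
  exact h5

omit h in
theorem card_map_ker {G L : Type*} [Group G] [Finite G] [Group L] (f : G →* L) (K : Subgroup G) :
    Nat.card K = Nat.card ↥(f.ker ⊓ K) * Nat.card ↥(K.map f) := by
  have h0 := Subgroup.relIndex_mul_relIndex ⊥ (f.ker ⊓ K) K bot_le inf_le_right
  rw [Subgroup.relIndex_bot_left, Subgroup.relIndex_bot_left] at h0
  have h1 := h0
  rw [Subgroup.inf_relIndex_right, Subgroup.relIndex_ker] at h1
  exact h1.symm

/-- counting squares -/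
theorem Hyp.exists_inj {L0 N0 : Subgroup P} (hL0 : L0 ≤ C) (hsq : ∀ x ∈ L0, x ^ 2 ∈ N0) :
    ∃ j : L0 → N0 × ↥(V ⊓ L0), Function.Injective j ∧ ∀ x, ((j x).1 : P) = (x : P) ^ 2 := by
  classical
  have hr : ∀ y : P, ∃ r : P, (∃ x ∈ L0, x ^ 2 = y) → (r ∈ L0 ∧ r ^ 2 = y) := by
    intro y
    by_cases hy : ∃ x ∈ L0, x ^ 2 = y
    · obtain ⟨x, hx, hxy⟩ := hy
      exact ⟨x, fun _ => ⟨hx, hxy⟩⟩
    · exact ⟨1, fun h => absurd h hy⟩
  choose r hr using hr
  have hr' : ∀ x : L0, r ((x : P) ^ 2) ∈ L0 ∧ r ((x : P) ^ 2) ^ 2 = (x : P) ^ 2 := fun x => hr _ ⟨x, x.2, rfl⟩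
  refine ⟨fun x => (⟨(x : P) ^ 2, hsq x x.2⟩, ⟨(r ((x : P) ^ 2))⁻¹ * x, ?_⟩), ?_, fun x => rfl⟩
  · exact Subgroup.mem_inf.2 ⟨h.sq_eq (hL0 (hr' x).1) (hL0 x.2) (hr' x).2, L0.mul_mem (L0.inv_mem (hr' x).1) x.2⟩
  · intro x y hxy
    have h1 : (x : P) ^ 2 = (y : P) ^ 2 := congrArg (fun z : N0 × ↥(V ⊓ L0) => (z.1 : P)) hxy
    have h2 : (r ((x : P) ^ 2))⁻¹ * x = (r ((y : P) ^ 2))⁻¹ * y :=
      congrArg (fun z : N0 × ↥(V ⊓ L0) => (z.2 : P)) hxy
    rw [h1] at h2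
    exact Subtype.ext (mul_left_cancel h2)

theorem Hyp.card_le {L0 N0 : Subgroup P} (hL0 : L0 ≤ C) (hsq : ∀ x ∈ L0, x ^ 2 ∈ N0) :
    Nat.card L0 ≤ Nat.card N0 * Nat.card V := by
  obtain ⟨j, hj, -⟩ := h.exists_inj hL0 hsq
  have h1 := Nat.card_le_card_of_injective j hj
  rw [Nat.card_prod] at h1
  exact h1.trans (Nat.mul_le_mul_left _ (Nat.card_le_card_of_injective (Subgroup.inclusion inf_le_left)
    (Subgroup.inclusion_injective _)))

theorem Hyp.card_eq {L0 N0 : Subgroup P} (hL0 : L0 ≤ C) (hsq : ∀ x ∈ L0, x ^ 2 ∈ N0)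
    (hge : Nat.card N0 * Nat.card V ≤ Nat.card L0) : V ≤ L0 ∧ ∀ y ∈ N0, ∃ x ∈ L0, x ^ 2 = y := by
  obtain ⟨j, hj, hj2⟩ := h.exists_inj hL0 hsq
  have h1 := Nat.card_le_card_of_injective j hj
  rw [Nat.card_prod] at h1
  have h0 : Nat.card ↥(V ⊓ L0) ≤ Nat.card V := Nat.card_le_card_of_injective (Subgroup.inclusion inf_le_left)
    (Subgroup.inclusion_injective _)
  have hN : 0 < Nat.card N0 := Nat.card_pos
  have h2 : Nat.card V = Nat.card ↥(V ⊓ L0) := by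
    apply le_antisymm _ h0
    exact Nat.le_of_mul_le_mul_left (hge.trans h1) hN
  have h3 : V ⊓ L0 = V := Subgroup.eq_of_le_of_card_ge inf_le_left h2.le
  refine ⟨inf_eq_left.1 h3, ?_⟩
  have hbij : Function.Bijective j := by
    rw [Nat.bijective_iff_injective_and_card]
    refine ⟨hj, le_antisymm ?_ ?_⟩
    · rw [Nat.card_prod]; exact h1
    · rw [Nat.card_prod, ← h2]; exact hge
  intro y hy
  obtain ⟨x, hx⟩ := hbij.2 (⟨y, hy⟩, 1)
  refine ⟨x, x.2, ?_⟩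
  rw [← hj2, hx]

/-- Making `c` an involution by multiplying by an element of `A`. -/
theorem Hyp.lemmaG {c : P} (hcK : c ∈ K) (hinv : Inv A c) {S T : Subgroup P} (hSA : S ≤ A) (hTV : T ≤ V)
    (hcT : c ^ 2 ∈ T) (h1 : ∀ a ∈ S, c * a * c⁻¹ * a ∈ T) (h2 : ∀ t ∈ T, ∃ a ∈ S, a ^ 2 = t) :
    ∃ a ∈ S, (c * a) ^ 2 = 1 := by
  let f1 : S →* P :=
    { toFun := fun a => c * a * c⁻¹ * a
      map_one' := by simp
      map_mul' := by
        rintro ⟨a, ha⟩ ⟨b, hb⟩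
        have h3 : a * (c * b * c⁻¹) = (c * b * c⁻¹) * a := h.ab a (hSA ha) _ (h.nA b (hSA hb) c)
        change c * (a * b) * c⁻¹ * (a * b) = (c * a * c⁻¹ * a) * (c * b * c⁻¹ * b)
        calc c * (a * b) * c⁻¹ * (a * b) = (c * a * c⁻¹) * ((c * b * c⁻¹) * a) * b := by group
          _ = (c * a * c⁻¹) * (a * (c * b * c⁻¹)) * b := by rw [h3]
          _ = _ := by group }
  let f2 : S →* P :=
    { toFun := fun a => (a : P) ^ 2
      map_one' := by simp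
      map_mul' := by
        rintro ⟨a, ha⟩ ⟨b, hb⟩
        exact (show Commute a b from h.ab a (hSA ha) b (hSA hb)).mul_pow 2 }
  have hker : f1.ker ≤ f2.ker := by
    rintro ⟨a, ha⟩ hka
    rw [MonoidHom.mem_ker] at hka ⊢
    have h3 : c * a * c⁻¹ * a = 1 := hka
    exact hinv a (hSA ha) (eq_inv_of_mul_eq_one_left h3)
  have e1 := card_map_ker f1 ⊤
  have e2 := card_map_ker f2 ⊤
  rw [inf_top_eq] at e1 e2
  have hT2 : T ≤ (⊤ : Subgroup S).map f2 := by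
    intro t ht
    obtain ⟨a, ha, hat⟩ := h2 t ht
    exact ⟨⟨a, ha⟩, trivial, hat⟩
  have hT1 : (⊤ : Subgroup S).map f1 ≤ T := by
    rintro _ ⟨⟨a, ha⟩, -, rfl⟩
    exact h1 a ha
  have c1 : Nat.card f1.ker ≤ Nat.card f2.ker :=
    Nat.card_le_card_of_injective (Subgroup.inclusion hker) (Subgroup.inclusion_injective _)
  have c2 : Nat.card T ≤ Nat.card ((⊤ : Subgroup S).map f2) :=
    Nat.card_le_card_of_injective (Subgroup.inclusion hT2) (Subgroup.inclusion_injective _)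
  have c3 : 0 < Nat.card f2.ker := Nat.card_pos
  have c4 : Nat.card T ≤ Nat.card ((⊤ : Subgroup S).map f1) := by
    have h5 : Nat.card f2.ker * Nat.card ((⊤ : Subgroup S).map f2) ≤ Nat.card f2.ker * Nat.card ((⊤ : Subgroup S).map f1) := by
      rw [← e2, e1]
      exact Nat.mul_le_mul_right _ c1
    exact c2.trans (Nat.le_of_mul_le_mul_left h5 c3)
  have h3 : (⊤ : Subgroup S).map f1 = T := Subgroup.eq_of_le_of_card_ge hT1 c4
  have h4 : (c ^ 2)⁻¹ ∈ (⊤ : Subgroup S).map f1 := by rw [h3]; exact inv_mem hcT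
  obtain ⟨⟨a, ha⟩, -, hfa⟩ := h4
  refine ⟨a, ha, ?_⟩
  have h5 : c * a * c⁻¹ * a = (c ^ 2)⁻¹ := hfa
  have h6 : c ^ 2 * a = a * c ^ 2 := (h.hC _).1 (h.sqC hcK) a (hSA ha)
  calc (c * a) ^ 2 = (c * a * c⁻¹) * (c ^ 2 * a) := by rw [sq, sq]; group
    _ = (c * a * c⁻¹ * a) * c ^ 2 := by rw [h6]; group
    _ = 1 := by rw [h5, inv_mul_cancel]

/-- Making `c` an involution by multiplying by an element of `L0 ≤ C`. -/
theorem Hyp.lemmaA4 {c : P} (hcK : c ∈ K) (hinv : Inv A c) {L0 N0 : Subgroup P} (hL0 : L0 ≤ C)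
    (hN0 : ∀ y ∈ N0, ∃ x ∈ L0, x ^ 2 = y) (hsq : ∀ x ∈ L0, (c * x) ^ 2 ∈ N0) :
    ∃ x ∈ L0, (c * x) ^ 2 = 1 := by
  have hc2 : c ^ 2 ∈ N0 := by simpa using hsq 1 (one_mem _)
  obtain ⟨x, hx, hxc⟩ := hN0 _ hc2
  have hxC : x ∈ C := hL0 hx
  -- (c x c⁻¹)² = x²
  have h1 : (c * x * c⁻¹) ^ 2 = x ^ 2 := by
    rw [conj_pow, hxc, sq]; group
  have h2 : (c * x * c⁻¹)⁻¹ * x ∈ V := h.sq_eq (h.nC hxC c) hxC h1
  have h3 : (c * x⁻¹) ^ 2 = (c * x * c⁻¹)⁻¹ * x := by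
    calc (c * x⁻¹) ^ 2 = (c * x⁻¹ * c⁻¹) * c ^ 2 * x⁻¹ := by rw [sq, sq]; group
      _ = (c * x⁻¹ * c⁻¹) * x ^ 2 * x⁻¹ := by rw [hxc]
      _ = (c * x * c⁻¹)⁻¹ * x := by rw [sq]; group
  set c' := c * x⁻¹ with hc'
  have hc'K : c' ∈ K := mul_mem hcK (inv_mem (h.CK hxC))
  have hact : ∀ a ∈ A, c' * a * c'⁻¹ = c * a * c⁻¹ := by
    intro a ha
    have h4 := h.conjC (inv_mem hxC) ha
    calc c' * a * c'⁻¹ = c * (x⁻¹ * a * x⁻¹⁻¹) * c⁻¹ := by rw [hc']; group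
      _ = _ := by rw [h4]
  have hinv' : Inv A c' := by
    intro a ha h4
    rw [hact a ha] at h4
    exact hinv a ha h4
  have hc'V : c' ^ 2 ∈ V := by rw [h3]; exact h2
  have hc'N : c' ^ 2 ∈ N0 := hsq _ (inv_mem hx)
  obtain ⟨a, ha, hca⟩ := h.lemmaG hc'K hinv' (S := L0 ⊓ A) (T := N0 ⊓ V) inf_le_right inf_le_right
    ⟨hc'N, hc'V⟩ (by
      rintro a ⟨haL, haA⟩
      have h5 : c' ^ 2 * a = a * c' ^ 2 := (h.hC _).1 (h.sqC hc'K) a haA
      have h6 : c' * a * c'⁻¹ * a = (c' * a) ^ 2 * (c' ^ 2)⁻¹ := by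
        rw [eq_mul_inv_iff_mul_eq, mul_assoc, ← h5, sq, sq]
        group
      refine ⟨?_, ?_⟩
      · rw [h6]
        refine N0.mul_mem ?_ (N0.inv_mem hc'N)
        rw [hc', mul_assoc]
        exact hsq _ (mul_mem (inv_mem hx) haL)
      · have h7 := h.dV hc'K haA
        have h8 : c' * a * c'⁻¹ * a = (c' * a * c'⁻¹ * a⁻¹) * a ^ 2 := by rw [sq]; group
        rw [h8]
        exact mul_mem h7 (h.sqV haA)) (by
      rintro y ⟨hyN, hyV⟩
      obtain ⟨z, hz, hzy⟩ := hN0 y hyN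
      refine ⟨z, ⟨hz, h.om z (hL0 hz) ?_⟩, hzy⟩
      have h5 : (z ^ 2) ^ 2 = 1 := by rw [hzy]; exact ((h.hV y).1 hyV).2
      rwa [← pow_mul] at h5)
  refine ⟨x⁻¹ * a, mul_mem (inv_mem hx) ha.1, ?_⟩
  rw [← mul_assoc]
  exact hca

/-- Contradiction from an involution. -/
theorem Hyp.lemmaA5 (h8 : ∀ E : Subgroup P, E.Normal → IsMulCommutative E → (∀ a ∈ E, a ^ 2 = 1) → Nat.card E ≤ 4)
    (hV4 : Nat.card V = 4) {t : P} (htK : t ∈ K) (htC : t ∉ C) (hinv : Inv A t) (hcen : Cen C t) (ht2 : t ^ 2 = 1) : False := by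
  have htt : t * t = 1 := by rw [← sq]; exact ht2
  have htinv : t⁻¹ = t := inv_eq_of_mul_eq_one_left htt
  have hVab : ∀ a ∈ V, ∀ b ∈ V, a * b = b * a := fun a ha b hb => h.ab a (h.VA ha) b (h.VA hb)
  have htV : ∀ a ∈ V, t * a = a * t := (h.hK t).1 htK
  let E : Subgroup P :=
    { carrier := {x | x ∈ V ∨ t * x ∈ V}
      one_mem' := Or.inl (one_mem _)
      mul_mem' := by
        rintro x y (hx | hx) (hy | hy)
        · exact Or.inl (mul_mem hx hy)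
        · right
          have h1 := htV x hx
          rw [← mul_assoc, h1, mul_assoc]
          exact mul_mem hx hy
        · right
          rw [← mul_assoc]
          exact mul_mem hx hy
        · left
          have h1 := htV _ hx
          have h2 : x * y = (t * x) * (t * y) := by
            calc x * y = (t * t) * x * y := by rw [htt, one_mul]
              _ = (t * (t * x)) * y := by group
              _ = ((t * x) * t) * y := by rw [h1]
              _ = _ := by group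
          rw [h2]
          exact mul_mem hx hy
      inv_mem' := by
        rintro x (hx | hx)
        · exact Or.inl (inv_mem hx)
        · right
          have h1 := htV _ (inv_mem hx)
          have h2 : t * x⁻¹ = (t * x)⁻¹ := by
            calc t * x⁻¹ = t * (x⁻¹ * t⁻¹) * t := by group
              _ = t * (t * x)⁻¹ * t := by rw [mul_inv_rev]
              _ = (t * x)⁻¹ * t * t := by rw [h1]
              _ = _ := by rw [mul_assoc, htt, mul_one]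
          rw [h2]
          exact inv_mem hx }
  have hmem : ∀ x, x ∈ E ↔ x ∈ V ∨ t * x ∈ V := fun x => Iff.rfl
  have hVE : V ≤ E := fun x hx => Or.inl hx
  have htE : t ∈ E := Or.inr (by rw [htt]; exact one_mem _)
  have htnV : t ∉ V := fun h1 => htC (h.AC (h.VA h1))
  have hxt : ∀ x, t * x ∈ V → x = t * (t * x) := fun x _ => by rw [← mul_assoc, htt, one_mul]
  have hEn : E.Normal := by
    constructor
    rintro x (hx | hx) g
    · exact Or.inl (h.nV hx g)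
    · right
      have h1 : g * t * g⁻¹ * t⁻¹ ∈ V := by
        apply h.inv_memV hinv (hcen g)
        rw [htinv]
        have h2 : (g * t * g⁻¹ * t)⁻¹ = t⁻¹ * (g * t⁻¹ * g⁻¹) := by group
        rw [h2, htinv]
        calc t * (g * t * g⁻¹ * t) * t = t * (g * t * g⁻¹) * (t * t) := by group
          _ = _ := by rw [htt, mul_one]
      have h3 : g * x * g⁻¹ = (g * t * g⁻¹) * (g * (t * x) * g⁻¹) := by
        conv_lhs => rw [hxt x hx]
        group
      have h4 : t * (g * x * g⁻¹) = (t * (g * t * g⁻¹ * t⁻¹) * t⁻¹) * (t * t) * (g * (t * x) * g⁻¹) := by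
        rw [h3]; group
      rw [h4, htt, mul_one]
      exact mul_mem (h.nV h1 t) (h.nV hx g)
  have hcomm : ∀ x ∈ E, ∀ y ∈ E, x * y = y * x := by
    have h1 : ∀ x ∈ E, x * t = t * x := by
      rintro x (hx | hx)
      · exact (htV x hx).symm
      · have h2 := htV _ hx
        calc x * t = (t * (t * x)) * t := by rw [← hxt x hx]
          _ = t * ((t * x) * t) := by group
          _ = t * (t * (t * x)) := by rw [h2]
          _ = t * x := by rw [← hxt x hx]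
    have h2 : ∀ x ∈ E, ∀ y ∈ V, x * y = y * x := by
      rintro x (hx | hx) y hy
      · exact hVab x hx y hy
      · rw [hxt x hx, mul_assoc, hVab _ hx y hy, ← mul_assoc, htV y hy, mul_assoc]
    rintro x hx y (hy | hy)
    · exact h2 x hx y hy
    · have h3 := h2 x hx _ hy
      calc x * y = x * (t * (t * y)) := by rw [← hxt y hy]
        _ = (x * t) * (t * y) := by group
        _ = t * (x * (t * y)) := by rw [h1 x hx]; group
        _ = (t * (t * y)) * x := by rw [h3]; group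
        _ = y * x := by rw [← hxt y hy]
  have hsq : ∀ x ∈ E, x ^ 2 = 1 := by
    rintro x (hx | hx)
    · exact ((h.hV x).1 hx).2
    · have h1 : Commute t (t * x) := htV _ hx
      rw [hxt x hx, h1.mul_pow, ht2, ((h.hV _).1 hx).2, one_mul]
  have h9 := h8 E hEn ⟨⟨fun x y => Subtype.ext (hcomm x x.2 y y.2)⟩⟩ hsq
  have h10 : V = E := Subgroup.eq_of_le_of_card_ge hVE (by rw [hV4]; exact h9)
  exact htnV (h10 ▸ htE)

end

end Cfsg.Agent.H20.MacW
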