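import Cfsg.Agent.H20.MacWA
import Cfsg.Agent.H23.PGroupNormal

set_option autoImplicit false
set_option maxHeartbeats 800000
set_option linter.unusedSectionVars false

/-! MacWilliams' four generator theorem, part B. -/

namespace Cfsg.Agent.H20.MacW
open Subgroup

/-- commutator -/
def d {P : Type*} [Group P] (c a : P) : P := c * a * c⁻¹ * a⁻¹

section
variable {P : Type*} [Group P] [Finite P] {A V C K : Subgroup P} (h : Hyp A V C K)

omit [Finite P] in
theorem d_conj (g c a : P) : d (g * c * g⁻¹) a = g * d c (g⁻¹ * a * g) * g⁻¹ := by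
  unfold d; group

include h

theorem Hyp.Vab {a b : P} (ha : a ∈ V) (hb : b ∈ V) : a * b = b * a := h.ab a (h.VA ha) b (h.VA hb)

theorem Hyp.Vsq {a : P} (ha : a ∈ V) : a * a = 1 := by rw [← sq]; exact ((h.hV a).1 ha).2

theorem Hyp.Vinv {a : P} (ha : a ∈ V) : a⁻¹ = a := inv_eq_of_mul_eq_one_left (h.Vsq ha)

theorem Hyp.d_mem {c a : P} (hc : c ∈ K) (ha : a ∈ A) : d c a ∈ V := h.dV hc ha

theorem Hyp.d_mul {c c' a : P} (hc : c ∈ K) (hc' : c' ∈ K) (ha : a ∈ A) : d (c * c') a = d c a * d c' a := by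
  have h1 := h.d_mem hc' ha
  have h2 := h.conjK hc h1
  rw [h.Vab (h.d_mem hc ha) h1]
  calc d (c * c') a = (c * d c' a * c⁻¹) * d c a := by unfold d; group
    _ = _ := by rw [h2]

theorem Hyp.d_prod {c a b : P} (hc : c ∈ K) (ha : a ∈ A) (hb : b ∈ A) : d c (a * b) = d c a * d c b := by
  have h1 := h.d_mem hc hb
  have h2 : d c b * a⁻¹ = a⁻¹ * d c b := h.ab _ (h.VA h1) _ (inv_mem ha)
  have h3 : (a * b)⁻¹ = b⁻¹ * a⁻¹ := mul_inv_rev a b
  calc d c (a * b) = (c * a * c⁻¹) * (c * b * c⁻¹) * (a * b)⁻¹ := by unfold d; group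
    _ = (c * a * c⁻¹) * (d c b * a⁻¹) := by rw [h3]; unfold d; group
    _ = (c * a * c⁻¹) * (a⁻¹ * d c b) := by rw [h2]
    _ = d c a * d c b := by unfold d; group

theorem Hyp.d_V {c a : P} (hc : c ∈ K) (ha : a ∈ V) : d c a = 1 := by
  unfold d
  rw [h.conjK hc ha, mul_inv_cancel]

theorem Hyp.d_eq {c a b : P} (hc : c ∈ K) (ha : a ∈ A) (hb : b ∈ A) (hab : a ^ 2 = b ^ 2) : d c a = d c b := by
  have h1 : b⁻¹ * a ∈ V := h.sq_eq (h.AC hb) (h.AC ha) hab.symm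
  have h2 : a = b * (b⁻¹ * a) := by group
  rw [h2, h.d_prod hc hb (h.VA h1), h.d_V hc h1, mul_one]

theorem Hyp.d_inv {c a : P} (ha : a ∈ A) (hi : c * a * c⁻¹ = a⁻¹) : d c a = a ^ 2 := by
  unfold d
  rw [hi, ← sq, inv_pow]
  exact h.Vinv (h.sqV ha)

theorem Hyp.mem_C_iff {c : P} : c ∈ C ↔ ∀ a ∈ A, d c a = 1 := by
  rw [h.hC]
  refine forall₂_congr fun a ha => ?_
  unfold d
  rw [mul_inv_eq_one, mul_inv_eq_iff_eq_mul]

/-- the central involution and the list of elements of `V` -/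
theorem Hyp.exists_uv (h4 : Nat.card V = 4) : ∃ u v : P, u ∈ V ∧ v ∈ V ∧ u ≠ 1 ∧ v ≠ 1 ∧ u ≠ v ∧
    (∀ g, g * u * g⁻¹ = u) ∧ ∀ x ∈ V, x = 1 ∨ x = u ∨ x = v ∨ x = u * v := by
  classical
  have hVn : V.Normal := ⟨fun v hv g => h.nV hv g⟩
  have hne : V ≠ ⊥ := by
    rintro rfl
    rw [Subgroup.card_bot] at h4
    omega
  obtain ⟨u, huV, hu, huc⟩ := H23.exists_central_orderOf h.two hVn hne
  have hu1 : u ≠ 1 := by rintro rfl; rw [orderOf_one] at hu; omega
  obtain ⟨v, hvV, hv⟩ : ∃ v ∈ V, v ∉ zpowers u := by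
    by_contra hcon
    push Not at hcon
    have h1 := Subgroup.card_le_of_le (show V ≤ zpowers u from hcon)
    rw [h4, Nat.card_zpowers, hu] at h1
    omega
  have hv1 : v ≠ 1 := by rintro rfl; exact hv (one_mem _)
  have huv : u ≠ v := by rintro rfl; exact hv (mem_zpowers _)
  refine ⟨u, v, huV, hvV, hu1, hv1, huv, ?_, ?_⟩
  · intro g
    rw [Subgroup.mem_center_iff.1 huc g, mul_assoc, mul_inv_cancel, mul_one]
  · haveI : Fintype V := Fintype.ofFinite _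
    set S : Finset V := {1, ⟨u, huV⟩, ⟨v, hvV⟩, ⟨u * v, mul_mem huV hvV⟩} with hS
    have h1 : S.card = 4 := by
      rw [hS]
      have n1 : (1 : V) ≠ ⟨u, huV⟩ := fun h => hu1 (congrArg Subtype.val h).symm
      have n2 : (1 : V) ≠ ⟨v, hvV⟩ := fun h => hv1 (congrArg Subtype.val h).symm
      have n3 : (1 : V) ≠ ⟨u * v, mul_mem huV hvV⟩ := fun h' => by
        have h2 : (1 : P) = u * v := congrArg Subtype.val h'
        have h3 : u = v := by
          calc u = u * (u * v) := by rw [← h2, mul_one]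
            _ = v := by rw [← mul_assoc, h.Vsq huV, one_mul]
        exact huv h3
      have n4 : (⟨u, huV⟩ : V) ≠ ⟨v, hvV⟩ := fun h => huv (congrArg Subtype.val h)
      have n5 : (⟨u, huV⟩ : V) ≠ ⟨u * v, mul_mem huV hvV⟩ := fun h' => by
        have h2 : u = u * v := congrArg Subtype.val h'
        exact hv1 (left_eq_mul.1 h2)
      have n6 : (⟨v, hvV⟩ : V) ≠ ⟨u * v, mul_mem huV hvV⟩ := fun h' => by
        have h2 : v = u * v := congrArg Subtype.val h'
        exact hu1 (right_eq_mul.1 h2)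
      rw [Finset.card_insert_of_notMem, Finset.card_insert_of_notMem, Finset.card_insert_of_notMem,
        Finset.card_singleton]
      · rwa [Finset.mem_singleton]
      · rw [Finset.mem_insert, Finset.mem_singleton]; push Not; exact ⟨n4, n5⟩
      · rw [Finset.mem_insert, Finset.mem_insert, Finset.mem_singleton]; push Not; exact ⟨n1, n2, n3⟩
    have h2 : S = Finset.univ := by
      apply Finset.eq_univ_of_card
      rw [h1, ← Nat.card_eq_fintype_card, h4]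
    intro x hx
    have h3 : (⟨x, hx⟩ : V) ∈ S := by rw [h2]; exact Finset.mem_univ _
    rw [hS, Finset.mem_insert, Finset.mem_insert, Finset.mem_insert, Finset.mem_singleton] at h3
    rcases h3 with h3 | h3 | h3 | h3
    · exact Or.inl (congrArg Subtype.val h3)
    · exact Or.inr (Or.inl (congrArg Subtype.val h3))
    · exact Or.inr (Or.inr (Or.inl (congrArg Subtype.val h3)))
    · exact Or.inr (Or.inr (Or.inr (congrArg Subtype.val h3)))

/-- `|L : L ∩ K| ≤ 2` -/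
theorem Hyp.index_two (h4 : Nat.card V = 4) (L : Subgroup P) : Nat.card L ≤ 2 * Nat.card ↥(L ⊓ K) := by
  obtain ⟨u, v, hu, hv, hu1, hv1, huv, cu, hall⟩ := h.exists_uv h4
  have hz : ∀ g : P, g * v * g⁻¹ * v⁻¹ ∈ zpowers u := by
    intro g
    rcases hall _ (h.nV hv g) with h1 | h1 | h1 | h1
    · exfalso
      rw [conj_eq_one_iff] at h1
      exact hv1 h1
    · exfalso
      apply huv
      have h2 : g * v * g⁻¹ = g * u * g⁻¹ := by rw [h1, cu]
      exact (mul_left_cancel (mul_right_cancel h2)).symm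
    · rw [h1, mul_inv_cancel]; exact one_mem _
    · rw [h1, mul_assoc, mul_inv_cancel, mul_one]; exact mem_zpowers _
  have hzz : ∀ z ∈ zpowers u, ∀ g : P, g * z * g⁻¹ = z := by
    rintro _ ⟨n, rfl⟩ g
    change g * u ^ n * g⁻¹ = u ^ n
    rw [← conj_zpow, cu]
  let χ : P →* zpowers u :=
    { toFun := fun g => ⟨g * v * g⁻¹ * v⁻¹, hz g⟩
      map_one' := by apply Subtype.ext; simp
      map_mul' := by
        intro g g'
        apply Subtype.ext
        change g * g' * v * (g * g')⁻¹ * v⁻¹ = (g * v * g⁻¹ * v⁻¹) * (g' * v * g'⁻¹ * v⁻¹)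
        have h1 := hzz _ (hz g') g
        have h2 := hzz _ (hz g') (g * v * g⁻¹ * v⁻¹)
        calc g * g' * v * (g * g')⁻¹ * v⁻¹ = (g * (g' * v * g'⁻¹ * v⁻¹) * g⁻¹) * (g * v * g⁻¹ * v⁻¹) := by group
          _ = (g' * v * g'⁻¹ * v⁻¹) * (g * v * g⁻¹ * v⁻¹) := by rw [h1]
          _ = ((g * v * g⁻¹ * v⁻¹) * (g' * v * g'⁻¹ * v⁻¹) * (g * v * g⁻¹ * v⁻¹)⁻¹) * (g * v * g⁻¹ * v⁻¹) := by rw [h2]
          _ = _ := by group }
  have hker : χ.ker ≤ K := by
    intro g hg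
    have h1 : g * v * g⁻¹ * v⁻¹ = 1 := congrArg Subtype.val (MonoidHom.mem_ker.1 hg)
    have h2 : g * v = v * g := by
      rwa [mul_inv_eq_one, mul_inv_eq_iff_eq_mul] at h1
    have h3 : g * u = u * g := by
      have := cu g
      rwa [mul_inv_eq_iff_eq_mul] at this
    rw [h.hK]
    intro x hx
    rcases hall x hx with rfl | rfl | rfl | rfl
    · simp
    · exact h3
    · exact h2
    · rw [← mul_assoc, h3, mul_assoc, h2, mul_assoc]
  have e := card_map_ker χ L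
  have c1 : Nat.card ↥(χ.ker ⊓ L) ≤ Nat.card ↥(L ⊓ K) :=
    Subgroup.card_le_of_le (le_inf inf_le_right (inf_le_left.trans hker))
  have c2 : Nat.card (L.map χ) ≤ 2 := by
    have h1 : Nat.card (L.map χ) ≤ Nat.card (zpowers u) :=
      Nat.card_le_card_of_injective _ (Subgroup.subtype_injective (L.map χ))
    have h2 : orderOf u ≤ 2 := orderOf_le_of_pow_eq_one (by norm_num) ((h.hV u).1 hu).2
    rw [Nat.card_zpowers] at h1
    exact h1.trans h2
  rw [e, mul_comm]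
  exact Nat.mul_le_mul c2 c1

end

/-- data for the main case -/
structure X {P : Type*} [Group P] (A V C K : Subgroup P) (u v a b : P) : Prop extends Hyp A V C K where
  hu : u ∈ V
  hv : v ∈ V
  hu1 : u ≠ 1
  hv1 : v ≠ 1
  huv : u ≠ v
  cu : ∀ g, g * u * g⁻¹ = u
  all : ∀ x ∈ V, x = 1 ∨ x = u ∨ x = v ∨ x = u * v
  ha : a ∈ A
  hb : b ∈ A
  ha2 : a ^ 2 = u
  hb2 : b ^ 2 = v

section
variable {P : Type*} [Group P] [Finite P] {A V C K : Subgroup P} {u v a b : P} (h : X A V C K u v a b)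
include h

theorem X.ab2 : (a * b) ^ 2 = u * v := by
  have h1 : Commute a b := h.ab a h.ha b h.hb
  rw [h1.mul_pow, h.ha2, h.hb2]

theorem X.uv_ne : u * v ≠ 1 := fun h1 => h.huv (by
  calc u = u * (u * v) := by rw [h1, mul_one]
    _ = v := by rw [← mul_assoc, h.toHyp.Vsq h.hu, one_mul])

theorem X.d_cases {c x : P} (hc : c ∈ K) (hx : x ∈ A) :
    (x ^ 2 = 1 ∧ d c x = 1) ∨ (x ^ 2 = u ∧ d c x = d c a) ∨ (x ^ 2 = v ∧ d c x = d c b) ∨
      (x ^ 2 = u * v ∧ d c x = d c a * d c b) := by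
  rcases h.all _ (h.toHyp.sqV hx) with h1 | h1 | h1 | h1
  · left
    exact ⟨h1, h.toHyp.d_V hc ((h.hV x).2 ⟨hx, h1⟩)⟩
  · right; left
    exact ⟨h1, h.toHyp.d_eq hc hx h.ha (by rw [h1, h.ha2])⟩
  · right; right; left
    exact ⟨h1, h.toHyp.d_eq hc hx h.hb (by rw [h1, h.hb2])⟩
  · right; right; right
    refine ⟨h1, ?_⟩
    rw [← h.toHyp.d_prod hc h.ha h.hb]
    exact h.toHyp.d_eq hc hx (mul_mem h.ha h.hb) (by rw [h1, h.ab2])

theorem X.inv_of {c : P} (hc : c ∈ K) (h1 : d c a ≠ u) (h2 : d c b ≠ v) (h3 : d c a * d c b ≠ u * v) : Inv A c := by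
  intro x hx hxi
  have h4 := h.toHyp.d_inv hx hxi
  rcases h.d_cases hc hx with ⟨h5, -⟩ | ⟨h5, h6⟩ | ⟨h5, h6⟩ | ⟨h5, h6⟩
  · exact h5
  · exact absurd (by rw [← h6, h4, h5]) h1
  · exact absurd (by rw [← h6, h4, h5]) h2
  · exact absurd (by rw [← h6, h4, h5]) h3

theorem X.fx_of {c : P} (hc : c ∈ K) (h1 : d c a ≠ 1) (h2 : d c b ≠ 1) (h3 : d c a * d c b ≠ 1) : Fx A c := by
  intro x hx hxi
  have h4 : d c x = 1 := by unfold d; rw [hxi, mul_inv_cancel]
  rcases h.d_cases hc hx with ⟨h5, -⟩ | ⟨h5, h6⟩ | ⟨h5, h6⟩ | ⟨h5, h6⟩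
  · exact h5
  · exact absurd (by rw [← h6, h4]) h1
  · exact absurd (by rw [← h6, h4]) h2
  · exact absurd (by rw [← h6, h4]) h3

/-- the action of `K` on `A` in coordinates -/
def X.Phi : K →* V × V where
  toFun c := (⟨d c a, h.toHyp.d_mem c.2 h.ha⟩, ⟨d c b, h.toHyp.d_mem c.2 h.hb⟩)
  map_one' := by
    ext
    · change d 1 a = 1
      unfold d; group
    · change d 1 b = 1
      unfold d; group
  map_mul' c c' := by
    ext
    · exact h.toHyp.d_mul c.2 c'.2 h.ha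
    · exact h.toHyp.d_mul c.2 c'.2 h.hb

theorem X.mem_C {c : P} (hc : c ∈ K) : c ∈ C ↔ d c a = 1 ∧ d c b = 1 := by
  constructor
  · intro h1
    rw [h.toHyp.mem_C_iff] at h1
    exact ⟨h1 a h.ha, h1 b h.hb⟩
  · rintro ⟨h1, h2⟩
    rw [h.toHyp.mem_C_iff]
    intro x hx
    rcases h.d_cases hc hx with ⟨-, h6⟩ | ⟨-, h6⟩ | ⟨-, h6⟩ | ⟨-, h6⟩
    · exact h6
    · rw [h6, h1]
    · rw [h6, h2]
    · rw [h6, h1, h2, one_mul]

theorem X.ker : h.Phi.ker = C.subgroupOf K := by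
  ext ⟨c, hc⟩
  rw [MonoidHom.mem_ker, mem_subgroupOf, h.mem_C hc]
  constructor
  · intro h1
    exact ⟨congrArg (fun z : V × V => (z.1 : P)) h1, congrArg (fun z : V × V => (z.2 : P)) h1⟩
  · rintro ⟨h1, h2⟩
    ext
    · exact h1
    · exact h2

theorem X.C_of_eq {c c' : P} (hc : c ∈ K) (hc' : c' ∈ K) (h1 : d c' a = d c a) (h2 : d c' b = d c b) : c' * c⁻¹ ∈ C := by
  have hi := inv_mem hc
  rw [h.mem_C (mul_mem hc' hi), h.toHyp.d_mul hc' hi h.ha, h.toHyp.d_mul hc' hi h.hb, h1, h2,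
    ← h.toHyp.d_mul hc hi h.ha, ← h.toHyp.d_mul hc hi h.hb, mul_inv_cancel]
  unfold d
  constructor <;> group

theorem X.commKC {c c' : P} (hc : c ∈ K) (hc' : c' ∈ K) : c * c' * c⁻¹ * c'⁻¹ ∈ C := by
  apply h.C_of_eq hc' (mul_mem (mul_mem hc hc') (inv_mem hc))
  · rw [d_conj]
    have h1 : c⁻¹ * a * c ∈ A := by simpa using h.nA a h.ha c⁻¹
    have h3 : (c⁻¹ * a * c) ^ 2 = a ^ 2 := by
      have := conj_pow (i := 2) (a := c⁻¹) (b := a)
      rw [inv_inv] at this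
      rw [this]
      have h4 := h.toHyp.conjK (inv_mem hc) (h.toHyp.sqV h.ha)
      rwa [inv_inv] at h4
    rw [h.toHyp.d_eq hc' h1 h.ha h3]
    exact h.toHyp.conjK hc (h.toHyp.d_mem hc' h.ha)
  · rw [d_conj]
    have h1 : c⁻¹ * b * c ∈ A := by simpa using h.nA b h.hb c⁻¹
    have h3 : (c⁻¹ * b * c) ^ 2 = b ^ 2 := by
      have := conj_pow (i := 2) (a := c⁻¹) (b := b)
      rw [inv_inv] at this
      rw [this]
      have h4 := h.toHyp.conjK (inv_mem hc) (h.toHyp.sqV h.hb)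
      rwa [inv_inv] at h4
    rw [h.toHyp.d_eq hc' h1 h.hb h3]
    exact h.toHyp.conjK hc (h.toHyp.d_mem hc' h.hb)

theorem X.d_conj_a (s : P) {c : P} (hc : c ∈ K) : d (s * c * s⁻¹) a = s * d c a * s⁻¹ := by
  rw [d_conj]
  have h1 : s⁻¹ * a * s ∈ A := by simpa using h.nA a h.ha s⁻¹
  have h3 : (s⁻¹ * a * s) ^ 2 = a ^ 2 := by
    have := conj_pow (i := 2) (a := s⁻¹) (b := a)
    rw [inv_inv] at this
    rw [this, h.ha2]
    have h4 := h.cu s⁻¹
    rwa [inv_inv] at h4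
  rw [h.toHyp.d_eq hc h1 h.ha h3]

theorem X.conj_v (g : P) : g * v * g⁻¹ = v ∨ g * v * g⁻¹ = u * v := by
  rcases h.all _ (h.toHyp.nV h.hv g) with h1 | h1 | h1 | h1
  · exfalso
    rw [conj_eq_one_iff] at h1
    exact h.hv1 h1
  · exfalso
    apply h.huv
    have h2 : g * v * g⁻¹ = g * u * g⁻¹ := by rw [h1, h.cu]
    exact (mul_left_cancel (mul_right_cancel h2)).symm
  · exact Or.inl h1
  · exact Or.inr h1

theorem X.mem_K {g : P} (hg : g * v * g⁻¹ = v) : g ∈ K := by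
  rw [h.hK]
  have h2 : g * v = v * g := by rwa [mul_inv_eq_iff_eq_mul] at hg
  have h3 : g * u = u * g := by
    have := h.cu g
    rwa [mul_inv_eq_iff_eq_mul] at this
  intro x hx
  rcases h.all x hx with rfl | rfl | rfl | rfl
  · simp
  · exact h3
  · exact h2
  · rw [← mul_assoc, h3, mul_assoc, h2, mul_assoc]

theorem X.d_conj_b {s : P} (hs : s * v * s⁻¹ = u * v) {c : P} (hc : c ∈ K) :
    d (s * c * s⁻¹) b = s * (d c a * d c b) * s⁻¹ := by
  rw [d_conj]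
  have h1 : s⁻¹ * b * s ∈ A := by simpa using h.nA b h.hb s⁻¹
  have h5 : s⁻¹ * v * s = u * v := by
    have h6 : s * (u * v) * s⁻¹ = v := by
      calc s * (u * v) * s⁻¹ = (s * u * s⁻¹) * (s * v * s⁻¹) := by group
        _ = u * (u * v) := by rw [h.cu, hs]
        _ = v := by rw [← mul_assoc, h.toHyp.Vsq h.hu, one_mul]
    calc s⁻¹ * v * s = s⁻¹ * (s * (u * v) * s⁻¹) * s := by rw [h6]
      _ = u * v := by group
  have h3 : (s⁻¹ * b * s) ^ 2 = (a * b) ^ 2 := by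
    have := conj_pow (i := 2) (a := s⁻¹) (b := b)
    rw [inv_inv] at this
    rw [this, h.hb2, h.ab2, h5]
  rw [h.toHyp.d_eq hc h1 (mul_mem h.ha h.hb) h3, h.toHyp.d_prod hc h.ha h.hb]

theorem X.cen_of {c : P} (hc : c ∈ K) (h1 : d c a = 1) (h2 : d c b = u) : Cen C c := by
  intro g
  apply h.C_of_eq hc (h.toHyp.nK hc g)
  · rw [h.d_conj_a g hc, h1]; simp
  · rcases h.conj_v g with hg | hg
    · -- g centralizes V
      have hgK := h.mem_K hg
      rw [d_conj]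
      have h1' : g⁻¹ * b * g ∈ A := by simpa using h.nA b h.hb g⁻¹
      have h3 : (g⁻¹ * b * g) ^ 2 = b ^ 2 := by
        have := conj_pow (i := 2) (a := g⁻¹) (b := b)
        rw [inv_inv] at this
        rw [this]
        have h4 := h.toHyp.conjK (inv_mem hgK) (h.toHyp.sqV h.hb)
        rwa [inv_inv] at h4
      rw [h.toHyp.d_eq hc h1' h.hb h3, h2, h.cu]
    · rw [h.d_conj_b hg hc, h1, h2, one_mul, h.cu]

theorem X.inv_u {c : P} (hc : c ∈ K) (h1 : d c a = 1) (h2 : d c b = u) : Inv A c := by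
  apply h.inv_of hc
  · rw [h1]; exact h.hu1.symm
  · rw [h2]; exact h.huv
  · rw [h1, h2, one_mul]
    intro h3
    exact h.hv1 (left_eq_mul.1 h3)

theorem X.notC_u {c : P} (hc : c ∈ K) (h2 : d c b = u) : c ∉ C := by
  rw [h.mem_C hc, h2]
  rintro ⟨-, h3⟩
  exact h.hu1 h3

/-- twisting by an element of `C` -/
theorem Hyp_inv_mul {A V C K : Subgroup P} (h : Hyp A V C K) {c x : P} (hinv : Inv A c) (hx : x ∈ C) : Inv A (c * x) := by
  intro y hy hyi
  apply hinv y hy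
  rw [← hyi]
  have h4 := h.conjC hx hy
  calc c * y * c⁻¹ = c * (x * y * x⁻¹) * c⁻¹ := by rw [h4]
    _ = _ := by group

theorem Hyp_cen_mul {A V C K : Subgroup P} (h : Hyp A V C K) {c x : P} (hcen : Cen C c) (hx : x ∈ C) : Cen C (c * x) := by
  intro g
  have h1 : g * (c * x) * g⁻¹ * (c * x)⁻¹ = (g * c * g⁻¹ * c⁻¹) * (c * ((g * x * g⁻¹) * x⁻¹) * c⁻¹) := by group
  rw [h1]
  exact mul_mem (hcen g) (h.nC (mul_mem (h.nC hx g) (inv_mem hx)) c)

end

end Cfsg.Agent.H20.MacW
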