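import Cfsg.Agent.H20.MacWB

set_option autoImplicit false
set_option maxHeartbeats 800000
set_option linter.unusedSectionVars false

/-! MacWilliams' four generator theorem, part C: the case where `A` is homocyclic of rank 2. -/

namespace Cfsg.Agent.H20.MacW
open Subgroup

section
variable {P : Type*} [Group P] [Finite P] {A V C K : Subgroup P} {u v a b : P} (h : X A V C K u v a b)
include h

theorem X.notC {c : P} (hfx : Fx A c) : c ∉ C := by
  intro hc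
  have h1 := hfx a h.ha (h.toHyp.conjC hc h.ha)
  rw [h.ha2] at h1
  exact h.hu1 h1

theorem X.w1 (h8 : ∀ E : Subgroup P, E.Normal → IsMulCommutative E → (∀ a ∈ E, a ^ 2 = 1) → Nat.card E ≤ 4)
    (hV4 : Nat.card V = 4) (hsq : ∀ t ∈ V, ∃ x ∈ A, x ^ 2 = t) {c : P} (hc : c ∈ K)
    (hinv : Inv A c) (hcC : c ∉ C) (hcen : Cen C c) (hc2 : c ^ 2 ∈ V) : False := by
  obtain ⟨x, hx, hcx⟩ := h.toHyp.lemmaG hc hinv (le_refl A) (le_refl V) hc2 (by
    intro y hy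
    have h1 : c * y * c⁻¹ * y = (c * y * c⁻¹ * y⁻¹) * y ^ 2 := by rw [sq]; group
    rw [h1]
    exact mul_mem (h.dV hc hy) (h.sqV hy)) hsq
  have hxC := h.AC hx
  refine h.toHyp.lemmaA5 h8 hV4 (mul_mem hc (h.CK hxC)) ?_ (Hyp_inv_mul h h.toHyp hinv hxC)
    (Hyp_cen_mul h h.toHyp hcen hxC) hcx
  intro h2
  exact hcC ((Subgroup.mul_mem_cancel_right _ hxC).1 h2)

/-- an element acting like an element of order 3 can be made an involution -/
theorem X.omega (hsq : ∀ t ∈ V, ∃ x ∈ A, x ^ 2 = t) {c : P} (hc : c ∈ K)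
    (hinv : Inv A c) (hfx : Fx A c) : ∃ x ∈ A, (c * x) ^ 2 = 1 := by
  refine h.toHyp.lemmaG hc hinv (le_refl A) (le_refl V) ?_ (by
    intro y hy
    have h1 : c * y * c⁻¹ * y = (c * y * c⁻¹ * y⁻¹) * y ^ 2 := by rw [sq]; group
    rw [h1]
    exact mul_mem (h.dV hc hy) (h.sqV hy)) hsq
  exact h.fx_memV hfx (h.sqC hc) (by rw [sq]; group)

theorem X.w2 (h8 : ∀ E : Subgroup P, E.Normal → IsMulCommutative E → (∀ a ∈ E, a ^ 2 = 1) → Nat.card E ≤ 4)
    (hV4 : Nat.card V = 4) (hsq : ∀ t ∈ V, ∃ x ∈ A, x ^ 2 = t) {c₁ : P} (hc₁ : c₁ ∈ K)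
    (hinv₁ : Inv A c₁) (hfx₁ : Fx A c₁) {c : P} (hc : c ∈ K)
    (hinv : Inv A c) (hcC : c ∉ C) (hcen : Cen C c) : False := by
  obtain ⟨x, hx, hcx⟩ := h.omega hsq hc₁ hinv₁ hfx₁
  set t := c₁ * x with ht
  have hxC := h.AC hx
  have htK : t ∈ K := mul_mem hc₁ (h.CK hxC)
  have hti : Inv A t := Hyp_inv_mul h h.toHyp hinv₁ hxC
  have htf : Fx A t := by
    intro y hy hyi
    apply hfx₁ y hy
    have h4 := h.toHyp.conjC hxC hy
    calc c₁ * y * c₁⁻¹ = c₁ * (x * y * x⁻¹) * c₁⁻¹ := by rw [h4]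
      _ = t * y * t⁻¹ := by rw [ht]; group
      _ = y := hyi
  have htt : t * t = 1 := by rw [← sq]; exact hcx
  have htinv : t⁻¹ = t := inv_eq_of_mul_eq_one_left htt
  have hy : c * t * c⁻¹ * t⁻¹ ∈ V := by
    apply h.inv_memV hti (h.commKC hc htK)
    have h2 : (c * t * c⁻¹ * t⁻¹)⁻¹ = t * c * t⁻¹ * c⁻¹ := by group
    rw [h2, htinv]
    calc t * (c * t * c⁻¹ * t) * t = t * (c * t * c⁻¹) * (t * t) := by group
      _ = _ := by rw [htt, mul_one]; group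
  have h3 : t * c * t⁻¹ = (c * t * c⁻¹ * t⁻¹)⁻¹ * c := by group
  have h4 : t * c ^ 2 * t⁻¹ = c ^ 2 := by
    rw [← conj_pow, h3, h.Vinv hy]
    have h5 := h.conjK hc hy
    have h6 := h.Vsq hy
    calc (c * t * c⁻¹ * t⁻¹ * c) ^ 2 = (c * t * c⁻¹ * t⁻¹) * (c * (c * t * c⁻¹ * t⁻¹) * c⁻¹) * c ^ 2 := by
          rw [sq, sq]; group
      _ = c ^ 2 := by rw [h5, h6, one_mul]
  have h5 : c ^ 2 ∈ V := h.fx_memV htf (h.sqC hc) h4
  exact h.w1 h8 hV4 hsq hc hinv hcC hcen h5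

theorem X.fin (h8 : ∀ E : Subgroup P, E.Normal → IsMulCommutative E → (∀ a ∈ E, a ^ 2 = 1) → Nat.card E ≤ 4)
    (hV4 : Nat.card V = 4) {L N : Subgroup P} (hs : ∀ x ∈ L, x ^ 2 ∈ N)
    (hge : 4 * Nat.card ↥(N ⊓ C) ≤ Nat.card ↥(L ⊓ C)) {c : P} (hcL : c ∈ L) (hc : c ∈ K)
    (hinv : Inv A c) (hcC : c ∉ C) (hcen : Cen C c) : False := by
  obtain ⟨-, h1⟩ := h.toHyp.card_eq (L0 := L ⊓ C) (N0 := N ⊓ C) inf_le_right
    (fun x hx => Subgroup.mem_inf.2 ⟨hs x (Subgroup.mem_inf.1 hx).1, pow_mem (Subgroup.mem_inf.1 hx).2 2⟩)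
    (by rw [hV4, mul_comm]; exact hge)
  obtain ⟨x, hx, hcx⟩ := h.toHyp.lemmaA4 hc hinv (L0 := L ⊓ C) (N0 := N ⊓ C) inf_le_right h1 (by
    intro x hx
    have hx' := Subgroup.mem_inf.1 hx
    exact Subgroup.mem_inf.2 ⟨hs _ (mul_mem hcL hx'.1), h.sqC (mul_mem hc (h.CK hx'.2))⟩)
  have hxC := (Subgroup.mem_inf.1 hx).2
  refine h.toHyp.lemmaA5 h8 hV4 (mul_mem hc (h.CK hxC)) ?_ (Hyp_inv_mul h h.toHyp hinv hxC)
    (Hyp_cen_mul h h.toHyp hcen hxC) hcx
  intro h2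
  exact hcC ((Subgroup.mul_mem_cancel_right _ hxC).1 h2)

/-! ### coordinates -/

theorem X.vuv : v * (u * v) = u := by
  have h1 := h.Vab h.hu h.hv
  rw [h1, ← mul_assoc, h.Vsq h.hv, one_mul]

theorem X.uuv : u * (u * v) = v := by rw [← mul_assoc, h.Vsq h.hu, one_mul]

theorem X.uvu : (u * v) * u = v := by
  rw [h.Vab (mul_mem h.hu h.hv) h.hu, h.uuv]

theorem X.uvv : (u * v) * v = u := by rw [mul_assoc, h.Vsq h.hv, mul_one]

theorem X.uvuv : (u * v) * (u * v) = 1 := h.Vsq (mul_mem h.hu h.hv)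

/-- a subgroup of index at most 2 of `V × V` contains a "good" element -/
theorem X.F1 (W : Subgroup (V × V)) (hW : W.index = 2) :
    ∃ m ∈ W, ((m.1 : P) ≠ u ∧ (m.2 : P) ≠ v ∧ (m.1 : P) * m.2 ≠ u * v) ∧ m ≠ 1 := by
  by_contra hcon
  push Not at hcon
  set U : V := ⟨u, h.hu⟩ with hU
  set T : V := ⟨v, h.hv⟩ with hT
  have hUT : T * (U * T) = U := Subtype.ext h.vuv
  have key : ∀ x y : V, (x : P) ≠ u → (y : P) ≠ v → (x : P) * y ≠ u * v → (x, y) ≠ (1 : V × V) → (x, y) ∉ W := by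
    intro x y h1 h2 h3 h4 h5
    exact h4 (hcon (x, y) h5 ⟨h1, h2, h3⟩)
  have nu1 := h.hu1
  have nv1 := h.hv1
  have nuv := h.huv
  have huv1 := h.uv_ne
  have n1 : u * v ≠ u := fun h' => nv1 (mul_eq_left.1 h')
  have n2 : u * v ≠ v := fun h' => nu1 (mul_eq_right.1 h')
  have k1 : ((1 : V), U) ∉ W := key 1 U (by simpa using nu1.symm) nuv (by
    rw [Subgroup.coe_one, one_mul]; exact n1.symm) (fun h' => nu1 (congrArg (fun z : V × V => (z.2 : P)) h'))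
  have k2 : (T, (1 : V)) ∉ W := key T 1 nuv.symm (by simpa using nv1.symm) (by
    rw [Subgroup.coe_one, mul_one]; exact n2.symm) (fun h' => nv1 (congrArg (fun z : V × V => (z.1 : P)) h'))
  have k3 : (U * T, U * T) ∉ W := key (U * T) (U * T) n1 n2 (by
    change (u * v) * (u * v) ≠ u * v
    rw [h.uvuv]; exact huv1.symm) (fun h' => huv1 (congrArg (fun z : V × V => (z.1 : P)) h'))
  have k4 : (T, U * T) ∉ W := key T (U * T) nuv.symm n2 (by
    change v * (u * v) ≠ u * v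
    rw [h.vuv]; exact n1.symm) (fun h' => nv1 (congrArg (fun z : V × V => (z.1 : P)) h'))
  have k5 : (U * T, U) ∉ W := key (U * T) U n1 nuv (by
    change (u * v) * u ≠ u * v
    rw [h.uvu]; exact n2.symm) (fun h' => huv1 (congrArg (fun z : V × V => (z.1 : P)) h'))
  have m1 : (T, U * T) * (U * T, U) ∈ W := (Subgroup.mul_mem_iff_of_index_two hW).2 ⟨fun h' => absurd h' k4, fun h' => absurd h' k5⟩
  have m2 : ((1 : V), U) * (T, (1 : V)) ∈ W := (Subgroup.mul_mem_iff_of_index_two hW).2 ⟨fun h' => absurd h' k1, fun h' => absurd h' k2⟩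
  have m3 : ((1 : V), U) * (T, (1 : V)) * (U * T, U * T) ∉ W := fun h' =>
    k3 (((Subgroup.mul_mem_iff_of_index_two hW).1 h').1 m2)
  apply m3
  have e1 : ((1 : V), U) * (T, (1 : V)) * (U * T, U * T) = (T, U * T) * (U * T, U) := by
    rw [Prod.mk_mul_mk, Prod.mk_mul_mk, Prod.mk_mul_mk, one_mul, mul_one]
    refine Prod.ext rfl ?_
    apply Subtype.ext
    change u * (u * v) = (u * v) * u
    rw [h.uuv, h.uvu]
  rw [e1]
  exact m1

theorem X.F2 {s : P} (hs : s * v * s⁻¹ = u * v) (hW : h.Phi.range.index = 2) :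
    ∃ c ∈ K, d c a = 1 ∧ d c b = u := by
  set W := h.Phi.range with hWdef
  set U : V := ⟨u, h.hu⟩ with hU
  set T : V := ⟨v, h.hv⟩ with hT
  have hs' : s * (u * v) * s⁻¹ = v := by
    calc s * (u * v) * s⁻¹ = (s * u * s⁻¹) * (s * v * s⁻¹) := by group
      _ = v := by rw [h.cu, hs, h.uuv]
  have k1 : ((1 : V), T) ∈ W → ((1 : V), U * T) ∈ W := by
    rintro ⟨⟨c, hc⟩, hcW⟩
    have e1 : d c a = 1 := congrArg (fun z : V × V => (z.1 : P)) hcW
    have e2 : d c b = v := congrArg (fun z : V × V => (z.2 : P)) hcW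
    refine ⟨⟨s * c * s⁻¹, h.nK hc s⟩, ?_⟩
    refine Prod.ext (Subtype.ext ?_) (Subtype.ext ?_)
    · change d (s * c * s⁻¹) a = 1
      rw [h.d_conj_a s hc, e1]; simp
    · change d (s * c * s⁻¹) b = u * v
      rw [h.d_conj_b hs hc, e1, e2, one_mul, hs]
  have k2 : ((1 : V), U * T) ∈ W → ((1 : V), T) ∈ W := by
    rintro ⟨⟨c, hc⟩, hcW⟩
    have e1 : d c a = 1 := congrArg (fun z : V × V => (z.1 : P)) hcW
    have e2 : d c b = u * v := congrArg (fun z : V × V => (z.2 : P)) hcW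
    refine ⟨⟨s * c * s⁻¹, h.nK hc s⟩, ?_⟩
    refine Prod.ext (Subtype.ext ?_) (Subtype.ext ?_)
    · change d (s * c * s⁻¹) a = 1
      rw [h.d_conj_a s hc, e1]; simp
    · change d (s * c * s⁻¹) b = v
      rw [h.d_conj_b hs hc, e1, e2, one_mul, hs']
  have k3 : ((1 : V), T) * ((1 : V), U * T) ∈ W := (Subgroup.mul_mem_iff_of_index_two hW).2 ⟨k1, k2⟩
  have e3 : ((1 : V), T) * ((1 : V), U * T) = (1, U) := by
    rw [Prod.mk_mul_mk, one_mul]
    refine Prod.ext rfl (Subtype.ext ?_)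
    exact h.vuv
  rw [e3] at k3
  obtain ⟨⟨c, hc⟩, hcW⟩ := k3
  exact ⟨c, hc, congrArg (fun z : V × V => (z.1 : P)) hcW, congrArg (fun z : V × V => (z.2 : P)) hcW⟩

/-- The twisted difference map on `V × V`. -/
theorem X.F3 (hV4 : Nat.card V = 4) {s : P} (hs : s * v * s⁻¹ = u * v) (W W' : Subgroup (V × V))
    (hWW : ∀ m ∈ W, ∃ m' ∈ W', (m'.1 : P) = s * m.1 * s⁻¹ * (m.1 : P)⁻¹ ∧ (m'.2 : P) = s * (m.1 * m.2) * s⁻¹ * (m.2 : P)⁻¹)
    (hge : 4 * Nat.card W' ≤ Nat.card W) :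
    ((1 : V), (⟨u, h.hu⟩ : V)) ∈ W ∧ Nat.card W ≤ 4 * Nat.card W' := by
  have hcomm : ∀ x y : V, x * y = y * x := fun x y => Subtype.ext (h.Vab x.2 y.2)
  let σ : V →* V :=
    { toFun := fun x => ⟨s * x * s⁻¹, h.nV x.2 s⟩
      map_one' := by apply Subtype.ext; simp
      map_mul' := by
        intro x y
        apply Subtype.ext
        change s * (x * y) * s⁻¹ = (s * x * s⁻¹) * (s * y * s⁻¹)
        group }
  let ψ : V × V →* V × V :=
    { toFun := fun m => (σ m.1 * m.1⁻¹, σ (m.1 * m.2) * m.2⁻¹)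
      map_one' := by simp
      map_mul' := by
        rintro ⟨x, y⟩ ⟨x', y'⟩
        refine Prod.ext ?_ ?_
        · change σ (x * x') * (x * x')⁻¹ = (σ x * x⁻¹) * (σ x' * x'⁻¹)
          rw [map_mul, mul_inv_rev, hcomm x'⁻¹ x⁻¹]
          calc σ x * σ x' * (x⁻¹ * x'⁻¹) = σ x * (σ x' * x⁻¹) * x'⁻¹ := by group
            _ = σ x * (x⁻¹ * σ x') * x'⁻¹ := by rw [hcomm (σ x') x⁻¹]
            _ = _ := by group
        · change σ ((x * x') * (y * y')) * (y * y')⁻¹ = (σ (x * y) * y⁻¹) * (σ (x' * y') * y'⁻¹)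
          have e1 : (x * x') * (y * y') = (x * y) * (x' * y') := by
            calc (x * x') * (y * y') = x * (x' * y) * y' := by group
              _ = x * (y * x') * y' := by rw [hcomm x' y]
              _ = _ := by group
          rw [e1, map_mul, mul_inv_rev, hcomm y'⁻¹ y⁻¹]
          calc σ (x * y) * σ (x' * y') * (y⁻¹ * y'⁻¹) = σ (x * y) * (σ (x' * y') * y⁻¹) * y'⁻¹ := by group
            _ = σ (x * y) * (y⁻¹ * σ (x' * y')) * y'⁻¹ := by rw [hcomm (σ (x' * y')) y⁻¹]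
            _ = _ := by group }
  have hψW : W.map ψ ≤ W' := by
    rintro _ ⟨m, hm, rfl⟩
    obtain ⟨m', hm', e1, e2⟩ := hWW m hm
    have e3 : ψ m = m' := by
      refine Prod.ext (Subtype.ext ?_) (Subtype.ext ?_)
      · exact e1.symm
      · exact e2.symm
    rw [e3]; exact hm'
  have e := card_map_ker ψ W
  have hkerle : Nat.card ψ.ker ≤ 4 := by
    rw [← hV4]
    apply Nat.card_le_card_of_injective (fun m : ψ.ker => (m : V × V).2)
    rintro ⟨⟨x, y⟩, hm⟩ ⟨⟨x', y'⟩, hm'⟩ hyy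
    have hyy' : y = y' := hyy
    subst hyy'
    rw [MonoidHom.mem_ker] at hm hm'
    have a1 : σ x * x⁻¹ = 1 := congrArg (fun z : V × V => z.1) hm
    have a2 : σ (x * y) * y⁻¹ = 1 := congrArg (fun z : V × V => z.2) hm
    have b1 : σ x' * x'⁻¹ = 1 := congrArg (fun z : V × V => z.1) hm'
    have b2 : σ (x' * y) * y⁻¹ = 1 := congrArg (fun z : V × V => z.2) hm'
    rw [mul_inv_eq_one] at a1 a2 b1 b2
    rw [map_mul] at a2 b2
    rw [a1] at a2
    rw [b1] at b2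
    have : x = x' := mul_right_cancel (a2.trans b2.symm)
    subst this
    rfl
  have c1 : Nat.card (W.map ψ) ≤ Nat.card W' := Subgroup.card_le_of_le hψW
  have c0 : 0 < Nat.card W' := Nat.card_pos
  have c2 : Nat.card ↥(ψ.ker ⊓ W) ≤ Nat.card ψ.ker := Subgroup.card_le_of_le inf_le_left
  have c3 : 4 ≤ Nat.card ↥(ψ.ker ⊓ W) := by
    by_contra hlt
    push Not at hlt
    have : Nat.card W ≤ 3 * Nat.card W' := by
      rw [e]; exact Nat.mul_le_mul (by omega) c1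
    omega
  have c4 : ψ.ker ⊓ W = ψ.ker := Subgroup.eq_of_le_of_card_ge inf_le_left (by omega)
  refine ⟨?_, ?_⟩
  · have h5 : ((1 : V), (⟨u, h.hu⟩ : V)) ∈ ψ.ker := by
      rw [MonoidHom.mem_ker]
      refine Prod.ext (Subtype.ext ?_) (Subtype.ext ?_)
      · change s * 1 * s⁻¹ * (1 : P)⁻¹ = 1
        simp
      · change s * (1 * u) * s⁻¹ * u⁻¹ = 1
        rw [one_mul, h.cu, mul_inv_cancel]
    rw [← c4] at h5
    exact (Subgroup.mem_inf.1 h5).2
  · rw [e]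
    exact Nat.mul_le_mul (c2.trans hkerle) c1

end

end Cfsg.Agent.H20.MacW
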