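import Cfsg.Agent.Dk.Cases

set_option autoImplicit false

/-! Finite Moebius groups of order prime to the characteristic with many points having large
stabilizers. -/

namespace Cfsg.Agent.H20.MobLines

open MulAction Subgroup Cfsg.Agent.Dk

variable {p : ℕ} {Γ X K : Type*} [Group Γ] [MulAction Γ X] [Field K]

theorem commute_of_fix (M : Mob p Γ X K) (hU : ∀ x, M.U x = ⊥) {z : X} {g h : Γ} (hg : g • z = z)
    (hh : h • z = z) : g * h = h * g := by
  have h1 : ∀ a : Γ, a • z = z → a ∈ M.U z → a = 1 := by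
    intro a _ ha
    rw [hU] at ha
    exact ha
  have h2 := M.chi_spec z (⟨g, hg⟩ * ⟨h, hh⟩ * (⟨g, hg⟩)⁻¹ * (⟨h, hh⟩)⁻¹ : stabilizer Γ z)
  have h3 : (M.chi z).choose (⟨g, hg⟩ * ⟨h, hh⟩ * (⟨g, hg⟩)⁻¹ * (⟨h, hh⟩)⁻¹ : stabilizer Γ z) = 1 := by
    rw [map_mul, map_mul, map_mul, map_inv, map_inv]
    rw [mul_comm ((M.chi z).choose _) ((M.chi z).choose _)]
    group
  have h4 := h1 _ (by
    show (g * h * g⁻¹ * h⁻¹) • z = z
    have hg' : g⁻¹ • z = z := inv_smul_eq_iff.mpr hg.symm
    have hh' : h⁻¹ • z = z := inv_smul_eq_iff.mpr hh.symm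
    rw [mul_smul, mul_smul, mul_smul, hh', hg', hh, hg]) (h2.mp h3)
  have h5 : g * h * g⁻¹ * h⁻¹ = 1 := h4
  rw [mul_inv_eq_one, mul_inv_eq_iff_eq_mul] at h5
  exact h5

/-- three points fixed by elements of order at least three: no global fixed point and no orbit of
length two -/
theorem no_small_orbit [Finite Γ] (M : Mob p Γ X K) (hU : ∀ x, M.U x = ⊥) {x : Fin 3 → X}
    (hx : Function.Injective x) {g : Fin 3 → Γ} (hg : ∀ i, g i • x i = x i)
    (hg2 : ∀ i, g i ^ 2 ≠ 1) :
    (¬ ∃ z : X, ∀ g : Γ, g • z = z) ∧ (¬ ∃ z : X, M.U z = ⊥ ∧ Nat.card (orbit Γ z) = 2) := by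
  have hg1 : ∀ i, g i ≠ 1 := fun i h => hg2 i (by rw [h, one_pow])
  constructor
  · rintro ⟨z, hz⟩
    -- two of the points differ from z
    obtain ⟨i, j, hij, hi, hj⟩ : ∃ i j : Fin 3, i ≠ j ∧ x i ≠ z ∧ x j ≠ z := by
      by_cases h0 : x 0 = z
      · exact ⟨1, 2, by decide, fun h => by
          have := hx (h.trans h0.symm); exact absurd this (by decide), fun h => by
          have := hx (h.trans h0.symm); exact absurd this (by decide)⟩
      · by_cases h1 : x 1 = z
        · exact ⟨0, 2, by decide, h0, fun h => by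
            have := hx (h.trans h1.symm); exact absurd this (by decide)⟩
        · exact ⟨0, 1, by decide, h0, h1⟩
    have hcom := commute_of_fix M hU (hz (g i)) (hz (g j))
    -- g j moves x i to a fixed point of g i
    have h1 : g i • (g j • x i) = g j • x i := by
      rw [← mul_smul, hcom, mul_smul, hg]
    have h2 : g j • x i = x i := by
      by_contra hne
      have h3 : g j • x i ≠ z := by
        intro h
        have h4 : x i = (g j)⁻¹ • z := by rw [← h, inv_smul_smul]
        rw [hz] at h4
        exact hi h4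
      exact hg1 i (M.eq_one_of_three hne h3 hi h1 (hg i) (hz (g i)))
    exact hg1 j (M.eq_one_of_three (fun h => hij (hx h)) hi hj h2 (hg j) (hz (g j)))
  · rintro ⟨z, -, hz⟩
    -- the orbit is {z, w}
    obtain ⟨a, b, hab, hS⟩ := Set.ncard_eq_two.mp (by
      rw [← hz]; rfl : (orbit Γ z).ncard = 2)
    have hsq : ∀ (y : Γ) (c : X), c ∈ orbit Γ z → (y ^ 2) • c = c := by
      intro y c hc
      have hmem : ∀ d : X, d ∈ orbit Γ z → y • d ∈ orbit Γ z := by
        intro d hd
        rw [← MulAction.orbit_eq_iff] at hd ⊢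
        rw [← hd]
        exact MulAction.orbit_smul y d
      have hS' : ∀ d : X, d ∈ orbit Γ z ↔ d = a ∨ d = b := by
        intro d; rw [hS]; simp
      rw [pow_two, mul_smul]
      have ha := (hS' _).mp (hmem a ((hS' a).mpr (Or.inl rfl)))
      have hb := (hS' _).mp (hmem b ((hS' b).mpr (Or.inr rfl)))
      have hinj : y • a ≠ y • b := fun h => hab (smul_left_cancel y h)
      rcases (hS' c).mp hc with rfl | rfl
      · rcases ha with ha | ha
        · rw [ha, ha]
        · rw [ha]
          rcases hb with hb | hb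
          · exact hb
          · exact absurd (ha.trans hb.symm) hinj
      · rcases hb with hb | hb
        · rw [hb]
          rcases ha with ha | ha
          · exact absurd (ha.trans hb.symm) hinj
          · exact ha
        · rw [hb, hb]
    have hsa : ∀ y : Γ, y ^ 2 • a = a := fun y => hsq y a (by rw [hS]; simp)
    have hsb : ∀ y : Γ, y ^ 2 • b = b := fun y => hsq y b (by rw [hS]; simp)
    have hmem : ∀ i, x i = a ∨ x i = b := by
      intro i
      by_contra hcon
      push Not at hcon
      apply hg2 i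
      apply M.eq_one_of_three hcon.1 hcon.2 hab _ (hsa (g i)) (hsb (g i))
      rw [pow_two, mul_smul, hg, hg]
    have h0 := hmem 0
    have h1 := hmem 1
    have h2 := hmem 2
    have e01 : x 0 ≠ x 1 := fun h => absurd (hx h) (by decide)
    have e02 : x 0 ≠ x 2 := fun h => absurd (hx h) (by decide)
    have e12 : x 1 ≠ x 2 := fun h => absurd (hx h) (by decide)
    rcases h0 with h0 | h0 <;> rcases h1 with h1 | h1 <;> rcases h2 with h2 | h2
    · exact e01 (h0.trans h1.symm)
    · exact e01 (h0.trans h1.symm)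
    · exact e02 (h0.trans h2.symm)
    · exact e12 (h1.trans h2.symm)
    · exact e12 (h1.trans h2.symm)
    · exact e02 (h0.trans h2.symm)
    · exact e01 (h0.trans h1.symm)
    · exact e01 (h0.trans h1.symm)

theorem exp_A4 : ∀ g : alternatingGroup (Fin 4), g ^ 2 = 1 ∨ g ^ 3 = 1 := by decide +kernel

theorem exp_S4 : ∀ g : Equiv.Perm (Fin 4), g ^ 2 = 1 ∨ g ^ 3 = 1 ∨ g ^ 4 = 1 := by decide +kernel

theorem exp_A5 : ∀ g : alternatingGroup (Fin 5), g ^ 2 = 1 ∨ g ^ 3 = 1 ∨ g ^ 5 = 1 := by
  decide +kernel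

theorem count_S4 : Fintype.card {g : Equiv.Perm (Fin 4) // g ^ 2 ≠ 1 ∧ g ^ 3 ≠ 1} = 6 := by
  decide +kernel

/-- the general conclusion -/
theorem concl [Fact p.Prime] [CharP K p] [Finite Γ] (M : Mob p Γ X K) (hU : ∀ x, M.U x = ⊥)
    {ι : Type*} (f : Fin 3 ↪ ι) {x : ι → X} (hx : Function.Injective x) {g : ι → Γ}
    (hg : ∀ i, g i • x i = x i) (hord : ∀ i k, g i ^ k = 1 → (p - 1) ∣ 3 * k) (hp : 11 ≤ p) :
    p = 13 ∧ Nat.card ι ≤ 12 := by
  have hi : ι := f 0
  have hg2 : ∀ i, g i ^ 2 ≠ 1 := by
    intro i h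
    have := Nat.le_of_dvd (by norm_num) (hord i 2 h)
    omega
  have hg3 : ∀ i, g i ^ 3 ≠ 1 := by
    intro i h
    have := Nat.le_of_dvd (by norm_num) (hord i 3 h)
    omega
  have hpp : p.Prime := Fact.out
  have hp16 : p ≠ 16 := fun h => by rw [h] at hpp; exact absurd hpp (by norm_num)
  have hnt : Nontrivial Γ := ⟨⟨g hi, 1, fun h => hg2 hi (by rw [h, one_pow])⟩⟩
  have hno := no_small_orbit M hU (x := x ∘ f) (hx.comp f.injective) (g := g ∘ f)
    (fun i => hg (f i)) (fun i => hg2 (f i))
  rcases M.cases with h | h | ⟨-, -, ⟨e⟩⟩ | ⟨-, -, ⟨e⟩⟩ | ⟨-, -, ⟨e⟩⟩ | ⟨z, hz, -⟩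
  · exact absurd h hno.1
  · exact absurd h hno.2
  · exfalso
    rcases exp_A4 (e (g hi)) with h | h
    · rw [← map_pow, map_eq_one_iff e e.injective] at h
      exact hg2 _ h
    · rw [← map_pow, map_eq_one_iff e e.injective] at h
      exact hg3 _ h
  · have h13 : p = 13 := by
      rcases exp_S4 (e (g hi)) with h | h | h
      · rw [← map_pow, map_eq_one_iff e e.injective] at h
        exact absurd h (hg2 _)
      · rw [← map_pow, map_eq_one_iff e e.injective] at h
        exact absurd h (hg3 _)
      · rw [← map_pow, map_eq_one_iff e e.injective] at h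
        have h1 := hord _ _ h
        have h2 := Nat.le_of_dvd (by norm_num) h1
        obtain ⟨c, hc⟩ := h1
        have h3 : c = 1 := by
          rcases Nat.lt_or_ge c 2 with h4 | h4
          · interval_cases c
            · omega
            · rfl
          · exfalso
            have : (p - 1) * 2 ≤ (p - 1) * c := Nat.mul_le_mul_left _ h4
            omega
        rw [h3] at hc
        omega
    refine ⟨h13, ?_⟩
    -- count
    let S := {g : Equiv.Perm (Fin 4) // g ^ 2 ≠ 1 ∧ g ^ 3 ≠ 1}
    let F : ι → S := fun i => ⟨e (g i), by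
      rw [← map_pow, ne_eq, map_eq_one_iff e e.injective]; exact hg2 i, by
      rw [← map_pow, ne_eq, map_eq_one_iff e e.injective]; exact hg3 i⟩
    have hfib : ∀ s : S, (Set.ncard {y : X | (e.symm s.1) • y = y}) ≤ 2 ∧
        ({y : X | (e.symm s.1) • y = y}).Finite := by
      intro s
      have hs1 : e.symm s.1 ≠ 1 := by
        intro h
        apply s.2.1
        have : s.1 = 1 := by
          have := congrArg e h
          rwa [e.apply_symm_apply, map_one] at this
        rw [this, one_pow]
      obtain ⟨h1, h2⟩ := M.hfix (e.symm s.1) hs1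
      have h3 : {y : X | (e.symm s.1) • y = y} = fixedBy X (e.symm s.1) := rfl
      rw [h3]
      exact ⟨by rcases h2 with h2 | h2 <;> omega, h1⟩
    have hfin : ∀ s : S, Finite {y : X // (e.symm s.1) • y = y} := fun s => (hfib s).2
    let T := Σ s : S, {y : X // (e.symm s.1) • y = y}
    have hT : Finite T := inferInstance
    have hcT : Nat.card T ≤ 12 := by
      have : Nat.card T = ∑ s : S, Nat.card {y : X // (e.symm s.1) • y = y} := Nat.card_sigma
      rw [this]
      calc ∑ s : S, Nat.card {y : X // (e.symm s.1) • y = y} ≤ ∑ _s : S, 2 :=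
            Finset.sum_le_sum (fun s _ => (hfib s).1)
        _ = Fintype.card S * 2 := by rw [Finset.sum_const, Finset.card_univ, smul_eq_mul]
        _ = 12 := by rw [show Fintype.card S = 6 from count_S4]
    refine le_trans (Nat.card_le_card_of_injective (fun i => (⟨F i, ⟨x i, by
      show (e.symm (e (g i))) • x i = x i
      rw [e.symm_apply_apply]; exact hg i⟩⟩ : T)) ?_) hcT
    intro i j hij
    apply hx
    have := congrArg (fun t : T => (t.2 : X)) hij
    exact this
  · exfalso
    rcases exp_A5 (e (g hi)) with h | h | h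
    · rw [← map_pow, map_eq_one_iff e e.injective] at h
      exact hg2 _ h
    · rw [← map_pow, map_eq_one_iff e e.injective] at h
      exact hg3 _ h
    · rw [← map_pow, map_eq_one_iff e e.injective] at h
      have h1 := hord _ _ h
      have h2 := Nat.le_of_dvd (by norm_num) h1
      obtain ⟨c, hc⟩ := h1
      have h3 : c = 1 := by
        rcases Nat.lt_or_ge c 2 with h4 | h4
        · interval_cases c
          · omega
          · rfl
        · exfalso
          have : (p - 1) * 2 ≤ (p - 1) * c := Nat.mul_le_mul_left _ h4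
          omega
      rw [h3] at hc
      omega
  · exfalso
    rw [hU, Subgroup.card_bot] at hz
    omega

end Cfsg.Agent.H20.MobLines
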