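import Mathlib
import Cfsg.Prelude.Def_Transfer

set_option autoImplicit false

/-! Irreducible modules in characteristic two for `3 ^ 2 : D₈`. -/

namespace Cfsg.Agent.H20.NineDih

open Subgroup

section mod

variable {S M : Type*} [Group S] [AddCommGroup M] [Module (ZMod 2) M]
  (ρ : Representation (ZMod 2) S M)

structure Data (r s e : S) : Prop where
  r4 : r ^ 4 = 1
  s2 : s ^ 2 = 1
  sr : s * r = r⁻¹ * s
  e3 : e ^ 3 = 1
  comm : Commute e (r * e * r⁻¹)
  se : Commute s e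
  ze : r ^ 2 * e = e⁻¹ * r ^ 2
  ne : ρ e ≠ 1
  irr : ∀ N : Submodule (ZMod 2) M, (∀ m ∈ N, ρ r m ∈ N) → (∀ m ∈ N, ρ s m ∈ N) →
    (∀ m ∈ N, ρ e m ∈ N) → N = ⊥ ∨ N = ⊤
  fix : ∃ m : M, m ≠ 0 ∧ ρ e m = m

theorem add_self (m : M) : m + m = 0 := by
  rw [← two_smul (ZMod 2) m, show (2 : ZMod 2) = 0 from rfl, zero_smul]

theorem add_eq_zero_iff' {a b : M} : a + b = 0 ↔ a = b := by
  constructor
  · intro h
    have : a + b + b = b := by rw [h, zero_add]
    rwa [add_assoc, add_self, add_zero] at this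
  · rintro rfl; exact add_self _

/-- the parametrization -/
def Ph (m : M) (r e : S) : (ZMod 2 × ZMod 2 × ZMod 2 × ZMod 2) →ₗ[ZMod 2] M where
  toFun w := w.1 • m + w.2.1 • ρ (r * e * r⁻¹) m + w.2.2.1 • ρ r m +
    w.2.2.2 • ρ r (ρ (r * e * r⁻¹) m)
  map_add' x y := by simp only [Prod.fst_add, Prod.snd_add, add_smul]; abel
  map_smul' c x := by
    simp only [Prod.smul_fst, Prod.smul_snd, smul_eq_mul, mul_smul, RingHom.id_apply, smul_add]

theorem Ph_apply (m : M) (r e : S) (a b c d : ZMod 2) : Ph ρ m r e (a, b, c, d) =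
    a • m + b • ρ (r * e * r⁻¹) m + c • ρ r m + d • ρ r (ρ (r * e * r⁻¹) m) := rfl

theorem main {r s e : S} (D : Data ρ r s e) :
    ∃ Φ : (ZMod 2 × ZMod 2 × ZMod 2 × ZMod 2) ≃ M,
      (∀ a b c d, ρ (r ^ 2) (Φ (a, b, c, d)) = Φ (a + b, b, c + d, d)) ∧
      (∀ a b c d, ρ s (Φ (a, b, c, d)) = Φ (a + b, b, c, d)) ∧
      (∀ a b c d, ρ (s * r) (Φ (a, b, c, d)) = Φ (c, d, a, b)) := by
  have hmul : ∀ (g h : S) (v : M), ρ (g * h) v = ρ g (ρ h v) := fun g h v => by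
    rw [map_mul, Module.End.mul_apply]
  set f : S := r * e * r⁻¹ with hf
  have hf3 : f ^ 3 = 1 := by rw [hf, conj_pow, D.e3]; group
  have hrinv : r⁻¹ = r * r ^ 2 := by
    rw [inv_eq_iff_mul_eq_one, ← pow_succ', ← pow_succ']
    exact D.r4
  have hzf : r ^ 2 * f = f⁻¹ * r ^ 2 := by
    have h1 : r ^ 2 * f = r * (r ^ 2 * e) * r⁻¹ := by rw [hf]; group
    rw [h1, D.ze, hf]; group
  have hfr : f * r = r * e := by rw [hf]; group
  have her : e * r = r * f⁻¹ := by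
    have h1 : e * r ^ 2 = r ^ 2 * e⁻¹ := by
      have h2 := congrArg (fun t => e * t * e⁻¹) D.ze
      have h3 : e * (r ^ 2 * e) * e⁻¹ = e * r ^ 2 := by group
      have h4 : e * (e⁻¹ * r ^ 2) * e⁻¹ = r ^ 2 * e⁻¹ := by group
      simp only [h3, h4] at h2
      exact h2
    have h5 : e * r = e * r ^ 2 * r⁻¹ := by group
    rw [h5, h1, hf, pow_two]; group
  have hsf : s * f = f⁻¹ * s := by
    have h1 : s * r⁻¹ = r * s := by
      have h2 : s * r * r⁻¹ = r⁻¹ * (s * r⁻¹) := by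
        rw [D.sr]; group
      have h3 : s = r⁻¹ * (s * r⁻¹) := by
        calc s = s * r * r⁻¹ := by group
          _ = _ := h2
      calc s * r⁻¹ = r * (r⁻¹ * (s * r⁻¹)) := by group
        _ = r * s := by rw [← h3]
    calc s * f = (s * r) * e * r⁻¹ := by rw [hf]; group
      _ = r⁻¹ * (s * e) * r⁻¹ := by rw [D.sr]; group
      _ = r⁻¹ * e * (s * r⁻¹) := by rw [D.se.eq]; group
      _ = r⁻¹ * (e * r) * s := by rw [h1]; group
      _ = f⁻¹ * s := by rw [her]; group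
  have hinv : f⁻¹ = f * f := by
    rw [inv_eq_iff_mul_eq_one, ← mul_assoc, ← pow_three']; exact hf3
  -- the fixed space
  let F : Submodule (ZMod 2) M := LinearMap.ker (ρ e - 1) ⊓ LinearMap.ker (ρ f - 1)
  have hF : ∀ v, v ∈ F ↔ ρ e v = v ∧ ρ f v = v := by
    intro v
    rw [Submodule.mem_inf, LinearMap.mem_ker, LinearMap.mem_ker, LinearMap.sub_apply,
      LinearMap.sub_apply, Module.End.one_apply, sub_eq_zero, sub_eq_zero]
  have hfinv : ∀ v, ρ f v = v → ρ f⁻¹ v = v := by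
    intro v hv
    rw [hinv, hmul, hv, hv]
  have hF0 : F = ⊥ := by
    rcases D.irr F (by
      intro m hm
      rw [hF] at hm ⊢
      refine ⟨?_, ?_⟩
      · rw [← hmul, her, hmul, hfinv m hm.2]
      · rw [← hmul, hfr, hmul, hm.1]) (by
      intro m hm
      rw [hF] at hm ⊢
      refine ⟨?_, ?_⟩
      · rw [← hmul, ← D.se.eq, hmul, hm.1]
      · have h1 : f * s = s * f⁻¹ := by
          have h2 : s * f⁻¹ = f * (f⁻¹ * s) * f⁻¹ := by group
          rw [h2, ← hsf]; group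
        rw [← hmul, h1, hmul, hfinv m hm.2]) (by
      intro m hm
      rw [hF] at hm ⊢
      refine ⟨by rw [hm.1, hm.1], ?_⟩
      rw [hm.1, hm.2]) with h | h
    · exact h
    · exfalso
      apply D.ne
      apply LinearMap.ext
      intro v
      have : v ∈ F := by rw [h]; exact Submodule.mem_top
      exact ((hF v).mp this).1
  have hF' : ∀ v, ρ e v = v → ρ f v = v → v = 0 := by
    intro v h1 h2
    have : v ∈ F := (hF v).mpr ⟨h1, h2⟩
    rwa [hF0, Submodule.mem_bot] at this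
  -- choose m
  have hzs : s * r ^ 2 = r ^ 2 * s := by
    have h1 : r ^ 2 = r⁻¹ * r⁻¹ := by
      have : r ^ 2 * (r * r) = 1 := by rw [← pow_two, ← pow_add]; exact D.r4
      rw [← mul_inv_rev, eq_inv_iff_mul_eq_one]
      exact this
    calc s * r ^ 2 = (s * r) * r := by rw [pow_two]; group
      _ = r⁻¹ * s * r := by rw [D.sr]
      _ = r⁻¹ * (s * r) := by rw [mul_assoc]
      _ = r⁻¹ * (r⁻¹ * s) := by rw [D.sr]
      _ = r⁻¹ * r⁻¹ * s := by rw [mul_assoc]
      _ = r ^ 2 * s := by rw [← h1]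
  have hzz : r ^ 2 * r ^ 2 = 1 := by rw [← pow_add]; exact D.r4
  have hss : s * s = 1 := by rw [← pow_two]; exact D.s2
  have hze : ∀ v, ρ e v = v → ρ e (ρ (r ^ 2) v) = ρ (r ^ 2) v := by
    intro v hv
    have h1 : e * r ^ 2 = r ^ 2 * e⁻¹ := by
      have h2 : r ^ 2 * e⁻¹ = e * (e⁻¹ * r ^ 2) * e⁻¹ := by group
      rw [h2, ← D.ze]; group
    have h2 : ρ e⁻¹ v = v := by
      have h3 : e⁻¹ = e * e := by
        rw [inv_eq_iff_mul_eq_one, ← mul_assoc, ← pow_three']; exact D.e3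
      rw [h3, hmul, hv, hv]
    rw [← hmul, h1, hmul, h2]
  have hse : ∀ v, ρ e v = v → ρ e (ρ s v) = ρ s v := by
    intro v hv
    rw [← hmul, ← D.se.eq, hmul, hv]
  obtain ⟨m, hm0, hme, hms, hmz⟩ : ∃ m : M, m ≠ 0 ∧ ρ e m = m ∧ ρ s m = m ∧ ρ (r ^ 2) m = m := by
    obtain ⟨m₀, h0, h1⟩ := D.fix
    obtain ⟨m₁, h2, h3, h4⟩ : ∃ m : M, m ≠ 0 ∧ ρ e m = m ∧ ρ s m = m := by
      by_cases h : ρ s m₀ = m₀
      · exact ⟨m₀, h0, h1, h⟩
      · refine ⟨ρ s m₀ + m₀, fun h' => h (add_eq_zero_iff'.mp h'), ?_, ?_⟩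
        · rw [map_add, hse _ h1, h1]
        · rw [map_add, ← hmul, hss, map_one, Module.End.one_apply, add_comm]
    by_cases h : ρ (r ^ 2) m₁ = m₁
    · exact ⟨m₁, h2, h3, h4, h⟩
    · refine ⟨ρ (r ^ 2) m₁ + m₁, fun h' => h (add_eq_zero_iff'.mp h'), ?_, ?_, ?_⟩
      · rw [map_add, hze _ h3, h3]
      · rw [map_add, ← hmul, hzs, hmul, h4]
      · rw [map_add, ← hmul, hzz, map_one, Module.End.one_apply, add_comm]
  have hef : e * f = f * e := D.comm.eq
  -- the relations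
  have e1 : ρ e (ρ f m) = ρ f m := by rw [← hmul, hef, hmul, hme]
  have e2 : ρ f (ρ f m) = m + ρ f m := by
    have h1 : m + ρ f m + ρ f (ρ f m) = 0 := by
      apply hF'
      · rw [map_add, map_add, hme, e1, ← hmul e f, hef, hmul f e, e1]
      · have h33 : ρ f (ρ f (ρ f m)) = m := by
          rw [← hmul f f, ← hmul, ← pow_three', hf3, map_one, Module.End.one_apply]
        rw [map_add, map_add, h33]
        abel
    have h2 := add_eq_zero_iff'.mp h1
    exact h2.symm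
  have e2' : ρ f⁻¹ m = m + ρ f m := by rw [hinv, hmul, e2]
  have e3 : ρ e (ρ r m) = ρ r m + ρ r (ρ f m) := by
    rw [← hmul, her, hmul, e2', map_add]
  have e4 : ρ e (ρ r (ρ f m)) = ρ r m := by
    rw [← hmul, ← hmul, her, mul_assoc, inv_mul_cancel, mul_one]
  have e5 : ρ (r ^ 2) (ρ f m) = m + ρ f m := by
    rw [← hmul, hzf, hmul, hmz, e2']
  have e6 : ρ r (ρ r m) = m := by rw [← hmul, ← pow_two, hmz]
  have e7 : ρ r (ρ r (ρ f m)) = m + ρ f m := by rw [← hmul r r, ← pow_two, e5]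
  have e8 : ρ s (ρ f m) = m + ρ f m := by rw [← hmul, hsf, hmul, hms, e2']
  have hsr' : s * r = r * (r ^ 2 * s) := by rw [D.sr, hrinv]; group
  have e9 : ρ s (ρ r m) = ρ r m := by
    rw [← hmul, hsr', hmul, hmul, hms, hmz]
  have e10 : ρ s (ρ r (ρ f m)) = ρ r (ρ f m) := by
    rw [← hmul, hsr', hmul, hmul, e8, map_add (ρ (r ^ 2)), hmz, e5, ← add_assoc, add_self, zero_add]
  have hz2 : ∀ v, ρ (r ^ 2) v = ρ r (ρ r v) := fun v => by rw [pow_two, hmul]
  have e11 : ρ (r ^ 2) (ρ r m) = ρ r m := by rw [hz2, e6]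
  have e12 : ρ (r ^ 2) (ρ r (ρ f m)) = ρ r m + ρ r (ρ f m) := by rw [hz2, e7, map_add]
  -- the range
  have hrange : LinearMap.range (Ph ρ m r e) = ⊤ := by
    rcases D.irr (LinearMap.range (Ph ρ m r e)) (by
      rintro _ ⟨⟨a, b, c, d⟩, rfl⟩
      refine ⟨(c + d, d, a, b), ?_⟩
      rw [Ph_apply, Ph_apply, ← hf]
      simp only [map_add, map_smul, e6, e7, add_smul, smul_add]
      abel) (by
      rintro _ ⟨⟨a, b, c, d⟩, rfl⟩
      refine ⟨(a + b, b, c, d), ?_⟩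
      rw [Ph_apply, Ph_apply, ← hf]
      simp only [map_add, map_smul, hms, e8, e9, e10, add_smul, smul_add]
      abel) (by
      rintro _ ⟨⟨a, b, c, d⟩, rfl⟩
      refine ⟨(a, b, c + d, c), ?_⟩
      rw [Ph_apply, Ph_apply, ← hf]
      simp only [map_add, map_smul, hme, e1, e3, e4, add_smul, smul_add]
      abel) with h | h
    · exfalso
      apply hm0
      have h1 : Ph ρ m r e (1, 0, 0, 0) ∈ LinearMap.range (Ph ρ m r e) := ⟨_, rfl⟩
      rw [h, Submodule.mem_bot, Ph_apply] at h1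
      simpa using h1
    · exact h
  have hzm2 : ∀ a : ZMod 2, a = 0 ∨ a = 1 := by decide
  have hab : ∀ a b : ZMod 2, a • m + b • ρ f m = 0 → a = 0 ∧ b = 0 := by
    intro a b h
    have hfm : ρ f m ≠ 0 := by
      intro h1
      have h2 := congrArg (ρ f⁻¹) h1
      rw [← hmul, inv_mul_cancel, map_one, Module.End.one_apply, map_zero] at h2
      exact hm0 h2
    rcases hzm2 a with rfl | rfl <;> rcases hzm2 b with rfl | rfl
    · exact ⟨rfl, rfl⟩
    · rw [zero_smul, one_smul, zero_add] at h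
      exact absurd h hfm
    · rw [zero_smul, one_smul, add_zero] at h
      exact absurd h hm0
    · rw [one_smul, one_smul, add_eq_zero_iff'] at h
      exact absurd (hF' m hme h.symm) hm0
  have hinj : Function.Injective (Ph ρ m r e) := by
    rw [injective_iff_map_eq_zero]
    rintro ⟨a, b, c, d⟩ h
    rw [Ph_apply, ← hf, add_assoc, add_eq_zero_iff'] at h
    have h1 : c • ρ r m + d • ρ r (ρ f m) = ρ r (c • m + d • ρ f m) := by
      simp only [map_add, map_smul]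
    rw [h1] at h
    have hE : ∀ x y : ZMod 2, ρ e (x • m + y • ρ f m) = x • m + y • ρ f m := by
      intro x y
      simp only [map_add, map_smul, hme, e1]
    have h2 : a • m + b • ρ f m = 0 := by
      apply hF' _ (hE a b)
      rw [h, ← hmul, hfr, hmul, hE]
    have h3 : c • m + d • ρ f m = 0 := by
      rw [h2] at h
      have h4 := congrArg (ρ r⁻¹) h.symm
      rw [← hmul, inv_mul_cancel, map_one, Module.End.one_apply, map_zero] at h4
      exact h4
    obtain ⟨rfl, rfl⟩ := hab _ _ h2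
    obtain ⟨rfl, rfl⟩ := hab _ _ h3
    rfl
  refine ⟨Equiv.ofBijective (Ph ρ m r e) ⟨hinj, LinearMap.range_eq_top.mp hrange⟩, ?_, ?_, ?_⟩
  · intro a b c d
    show ρ (r ^ 2) (Ph ρ m r e (a, b, c, d)) = Ph ρ m r e (a + b, b, c + d, d)
    rw [Ph_apply, Ph_apply, ← hf]
    simp only [map_add, map_smul, hmz, e5, e11, e12, add_smul, smul_add]
    abel
  · intro a b c d
    show ρ s (Ph ρ m r e (a, b, c, d)) = Ph ρ m r e (a + b, b, c, d)
    rw [Ph_apply, Ph_apply, ← hf]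
    simp only [map_add, map_smul, hms, e8, e9, e10, add_smul, smul_add]
    abel
  · intro a b c d
    show ρ (s * r) (Ph ρ m r e (a, b, c, d)) = Ph ρ m r e (c, d, a, b)
    rw [hmul, Ph_apply, Ph_apply, ← hf]
    simp only [map_add, map_smul, e6, e7, hms, e8, e9, e10, smul_add]
    have h1 : d • m + (d • m + d • ρ f m) = d • ρ f m := by
      rw [← add_assoc, add_self, zero_add]
    rw [h1]
    abel

end mod

section dih

open DihedralGroup

theorem V_mul : ∀ (i : ZMod 4) (a b : DihedralGroup 4),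
    (a = 1 ∨ a = r 2 ∨ a = sr i ∨ a = sr (i + 2)) → (b = 1 ∨ b = r 2 ∨ b = sr i ∨ b = sr (i + 2)) →
    (a * b = 1 ∨ a * b = r 2 ∨ a * b = sr i ∨ a * b = sr (i + 2)) := by decide

theorem V_inv : ∀ (i : ZMod 4) (a : DihedralGroup 4),
    (a = 1 ∨ a = r 2 ∨ a = sr i ∨ a = sr (i + 2)) →
    (a⁻¹ = 1 ∨ a⁻¹ = r 2 ∨ a⁻¹ = sr i ∨ a⁻¹ = sr (i + 2)) := by decide

/-- the two fours groups -/
def V (i : ZMod 4) : Subgroup (DihedralGroup 4) where
  carrier := {x | x = 1 ∨ x = r 2 ∨ x = sr i ∨ x = sr (i + 2)}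
  one_mem' := Or.inl rfl
  mul_mem' {a b} ha hb := V_mul i a b ha hb
  inv_mem' {a} ha := V_inv i a ha

theorem mem_V (i : ZMod 4) (x : DihedralGroup 4) :
    x ∈ V i ↔ x = 1 ∨ x = r 2 ∨ x = sr i ∨ x = sr (i + 2) := Iff.rfl

theorem V_card_aux : ∀ i : ZMod 4, (Finset.univ.filter (fun x : DihedralGroup 4 =>
    x = 1 ∨ x = r 2 ∨ x = sr i ∨ x = sr (i + 2))).card = 4 := by decide

theorem card_V (i : ZMod 4) : Nat.card (V i) = 4 := by
  have h : Nat.card (V i) = (Finset.univ.filter (fun x : DihedralGroup 4 =>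
      x = 1 ∨ x = r 2 ∨ x = sr i ∨ x = sr (i + 2))).card := by
    rw [← Fintype.card_subtype, ← Nat.card_eq_fintype_card]; rfl
  exact h.trans (V_card_aux i)

theorem V_sq (i : ZMod 4) : ∀ x ∈ V i, x ^ 2 = 1 := by
  have : ∀ (i : ZMod 4) (a : DihedralGroup 4),
    (a = 1 ∨ a = r 2 ∨ a = sr i ∨ a = sr (i + 2)) → a ^ 2 = 1 := by decide
  exact this i

theorem cls_aux1 : ∀ (i : ZMod 4) (b b₀ : DihedralGroup 4), (b₀ = sr i ∨ b₀ = sr (i + 2)) →
    b * b₀ = b₀ * b → (b = 1 ∨ b = r 2 ∨ b = sr i ∨ b = sr (i + 2)) := by decide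

theorem cls_aux2 : ∀ (i : ZMod 4) (b₀ : DihedralGroup 4), b₀ ^ 2 = 1 → b₀ ≠ 1 → b₀ ≠ r 2 →
    (b₀ = sr i ∨ b₀ = sr (i + 2)) ∨ (b₀ = sr (i + 1) ∨ b₀ = sr (i + 1 + 2)) := by decide

theorem cls (B : Subgroup (DihedralGroup 4)) (hB : Nat.card B = 4) (hsq : ∀ b ∈ B, b ^ 2 = 1)
    (i : ZMod 4) : B = V i ∨ B = V (i + 1) := by
  obtain ⟨b₀, hb₀, h1, h2⟩ : ∃ b₀ ∈ B, b₀ ≠ 1 ∧ b₀ ≠ r 2 := by
    by_contra hcon
    push Not at hcon
    have h3 : (B : Set (DihedralGroup 4)) ⊆ ({1, r 2} : Finset (DihedralGroup 4)) := by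
      intro b hb
      by_cases h : b = 1
      · rw [h]; simp
      · rw [hcon b hb h]; simp
    have h4 := Set.ncard_le_ncard h3 (Finset.finite_toSet _)
    rw [Set.ncard_coe_finset] at h4
    have h5 : (B : Set (DihedralGroup 4)).ncard = 4 := hB
    rw [h5] at h4
    exact absurd h4 (by decide)
  have hcomm : ∀ b ∈ B, b * b₀ = b₀ * b := by
    intro b hb
    have e1 := hsq _ (mul_mem hb hb₀)
    have e2 := hsq b hb
    have e3 := hsq b₀ hb₀
    rw [pow_two] at e1 e2 e3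
    have e4 : b₀⁻¹ = b₀ := inv_eq_of_mul_eq_one_left e3
    have e5 : b⁻¹ = b := inv_eq_of_mul_eq_one_left e2
    calc b * b₀ = (b * b₀)⁻¹ := eq_inv_of_mul_eq_one_left e1
      _ = b₀ * b := by rw [mul_inv_rev, e4, e5]
  rcases cls_aux2 i b₀ (hsq _ hb₀) h1 h2 with h | h
  · left
    apply eq_of_le_of_card_ge
    · intro b hb
      exact cls_aux1 i b b₀ h (hcomm b hb)
    · rw [card_V, hB]
  · right
    apply eq_of_le_of_card_ge
    · intro b hb
      exact cls_aux1 (i + 1) b b₀ h (hcomm b hb)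
    · rw [card_V, hB]

end dih

section final

open DihedralGroup

variable {S M : Type*} [Group S] [AddCommGroup M] [Module (ZMod 2) M]
  (ρ : Representation (ZMod 2) S M)

theorem fix_iff (ψ : DihedralGroup 4 →* S) (j : ZMod 4) (m : M) :
    (∀ b ∈ (V j).map ψ, ρ b m = m) ↔ ρ (ψ (r 2)) m = m ∧ ρ (ψ (sr j)) m = m := by
  constructor
  · intro h
    exact ⟨h _ ⟨r 2, Or.inr (Or.inl rfl), rfl⟩, h _ ⟨sr j, Or.inr (Or.inr (Or.inl rfl)), rfl⟩⟩
  · rintro ⟨h1, h2⟩ _ ⟨b, hb, rfl⟩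
    rcases hb with rfl | rfl | rfl | rfl
    · rw [map_one, map_one]; rfl
    · exact h1
    · exact h2
    · have : (sr (j + 2) : DihedralGroup 4) = sr j * r 2 := by rw [sr_mul_r]
      rw [this, map_mul, map_mul, Module.End.mul_apply, h1, h2]

theorem count4 : Fintype.card {w : ZMod 2 × ZMod 2 × ZMod 2 × ZMod 2 //
    (w.1 + w.2.1, w.2.1, w.2.2.1 + w.2.2.2, w.2.2.2) = w ∧
    (w.1 + w.2.1, w.2.1, w.2.2.1, w.2.2.2) = w} = 4 := by decide

theorem count2 : Fintype.card {w : ZMod 2 × ZMod 2 × ZMod 2 × ZMod 2 //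
    (w.1 + w.2.1, w.2.1, w.2.2.1 + w.2.2.2, w.2.2.2) = w ∧
    (w.2.2.1, w.2.2.2, w.1, w.2.1) = w} = 2 := by decide

theorem concl (ψ : DihedralGroup 4 →* S) (hψ : Function.Injective ψ) {i : ZMod 4} {e : S}
    (D : Data ρ (ψ (r 1)) (ψ (sr i)) e) :
    Nat.card M = 16 ∧ ∃! B : Subgroup S, B ≤ ψ.range ∧ Nat.card ↥B = 4 ∧ (∀ b ∈ B, b ^ 2 = 1) ∧
        Nat.card {m : M // ∀ b ∈ B, ρ b m = m} = 2 := by
  obtain ⟨Φ, hz, hs, hsr⟩ := main ρ D
  have hz' : ∀ w, ρ (ψ (r 2)) (Φ w) = Φ (w.1 + w.2.1, w.2.1, w.2.2.1 + w.2.2.2, w.2.2.2) := by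
    rintro ⟨a, b, c, d⟩
    rw [← hz a b c d, ← map_pow]
    rfl
  have hs' : ∀ w, ρ (ψ (sr i)) (Φ w) = Φ (w.1 + w.2.1, w.2.1, w.2.2.1, w.2.2.2) := by
    rintro ⟨a, b, c, d⟩
    exact hs a b c d
  have hsr' : ∀ w, ρ (ψ (sr (i + 1))) (Φ w) = Φ (w.2.2.1, w.2.2.2, w.1, w.2.1) := by
    rintro ⟨a, b, c, d⟩
    rw [← hsr a b c d, ← map_mul, sr_mul_r]
  have hcard4 : Nat.card {m : M // ∀ b ∈ (V i).map ψ, ρ b m = m} = 4 := by
    refine Eq.trans ?_ count4
    rw [← Nat.card_eq_fintype_card]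
    refine Nat.card_congr (Equiv.subtypeEquiv Φ ?_).symm
    intro w
    rw [fix_iff, hz', hs', Φ.injective.eq_iff, Φ.injective.eq_iff]
  have hcard2 : Nat.card {m : M // ∀ b ∈ (V (i + 1)).map ψ, ρ b m = m} = 2 := by
    refine Eq.trans ?_ count2
    rw [← Nat.card_eq_fintype_card]
    refine Nat.card_congr (Equiv.subtypeEquiv Φ ?_).symm
    intro w
    rw [fix_iff, hz', hsr', Φ.injective.eq_iff, Φ.injective.eq_iff]
  refine ⟨?_, (V (i + 1)).map ψ, ⟨?_, ?_, ?_, hcard2⟩, ?_⟩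
  · rw [← Nat.card_congr Φ, Nat.card_eq_fintype_card]
    decide
  · rintro _ ⟨b, -, rfl⟩
    exact ⟨b, rfl⟩
  · rw [card_map_of_injective hψ, card_V]
  · rintro _ ⟨b, hb, rfl⟩
    rw [← map_pow, V_sq _ b hb, map_one]
  · rintro B ⟨hB1, hB2, hB3, hB4⟩
    have h1 : (B.comap ψ).map ψ = B := map_comap_eq_self hB1
    have h2 : Nat.card (B.comap ψ) = 4 := by
      rw [← card_map_of_injective hψ, h1, hB2]
    rcases cls (B.comap ψ) h2 (fun b hb => by
      apply hψ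
      rw [map_pow, map_one]
      exact hB3 _ hb) i with h | h
    · exfalso
      rw [h] at h1
      rw [← h1, hcard4] at hB4
      exact absurd hB4 (by norm_num)
    · rw [← h1, h]

end final

section grp

open DihedralGroup

variable {S : Type*} [Group S] [Finite S]

theorem eq_of_norm {A : Subgroup S} (hA : Cfsg.IsElementaryAbelian 3 A) (hA9 : Nat.card A = 9)
    {R e : S} (hz : R ^ 2 * e = e⁻¹ * R ^ 2) {C : Subgroup S} (hCA : C ≤ A)
    (hR : ∀ c ∈ C, R * c * R⁻¹ ∈ C) (heC : e ∈ C) (he : e ≠ 1) : C = A := by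
  have he3 : e ^ 3 = 1 := hA.2 e (hCA heC)
  have hno : R ^ 2 * e ≠ e * R ^ 2 := by
    intro h
    rw [hz] at h
    have h1 := mul_right_cancel h
    apply he
    have h2 : e * e = 1 := by
      nth_rewrite 1 [← h1]
      exact inv_mul_cancel e
    calc e = e ^ 3 * (e * e)⁻¹ := by rw [pow_three]; group
      _ = 1 := by rw [he3, h2, inv_one, mul_one]
  have hne : ¬ ∀ c ∈ C, c ∈ zpowers e := by
    intro hall
    obtain ⟨k, hk⟩ := mem_zpowers_iff.mp (hall _ (hR e heC))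
    -- R e R⁻¹ = e ^ k
    apply hno
    have h1 : R ^ 2 * e * (R ^ 2)⁻¹ = e ^ (k * k) := by
      calc R ^ 2 * e * (R ^ 2)⁻¹ = R * (R * e * R⁻¹) * R⁻¹ := by rw [pow_two]; group
        _ = (R * e * R⁻¹) ^ k := by rw [conj_zpow, hk]
        _ = e ^ (k * k) := by rw [← hk, ← zpow_mul]
    have h2 : e ^ (k * k) = e := by
      have h3 : (3 : ℤ) ∣ k * k - 1 := by
        have h4 : ¬ (3 : ℤ) ∣ k := by
          rintro ⟨c, rfl⟩
          have h5 : e ^ ((3 : ℤ) * c) = 1 := by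
            rw [zpow_mul]
            have : e ^ (3 : ℤ) = 1 := by exact_mod_cast he3
            rw [this, one_zpow]
          rw [h5] at hk
          apply he
          have : R⁻¹ * (R * e * R⁻¹) * R = e := by group
          rw [← this, ← hk]; group
        have h6 : k % 3 = 1 ∨ k % 3 = 2 := by omega
        rcases h6 with h6 | h6
        · obtain ⟨c, hc⟩ : ∃ c, k = 3 * c + 1 := ⟨k / 3, by omega⟩
          exact ⟨3 * c * c + 2 * c, by rw [hc]; ring⟩
        · obtain ⟨c, hc⟩ : ∃ c, k = 3 * c + 2 := ⟨k / 3, by omega⟩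
          exact ⟨3 * c * c + 4 * c + 1, by rw [hc]; ring⟩
      obtain ⟨c, hc⟩ := h3
      have h7 : k * k = 3 * c + 1 := by linarith
      have : e ^ (3 : ℤ) = 1 := by exact_mod_cast he3
      rw [h7, zpow_add, zpow_mul, this, one_zpow, one_mul, zpow_one]
    rw [h2] at h1
    exact mul_inv_eq_iff_eq_mul.mp h1
  have h9 : Nat.card C ∣ 3 ^ 2 := by
    have := card_dvd_of_le hCA
    rw [hA9] at this
    exact this
  obtain ⟨k, hk, hk2⟩ := (Nat.dvd_prime_pow Nat.prime_three).mp h9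
  have heo : orderOf e = 3 := orderOf_eq_prime he3 he
  have hle : zpowers e ≤ C := by rw [zpowers_le]; exact heC
  have hkk : k = 2 := by
    interval_cases k
    · exfalso
      have h1 := card_le_of_le hle
      rw [Nat.card_zpowers, heo, hk2] at h1
      norm_num at h1
    · exfalso
      apply hne
      have h1 : zpowers e = C := eq_of_le_of_card_ge hle (by rw [Nat.card_zpowers, heo, hk2]; norm_num)
      rw [h1]
      exact fun c hc => hc
    · rfl
  exact eq_of_le_of_card_ge hCA (by rw [hA9, hk2, hkk]; norm_num)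

variable {A : Subgroup S} [A.Normal] (hA : Cfsg.IsElementaryAbelian 3 A) (hA9 : Nat.card A = 9)
  (hAC : centralizer (A : Set S) = A) (ψ : DihedralGroup 4 →* S) (hψ : Function.Injective ψ)

include hA in
theorem comm_A {a b : S} (ha : a ∈ A) (hb : b ∈ A) : a * b = b * a :=
  congrArg Subtype.val (hA.1.is_comm.comm ⟨a, ha⟩ ⟨b, hb⟩)

include hA hAC hψ in
theorem eq_one_of_centralizes {d : DihedralGroup 4} (h : ∀ a ∈ A, a * ψ d = ψ d * a) : d = 1 := by
  have h1 : ψ d ∈ centralizer (A : Set S) := by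
    rw [mem_centralizer_iff]
    exact h
  rw [hAC] at h1
  have h2 := hA.2 _ h1
  rw [← map_pow] at h2
  have h3 : d ^ 3 = 1 := hψ (by rw [h2, map_one])
  have : ∀ d : DihedralGroup 4, d ^ 3 = 1 → d = 1 := by decide
  exact this d h3

include hA hA9 hAC hψ in
theorem inverts : ∀ a ∈ A, ψ (r 1) ^ 2 * a = a⁻¹ * ψ (r 1) ^ 2 := by
  have hR2 : ψ (r 1) ^ 2 = ψ (r 2) := by rw [← map_pow]; rfl
  have hzz : ψ (r 2) * ψ (r 2) = 1 := by rw [← map_mul, ← map_one ψ]; rfl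
  have hzi : (ψ (r 2))⁻¹ = ψ (r 2) := inv_eq_of_mul_eq_one_left hzz
  set Z := ψ (r 2) with hZ
  let D : Subgroup S :=
    { carrier := {a | a ∈ A ∧ Z * a = a⁻¹ * Z}
      one_mem' := ⟨one_mem _, by simp⟩
      mul_mem' := by
        rintro a b ⟨ha, ha2⟩ ⟨hb, hb2⟩
        refine ⟨mul_mem ha hb, ?_⟩
        calc Z * (a * b) = (Z * a) * b := by group
          _ = a⁻¹ * (Z * b) := by rw [ha2]; group
          _ = (b * a)⁻¹ * Z := by rw [hb2]; group
          _ = (a * b)⁻¹ * Z := by rw [comm_A hA ha hb]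
      inv_mem' := by
        rintro a ⟨ha, ha2⟩
        refine ⟨inv_mem ha, ?_⟩
        calc Z * a⁻¹ = a * (a⁻¹ * Z) * a⁻¹ := by group
          _ = a * (Z * a) * a⁻¹ := by rw [ha2]
          _ = a⁻¹⁻¹ * Z := by group }
  have hDA : D ≤ A := fun a ha => ha.1
  obtain ⟨d, hdD, hd1⟩ : ∃ d ∈ D, d ≠ 1 := by
    by_contra hcon
    push Not at hcon
    have h1 : (r 2 : DihedralGroup 4) = 1 := by
      apply eq_one_of_centralizes hA hAC ψ hψ
      intro a ha
      have h2 : a⁻¹ * (Z * a * Z⁻¹) ∈ D := by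
        refine ⟨mul_mem (inv_mem ha) (Subgroup.Normal.conj_mem inferInstance a ha Z), ?_⟩
        rw [hzi]
        calc Z * (a⁻¹ * (Z * a * Z)) = Z * a⁻¹ * Z * a * Z := by group
          _ = (Z⁻¹ * a⁻¹ * Z⁻¹ * a) * Z := by rw [hzi]
          _ = (a⁻¹ * (Z * a * Z))⁻¹ * Z := by group
      have h3 := hcon _ h2
      rw [inv_mul_eq_one] at h3
      have h4 : Z * a * Z⁻¹ = a := h3.symm
      exact (mul_inv_eq_iff_eq_mul.mp h4).symm
    exact absurd h1 (by decide)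
  have hcommZ : ψ (r 1) * Z = Z * ψ (r 1) := by
    rw [hZ, ← map_mul, ← map_mul]; rfl
  have hDeq : D = A := by
    refine eq_of_norm hA hA9 (R := ψ (r 1)) (e := d) (by rw [hR2]; exact hdD.2) hDA ?_ hdD hd1
    intro c hc
    refine ⟨Subgroup.Normal.conj_mem inferInstance c hc.1 _, ?_⟩
    calc Z * (ψ (r 1) * c * (ψ (r 1))⁻¹) = (Z * ψ (r 1)) * c * (ψ (r 1))⁻¹ := by group
      _ = ψ (r 1) * (Z * c) * (ψ (r 1))⁻¹ := by rw [← hcommZ]; group
      _ = ψ (r 1) * c⁻¹ * (ψ (r 1))⁻¹ * (ψ (r 1) * Z) * (ψ (r 1))⁻¹ := by rw [hc.2]; group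
      _ = (ψ (r 1) * c * (ψ (r 1))⁻¹)⁻¹ * Z := by rw [hcommZ]; group
  intro a ha
  rw [hR2]
  rw [← hDeq] at ha
  exact ha.2

include hA hA9 hAC hψ in
theorem exists_fix (i : ZMod 4) : ∃ e ∈ A, e ≠ 1 ∧ Commute (ψ (sr i)) e := by
  by_contra hcon
  push Not at hcon
  have hinv := inverts hA hA9 hAC ψ hψ
  have hTT : ψ (sr i) * ψ (sr i) = 1 := by rw [← map_mul, sr_mul_self, map_one]
  have hTi : (ψ (sr i))⁻¹ = ψ (sr i) := inv_eq_of_mul_eq_one_left hTT
  have hR2 : ψ (r 1) ^ 2 = ψ (r 2) := by rw [← map_pow]; rfl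
  set T := ψ (sr i) with hT
  have h1 : ∀ a ∈ A, T * a = a⁻¹ * T := by
    intro a ha
    by_contra hne
    apply hcon (a * (T * a * T⁻¹)) (mul_mem ha (Subgroup.Normal.conj_mem inferInstance a ha T))
    · intro h
      apply hne
      have h2 : T * a * T⁻¹ = a⁻¹ := (eq_inv_of_mul_eq_one_right h)
      exact mul_inv_eq_iff_eq_mul.mp h2
    · have h3 : a * (T * a * T⁻¹) = (T * a * T⁻¹) * a :=
        comm_A hA ha (Subgroup.Normal.conj_mem inferInstance a ha T)
      show T * (a * (T * a * T⁻¹)) = (a * (T * a * T⁻¹)) * T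
      nth_rewrite 2 [h3]
      rw [hTi]
      calc T * (a * (T * a * T)) = T * a * T * a * T := by group
        _ = T * a * T * a * T := rfl
  have h2 : (sr (i + 2) : DihedralGroup 4) = 1 := by
    apply eq_one_of_centralizes hA hAC ψ hψ
    intro a ha
    have h3 : ψ (sr (i + 2)) = T * ψ (r 1) ^ 2 := by
      rw [hT, hR2, ← map_mul, sr_mul_r]
    rw [h3, mul_assoc, hinv a ha, ← mul_assoc, ← mul_assoc, h1 _ (inv_mem ha), inv_inv]
  have : ∀ i : ZMod 4, (sr (i + 2) : DihedralGroup 4) ≠ 1 := by decide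
  exact this i h2

variable {M : Type*} [AddCommGroup M] [Module (ZMod 2) M] (ρ : Representation (ZMod 2) S M)

/-- the stabilizer of a submodule -/
def stab (N : Submodule (ZMod 2) M) : Subgroup S where
  carrier := {g | ∀ m ∈ N, ρ g m ∈ N}
  one_mem' := by intro m hm; rw [map_one]; exact hm
  mul_mem' := by
    intro a b ha hb m hm
    rw [map_mul]
    exact ha _ (hb m hm)
  inv_mem' := by
    intro a ha
    have h1 : ∀ k : ℕ, ∀ m ∈ N, ρ (a ^ k) m ∈ N := by
      intro k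
      induction k with
      | zero => intro m hm; rw [pow_zero, map_one]; exact hm
      | succ k ih => intro m hm; rw [pow_succ, map_mul]; exact ih _ (ha m hm)
    have h2 : a⁻¹ = a ^ (orderOf a - 1) := by
      rw [inv_eq_iff_mul_eq_one, ← pow_succ', Nat.sub_add_cancel (orderOf_pos a), pow_orderOf_eq_one]
    intro m hm
    rw [h2]
    exact h1 _ m hm

include hA hA9 hAC hψ in
theorem irr (hAX : A ⊔ ψ.range = ⊤)
    (hirr : ∀ N : Submodule (ZMod 2) M, (∀ s : S, ∀ m ∈ N, ρ s m ∈ N) → N = ⊥ ∨ N = ⊤)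
    {i : ZMod 4} {e : S} (he : e ∈ A) (he1 : e ≠ 1) (N : Submodule (ZMod 2) M)
    (h1 : ∀ m ∈ N, ρ (ψ (r 1)) m ∈ N) (h2 : ∀ m ∈ N, ρ (ψ (sr i)) m ∈ N)
    (h3 : ∀ m ∈ N, ρ e m ∈ N) : N = ⊥ ∨ N = ⊤ := by
  apply hirr
  have hinv := inverts hA hA9 hAC ψ hψ
  have hr : ψ (r 1) ∈ stab ρ N := h1
  have hs : ψ (sr i) ∈ stab ρ N := h2
  have hrk : ∀ k : ZMod 4, ψ (r k) ∈ stab ρ N := by
    intro k
    have : (r k : DihedralGroup 4) = (r 1) ^ k.val := by
      rw [r_one_pow, ZMod.natCast_zmod_val]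
    rw [this, map_pow]
    exact pow_mem hr _
  have hX : ψ.range ≤ stab ρ N := by
    rintro _ ⟨d, rfl⟩
    rcases d with k | k
    · exact hrk k
    · have : (sr k : DihedralGroup 4) = sr i * r (k - i) := by
        rw [sr_mul_r]; congr 1; ring
      rw [this, map_mul]
      exact mul_mem hs (hrk _)
  have hC : stab ρ N ⊓ A = A := by
    refine eq_of_norm hA hA9 (R := ψ (r 1)) (e := e) (hinv e he) inf_le_right ?_ ⟨h3, he⟩ he1
    intro c hc
    rw [mem_inf] at hc ⊢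
    exact ⟨mul_mem (mul_mem hr hc.1) ((stab ρ N).inv_mem hr),
      Subgroup.Normal.conj_mem inferInstance c hc.2 _⟩
  have hall : stab ρ N = ⊤ := by
    rw [eq_top_iff, ← hAX]
    refine sup_le ?_ hX
    rw [← hC]
    exact inf_le_left
  intro s
  have : s ∈ stab ρ N := by rw [hall]; exact mem_top s
  exact this

include hA hA9 hAC hψ in
theorem data (hAX : A ⊔ ψ.range = ⊤) (hfaith : Function.Injective ρ)
    (hirr : ∀ N : Submodule (ZMod 2) M, (∀ s : S, ∀ m ∈ N, ρ s m ∈ N) → N = ⊥ ∨ N = ⊤)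
    {i : ZMod 4} {e : S} (he : e ∈ A) (he1 : e ≠ 1) (hc : Commute (ψ (sr i)) e)
    (hfix : ∃ m : M, m ≠ 0 ∧ ρ e m = m) : Data ρ (ψ (r 1)) (ψ (sr i)) e where
  r4 := by rw [← map_pow, ← map_one ψ]; rfl
  s2 := by rw [pow_two, ← map_mul, sr_mul_self, map_one]
  sr := by
    rw [← map_mul, ← map_inv, ← map_mul]
    have : ∀ i : ZMod 4, (sr i * r 1 : DihedralGroup 4) = (r 1)⁻¹ * sr i := by decide
    rw [this]
  e3 := hA.2 e he
  comm := comm_A hA he (Subgroup.Normal.conj_mem inferInstance e he _)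
  se := hc
  ze := inverts hA hA9 hAC ψ hψ e he
  ne := fun h => he1 (hfaith (by rw [h, map_one]))
  irr := irr hA hA9 hAC ψ hψ ρ hAX hirr he he1
  fix := hfix

include hA hA9 hAC hψ in
theorem exists_data (hAX : A ⊔ ψ.range = ⊤) (hfaith : Function.Injective ρ)
    (hirr : ∀ N : Submodule (ZMod 2) M, (∀ s : S, ∀ m ∈ N, ρ s m ∈ N) → N = ⊥ ∨ N = ⊤) :
    ∃ (i : ZMod 4) (e : S), Data ρ (ψ (r 1)) (ψ (sr i)) e := by
  have hmul : ∀ (g h : S) (v : M), ρ (g * h) v = ρ g (ρ h v) := fun g h v => by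
    rw [map_mul, Module.End.mul_apply]
  have hinv := inverts hA hA9 hAC ψ hψ
  obtain ⟨e, he, he1, hc⟩ := exists_fix hA hA9 hAC ψ hψ 0
  by_cases hfix : ∃ m : M, m ≠ 0 ∧ ρ e m = m
  · exact ⟨0, e, data hA hA9 hAC ψ hψ ρ hAX hfaith hirr he he1 hc hfix⟩
  · push Not at hfix
    have hfix' : ∀ m : M, ρ e m = m → m = 0 := fun m hm => by
      by_contra h
      exact hfix m h hm
    obtain ⟨R, hR⟩ : ∃ R, R = ψ (r 1) := ⟨_, rfl⟩
    rw [← hR] at hinv
    obtain ⟨f, hf⟩ : ∃ f, f = R * e * R⁻¹ := ⟨_, rfl⟩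
    have hfA : f ∈ A := by rw [hf]; exact Subgroup.Normal.conj_mem inferInstance e he _
    have hef : e * f = f * e := comm_A hA he hfA
    have he3 : e ^ 3 = 1 := hA.2 e he
    have hf3 : f ^ 3 = 1 := hA.2 f hfA
    have hnc : R ^ 2 * e ≠ e * R ^ 2 := by
      intro h
      rw [hinv e he] at h
      have h1 := mul_right_cancel h
      apply he1
      have h2 : e * e = 1 := by
        nth_rewrite 1 [← h1]
        exact inv_mul_cancel e
      calc e = e ^ 3 * (e * e)⁻¹ := by rw [pow_three]; group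
        _ = 1 := by rw [he3, h2, inv_one, mul_one]
    have hsumE : ∀ v : M, v + ρ e v + ρ e (ρ e v) = 0 := by
      intro v
      apply hfix'
      have h33 : ρ e (ρ e (ρ e v)) = v := by
        rw [← hmul e e, ← hmul, ← pow_three', he3, map_one, Module.End.one_apply]
      rw [map_add, map_add, h33]
      abel
    have hfixf : ∀ m : M, ρ f m = m → m = 0 := by
      intro m hm
      have h1 : ρ e (ρ R⁻¹ m) = ρ R⁻¹ m := by
        have h2 : e * R⁻¹ = R⁻¹ * f := by rw [hf]; group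
        rw [← hmul, h2, hmul, hm]
      have h3 := congrArg (ρ R) (hfix' _ h1)
      rw [← hmul, mul_inv_cancel, map_one, Module.End.one_apply, map_zero] at h3
      exact h3
    have hsumF : ∀ v : M, v + ρ f v + ρ f (ρ f v) = 0 := by
      intro v
      apply hfixf
      have h33 : ρ f (ρ f (ρ f v)) = v := by
        rw [← hmul f f, ← hmul, ← pow_three', hf3, map_one, Module.End.one_apply]
      rw [map_add, map_add, h33]
      abel
    obtain ⟨v, hv⟩ : ∃ v : M, ρ f v + ρ e (ρ e v) ≠ 0 := by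
      by_contra hcon
      push Not at hcon
      have h1 : ρ f = ρ (e * e) := by
        apply LinearMap.ext
        intro v
        rw [hmul]
        exact add_eq_zero_iff'.mp (hcon v)
      have h2 : f = e * e := hfaith h1
      apply hnc
      have h3 : R * f * R⁻¹ = e := by
        rw [h2]
        calc R * (e * e) * R⁻¹ = f * f := by rw [hf]; group
          _ = e ^ 3 * e := by rw [h2, pow_three]; group
          _ = e := by rw [he3, one_mul]
      calc R ^ 2 * e = R * f * R⁻¹ * R ^ 2 := by rw [hf, pow_two]; group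
        _ = e * R ^ 2 := by rw [h3]
    set u := ρ f v + ρ e (ρ e v) with hu
    have huv : ρ f u = ρ e u := by
      have h1 : ρ f u = ρ f (ρ f v) + ρ f (ρ e (ρ e v)) := by rw [hu, map_add]
      have h2 : ρ e u = ρ e (ρ f v) + v := by
        rw [hu, map_add]
        congr 1
        rw [← hmul e e, ← hmul, ← pow_three', he3, map_one, Module.End.one_apply]
      have h3 : ρ f (ρ f v) = v + ρ f v := (add_eq_zero_iff'.mp (hsumF v)).symm
      have h4 : ρ f (ρ e (ρ e v)) = ρ f v + ρ e (ρ f v) := by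
        have h5 : ρ e (ρ e v) = v + ρ e v := (add_eq_zero_iff'.mp (hsumE v)).symm
        rw [h5, map_add, ← hmul f e, ← hef, hmul]
      rw [h1, h2, h3, h4]
      calc v + ρ f v + (ρ f v + ρ e (ρ f v)) = v + (ρ f v + ρ f v) + ρ e (ρ f v) := by abel
        _ = ρ e (ρ f v) + v := by rw [add_self, add_zero, add_comm]
    have hR2f : R * f * R⁻¹ = e⁻¹ := by
      have h1 := hinv e he
      calc R * f * R⁻¹ = (R ^ 2 * e) * (R ^ 2)⁻¹ := by rw [hf, pow_two]; group
        _ = e⁻¹ := by rw [h1]; group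
    have hT : ψ (sr 0) * f = f⁻¹ * ψ (sr 0) := by
      have h1 : ψ (sr 0) * R = R⁻¹ * ψ (sr 0) := by
        rw [hR, ← map_mul, ← map_inv, ← map_mul]
        have : (sr 0 * r 1 : DihedralGroup 4) = (r 1)⁻¹ * sr 0 := by decide
        rw [this]
      have h2 : ψ (sr 0) * R⁻¹ = R * ψ (sr 0) := by
        rw [hR, ← map_mul, ← map_inv, ← map_mul]
        have : (sr 0 * (r 1)⁻¹ : DihedralGroup 4) = (r 1) * sr 0 := by decide
        rw [this]
      have h3 : R⁻¹ * e * R = f⁻¹ := by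
        calc R⁻¹ * e * R = R⁻¹ * (e⁻¹)⁻¹ * R := by group
          _ = R⁻¹ * (R * f * R⁻¹)⁻¹ * R := by rw [hR2f]
          _ = f⁻¹ := by group
      calc ψ (sr 0) * f = (ψ (sr 0) * R) * e * R⁻¹ := by rw [hf]; group
        _ = R⁻¹ * (ψ (sr 0) * e) * R⁻¹ := by rw [h1]; group
        _ = R⁻¹ * e * (ψ (sr 0) * R⁻¹) := by rw [hc.eq]; group
        _ = R⁻¹ * e * R * ψ (sr 0) := by rw [h2]; group
        _ = f⁻¹ * ψ (sr 0) := by rw [h3]
    refine ⟨1, e⁻¹ * f, data hA hA9 hAC ψ hψ ρ hAX hfaith hirr (mul_mem (inv_mem he) hfA) ?_ ?_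
      ⟨u, hv, ?_⟩⟩
    · intro h
      rw [inv_mul_eq_one] at h
      apply hnc
      calc R ^ 2 * e = R * f * R⁻¹ * R ^ 2 := by rw [hf, pow_two]; group
        _ = R * e * R⁻¹ * R ^ 2 := by rw [← h]
        _ = f * R ^ 2 := by rw [← hf]
        _ = e * R ^ 2 := by rw [← h]
    · have h1 : ψ (sr 1) = ψ (sr 0) * R := by
        rw [hR, ← map_mul, sr_mul_r, zero_add]
      have h2 : ψ (sr 1) * e = f⁻¹ * ψ (sr 1) := by
        calc ψ (sr 1) * e = ψ (sr 0) * f * R := by rw [h1, hf]; group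
          _ = f⁻¹ * ψ (sr 1) := by rw [hT, h1]; group
      have h3 : ψ (sr 1) * f = e⁻¹ * ψ (sr 1) := by
        calc ψ (sr 1) * f = ψ (sr 0) * (R * f * R⁻¹) * R := by rw [h1]; group
          _ = (ψ (sr 0) * e⁻¹) * R := by rw [hR2f]
          _ = e⁻¹ * ψ (sr 1) := by rw [(hc.inv_right).eq, h1]; group
      have h4 : ψ (sr 1) * e⁻¹ = f * ψ (sr 1) := by
        calc ψ (sr 1) * e⁻¹ = f * (f⁻¹ * ψ (sr 1)) * e⁻¹ := by group
          _ = f * ψ (sr 1) := by rw [← h2]; group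
      show ψ (sr 1) * (e⁻¹ * f) = e⁻¹ * f * ψ (sr 1)
      calc ψ (sr 1) * (e⁻¹ * f) = (ψ (sr 1) * e⁻¹) * f := by group
        _ = f * (ψ (sr 1) * f) := by rw [h4]; group
        _ = (f * e⁻¹) * ψ (sr 1) := by rw [h3]; group
        _ = e⁻¹ * f * ψ (sr 1) := by rw [comm_A hA hfA (inv_mem he)]
    · rw [hmul, huv, ← hmul, inv_mul_cancel, map_one, Module.End.one_apply]

end grp

end Cfsg.Agent.H20.NineDih
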