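import Mathlib.GroupTheory.SpecificGroups.Alternating.Simple
import Mathlib.GroupTheory.Sylow
import Mathlib.GroupTheory.Perm.Centralizer
import Mathlib.GroupTheory.GroupAction.Defs
import Mathlib.GroupTheory.Index
import Mathlib.Tactic

set_option autoImplicit false

namespace Cfsg.Agent.H20.SylA6

open Equiv

theorem card_centralizer_perm (σ : Perm (Fin 6)) (h : orderOf σ = 3) :
    Nat.card (Subgroup.centralizer {σ}) = 18 := by
  obtain ⟨n, hn⟩ := Perm.cycleType_prime_order (σ := σ) (by rw [h]; norm_num)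
  rw [h] at hn
  have hsum := σ.sum_cycleType
  have hle : σ.support.card ≤ 6 := by
    simpa using Finset.card_le_univ σ.support
  rw [Perm.nat_card_centralizer, hn]
  rw [hn, Multiset.sum_replicate] at hsum
  have hn1 : n + 1 ≤ 2 := by
    simp only [smul_eq_mul] at hsum; omega
  rcases Nat.lt_or_ge n 1 with h1 | h1
  · have : n = 0 := by omega
    subst this
    simp [Fintype.card_fin, Nat.factorial]
  · have : n = 1 := by omega
    subst this
    simp [Fintype.card_fin, Nat.factorial, Multiset.replicate_succ]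

variable {G : Type*} [Group G] [Finite G]

/-- the order of the centralizer in `N ≅ A₆` of an element of order 3 divides 18 -/
theorem card_cent_dvd (N : Subgroup G) (e : N ≃* alternatingGroup (Fin 6)) (x : G) (hx : x ∈ N)
    (h3 : orderOf x = 3) : Nat.card ↥(N ⊓ Subgroup.centralizer {x}) ∣ 18 := by
  set σ : Perm (Fin 6) := ((e ⟨x, hx⟩ : alternatingGroup (Fin 6)) : Perm (Fin 6)) with hσ
  have ho : orderOf σ = 3 := by
    rw [hσ, Subgroup.orderOf_coe, MulEquiv.orderOf_eq, Subgroup.orderOf_mk, h3]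
  rw [← card_centralizer_perm σ ho]
  let f : ↥(N ⊓ Subgroup.centralizer {x}) →* ↥(Subgroup.centralizer {σ}) :=
    { toFun := fun y => ⟨((e ⟨y.1, y.2.1⟩ : alternatingGroup (Fin 6)) : Perm (Fin 6)), by
        rw [Subgroup.mem_centralizer_singleton_iff]
        have h1 : (⟨y.1, y.2.1⟩ : N) * ⟨x, hx⟩ = ⟨x, hx⟩ * ⟨y.1, y.2.1⟩ := by
          ext
          have := Subgroup.mem_centralizer_singleton_iff.mp y.2.2
          simpa using this
        have h2 : ((e (⟨y.1, y.2.1⟩ * ⟨x, hx⟩) : alternatingGroup (Fin 6)) : Perm (Fin 6)) =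
          ((e (⟨x, hx⟩ * ⟨y.1, y.2.1⟩) : alternatingGroup (Fin 6)) : Perm (Fin 6)) := by rw [h1]
        rw [map_mul, map_mul] at h2
        exact h2⟩
      map_one' := by
        ext1
        change ((e ⟨1, _⟩ : alternatingGroup (Fin 6)) : Perm (Fin 6)) = 1
        have : (⟨1, N.one_mem⟩ : N) = 1 := rfl
        rw [this, map_one]; rfl
      map_mul' := by
        intro a b
        ext1
        change ((e (⟨a.1, a.2.1⟩ * ⟨b.1, b.2.1⟩) : alternatingGroup (Fin 6)) : Perm (Fin 6)) = _
        rw [map_mul]; rfl }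
  refine Subgroup.card_dvd_of_injective f ?_
  intro a b hab
  have h1 := congrArg (fun z : ↥(Subgroup.centralizer {σ}) => (z : Perm (Fin 6))) hab
  have h2 : e ⟨a.1, a.2.1⟩ = e ⟨b.1, b.2.1⟩ := Subtype.ext h1
  have h3 := e.injective h2
  ext
  exact congrArg (fun z : N => (z : G)) h3

/-- in a group whose order divides 18 there is at most one subgroup of order 9 -/
theorem unique_nine {K : Type*} [Group K] [Finite K] (hK : Nat.card K ∣ 18)
    (P Q : Subgroup K) (hP : Nat.card P = 9) (hQ : Nat.card Q = 9) : P = Q := by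
  have h9 : 9 ∣ Nat.card K := hP ▸ P.card_subgroup_dvd_card
  have hc : Nat.card K = 9 ∨ Nat.card K = 18 := by
    have hle := Nat.le_of_dvd (by norm_num) hK
    interval_cases h : Nat.card K <;> omega
  have key : ∀ R : Subgroup K, Nat.card R = 9 → R.Normal := by
    intro R hR
    have hi := R.card_mul_index
    rw [hR] at hi
    rcases hc with hc | hc
    · have : R.index = 1 := by omega
      rw [Subgroup.index_eq_one] at this
      subst this; infer_instance
    · exact Subgroup.normal_of_index_eq_two (by omega)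
  have := key P hP
  haveI : Fact (Nat.Prime 3) := ⟨by norm_num⟩
  have hQp : IsPGroup 3 Q := IsPGroup.of_card (n := 2) (by rw [hQ]; norm_num)
  have hPp : IsPGroup 3 P := IsPGroup.of_card (n := 2) (by rw [hP]; norm_num)
  have hi := Q.card_mul_index
  rw [hQ] at hi
  let Q' : Sylow 3 K := hQp.toSylow (by rcases hc with hc | hc <;> omega)
  have hle : P ≤ Q := hPp.le_sylow_of_normal Q'
  exact Subgroup.eq_of_le_of_card_ge hle (le_of_eq (hQ.trans hP.symm))

section

variable (N : Subgroup G) [N.Normal] (e : N ≃* alternatingGroup (Fin 6)) (hidx : N.index = 4)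

include e in
theorem card_N : Nat.card N = 360 := by
  rw [Nat.card_congr e.toEquiv, nat_card_alternatingGroup, Nat.card_eq_fintype_card, Fintype.card_fin]
  simp [Nat.factorial]

include e hidx in
theorem card_G : Nat.card G = 1440 := by
  rw [← N.card_mul_index, card_N N e, hidx]

include e hidx

theorem sylow_le (P : Sylow 3 G) : (P : Subgroup G) ≤ N := by
  intro x hx
  obtain ⟨k, hk⟩ := P.2 ⟨x, hx⟩
  have hk' : x ^ 3 ^ k = 1 := by simpa using congrArg Subtype.val hk
  have h1 : ((x : G ⧸ N)) ^ 3 ^ k = 1 := by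
    rw [← QuotientGroup.mk_pow, hk', QuotientGroup.mk_one]
  have h2 : ((x : G ⧸ N)) ^ 4 = 1 := by
    have : Nat.card (G ⧸ N) = 4 := hidx
    rw [← this]; exact pow_card_eq_one'
  have h3 : orderOf (x : G ⧸ N) ∣ Nat.gcd (3 ^ k) 4 :=
    Nat.dvd_gcd (orderOf_dvd_of_pow_eq_one h1) (orderOf_dvd_of_pow_eq_one h2)
  have h4 : Nat.gcd (3 ^ k) 4 = 1 := Nat.Coprime.pow_left k (by norm_num)
  rw [h4, Nat.dvd_one, orderOf_eq_one_iff] at h3
  exact (QuotientGroup.eq_one_iff x).mp h3

theorem card_sylow (P : Sylow 3 G) : Nat.card (P : Subgroup G) = 9 := by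
  haveI : Fact (Nat.Prime 3) := ⟨by norm_num⟩
  rw [P.card_eq_multiplicity, card_G N e hidx]
  have : (1440 : ℕ) = 3 ^ 2 * 160 := by norm_num
  rw [this, Nat.factorization_mul (by norm_num) (by norm_num), Finsupp.add_apply,
    Nat.factorization_eq_zero_of_not_dvd (n := 160) (by norm_num)]
  rw [Nat.Prime.factorization_pow (by norm_num), Finsupp.single_eq_same]
  norm_num

theorem ti (P Q : Sylow 3 G) (x : G) (hxP : x ∈ (P : Subgroup G)) (hxQ : x ∈ (Q : Subgroup G))
    (hx : x ≠ 1) : P = Q := by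
  haveI : Fact (Nat.Prime 3) := ⟨by norm_num⟩
  -- replace x by an element of order 3
  obtain ⟨y, hyP, hyQ, hy3⟩ : ∃ y, y ∈ (P : Subgroup G) ∧ y ∈ (Q : Subgroup G) ∧ orderOf y = 3 := by
    have h1 : orderOf x ∣ 9 := by
      rw [← card_sylow N e hidx P, ← Subgroup.orderOf_mk x hxP]
      exact orderOf_dvd_natCard _
    have h2 : 3 ∣ orderOf x := by
      have h3 : (9 : ℕ) = 3 ^ 2 := by norm_num
      rw [h3, Nat.dvd_prime_pow (by norm_num)] at h1
      obtain ⟨k, _, hk⟩ := h1
      rcases k with _ | k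
      · rw [pow_zero, orderOf_eq_one_iff] at hk; exact absurd hk hx
      · rw [hk]; exact Dvd.intro_left (3 ^ k) rfl
    refine ⟨x ^ (orderOf x / 3), pow_mem hxP _, pow_mem hxQ _, ?_⟩
    exact orderOf_pow_orderOf_div (orderOf_pos x).ne' h2
  have hcomm : ∀ R : Sylow 3 G, y ∈ (R : Subgroup G) →
      (R : Subgroup G) ≤ N ⊓ Subgroup.centralizer {y} := by
    intro R hyR z hz
    refine Subgroup.mem_inf.mpr ⟨sylow_le N e hidx R hz, ?_⟩
    rw [Subgroup.mem_centralizer_singleton_iff]
    have hc : Nat.card (R : Subgroup G) = 3 ^ 2 := by rw [card_sylow N e hidx R]; norm_num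
    have := (IsPGroup.commutative_of_card_eq_prime_sq (p := 3) hc : ∀ a b : (R : Subgroup G), a * b = b * a) ⟨z, hz⟩ ⟨y, hyR⟩
    exact congrArg Subtype.val this
  have hyN := sylow_le N e hidx P hyP
  have h18 := card_cent_dvd N e y hyN hy3
  set K := N ⊓ Subgroup.centralizer {y} with hKdef
  have h := unique_nine h18 ((P : Subgroup G).subgroupOf K) ((Q : Subgroup G).subgroupOf K)
    (by rw [Nat.card_congr (Subgroup.subgroupOfEquivOfLe (hcomm P hyP)).toEquiv]
        exact card_sylow N e hidx P)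
    (by rw [Nat.card_congr (Subgroup.subgroupOfEquivOfLe (hcomm Q hyQ)).toEquiv]
        exact card_sylow N e hidx Q)
  apply Sylow.ext
  rw [Subgroup.subgroupOf_inj, inf_eq_left.mpr (hcomm P hyP), inf_eq_left.mpr (hcomm Q hyQ)] at h
  exact h


theorem free (P Q : Sylow 3 G) (hQ : Q ≠ P) :
    MulAction.stabilizer (P : Subgroup G) Q = ⊥ := by
  rw [eq_bot_iff]
  intro g hg
  rw [MulAction.mem_stabilizer_iff] at hg
  have h1 : (g : G) • Q = Q := hg
  rw [Sylow.smul_eq_iff_mem_normalizer] at h1
  have h2 : (g : G) ∈ (P : Subgroup G) ⊓ Subgroup.normalizer (Q : Set G) := ⟨g.2, h1⟩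
  rw [P.2.inf_normalizer_sylow] at h2
  rw [Subgroup.mem_bot]
  by_contra hne
  exact hQ (ti N e hidx P Q g h2.1 h2.2 (fun h => hne (Subtype.ext h))).symm

theorem orbit_card (P Q : Sylow 3 G) (hQ : Q ≠ P) :
    (MulAction.orbit (P : Subgroup G) Q).ncard = 9 := by
  rw [← MulAction.index_stabilizer, free N e hidx P Q hQ, Subgroup.index_bot,
    card_sylow N e hidx P]

theorem smul_self (P : Sylow 3 G) (g : (P : Subgroup G)) : g • P = P := by
  change (g : G) • P = P
  rw [Sylow.smul_eq_iff_mem_normalizer]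
  exact Subgroup.le_normalizer g.2

omit [Finite G] in
/-- the other points -/
def others (P : Sylow 3 G) : SubMulAction (P : Subgroup G) (Sylow 3 G) where
  carrier := {Q | Q ≠ P}
  smul_mem' := by
    intro g Q hQ h
    apply hQ
    have : Q = g⁻¹ • P := by
      have h' := congrArg (fun z => g⁻¹ • z) h
      simpa only [inv_smul_smul] using h'
    rw [this]
    change ((g⁻¹ : (P : Subgroup G)) : G) • P = P
    rw [Sylow.smul_eq_iff_mem_normalizer]
    exact Subgroup.le_normalizer (g⁻¹).2

theorem card_syl : Nat.card (Sylow 3 G) = 10 := by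
  haveI : Fact (Nat.Prime 3) := ⟨by norm_num⟩
  obtain ⟨P⟩ : Nonempty (Sylow 3 G) := inferInstance
  have h1 : Nat.card (Sylow 3 G) ∣ 160 := by
    have h := P.card_dvd_index
    have h2 := (P : Subgroup G).card_mul_index
    rw [card_sylow N e hidx P, card_G N e hidx] at h2
    have : (P : Subgroup G).index = 160 := by omega
    rwa [this] at h
  have h2 : 9 ∣ Nat.card ↥(others P) := by
    have hf : ∀ b : ↥(others P), MulAction.stabilizer (P : Subgroup G) b = ⊥ := by
      intro b
      rw [SubMulAction.stabilizer_of_subMul]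
      exact free N e hidx P b.1 b.2
    rw [Nat.card_congr (MulAction.selfEquivOrbitsQuotientProd hf), Nat.card_prod,
      card_sylow N e hidx P]
    exact Dvd.intro_left _ rfl
  have h3 : Nat.card (Sylow 3 G) = Nat.card ↥(others P) + 1 := by
    have h4 := Set.ncard_add_ncard_compl ({P} : Set (Sylow 3 G))
    rw [Set.ncard_singleton] at h4
    have h5 : Nat.card ↥(others P) = ({P}ᶜ : Set (Sylow 3 G)).ncard := by
      rw [← Nat.card_coe_set_eq]; rfl
    omega
  have h6 : Nat.card (Sylow 3 G) ≠ 1 := by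
    intro h6
    have hss : Subsingleton (Sylow 3 G) := (Nat.card_eq_one_iff_unique.mp h6).1
    have hn : (P : Subgroup G).Normal := Sylow.normal_of_subsingleton P
    haveI : IsSimpleGroup (alternatingGroup (Fin 6)) :=
      alternatingGroup.isSimpleGroup (by simp)
    haveI : Nontrivial N := e.toEquiv.nontrivial
    haveI : IsSimpleGroup N := IsSimpleGroup.isSimpleGroup_of_surjective e.symm.toMonoidHom e.symm.surjective
    have hn' : ((P : Subgroup G).subgroupOf N).Normal := hn.subgroupOf N
    have hc : Nat.card ((P : Subgroup G).subgroupOf N) = 9 := by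
      rw [Nat.card_congr (Subgroup.subgroupOfEquivOfLe (sylow_le N e hidx P)).toEquiv]
      exact card_sylow N e hidx P
    rcases hn'.eq_bot_or_eq_top with h7 | h7
    · rw [h7, Subgroup.card_bot] at hc; omega
    · rw [h7, Subgroup.card_top, card_N N e] at hc; omega
  have hle := Nat.le_of_dvd (by norm_num) h1
  have h7 : (Nat.card (Sylow 3 G)) ∈ Nat.divisors 160 := Nat.mem_divisors.mpr ⟨h1, by norm_num⟩
  have h8 : Nat.divisors 160 = {1,2,4,5,8,10,16,20,32,40,80,160} := by decide +kernel
  rw [h8] at h7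
  simp only [Finset.mem_insert, Finset.mem_singleton] at h7
  omega

theorem trans_of (P Q Q' : Sylow 3 G) (hQ : Q ≠ P) (hQ' : Q' ≠ P) :
    ∃ g : G, g • P = P ∧ g • Q = Q' := by
  have h1 : MulAction.orbit (P : Subgroup G) Q ⊆ ({P}ᶜ : Set (Sylow 3 G)) := by
    rintro _ ⟨g, rfl⟩
    have := (others P).smul_mem' g (show Q ∈ others P from hQ)
    exact this
  have h2 : MulAction.orbit (P : Subgroup G) Q = ({P}ᶜ : Set (Sylow 3 G)) := by
    apply Set.eq_of_subset_of_ncard_le h1
    · rw [orbit_card N e hidx P Q hQ]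
      have h4 := Set.ncard_add_ncard_compl ({P} : Set (Sylow 3 G))
      rw [Set.ncard_singleton, card_syl N e hidx] at h4
      omega
  have h3 : Q' ∈ MulAction.orbit (P : Subgroup G) Q := by rw [h2]; exact hQ'
  obtain ⟨g, hg⟩ := h3
  exact ⟨g, smul_self N e hidx P g, hg⟩

open scoped Classical Pointwise in
theorem pair_orbit (P Q : Sylow 3 G) (hQ : Q ≠ P) :
    MulAction.orbit G ({P, Q} : Finset (Sylow 3 G)) = {s | s.card = 2} := by
  haveI : Fact (Nat.Prime 3) := ⟨by norm_num⟩
  ext s
  constructor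
  · rintro ⟨g, rfl⟩
    rw [Set.mem_setOf_eq]
    change (g • ({P, Q} : Finset (Sylow 3 G))).card = 2
    rw [Finset.card_smul_finset, Finset.card_pair hQ.symm]
  · intro hs
    rw [Set.mem_setOf_eq, Finset.card_eq_two] at hs
    obtain ⟨P', Q', hne, rfl⟩ := hs
    obtain ⟨g, hg⟩ := MulAction.exists_smul_eq G P P'
    obtain ⟨k, hk1, hk2⟩ := trans_of N e hidx P' (g • Q) Q'
      (by rw [← hg]; intro h; exact hQ (smul_left_cancel g h)) hne.symm
    refine ⟨k * g, ?_⟩
    change (k * g) • ({P, Q} : Finset (Sylow 3 G)) = _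
    rw [Finset.smul_finset_insert, Finset.smul_finset_singleton, mul_smul, mul_smul, hg, hk1, hk2]

open scoped Classical Pointwise in
theorem card_two : ({s : Finset (Sylow 3 G) | s.card = 2}).ncard = 45 := by
  haveI := Fintype.ofFinite (Sylow 3 G)
  have : {s : Finset (Sylow 3 G) | s.card = 2} =
      ((Finset.powersetCard 2 (Finset.univ : Finset (Sylow 3 G)) : Finset _) : Set _) := by
    ext s; simp
  rw [this, Set.ncard_coe_finset, Finset.card_powersetCard, Finset.card_univ,
    ← Nat.card_eq_fintype_card, card_syl N e hidx]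
  rfl

open scoped Classical Pointwise in
theorem sylow_eq (H : Sylow 2 G) : ∃ s : Finset (Sylow 3 G), s.card = 2 ∧
    (H : Subgroup G) = MulAction.stabilizer G s ∧ Nat.card (H : Subgroup G) = 32 := by
  haveI : Fact (Nat.Prime 3) := ⟨by norm_num⟩
  haveI : Fact (Nat.Prime 2) := ⟨by norm_num⟩
  obtain ⟨P, Q, hQ⟩ : ∃ P Q : Sylow 3 G, Q ≠ P := by
    have : Nontrivial (Sylow 3 G) := by
      rw [← Finite.one_lt_card_iff_nontrivial, card_syl N e hidx]; norm_num
    obtain ⟨P, Q, h⟩ := exists_pair_ne (Sylow 3 G)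
    exact ⟨P, Q, h.symm⟩
  have hc : Nat.card (MulAction.stabilizer G ({P, Q} : Finset (Sylow 3 G))) = 32 := by
    have h1 := (MulAction.stabilizer G ({P, Q} : Finset (Sylow 3 G))).card_mul_index
    rw [MulAction.index_stabilizer, pair_orbit N e hidx P Q hQ, card_two N e hidx,
      card_G N e hidx] at h1
    omega
  have hp : IsPGroup 2 (MulAction.stabilizer G ({P, Q} : Finset (Sylow 3 G))) :=
    IsPGroup.of_card (n := 5) (by rw [hc]; norm_num)
  have hi : (MulAction.stabilizer G ({P, Q} : Finset (Sylow 3 G))).index = 45 := by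
    rw [MulAction.index_stabilizer, pair_orbit N e hidx P Q hQ, card_two N e hidx]
  let S₀ : Sylow 2 G := hp.toSylow (by rw [hi]; norm_num)
  have hS₀ : (S₀ : Subgroup G) = MulAction.stabilizer G ({P, Q} : Finset (Sylow 3 G)) := rfl
  obtain ⟨g, hg⟩ := MulAction.exists_smul_eq G S₀ H
  have h2 : (H : Subgroup G) = MulAut.conj g • (S₀ : Subgroup G) := by
    rw [← hg]; rfl
  refine ⟨g • ({P, Q} : Finset (Sylow 3 G)), ?_, ?_, ?_⟩
  · rw [Finset.card_smul_finset, Finset.card_pair hQ.symm]
  · rw [MulAction.stabilizer_smul_eq_stabilizer_map_conj, h2, hS₀]; rfl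
  · rw [h2, hS₀, Nat.card_congr (Subgroup.equivSMul (MulAut.conj g) _).symm.toEquiv, hc]

open scoped Classical Pointwise in
theorem main (H : Sylow 2 G) (x : G) :
    (H : Subgroup G) ⊓ MulAut.conj x • (H : Subgroup G) ≠ ⊥ := by
  obtain ⟨s, hs, hH, hcard⟩ := sylow_eq N e hidx H
  haveI := Fintype.ofFinite (Sylow 3 G)
  intro hbot
  have h1 : MulAut.conj x • (H : Subgroup G) = MulAction.stabilizer G (x • s) := by
    rw [MulAction.stabilizer_smul_eq_stabilizer_map_conj, hH]; rfl
  rw [h1] at hbot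
  have h2 : MulAction.stabilizer (H : Subgroup G) (x • s) = ⊥ := by
    rw [eq_bot_iff]
    intro h hh
    have h3 : (h : G) ∈ (H : Subgroup G) ⊓ MulAction.stabilizer G (x • s) := ⟨h.2, hh⟩
    rw [hbot, Subgroup.mem_bot] at h3
    rw [Subgroup.mem_bot]
    exact Subtype.ext h3
  have h3 : (MulAction.orbit (H : Subgroup G) (x • s)).ncard = 32 := by
    rw [← MulAction.index_stabilizer, h2, Subgroup.index_bot, hcard]
  have hfix : ∀ h : (H : Subgroup G), (h : G) • s = s := by
    intro h
    have : ∀ y ∈ (H : Subgroup G), y • s = s := by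
      intro y hy
      rw [hH] at hy
      exact hy
    exact this h.1 h.2
  have hdisj : ∀ h : (H : Subgroup G), ∀ t : Finset (Sylow 3 G),
      Disjoint ((h : G) • t) s → Disjoint t s := by
    intro h t ht
    rw [← hfix h] at ht
    rw [Finset.disjoint_left] at ht ⊢
    intro a ha1 ha2
    exact ht (Finset.smul_mem_smul_finset ha1) (Finset.smul_mem_smul_finset ha2)
  have hcu : Fintype.card (Sylow 3 G) = 10 := by
    rw [← Nat.card_eq_fintype_card, card_syl N e hidx]
  have hc : (Finset.powersetCard 2 sᶜ).card = 28 := by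
    rw [Finset.card_powersetCard, Finset.card_compl, hcu, hs]; rfl
  have hcU : (Finset.powersetCard 2 (Finset.univ : Finset (Sylow 3 G))).card = 45 := by
    rw [Finset.card_powersetCard, Finset.card_univ, hcu]; rfl
  have hmem : ∀ h : (H : Subgroup G), (h • (x • s)).card = 2 := by
    intro h
    rw [Finset.card_smul_finset, Finset.card_smul_finset, hs]
  by_cases hd : Disjoint (x • s) s
  · have h4 : MulAction.orbit (H : Subgroup G) (x • s) ⊆
        ((Finset.powersetCard 2 sᶜ : Finset _) : Set (Finset (Sylow 3 G))) := by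
      rintro _ ⟨h, rfl⟩
      rw [Finset.mem_coe, Finset.mem_powersetCard]
      refine ⟨?_, hmem h⟩
      rw [Finset.subset_compl_iff_disjoint_right]
      apply hdisj h⁻¹
      change Disjoint ((h⁻¹ : (H : Subgroup G)) • h • (x • s)) s
      rwa [inv_smul_smul]
    have h5 := Set.ncard_le_ncard h4 (Set.toFinite _)
    rw [h3, Set.ncard_coe_finset, hc] at h5
    omega
  · have h4 : MulAction.orbit (H : Subgroup G) (x • s) ⊆
        ((Finset.powersetCard 2 (Finset.univ : Finset (Sylow 3 G)) \
          Finset.powersetCard 2 sᶜ : Finset _) : Set (Finset (Sylow 3 G))) := by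
      rintro _ ⟨h, rfl⟩
      rw [Finset.mem_coe, Finset.mem_sdiff, Finset.mem_powersetCard, Finset.mem_powersetCard]
      refine ⟨⟨Finset.subset_univ _, hmem h⟩, ?_⟩
      rintro ⟨h5, -⟩
      rw [Finset.subset_compl_iff_disjoint_right] at h5
      exact hd (hdisj h _ h5)
    have h5 := Set.ncard_le_ncard h4 (Set.toFinite _)
    rw [h3, Set.ncard_coe_finset, Finset.card_sdiff_of_subset
      (Finset.powersetCard_mono (Finset.subset_univ _)), hc, hcU] at h5
    omega

end

end Cfsg.Agent.H20.SylA6
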